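import Mathlib

set_option autoImplicit false

namespace Cfsg.Agent.Helper4.CHM

open Subgroup

variable {G : Type*} [Group G]

/-- index of the centralizer = size of the conjugacy class -/
theorem chm_index (x : G) :
    (centralizer ({x} : Set G)).index = Nat.card (ConjClasses.mk x).carrier := by
  have h1 := Subgroup.index_comap_of_surjective (H := MulAction.stabilizer (ConjAct G) x)
    (f := (ConjAct.toConjAct (G := G)).toMonoidHom) (ConjAct.toConjAct (G := G)).surjective
  rw [Subgroup.centralizer_eq_comap_stabilizer]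
  refine Eq.trans ?_ (h1.trans ?_)
  · rfl
  · rw [MulAction.index_stabilizer, ConjAct.orbit_eq_carrier_conjClasses, Nat.card_coe_set_eq]

theorem chm_index_conj (g x : G) :
    (centralizer ({g * x * g⁻¹} : Set G)).index = (centralizer ({x} : Set G)).index := by
  rw [chm_index, chm_index]
  have : ConjClasses.mk (g * x * g⁻¹) = ConjClasses.mk x := by
    rw [ConjClasses.mk_eq_mk_iff_isConj]
    exact (isConj_iff.mpr ⟨g, rfl⟩).symm
  rw [this]

theorem chm_centralizer_mul_central (x z : G) (hz : z ∈ center G) :
    centralizer ({x * z} : Set G) = centralizer ({x} : Set G) := by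
  ext w
  rw [mem_centralizer_iff, mem_centralizer_iff]
  have hzw : z * w = w * z := (mem_center_iff.mp hz w).symm
  constructor
  · intro h y hy
    rw [Set.mem_singleton_iff] at hy
    subst hy
    have h1 := h (y * z) rfl
    have h2 : y * w * z = w * y * z := by
      calc y * w * z = y * (w * z) := by group
        _ = y * (z * w) := by rw [hzw]
        _ = y * z * w := by group
        _ = w * (y * z) := h1
        _ = w * y * z := by group
    exact mul_right_cancel h2
  · intro h y hy
    rw [Set.mem_singleton_iff] at hy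
    subst hy
    have h1 := h x rfl
    calc x * z * w = x * (z * w) := by group
      _ = x * (w * z) := by rw [hzw]
      _ = (x * w) * z := by group
      _ = (w * x) * z := by rw [h1]
      _ = w * (x * z) := by group

/-- the predicate "class size prime to p" -/
def chmS (p : ℕ) (x : G) : Prop := ¬ p ∣ (centralizer ({x} : Set G)).index

theorem chmS_conj (p : ℕ) (g x : G) : chmS p (g * x * g⁻¹) ↔ chmS p x := by
  unfold chmS; rw [chm_index_conj]

theorem chmS_mul_central (p : ℕ) (x z : G) (hz : z ∈ center G) : chmS p (x * z) ↔ chmS p x := by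
  unfold chmS; rw [chm_centralizer_mul_central x z hz]

theorem chmS_one (p : ℕ) (hp : p.Prime) : chmS p (1 : G) := by
  unfold chmS
  have : centralizer ({1} : Set G) = ⊤ := by
    ext w; simp [mem_centralizer_iff]
  rw [this, index_top]
  exact hp.one_lt.ne' ∘ Nat.dvd_one.mp

/-- (D1) elements centralizing a Sylow `p`-subgroup have class size prime to `p` -/
theorem chmS_of_mem_centralizer [Finite G] (p : ℕ) [Fact p.Prime] (P : Sylow p G) (x : G)
    (hx : x ∈ centralizer ((P : Subgroup G) : Set G)) : chmS p x := by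
  unfold chmS
  have hle : (P : Subgroup G) ≤ centralizer ({x} : Set G) := by
    intro y hy
    rw [mem_centralizer_iff]
    intro h hh
    rw [Set.mem_singleton_iff] at hh
    subst hh
    exact (mem_centralizer_iff.mp hx y hy).symm
  intro hdvd
  exact P.not_dvd_index (hdvd.trans (index_dvd_of_le hle))

/-- (D2) an element with class size prime to `p` is conjugate into the centralizer of a
given Sylow `p`-subgroup -/
theorem chmS_exists_conj [Finite G] (p : ℕ) [Fact p.Prime] (P : Sylow p G) (x : G)
    (hx : chmS p x) : ∃ c : G, c * x * c⁻¹ ∈ centralizer ((P : Subgroup G) : Set G) := by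
  unfold chmS at hx
  have hP : IsPGroup p (P : Subgroup G) := P.isPGroup'
  obtain ⟨q, hq⟩ := hP.nonempty_fixed_point_of_prime_not_dvd_card
    (G ⧸ centralizer ({x} : Set G)) hx
  obtain ⟨c, rfl⟩ := QuotientGroup.mk_surjective q
  refine ⟨c, ?_⟩
  rw [mem_centralizer_iff]
  intro a ha
  have h1 := hq ⟨a, ha⟩
  have h2 : ((a * c : G) : G ⧸ centralizer ({x} : Set G)) = (c : G ⧸ centralizer ({x} : Set G)) := h1
  rw [QuotientGroup.eq] at h2
  -- (a*c)⁻¹ * c ∈ centralizer {x}
  have h3 := mem_centralizer_iff.mp h2 x rfl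
  -- x * ((a*c)⁻¹ * c) = ((a*c)⁻¹ * c) * x
  have h4 : x * (c⁻¹ * a⁻¹ * c) = (c⁻¹ * a⁻¹ * c) * x := by
    have : (a * c)⁻¹ * c = c⁻¹ * a⁻¹ * c := by group
    rw [this] at h3; exact h3
  calc a * (c * x * c⁻¹) = a * c * (x * (c⁻¹ * a⁻¹ * c)) * c⁻¹ * a := by group
    _ = a * c * ((c⁻¹ * a⁻¹ * c) * x) * c⁻¹ * a := by rw [h4]
    _ = c * x * c⁻¹ * a := by group

/-- if `x` is conjugate to `x * z` with `z ≠ 1` a central `p`-element then `p` divides the
class size of `x` -/
theorem chm_free [Finite G] (p : ℕ) [Fact p.Prime] (x z : G) (hz : z ∈ center G) (hz1 : z ≠ 1)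
    (n : ℕ) (hzn : z ^ p ^ n = 1) (hc : IsConj x (x * z)) :
    p ∣ (centralizer ({x} : Set G)).index := by
  classical
  have hzc : ∀ w : G, w * z = z * w := fun w => mem_center_iff.mp hz w
  have hstep : ∀ y : G, IsConj x y → IsConj x (y * z) := by
    intro y hy
    obtain ⟨c, hc'⟩ := isConj_iff.mp hy
    have h1 : IsConj (x * z) (y * z) := by
      rw [isConj_iff]
      refine ⟨c, ?_⟩
      rw [← hc']
      calc c * (x * z) * c⁻¹ = c * x * (z * c⁻¹) := by group
        _ = c * x * (c⁻¹ * z) := by rw [hzc c⁻¹]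
        _ = c * x * c⁻¹ * z := by group
    exact hc.trans h1
  let Cl := {y : G // IsConj x y}
  haveI : Fintype Cl := Fintype.ofFinite Cl
  let f : Function.End Cl := fun y => ⟨y.1 * z, hstep y.1 y.2⟩
  have hpow : ∀ k : ℕ, ∀ y : Cl, ((f ^ k) y).1 = y.1 * z ^ k := by
    intro k
    induction k with
    | zero => intro y; rw [pow_zero, pow_zero, mul_one]; rfl
    | succ k ih =>
      intro y
      rw [pow_succ]
      have : (f ^ k * f) y = (f ^ k) (f y) := rfl
      rw [this, ih (f y)]
      show y.1 * z * z ^ k = y.1 * z ^ (k + 1)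
      rw [pow_succ']; group
  have hf : f ^ p ^ n = 1 := by
    funext y
    apply Subtype.ext
    rw [hpow, hzn, mul_one]
    rfl
  have hmod := Equiv.Perm.card_fixedPoints_modEq (p := p) (n := n) hf
  have hfix : Fintype.card (Function.fixedPoints f) = 0 := by
    rw [Fintype.card_eq_zero_iff]
    refine ⟨fun y => ?_⟩
    have h1 : f y.1 = y.1 := y.2
    have h2 : (f y.1).1 = y.1.1 := congrArg Subtype.val h1
    have h3 : y.1.1 * z = y.1.1 := h2
    exact hz1 (mul_left_cancel (h3.trans (mul_one _).symm))
  rw [hfix] at hmod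
  have hcard : (centralizer ({x} : Set G)).index = Fintype.card Cl := by
    rw [chm_index, ← Nat.card_eq_fintype_card]
    apply Nat.card_congr
    exact Equiv.subtypeEquivRight (fun y => by
      rw [ConjClasses.mem_carrier_iff_mk_eq, ConjClasses.mk_eq_mk_iff_isConj]
      exact ⟨fun h => h.symm, fun h => h.symm⟩)
  rw [hcard]
  exact (Nat.modEq_zero_iff_dvd).mp hmod

/-- if every stabilizer index is divisible by `d` then `d` divides the size of the set -/
theorem chm_orbit_dvd {A Ω : Type*} [Group A] [MulAction A Ω] [Finite Ω] (d : ℕ)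
    (h : ∀ x : Ω, d ∣ (MulAction.stabilizer A x).index) : d ∣ Nat.card Ω := by
  classical
  haveI : Fintype (MulAction.orbitRel.Quotient A Ω) := Fintype.ofFinite _
  rw [Nat.card_congr (MulAction.selfEquivSigmaOrbits A Ω), Nat.card_sigma]
  apply Finset.dvd_sum
  intro ω _
  rw [Nat.card_coe_set_eq, ← MulAction.index_stabilizer]
  exact h _

end Cfsg.Agent.Helper4.CHM
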