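import Mathlib
import Cfsg.Agent.Helper4.CHMa

set_option autoImplicit false

namespace Cfsg.Agent.Helper4.CHM

open Subgroup

variable {G : Type*} [Group G]

/-- conjugation by a normalizing element preserves the centralizer -/
theorem chm_norm_cent (P : Subgroup G) (n c : G) (hn : n ∈ normalizer (P : Set G))
    (hc : c ∈ centralizer (P : Set G)) : n * c * n⁻¹ ∈ centralizer (P : Set G) := by
  rw [mem_centralizer_iff]
  intro a ha
  have h1 : n⁻¹ * a * n ∈ P := by
    have h0 := (mem_normalizer_iff.mp hn (n⁻¹ * a * n))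
    apply h0.mpr
    have : n * (n⁻¹ * a * n) * n⁻¹ = a := by group
    rw [this]; exact ha
  have h2 := mem_centralizer_iff.mp hc _ h1
  calc a * (n * c * n⁻¹) = n * ((n⁻¹ * a * n) * c) * n⁻¹ := by group
    _ = n * (c * (n⁻¹ * a * n)) * n⁻¹ := by rw [h2]
    _ = n * c * n⁻¹ * a := by group

theorem chm_card_ne {α : Type*} [Finite α] (a : α) :
    Nat.card {x : α // x ≠ a} + 1 = Nat.card α := by
  classical
  haveI := Fintype.ofFinite α
  rw [Nat.card_eq_fintype_card, Nat.card_eq_fintype_card,
    Fintype.card_subtype_compl (fun x => x = a), Fintype.card_subtype_eq]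
  have : 0 < Fintype.card α := Fintype.card_pos_iff.mpr ⟨a⟩
  omega

theorem chm_relIndex_mul_card [Finite G] (H K : Subgroup G) (h : H ≤ K) :
    H.relIndex K * Nat.card H = Nat.card K := by
  have h1 := relIndex_mul_index h
  have h2 := card_mul_index H
  have h3 := card_mul_index K
  have hK : 0 < K.index := Nat.pos_of_ne_zero index_ne_zero_of_finite
  apply Nat.eq_of_mul_eq_mul_right hK
  calc H.relIndex K * Nat.card H * K.index = Nat.card H * (H.relIndex K * K.index) := by ring
    _ = Nat.card H * H.index := by rw [h1]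
    _ = Nat.card G := h2
    _ = Nat.card K * K.index := h3.symm

/-- (L1') if there are at least `|Z(P)| * m` elements of class size prime to `p`, where
`m * |P| = |G|`, then the Sylow `p`-subgroup `P` is normal -/
theorem chm_normal [Finite G] (p : ℕ) [Fact p.Prime] (P : Sylow p G) (m : ℕ)
    (hm : m * Nat.card (P : Subgroup G) = Nat.card G)
    (hS : Nat.card ((P : Subgroup G) ⊓ centralizer ((P : Subgroup G) : Set G) : Subgroup G) * m
        ≤ Nat.card {x : G // chmS p x}) :
    (P : Subgroup G).Normal := by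
  classical
  have hp : p.Prime := Fact.out
  set C := centralizer ((P : Subgroup G) : Set G) with hC
  set N := normalizer ((P : Subgroup G) : Set G) with hN
  have hPN : (P : Subgroup G) ≤ N := le_normalizer
  have hCN : C ≤ N := centralizer_le_normalizer _
  let one : {x : G // chmS p x} := ⟨1, chmS_one p hp⟩
  -- (a) injection
  have ha : Nat.card {y : {x : G // chmS p x} // y ≠ one} * Nat.card N ≤
      Nat.card G * Nat.card {c : C // c ≠ 1} := by
    have hex : ∀ y : {y : {x : G // chmS p x} // y ≠ one}, ∃ g : G, g⁻¹ * y.1.1 * g ∈ C := by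
      intro y
      obtain ⟨c, hc⟩ := chmS_exists_conj p P y.1.1 y.1.2
      exact ⟨c⁻¹, by rw [inv_inv]; exact hc⟩
    choose gy hgy using hex
    have hmem : ∀ (y : {y : {x : G // chmS p x} // y ≠ one}) (n : N),
        (n : G) * ((gy y)⁻¹ * y.1.1 * gy y) * (n : G)⁻¹ ∈ C :=
      fun y n => chm_norm_cent _ _ _ n.2 (hgy y)
    have hne : ∀ (y : {y : {x : G // chmS p x} // y ≠ one}) (n : N),
        (⟨(n : G) * ((gy y)⁻¹ * y.1.1 * gy y) * (n : G)⁻¹, hmem y n⟩ : C) ≠ 1 := by
      intro y n h
      have h1 : (n : G) * ((gy y)⁻¹ * y.1.1 * gy y) * (n : G)⁻¹ = 1 := congrArg Subtype.val h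
      have h2 : y.1.1 = 1 := by
        have : y.1.1 = gy y * ((n : G)⁻¹ * ((n : G) * ((gy y)⁻¹ * y.1.1 * gy y) * (n : G)⁻¹) * (n : G)) * (gy y)⁻¹ := by
          group
        rw [this, h1]; group
      exact y.2 (Subtype.ext h2)
    let F : {y : {x : G // chmS p x} // y ≠ one} × N → G × {c : C // c ≠ 1} := fun yn =>
      (gy yn.1 * (yn.2 : G)⁻¹, ⟨⟨_, hmem yn.1 yn.2⟩, hne yn.1 yn.2⟩)
    have hF : Function.Injective F := by
      rintro ⟨y, n⟩ ⟨y', n'⟩ h
      have h1 : gy y * (n : G)⁻¹ = gy y' * (n' : G)⁻¹ := congrArg Prod.fst h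
      have h2 : (n : G) * ((gy y)⁻¹ * y.1.1 * gy y) * (n : G)⁻¹ =
          (n' : G) * ((gy y')⁻¹ * y'.1.1 * gy y') * (n' : G)⁻¹ := by
        have := congrArg (fun t => ((t.2 : {c : C // c ≠ 1}) : C).1) h
        exact this
      have h3 : y.1.1 = y'.1.1 := by
        have e1 : y.1.1 = (gy y * (n : G)⁻¹) * ((n : G) * ((gy y)⁻¹ * y.1.1 * gy y) * (n : G)⁻¹) *
            (gy y * (n : G)⁻¹)⁻¹ := by group
        have e2 : y'.1.1 = (gy y' * (n' : G)⁻¹) * ((n' : G) * ((gy y')⁻¹ * y'.1.1 * gy y') * (n' : G)⁻¹) *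
            (gy y' * (n' : G)⁻¹)⁻¹ := by group
        rw [e1, e2, h1, h2]
      have h4 : y = y' := Subtype.ext (Subtype.ext h3)
      subst h4
      have h5 : (n : G) = (n' : G) := by
        have := mul_left_cancel h1
        exact inv_injective this
      have h6 : n = n' := Subtype.ext h5
      rw [h6]
    have := Nat.card_le_card_of_injective F hF
    rwa [Nat.card_prod, Nat.card_prod] at this
  -- (b)
  have hb : Nat.card (P : Subgroup G) * Nat.card C ≤
      Nat.card ((P : Subgroup G) ⊓ C : Subgroup G) * Nat.card N := by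
    have h1 : C.relIndex (P : Subgroup G) ≤ C.relIndex N :=
      relIndex_le_of_le_right hPN (by
        unfold relIndex; exact index_ne_zero_of_finite)
    have h2 : (C ⊓ (P : Subgroup G)).relIndex (P : Subgroup G) = C.relIndex (P : Subgroup G) :=
      inf_relIndex_right C _
    have h3 := chm_relIndex_mul_card (C ⊓ (P : Subgroup G)) (P : Subgroup G) inf_le_right
    have h4 := chm_relIndex_mul_card C N hCN
    have h5 : (P : Subgroup G) ⊓ C = C ⊓ (P : Subgroup G) := inf_comm _ _
    rw [h5, ← h3, ← h4, h2]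
    calc C.relIndex (P : Subgroup G) * Nat.card (C ⊓ (P : Subgroup G) : Subgroup G) * Nat.card C
        ≤ C.relIndex N * Nat.card (C ⊓ (P : Subgroup G) : Subgroup G) * Nat.card C :=
          Nat.mul_le_mul_right _ (Nat.mul_le_mul_right _ h1)
      _ = Nat.card (C ⊓ (P : Subgroup G) : Subgroup G) * (C.relIndex N * Nat.card C) := by ring
  -- cardinalities
  have hs : Nat.card {y : {x : G // chmS p x} // y ≠ one} + 1 = Nat.card {x : G // chmS p x} :=
    chm_card_ne one
  have hc : Nat.card {c : C // c ≠ 1} + 1 = Nat.card C := chm_card_ne (1 : C)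
  have hnle : Nat.card N ≤ Nat.card G := Nat.card_le_card_of_injective _ Subtype.val_injective
  -- arithmetic
  have hge : Nat.card G ≤ Nat.card N := by
    generalize Nat.card {y : {x : G // chmS p x} // y ≠ one} = s' at ha hs
    generalize Nat.card {x : G // chmS p x} = s at hS hs
    generalize Nat.card {c : C // c ≠ 1} = c' at ha hc
    generalize Nat.card C = c at hb hc
    generalize Nat.card N = n at ha hb hnle ⊢
    generalize Nat.card ((P : Subgroup G) ⊓ C : Subgroup G) = z at hS hb
    generalize Nat.card (P : Subgroup G) = q at hm hb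
    generalize Nat.card G = g at hm ha hnle ⊢
    subst hm
    have e1 : z * m * n ≤ s * n := Nat.mul_le_mul_right n hS
    have e2 : m * (q * c) ≤ m * (z * n) := Nat.mul_le_mul_left m hb
    subst hs hc
    nlinarith [e1, e2, ha]
  have hNtop : N = ⊤ := eq_top_of_card_eq N (le_antisymm hnle hge)
  exact normalizer_eq_top_iff.mp hNtop

end Cfsg.Agent.Helper4.CHM
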