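import Mathlib
import Cfsg.Agent.Helper4.CHMb

set_option autoImplicit false

namespace Cfsg.Agent.Helper4.CHM

open Subgroup

variable {G : Type*} [Group G]

theorem chm_card_split {α : Type*} [Finite α] (A B : α → Prop) :
    Nat.card {x // A x} = Nat.card {x // A x ∧ B x} + Nat.card {x // A x ∧ ¬ B x} := by
  classical
  have e : {x // A x} ≃ {x // A x ∧ B x} ⊕ {x // A x ∧ ¬ B x} :=
    ((Equiv.sumCompl (fun y : {x // A x} => B y.1)).symm).trans
      (Equiv.sumCongr (Equiv.subtypeSubtypeEquivSubtypeInter A B)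
        (Equiv.subtypeSubtypeEquivSubtypeInter A (fun x => ¬ B x)))
  rw [Nat.card_congr e, Nat.card_sum]

/-- if `g ∈ P`, `z` central and `g x g⁻¹ z` centralizes `P`, then `x` centralizes `P` -/
theorem chm_back (P : Subgroup G) (g z x : G) (hg : g ∈ P) (hz : z ∈ center G)
    (h : g * x * g⁻¹ * z ∈ centralizer (P : Set G)) : x ∈ centralizer (P : Set G) := by
  have hzC : z ∈ centralizer (P : Set G) := center_le_centralizer _ hz
  have h1 : g * x * g⁻¹ ∈ centralizer (P : Set G) := by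
    have := mul_mem h (inv_mem hzC)
    have e : g * x * g⁻¹ * z * z⁻¹ = g * x * g⁻¹ := by group
    rwa [e] at this
  have hgN : g⁻¹ ∈ normalizer (P : Set G) := le_normalizer (inv_mem hg)
  have h2 := chm_norm_cent P g⁻¹ _ hgN h1
  have e : g⁻¹ * (g * x * g⁻¹) * g⁻¹⁻¹ = x := by group
  rwa [e] at h2

/-- (L2') the number of elements of class size prime to `p` is congruent to `|C_G(P)|` modulo
`p * |Zp|`, for every central `p`-subgroup `Zp` -/
theorem chm_congr [Finite G] (p : ℕ) [Fact p.Prime] (P : Sylow p G) (Zp : Subgroup G)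
    (hZ : Zp ≤ center G) (hZp : IsPGroup p Zp) :
    ∃ t : ℕ, Nat.card {x : G // chmS p x} =
      Nat.card (centralizer ((P : Subgroup G) : Set G)) + p * Nat.card Zp * t := by
  classical
  have hp : p.Prime := Fact.out
  have hsplit := chm_card_split (chmS (G := G) p)
    (fun x => x ∈ centralizer ((P : Subgroup G) : Set G))
  have hC : Nat.card {x : G // chmS p x ∧ x ∈ centralizer ((P : Subgroup G) : Set G)} =
      Nat.card (centralizer ((P : Subgroup G) : Set G)) := by
    apply Nat.card_congr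
    exact Equiv.subtypeEquivRight
      (fun x => ⟨fun h => h.2, fun h => ⟨chmS_of_mem_centralizer p P x h, h⟩⟩)
  rw [hC] at hsplit
  -- the action
  let Ω := {x : G // chmS p x ∧ x ∉ centralizer ((P : Subgroup G) : Set G)}
  have hsm : ∀ (a : ↥(P : Subgroup G) × ↥Zp) (x : Ω),
      chmS p ((a.1 : G) * x.1 * (a.1 : G)⁻¹ * (a.2 : G)) ∧
        (a.1 : G) * x.1 * (a.1 : G)⁻¹ * (a.2 : G) ∉ centralizer ((P : Subgroup G) : Set G) := by
    intro a x
    refine ⟨?_, ?_⟩
    · exact (chmS_mul_central p _ _ (hZ a.2.2)).mpr ((chmS_conj p _ _).mpr x.2.1)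
    · intro h
      exact x.2.2 (chm_back _ _ _ _ a.1.2 (hZ a.2.2) h)
  letI act : MulAction (↥(P : Subgroup G) × ↥Zp) Ω :=
    { smul := fun a x => ⟨(a.1 : G) * x.1 * (a.1 : G)⁻¹ * (a.2 : G), hsm a x⟩
      one_smul := by
        intro x
        apply Subtype.ext
        show ((1 : ↥(P : Subgroup G) × ↥Zp).1 : G) * x.1 * ((1 : ↥(P : Subgroup G) × ↥Zp).1 : G)⁻¹ *
          ((1 : ↥(P : Subgroup G) × ↥Zp).2 : G) = x.1
        simp
      mul_smul := by
        intro a b x
        apply Subtype.ext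
        show ((a * b).1 : G) * x.1 * ((a * b).1 : G)⁻¹ * ((a * b).2 : G) =
          (a.1 : G) * ((b.1 : G) * x.1 * (b.1 : G)⁻¹ * (b.2 : G)) * (a.1 : G)⁻¹ * (a.2 : G)
        have hb : ∀ w : G, w * (b.2 : G) = (b.2 : G) * w :=
          fun w => mem_center_iff.mp (hZ b.2.2) w
        rw [Prod.fst_mul, Prod.snd_mul, Subgroup.coe_mul, Subgroup.coe_mul]
        symm
        calc (a.1 : G) * ((b.1 : G) * x.1 * (b.1 : G)⁻¹ * (b.2 : G)) * (a.1 : G)⁻¹ * (a.2 : G)
            = (a.1 : G) * (b.1 : G) * x.1 * (b.1 : G)⁻¹ * ((b.2 : G) * (a.1 : G)⁻¹) * (a.2 : G) := by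
              group
          _ = (a.1 : G) * (b.1 : G) * x.1 * (b.1 : G)⁻¹ * ((a.1 : G)⁻¹ * (b.2 : G)) * (a.2 : G) := by
              rw [hb (a.1 : G)⁻¹]
          _ = (a.1 : G) * (b.1 : G) * x.1 * (b.1 : G)⁻¹ * (a.1 : G)⁻¹ * ((b.2 : G) * (a.2 : G)) := by
              group
          _ = (a.1 : G) * (b.1 : G) * x.1 * (b.1 : G)⁻¹ * (a.1 : G)⁻¹ * ((a.2 : G) * (b.2 : G)) := by
              rw [hb (a.2 : G)]
          _ = (a.1 : G) * (b.1 : G) * x.1 * ((a.1 : G) * (b.1 : G))⁻¹ * ((a.2 : G) * (b.2 : G)) := by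
              group }
  have hsmul : ∀ (a : ↥(P : Subgroup G) × ↥Zp) (x : Ω),
      ((a • x : Ω) : G) = (a.1 : G) * x.1 * (a.1 : G)⁻¹ * (a.2 : G) := fun _ _ => rfl
  have hdvd : p * Nat.card Zp ∣ Nat.card Ω := by
    apply chm_orbit_dvd (A := ↥(P : Subgroup G) × ↥Zp)
    intro x
    set S := MulAction.stabilizer (↥(P : Subgroup G) × ↥Zp) x with hS
    have hmemS : ∀ a : ↥(P : Subgroup G) × ↥Zp, a ∈ S →
        (a.1 : G) * x.1 * (a.1 : G)⁻¹ * (a.2 : G) = x.1 := by
      intro a ha
      have h1 : a • x = x := ha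
      have h2 := congrArg Subtype.val h1
      rwa [hsmul] at h2
    let f : ↥S →* ↥(P : Subgroup G) := (MonoidHom.fst ↥(P : Subgroup G) ↥Zp).comp S.subtype
    have hinj : Function.Injective f := by
      intro a b hab
      have h1 : a.1.1 = b.1.1 := hab
      have ha := hmemS a.1 a.2
      have hb := hmemS b.1 b.2
      rw [h1] at ha
      have h2 : (a.1.2 : G) = (b.1.2 : G) := mul_left_cancel (ha.trans hb.symm)
      exact Subtype.ext (Prod.ext h1 (Subtype.ext h2))
    have hns : f.range ≠ ⊤ := by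
      intro htop
      apply x.2.2
      rw [mem_centralizer_iff]
      intro y hy
      have hyr : (⟨y, hy⟩ : ↥(P : Subgroup G)) ∈ f.range := by rw [htop]; trivial
      obtain ⟨a, ha⟩ := hyr
      have ha1 : (a.1.1 : G) = y := congrArg Subtype.val ha
      have hst := hmemS a.1 a.2
      rw [ha1] at hst
      -- y * x * y⁻¹ * z = x
      by_cases hz1 : (a.1.2 : G) = 1
      · rw [hz1, mul_one] at hst
        calc y * x.1 = y * x.1 * y⁻¹ * y := by group
          _ = x.1 * y := by rw [hst]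
      · exfalso
        have hzc : (a.1.2 : G)⁻¹ ∈ center G := inv_mem (hZ a.1.2.2)
        have hz1' : (a.1.2 : G)⁻¹ ≠ 1 := fun h => hz1 (inv_eq_one.mp h)
        obtain ⟨n, hn⟩ := hZp a.1.2
        have hn' : ((a.1.2 : G)⁻¹) ^ p ^ n = 1 := by
          have h0 : ((a.1.2 : G)) ^ p ^ n = 1 := by
            have := congrArg Subtype.val hn
            simpa using this
          rw [inv_pow, h0, inv_one]
        have hconj : IsConj x.1 (x.1 * (a.1.2 : G)⁻¹) := by
          rw [isConj_iff]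
          refine ⟨y, ?_⟩
          calc y * x.1 * y⁻¹ = y * x.1 * y⁻¹ * (a.1.2 : G) * (a.1.2 : G)⁻¹ := by group
            _ = x.1 * (a.1.2 : G)⁻¹ := by rw [hst]
        exact x.2.1 (chm_free p x.1 _ hzc hz1' n hn' hconj)
    have hcardS : Nat.card S = Nat.card f.range :=
      Nat.card_congr (MonoidHom.ofInjective hinj).toEquiv
    have hPp : IsPGroup p ↥(P : Subgroup G) := P.isPGroup'
    obtain ⟨k, hk⟩ := hPp.index f.range
    have hk0 : k ≠ 0 := by
      rintro rfl
      rw [pow_zero] at hk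
      exact hns (index_eq_one.mp hk)
    have h1 : Nat.card f.range * f.range.index = Nat.card ↥(P : Subgroup G) := card_mul_index _
    have h2 : S.index * Nat.card S = Nat.card (↥(P : Subgroup G) × ↥Zp) := index_mul_card _
    rw [Nat.card_prod] at h2
    have h3 : S.index = f.range.index * Nat.card Zp := by
      have hpos : 0 < Nat.card S := Nat.card_pos
      apply Nat.eq_of_mul_eq_mul_right hpos
      rw [h2, ← h1, hcardS]; ring
    rw [h3, hk]
    exact Nat.mul_dvd_mul (dvd_pow_self p hk0) dvd_rfl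
  obtain ⟨t, ht⟩ := hdvd
  refine ⟨t, ?_⟩
  rw [hsplit]
  congr 1

end Cfsg.Agent.Helper4.CHM
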