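import Mathlib
import Cfsg.Agent.Helper4.CHMc

set_option autoImplicit false

namespace Cfsg.Agent.Helper4.CHM

open Subgroup

theorem chm_center {G : Type*} [Group G] (x : G) :
    x ∈ center G ↔ (centralizer ({x} : Set G)).index = 1 := by
  rw [index_eq_one, mem_center_iff]
  constructor
  · intro h
    rw [eq_top_iff]
    intro g _
    rw [mem_centralizer_iff]
    intro y hy
    rw [Set.mem_singleton_iff] at hy
    subst hy
    exact (h g).symm
  · intro h g
    have hg : g ∈ centralizer ({x} : Set G) := by rw [h]; trivial
    exact (mem_centralizer_iff.mp hg x rfl).symm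

/-- facts about a Sylow subgroup of a finite nilpotent group -/
theorem chm_nil {H : Type*} [Group H] [Finite H] [Group.IsNilpotent H] (p : ℕ) [Fact p.Prime]
    (P : Sylow p H) :
    (∀ x : H, chmS p x ↔ x ∈ centralizer ((P : Subgroup H) : Set H)) ∧
    Nat.card (centralizer ((P : Subgroup H) : Set H)) * Nat.card (P : Subgroup H) =
      Nat.card ((P : Subgroup H) ⊓ centralizer ((P : Subgroup H) : Set H) : Subgroup H) *
        Nat.card H ∧
    (P : Subgroup H) ⊓ centralizer ((P : Subgroup H) : Set H) ≤ center H := by
  classical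
  have hnc : NormalizerCondition H := Group.normalizerCondition_of_isNilpotent
  have hPn : (P : Subgroup H).Normal := Sylow.normal_of_normalizerCondition hnc P
  have hNtop : normalizer ((P : Subgroup H) : Set H) = ⊤ := normalizer_eq_top_iff.mpr hPn
  set C := centralizer ((P : Subgroup H) : Set H) with hC
  have hCn : C.Normal :=
    ⟨fun x hx g => chm_norm_cent (P : Subgroup H) g x (by rw [hNtop]; trivial) hx⟩
  have hsup : (P : Subgroup H) ⊔ C = ⊤ := by
    rw [← index_eq_one, Nat.eq_one_iff_not_exists_prime_dvd]
    intro q hq hdvd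
    haveI : Fact q.Prime := ⟨hq⟩
    by_cases hqp : q = p
    · subst hqp
      exact P.not_dvd_index (hdvd.trans (index_dvd_of_le le_sup_left))
    · let Q : Sylow q H := default
      have hQn : (Q : Subgroup H).Normal := Sylow.normal_of_normalizerCondition hnc Q
      have hdis : Disjoint (P : Subgroup H) (Q : Subgroup H) :=
        IsPGroup.disjoint_of_ne p q (Ne.symm hqp) _ _ P.isPGroup' Q.isPGroup'
      have hQC : (Q : Subgroup H) ≤ C := by
        intro b hb
        rw [hC, mem_centralizer_iff]
        intro a ha
        exact (commute_of_normal_of_disjoint _ _ hPn hQn hdis a b ha hb).eq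
      exact Q.not_dvd_index (hdvd.trans (index_dvd_of_le (hQC.trans le_sup_right)))
  refine ⟨?_, ?_, ?_⟩
  · intro x
    constructor
    · intro hx
      obtain ⟨c, hc⟩ := chmS_exists_conj p P x hx
      have h1 := chm_norm_cent (P : Subgroup H) c⁻¹ _ (by rw [hNtop]; trivial) hc
      have e : c⁻¹ * (c * x * c⁻¹) * c⁻¹⁻¹ = x := by group
      rwa [e] at h1
    · exact chmS_of_mem_centralizer p P x
  · haveI := hCn
    have h1 : C.relIndex ((P : Subgroup H) ⊔ C) = C.relIndex (P : Subgroup H) :=
      relIndex_sup_right (P : Subgroup H) C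
    rw [hsup, relIndex_top_right] at h1
    have h2 : (C ⊓ (P : Subgroup H)).relIndex (P : Subgroup H) = C.relIndex (P : Subgroup H) :=
      inf_relIndex_right C _
    have h3 := chm_relIndex_mul_card (C ⊓ (P : Subgroup H)) (P : Subgroup H) inf_le_right
    have h4 := card_mul_index C
    have h5 : (P : Subgroup H) ⊓ C = C ⊓ (P : Subgroup H) := inf_comm _ _
    rw [h5, ← h3, h2, ← h1, ← h4]
    ring
  · intro w hw
    have hwP : w ∈ (P : Subgroup H) := hw.1
    have hwC : w ∈ C := hw.2
    have hle : (P : Subgroup H) ⊔ C ≤ centralizer ({w} : Set H) := by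
      apply sup_le
      · intro a ha
        rw [mem_centralizer_iff]
        intro y hy
        rw [Set.mem_singleton_iff] at hy
        subst hy
        exact (mem_centralizer_iff.mp hwC a ha).symm
      · intro c hc
        rw [mem_centralizer_iff]
        intro y hy
        rw [Set.mem_singleton_iff] at hy
        subst hy
        exact mem_centralizer_iff.mp hc y hwP
    rw [hsup] at hle
    rw [mem_center_iff]
    intro g
    have hg : g ∈ centralizer ({w} : Set H) := hle trivial
    exact (mem_centralizer_iff.mp hg w rfl).symm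

/-- a bijection preserving class sizes, from equality of the class-size multisets -/
theorem chm_equiv {G H : Type*} [Group G] [Finite G] [Group H] [Finite H]
    (h : ∀ k : ℕ, Nat.card {C : ConjClasses G // Nat.card C.carrier = k} =
      Nat.card {C : ConjClasses H // Nat.card C.carrier = k}) :
    ∃ φ : G ≃ H, ∀ x : G,
      (centralizer ({φ x} : Set H)).index = (centralizer ({x} : Set G)).index := by
  classical
  have he : ∀ k : ℕ, Nonempty ({C : ConjClasses G // Nat.card C.carrier = k} ≃
      {C : ConjClasses H // Nat.card C.carrier = k}) := fun k => Finite.card_eq.mp (h k)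
  let e : ConjClasses G ≃ ConjClasses H :=
    Equiv.ofFiberEquiv (f := fun C : ConjClasses G => Nat.card C.carrier)
      (g := fun C : ConjClasses H => Nat.card C.carrier) (fun k => (he k).some)
  have hemap : ∀ C : ConjClasses G, Nat.card (e C).carrier = Nat.card C.carrier :=
    fun C => Equiv.ofFiberEquiv_map (f := fun C : ConjClasses G => Nat.card C.carrier)
      (g := fun C : ConjClasses H => Nat.card C.carrier) (fun k => (he k).some) C
  have hfib : ∀ D : ConjClasses H, Nonempty ({x : G // e (ConjClasses.mk x) = D} ≃
      {y : H // ConjClasses.mk y = D}) := by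
    intro D
    apply Finite.card_eq.mp
    have h1 : Nat.card {x : G // e (ConjClasses.mk x) = D} = Nat.card (e.symm D).carrier := by
      apply Nat.card_congr
      exact Equiv.subtypeEquivRight (fun x => by
        rw [ConjClasses.mem_carrier_iff_mk_eq, Equiv.eq_symm_apply])
    have h2 : Nat.card {y : H // ConjClasses.mk y = D} = Nat.card D.carrier := by
      apply Nat.card_congr
      exact Equiv.subtypeEquivRight (fun y => by rw [ConjClasses.mem_carrier_iff_mk_eq])
    rw [h1, h2, ← hemap (e.symm D), Equiv.apply_symm_apply]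
  let φ : G ≃ H :=
    Equiv.ofFiberEquiv (f := fun x : G => e (ConjClasses.mk x))
      (g := fun y : H => ConjClasses.mk y) (fun D => (hfib D).some)
  have hφ : ∀ x : G, ConjClasses.mk (φ x) = e (ConjClasses.mk x) :=
    fun x => Equiv.ofFiberEquiv_map (f := fun x : G => e (ConjClasses.mk x))
      (g := fun y : H => ConjClasses.mk y) (fun D => (hfib D).some) x
  refine ⟨φ, fun x => ?_⟩
  rw [chm_index, chm_index, hφ, hemap]

/-- the main step: every Sylow subgroup of `G` is normal -/
theorem chm_main {G H : Type*} [Group G] [Finite G] [Group H] [Finite H]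
    [Group.IsNilpotent H] (φ : G ≃ H)
    (hφ : ∀ x : G, (centralizer ({φ x} : Set H)).index = (centralizer ({x} : Set G)).index)
    (p : ℕ) [Fact p.Prime] (P : Sylow p G) : (P : Subgroup G).Normal := by
  classical
  have hp : p.Prime := Fact.out
  let PH : Sylow p H := default
  obtain ⟨h1, h2, h3⟩ := chm_nil p PH
  have hzHp : IsPGroup p ((PH : Subgroup H) ⊓ centralizer ((PH : Subgroup H) : Set H) : Subgroup H) :=
    PH.isPGroup'.to_le inf_le_left
  obtain ⟨a, ha⟩ := IsPGroup.iff_card.mp hzHp
  have hcardGH : Nat.card G = Nat.card H := Nat.card_congr φ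
  have hcen : Nat.card (center G) = Nat.card (center H) := by
    apply Nat.card_congr
    exact φ.subtypeEquiv (fun x => by
      show x ∈ center G ↔ φ x ∈ center H
      rw [chm_center, chm_center, hφ])
  have hdvd : p ^ a ∣ Nat.card (center G) := by
    rw [hcen, ← ha]; exact card_dvd_of_le h3
  obtain ⟨Z0, hZ0⟩ := Sylow.exists_subgroup_card_pow_prime p hdvd
  let Zp : Subgroup G := Z0.map (center G).subtype
  have hZpcard : Nat.card Zp = p ^ a := by
    rw [← hZ0]; exact card_map_of_injective (subtype_injective _)
  have hZple : Zp ≤ center G := map_subtype_le Z0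
  have hZpp : IsPGroup p Zp := IsPGroup.of_card hZpcard
  have hmH : (PH : Subgroup H).index * Nat.card (PH : Subgroup H) = Nat.card H := index_mul_card _
  have hpm : ¬ p ∣ (PH : Subgroup H).index := PH.not_dvd_index
  have hPcard : Nat.card (P : Subgroup G) = Nat.card (PH : Subgroup H) := by
    rw [Sylow.card_eq_multiplicity, Sylow.card_eq_multiplicity, hcardGH]
  have hs : Nat.card {x : G // chmS p x} =
      Nat.card (centralizer ((PH : Subgroup H) : Set H)) := by
    have e1 : {x : G // chmS p x} ≃ {y : H // chmS p y} :=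
      φ.subtypeEquiv (fun x => by unfold chmS; rw [hφ])
    rw [Nat.card_congr e1]
    exact Nat.card_congr (Equiv.subtypeEquivRight h1)
  have hCH : Nat.card (centralizer ((PH : Subgroup H) : Set H)) =
      p ^ a * (PH : Subgroup H).index := by
    have h4 := h2
    rw [ha, ← hmH] at h4
    have hpos : 0 < Nat.card (PH : Subgroup H) := Nat.card_pos
    apply Nat.eq_of_mul_eq_mul_right hpos
    rw [h4]; ring
  obtain ⟨t, ht⟩ := chm_congr p P Zp hZple hZpp
  rw [hs, hCH, hZpcard] at ht
  have hzGp : IsPGroup p ((P : Subgroup G) ⊓ centralizer ((P : Subgroup G) : Set G) : Subgroup G) :=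
    P.isPGroup'.to_le inf_le_left
  obtain ⟨b, hb⟩ := IsPGroup.iff_card.mp hzGp
  have hzdvd : Nat.card ((P : Subgroup G) ⊓ centralizer ((P : Subgroup G) : Set G) : Subgroup G) ∣
      Nat.card (centralizer ((P : Subgroup G) : Set G)) := card_dvd_of_le inf_le_right
  have hba : b ≤ a := by
    by_contra hlt'
    have hlt : a + 1 ≤ b := Nat.lt_of_not_le hlt'
    have h4 : p ^ (a + 1) ∣ Nat.card (centralizer ((P : Subgroup G) : Set G)) := by
      refine (pow_dvd_pow p hlt).trans ?_
      rw [← hb]; exact hzdvd
    have h5 : p ^ (a + 1) ∣ p ^ a * (PH : Subgroup H).index := by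
      rw [ht]
      exact dvd_add h4 (Dvd.intro t (by ring))
    rw [pow_succ] at h5
    exact hpm (Nat.dvd_of_mul_dvd_mul_left (pow_pos hp.pos a) h5)
  apply chm_normal p P (PH : Subgroup H).index
  · rw [hPcard, hmH, hcardGH]
  · rw [hs, hCH, hb]
    exact Nat.mul_le_mul_right _ (Nat.pow_le_pow_right hp.pos hba)

end Cfsg.Agent.Helper4.CHM
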