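import Mathlib
import Cfsg.Agent.Helper1.NormRank2
import Cfsg.Agent.Helper1.Critical
import Cfsg.Agent.Helper1.MaxClass

set_option autoImplicit false

namespace Cfsg.Agent.Helper4.ConstStab

section S
variable {P E : Type*} [Group P] [AddCommGroup E] [DistribMulAction P E]

/-- the "trace" sum `∑_{k<p} u^k • e` -/
def S (p : ℕ) (u : P) (e : E) : E := ∑ k ∈ Finset.range p, (u ^ k) • e

theorem S_add (p : ℕ) (u : P) (a b : E) : S p u (a + b) = S p u a + S p u b := by
  simp only [S, smul_add, Finset.sum_add_distrib]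

theorem S_sub (p : ℕ) (u : P) (a b : E) : S p u (a - b) = S p u a - S p u b := by
  simp only [S, smul_sub, Finset.sum_sub_distrib]

theorem S_nsmul (p n : ℕ) (u : P) (a : E) : S p u (n • a) = n • S p u a := by
  simp only [S, Finset.smul_sum]
  apply Finset.sum_congr rfl
  intro k _
  exact (DistribSMul.toAddMonoidHom E (u ^ k)).map_nsmul n a

theorem pow_smul_fixed {u : P} {e : E} (h : u • e = e) (k : ℕ) : (u ^ k) • e = e := by
  induction k with
  | zero => simp
  | succ k ih => rw [pow_succ, mul_smul, h, ih]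

theorem S_fixed (p : ℕ) {u : P} {e : E} (h : u • e = e) : S p u e = p • e := by
  simp [S, pow_smul_fixed h]

theorem S_one (p : ℕ) (e : E) : S p (1 : P) e = p • e := S_fixed p (one_smul _ _)

theorem S_smul_comm (p : ℕ) {g u : P} (h : Commute g u) (e : E) :
    S p u (g • e) = g • S p u e := by
  simp only [S, Finset.smul_sum]
  apply Finset.sum_congr rfl
  intro k _
  rw [← mul_smul, ← mul_smul, (h.pow_right k).eq]

theorem smul_S {p : ℕ} {u : P} (h : u ^ p = 1) (e : E) : u • S p u e = S p u e := by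
  have h1 : u • S p u e = ∑ k ∈ Finset.range p, (u ^ (k + 1)) • e := by
    simp only [S, Finset.smul_sum]
    apply Finset.sum_congr rfl
    intro k _
    rw [← mul_smul, pow_succ']
  have h2 := Finset.sum_range_succ (fun k => (u ^ k) • e) p
  have h3 := Finset.sum_range_succ' (fun k => (u ^ k) • e) p
  rw [h1]
  simp only [pow_zero, one_smul, h] at h2 h3
  rw [h2] at h3
  exact (add_right_cancel h3).symm

theorem S_mul_fixed (p : ℕ) {v d : P} (h : Commute v d) {e : E} (hv : v • e = e) :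
    S p (v * d) e = S p d e := by
  simp only [S]
  apply Finset.sum_congr rfl
  intro k _
  rw [h.mul_pow, (h.pow_pow k k).eq, mul_smul, pow_smul_fixed hv]

omit [DistribMulAction P E] in
theorem eq_zero_of_smul {p q : ℕ} (hpq : Nat.Coprime p q) {e : E} (hq : q • e = 0)
    (hp : p • e = 0) : e = 0 := by
  have h1 : addOrderOf e ∣ q := addOrderOf_dvd_of_nsmul_eq_zero hq
  have h2 : addOrderOf e ∣ p := addOrderOf_dvd_of_nsmul_eq_zero hp
  have h3 : addOrderOf e ∣ 1 := by
    have := Nat.dvd_gcd h2 h1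
    rwa [hpq] at this
  exact AddMonoid.addOrderOf_eq_one_iff.mp (Nat.dvd_one.mp h3)

end S

section main
variable {P E : Type*} [Group P] [Finite P] [AddCommGroup E] [Finite E]
  [DistribMulAction P E] [FaithfulSMul P E]

theorem central_fpf {p q : ℕ} (hpq : Nat.Coprime p q) (hE : ∀ e : E, q • e = 0)
    (hconst : ∀ a b : E, a ≠ 0 → b ≠ 0 →
      Nat.card (MulAction.stabilizer P a) = Nat.card (MulAction.stabilizer P b))
    {z : P} (hz : z ∈ Subgroup.center P) (hz1 : z ≠ 1) (hzp : z ^ p = 1) {a₁ : E}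
    (ha₁ : z • a₁ = a₁) : a₁ = 0 := by
  by_contra ha₁0
  have hzc : ∀ g : P, Commute g z := fun g => Subgroup.mem_center_iff.mp hz g
  obtain ⟨e, he⟩ : ∃ e : E, z • e ≠ e := by
    by_contra hall
    push Not at hall
    apply hz1
    apply eq_of_smul_eq_smul (α := E)
    intro a
    rw [hall a, one_smul]
  obtain ⟨b, hb⟩ : ∃ b : E, b = p • e - S p z e := ⟨_, rfl⟩
  have hSb : S p z b = 0 := by
    rw [hb, S_sub, S_nsmul, S_fixed p (smul_S hzp e), sub_self]
  have hfix0 : ∀ v : E, z • v = v → S p z v = 0 → v = 0 := by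
    intro v hv hSv
    rw [S_fixed p hv] at hSv
    exact eq_zero_of_smul hpq (hE v) hSv
  have hb0 : b ≠ 0 := by
    intro hb0
    rw [hb0] at hb
    have h1 : p • e = S p z e := sub_eq_zero.mp hb.symm
    have h2 : z • (p • e) = p • e := by rw [h1]; exact smul_S hzp e
    have h2' : z • (p • e) = p • (z • e) := (DistribSMul.toAddMonoidHom E z).map_nsmul p e
    have h3 : p • (z • e - e) = 0 := by
      rw [smul_sub, ← h2', h2, sub_self]
    exact he (sub_eq_zero.mp (eq_zero_of_smul hpq (hE _) h3))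
  have hzb : z • b ≠ b := fun h => hb0 (hfix0 b h hSb)
  have ha0 : a₁ + b ≠ 0 := by
    intro h
    have h1 : b = -a₁ := by rw [eq_neg_iff_add_eq_zero, add_comm]; exact h
    apply hzb
    rw [h1, smul_neg, ha₁]
  have hle : MulAction.stabilizer P (a₁ + b) ≤ MulAction.stabilizer P a₁ := by
    intro g hg
    rw [MulAction.mem_stabilizer_iff] at hg ⊢
    rw [smul_add] at hg
    have hv : g • a₁ - a₁ = b - g • b := by
      rw [sub_eq_sub_iff_add_eq_add, hg, add_comm]
    have hzv : z • (g • a₁ - a₁) = g • a₁ - a₁ := by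
      rw [smul_sub, ha₁, ← mul_smul, ← (hzc g).eq, mul_smul, ha₁]
    have hSv : S p z (g • a₁ - a₁) = 0 := by
      rw [hv, S_sub, S_smul_comm p (hzc g), hSb, smul_zero, sub_zero]
    exact sub_eq_zero.mp (hfix0 _ hzv hSv)
  have heq := Subgroup.eq_of_le_of_card_ge hle (hconst _ _ ha0 ha₁0).ge
  have hzs : z ∈ MulAction.stabilizer P (a₁ + b) := by
    rw [heq, MulAction.mem_stabilizer_iff]; exact ha₁
  rw [MulAction.mem_stabilizer_iff, smul_add, ha₁] at hzs
  exact hzb (add_left_cancel hzs)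

omit [Finite P] [Finite E] [FaithfulSMul P E] in
theorem fpf_ab {p : ℕ} (hp : 0 < p) {x z : P} (hxz : Commute x z) (hzp : z ^ p = 1)
    (hxp : x ^ p = 1)
    (h1 : ∀ k, 0 < k → k < p → ∀ e : E, (z ^ k) • e = e → e = 0)
    (h2 : ∀ i, i < p → ∀ e : E, (x * z ^ i) • e = e → e = 0) (e : E) : p • e = 0 := by
  have hA : ∀ i ∈ Finset.range p, S p (x * z ^ i) e = 0 := by
    intro i hi
    apply h2 i (Finset.mem_range.mp hi)
    apply smul_S
    rw [(hxz.pow_right i).mul_pow, hxp, ← pow_mul, mul_comm i p, pow_mul, hzp, one_pow, one_mul]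
  have hsum : ∑ i ∈ Finset.range p, S p (x * z ^ i) e = 0 := Finset.sum_eq_zero hA
  have hswap : ∑ i ∈ Finset.range p, S p (x * z ^ i) e
      = ∑ k ∈ Finset.range p, (x ^ k) • S p (z ^ k) e := by
    simp only [S]
    rw [Finset.sum_comm]
    apply Finset.sum_congr rfl
    intro k _
    rw [Finset.smul_sum]
    apply Finset.sum_congr rfl
    intro i _
    rw [(hxz.pow_right i).mul_pow, ← mul_smul, ← pow_mul, ← pow_mul, mul_comm i k]
  have hB : ∀ k ∈ Finset.range p, k ≠ 0 → (x ^ k) • S p (z ^ k) e = 0 := by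
    intro k hk hk0
    rw [h1 k (Nat.pos_of_ne_zero hk0) (Finset.mem_range.mp hk) (S p (z ^ k) e)
      (smul_S (by rw [← pow_mul, mul_comm, pow_mul, hzp, one_pow]) e), smul_zero]
  have hp0 : 0 ∈ Finset.range p := Finset.mem_range.mpr hp
  rw [hswap, Finset.sum_eq_single_of_mem 0 hp0 hB] at hsum
  simpa [S_one] using hsum

/-- a normal subgroup of order `p²` of a `p`-group contains a central `z` of order `p` and
some `w ∉ ⟨z⟩` all of whose commutators lie in `⟨z⟩` -/
theorem exists_zw {G : Type*} [Group G] [Finite G] {p : ℕ} [Fact p.Prime]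
    (hG : IsPGroup p G) (B : Subgroup G) [hBn : B.Normal] (hB : Nat.card B = p ^ 2) :
    ∃ z w : G, z ∈ Subgroup.center G ∧ z ≠ 1 ∧ z ^ p = 1 ∧ z ∈ B ∧ w ∈ B ∧
      w ∉ Subgroup.zpowers z ∧ ∀ g : G, g * w * g⁻¹ * w⁻¹ ∈ Subgroup.zpowers z := by
  have hp : p.Prime := Fact.out
  have hBne : B ≠ ⊥ := by
    intro h
    rw [h, Subgroup.card_bot] at hB
    have : 1 < p ^ 2 := Nat.one_lt_pow (by norm_num) hp.one_lt
    omega
  obtain ⟨z, hzB, hz1, hzc⟩ := Cfsg.Agent.Helper1.exists_mem_centerOmega hG B hBne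
  have hzord : orderOf z = p := orderOf_eq_prime hzc.2 hz1
  have hZn : (Subgroup.zpowers z).Normal := Cfsg.Agent.Helper1.zpowers_normal_of_mem_center hzc.1
  have hZcard : Nat.card (Subgroup.zpowers z) = p := by rw [Nat.card_zpowers, hzord]
  have hQ : IsPGroup p (G ⧸ Subgroup.zpowers z) := hG.to_quotient _
  have hBbar_n : (B.map (QuotientGroup.mk' (Subgroup.zpowers z))).Normal :=
    hBn.map _ (QuotientGroup.mk'_surjective _)
  have hBbar_ne : B.map (QuotientGroup.mk' (Subgroup.zpowers z)) ≠ ⊥ := by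
    intro h
    have hle : B ≤ Subgroup.zpowers z := by
      intro x hx
      have : (QuotientGroup.mk' (Subgroup.zpowers z)) x ∈
          B.map (QuotientGroup.mk' (Subgroup.zpowers z)) := Subgroup.mem_map_of_mem _ hx
      rw [h, Subgroup.mem_bot] at this
      exact (QuotientGroup.eq_one_iff x).mp this
    have := Subgroup.card_le_of_le hle
    rw [hB, hZcard, pow_two] at this
    have h2 : p * 2 ≤ p * p := Nat.mul_le_mul_left p hp.two_le
    have := hp.pos
    omega
  obtain ⟨wbar, hwB, hw1, hwc⟩ := Cfsg.Agent.Helper1.exists_mem_centerOmega hQ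
    (B.map (QuotientGroup.mk' (Subgroup.zpowers z))) hBbar_ne
  obtain ⟨w, hwBm, rfl⟩ := hwB
  have hwZ : w ∉ Subgroup.zpowers z := fun h => hw1 ((QuotientGroup.eq_one_iff w).mpr h)
  refine ⟨z, w, hzc.1, hz1, hzc.2, hzB, hwBm, hwZ, ?_⟩
  intro g
  apply (QuotientGroup.eq_one_iff _).mp
  have h1 := Subgroup.mem_center_iff.mp hwc.1 (QuotientGroup.mk' (Subgroup.zpowers z) g)
  show QuotientGroup.mk' (Subgroup.zpowers z) (g * w * g⁻¹ * w⁻¹) = 1
  rw [map_mul, map_mul, map_mul, map_inv, map_inv, h1, mul_inv_cancel_right, mul_inv_cancel]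

theorem cyclic_of_const {p q : ℕ} [Fact p.Prime] (hp2 : p ≠ 2) (hP : IsPGroup p P)
    (hpq : Nat.Coprime p q) (hE : ∀ e : E, q • e = 0)
    (hconst : ∀ a b : E, a ≠ 0 → b ≠ 0 →
      Nat.card (MulAction.stabilizer P a) = Nat.card (MulAction.stabilizer P b))
    (hEnt : ∃ e : E, e ≠ 0) : IsCyclic P := by
  classical
  by_contra hnc
  obtain ⟨B, hBn, hBc, hBe, hBcard⟩ :=
    Cfsg.Agent.Helper1.exists_normal_elem_abelian_sq hp2 hP hnc
  obtain ⟨z, w, hzc, hz1, hzp, hzB, hwB, hwZ, hcomm⟩ := exists_zw hP B hBcard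
  have hp : p.Prime := Fact.out
  have hcen : ∀ c ∈ Subgroup.zpowers z, c ∈ Subgroup.center P :=
    fun c hc => (Subgroup.zpowers_le.mpr hzc) hc
  have hcp : ∀ c ∈ Subgroup.zpowers z, c ^ p = 1 := by
    rintro c ⟨k, rfl⟩
    show (z ^ k) ^ p = 1
    rw [← zpow_natCast, ← zpow_mul, mul_comm, zpow_mul, zpow_natCast, hzp, one_zpow]
  have hfpf : ∀ c ∈ Subgroup.zpowers z, c ≠ 1 → ∀ e : E, c • e = e → e = 0 :=
    fun c hc hc1 e he => central_fpf hpq hE hconst (hcen c hc) hc1 (hcp c hc) he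
  -- key claim
  have hSy : ∀ (y : P) (c c' : P), c ∈ Subgroup.zpowers z → c' ∈ Subgroup.zpowers z →
      ∀ e : E, (c' * y) • e = e → S p (c * y) e = if c = c' then p • e else 0 := by
    intro y c c' hc hc' e he
    have hd : c * c'⁻¹ ∈ Subgroup.zpowers z := mul_mem hc (inv_mem hc')
    have hdc : Commute (c' * y) (c * c'⁻¹) := Subgroup.mem_center_iff.mp (hcen _ hd) _
    have e1 : c * y = (c' * y) * (c * c'⁻¹) := by
      rw [hdc.eq]; group
    rw [e1, S_mul_fixed p hdc he]
    split_ifs with h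
    · rw [h, mul_inv_cancel, S_one]
    · apply hfpf _ hd (fun h' => h (mul_inv_eq_one.mp h'))
      exact smul_S (hcp _ hd) e
  by_cases hA : ∀ c ∈ Subgroup.zpowers z, ∀ e : E, (c * w) • e = e → e = 0
  · -- case A
    obtain ⟨e, he⟩ := hEnt
    have hwz : Commute w z := Subgroup.mem_center_iff.mp hzc w
    have := fpf_ab hp.pos hwz hzp (hBe w hwB) ?_ ?_ e
    · exact he (eq_zero_of_smul hpq (hE e) this)
    · intro k hk0 hkp e' he'
      apply hfpf (z ^ k) (Subgroup.pow_mem _ (Subgroup.mem_zpowers z) k) _ e' he'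
      apply pow_ne_one_of_lt_orderOf hk0.ne'
      rwa [orderOf_eq_prime hzp hz1]
    · intro i hi e' he'
      apply hA (z ^ i) (Subgroup.pow_mem _ (Subgroup.mem_zpowers z) i) e'
      rwa [← (hwz.pow_right i).eq]
  · push Not at hA
    obtain ⟨c₁, hc₁, a₀, hxa₀, ha₀⟩ := hA
    obtain ⟨x, hx⟩ : ∃ x : P, x = c₁ * w := ⟨_, rfl⟩
    rw [← hx] at hxa₀
    have hxB : x ∈ B := hx ▸ mul_mem ((Subgroup.zpowers_le.mpr hzB) hc₁) hwB
    have hxZ : x ∉ Subgroup.zpowers z := fun h => hwZ (by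
      have := mul_mem (inv_mem hc₁) h
      rwa [hx, inv_mul_cancel_left] at this)
    have hxcomm : ∀ g : P, g * x * g⁻¹ * x⁻¹ ∈ Subgroup.zpowers z := by
      intro g
      have e1 : g * x * g⁻¹ * x⁻¹ = g * w * g⁻¹ * w⁻¹ := by
        have hc := Subgroup.mem_center_iff.mp (hcen c₁ hc₁)
        rw [hx]
        calc g * (c₁ * w) * g⁻¹ * (c₁ * w)⁻¹ = (g * c₁) * w * g⁻¹ * w⁻¹ * c₁⁻¹ := by group
          _ = c₁ * (g * w * g⁻¹ * w⁻¹) * c₁⁻¹ := by rw [hc g]; group
          _ = (g * w * g⁻¹ * w⁻¹) * c₁ * c₁⁻¹ := by rw [← hc (g * w * g⁻¹ * w⁻¹)]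
          _ = _ := by group
      rw [e1]; exact hcomm g
    have hxnc : x ∉ Subgroup.center P := by
      intro hxc
      have hx1 : x ≠ 1 := fun h => hxZ (h ▸ one_mem _)
      exact ha₀ (central_fpf hpq hE hconst hxc hx1 (hBe x hxB) hxa₀)
    rw [Subgroup.mem_center_iff] at hxnc
    push Not at hxnc
    obtain ⟨g₀, hg₀⟩ := hxnc
    obtain ⟨c₀, hc₀⟩ : ∃ c₀ : P, c₀ = g₀ * x * g₀⁻¹ * x⁻¹ := ⟨_, rfl⟩
    have hc₀Z : c₀ ∈ Subgroup.zpowers z := hc₀ ▸ hxcomm g₀
    have hc₀1 : c₀ ≠ 1 := by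
      intro h
      apply hg₀
      rw [hc₀] at h
      have h' : g₀ * x * g₀⁻¹ = x := mul_inv_eq_one.mp h
      exact mul_inv_eq_iff_eq_mul.mp h'
    obtain ⟨a₁, ha₁⟩ : ∃ a₁ : E, a₁ = g₀ • a₀ := ⟨_, rfl⟩
    have ha₁0 : a₁ ≠ 0 := by
      rw [ha₁]; exact fun h => ha₀ ((smul_eq_zero_iff_eq g₀).mp h)
    have hfix1 : (c₀ * x) • a₁ = a₁ := by
      rw [ha₁, ← mul_smul, hc₀]
      have : g₀ * x * g₀⁻¹ * x⁻¹ * x * g₀ = g₀ * x := by group
      rw [this, mul_smul, hxa₀]
    have hfix0 : (1 * x) • a₀ = a₀ := by rw [one_mul]; exact hxa₀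
    have hc₀fix : ∀ e : E, x • e = e → (c₀ * x) • e = e → e = 0 := by
      intro e h1 h2
      rw [mul_smul, h1] at h2
      exact hfpf c₀ hc₀Z hc₀1 e h2
    have ha0 : a₀ + a₁ ≠ 0 := by
      intro h
      have h1 : a₁ = -a₀ := by rw [eq_neg_iff_add_eq_zero, add_comm]; exact h
      apply ha₁0
      apply hc₀fix a₁ _ hfix1
      rw [h1, smul_neg, hxa₀]
    have hle : MulAction.stabilizer P (a₀ + a₁) ≤ MulAction.stabilizer P a₀ := by
      intro g hg
      rw [MulAction.mem_stabilizer_iff] at hg ⊢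
      rw [smul_add] at hg
      obtain ⟨cg, hcg⟩ : ∃ cg : P, cg = g * x * g⁻¹ * x⁻¹ := ⟨_, rfl⟩
      have hcgZ : cg ∈ Subgroup.zpowers z := hcg ▸ hxcomm g
      have hg0 : (cg * x) • (g • a₀) = g • a₀ := by
        rw [← mul_smul, hcg]
        have : g * x * g⁻¹ * x⁻¹ * x * g = g * x := by group
        rw [this, mul_smul, hxa₀]
      have hg1 : (cg * c₀ * x) • (g • a₁) = g • a₁ := by
        rw [← mul_smul]
        have : cg * c₀ * x * g = g * (c₀ * x) := by
          have hcc := Subgroup.mem_center_iff.mp (hcen c₀ hc₀Z)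
          calc cg * c₀ * x * g = cg * (c₀ * (x * g)) := by group
            _ = cg * ((x * g) * c₀) := by rw [hcc (x * g)]
            _ = (cg * x * g) * c₀ := by group
            _ = (g * x) * c₀ := by rw [hcg]; group
            _ = g * (c₀ * x) := by rw [mul_assoc, hcc x]
        rw [this, mul_smul, hfix1]
      have e1 := congrArg (S p (1 * x)) hg
      rw [S_add, S_add, hSy x 1 cg (one_mem _) hcgZ _ hg0,
        hSy x 1 (cg * c₀) (one_mem _) (mul_mem hcgZ hc₀Z) _ hg1,
        hSy x 1 1 (one_mem _) (one_mem _) _ hfix0, hSy x 1 c₀ (one_mem _) hc₀Z _ hfix1,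
        if_pos rfl, if_neg (Ne.symm hc₀1), add_zero] at e1
      by_cases h1 : 1 = cg
      · have h2 : ¬ (1 = cg * c₀) := by rw [← h1, one_mul]; exact Ne.symm hc₀1
        rw [if_pos h1, if_neg h2, add_zero] at e1
        have : p • (g • a₀ - a₀) = 0 := by rw [smul_sub, e1, sub_self]
        exact sub_eq_zero.mp (eq_zero_of_smul hpq (hE _) this)
      · rw [if_neg h1, zero_add] at e1
        by_cases h2 : 1 = cg * c₀
        · exfalso
          have e2 := congrArg (S p (c₀ * x)) hg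
          rw [S_add, S_add, hSy x c₀ cg hc₀Z hcgZ _ hg0,
            hSy x c₀ (cg * c₀) hc₀Z (mul_mem hcgZ hc₀Z) _ hg1,
            hSy x c₀ 1 hc₀Z (one_mem _) _ hfix0, hSy x c₀ c₀ hc₀Z hc₀Z _ hfix1,
            if_pos rfl, if_neg hc₀1, zero_add] at e2
          have h3 : ¬ (c₀ = cg * c₀) := by
            intro h
            apply h1
            have : cg * c₀ = 1 * c₀ := by rw [one_mul]; exact h.symm
            exact (mul_right_cancel this).symm
          have h4 : ¬ (c₀ = cg) := by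
            intro h
            rw [← h] at h2
            have hsq : c₀ ^ 2 = 1 := by rw [pow_two]; exact h2.symm
            have hdvd : orderOf c₀ ∣ 2 := orderOf_dvd_of_pow_eq_one hsq
            have hdvd' : orderOf c₀ ∣ p := orderOf_dvd_of_pow_eq_one (hcp c₀ hc₀Z)
            have h2p : Nat.Coprime 2 p := (Nat.coprime_primes Nat.prime_two hp).mpr (Ne.symm hp2)
            have h5 : orderOf c₀ ∣ 1 := by
              have := Nat.dvd_gcd hdvd hdvd'
              rwa [h2p] at this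
            exact hc₀1 (orderOf_eq_one_iff.mp (Nat.dvd_one.mp h5))
          rw [if_neg h4, if_neg h3, add_zero] at e2
          exact ha₁0 (eq_zero_of_smul hpq (hE _) e2.symm)
        · rw [if_neg h2] at e1
          exact absurd (eq_zero_of_smul hpq (hE _) e1.symm) ha₀
    have heq := Subgroup.eq_of_le_of_card_ge hle (hconst _ _ ha0 ha₀).ge
    have hxs : x ∈ MulAction.stabilizer P (a₀ + a₁) := by
      rw [heq, MulAction.mem_stabilizer_iff]; exact hxa₀
    rw [MulAction.mem_stabilizer_iff, smul_add, hxa₀] at hxs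
    exact ha₁0 (hc₀fix a₁ (add_left_cancel hxs) hfix1)

theorem main_thm {p q : ℕ} [Fact p.Prime] (hp2 : p ≠ 2) (hP : IsPGroup p P) (hq : q.Prime)
    (hE : ∀ e : E, q • e = 0)
    (hconst : ∀ a b : E, a ≠ 0 → b ≠ 0 →
      Nat.card (MulAction.stabilizer P a) = Nat.card (MulAction.stabilizer P b)) :
    IsCyclic P ∧ ∀ g : P, g ≠ 1 → ∀ a : E, g • a = a → a = 0 := by
  have hp : p.Prime := Fact.out
  by_cases htriv : ∀ g : P, g = 1
  · refine ⟨?_, fun g hg => absurd (htriv g) hg⟩
    have : Subsingleton P := ⟨fun a b => by rw [htriv a, htriv b]⟩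
    infer_instance
  push Not at htriv
  obtain ⟨g₁, hg₁⟩ := htriv
  obtain ⟨e₀, he₀⟩ : ∃ e : E, e ≠ 0 := by
    by_contra h
    push Not at h
    apply hg₁
    apply eq_of_smul_eq_smul (α := E)
    intro a
    rw [h a, smul_zero, smul_zero]
  have hqp : Nat.Coprime p q := by
    rw [Nat.coprime_primes hp hq]
    rintro rfl
    have hdvd : p ∣ Nat.card E := by
      have h1 : addOrderOf e₀ ∣ p := addOrderOf_dvd_of_nsmul_eq_zero (hE e₀)
      have h2 : addOrderOf e₀ = p := by
        rcases (Nat.dvd_prime hp).mp h1 with h | h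
        · exact absurd (AddMonoid.addOrderOf_eq_one_iff.mp h) he₀
        · exact h
      rw [← h2]; exact addOrderOf_dvd_natCard e₀
    obtain ⟨b, hb, hb0⟩ := hP.exists_fixed_point_of_prime_dvd_card_of_fixed_point E hdvd
      (a := 0) (by intro g; exact smul_zero g)
    have hbtop : MulAction.stabilizer P b = ⊤ := by
      rw [eq_top_iff]
      intro g _
      exact hb g
    have hall : ∀ a : E, a ≠ 0 → MulAction.stabilizer P a = ⊤ := by
      intro a ha
      apply Subgroup.eq_top_of_card_eq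
      rw [hconst a b ha (Ne.symm hb0), hbtop, Subgroup.card_top]
    apply hg₁
    apply eq_of_smul_eq_smul (α := E)
    intro a
    rw [one_smul]
    by_cases ha : a = 0
    · rw [ha, smul_zero]
    · have : g₁ ∈ MulAction.stabilizer P a := by rw [hall a ha]; trivial
      exact this
  have hcyc : IsCyclic P := cyclic_of_const hp2 hP hqp hE hconst ⟨e₀, he₀⟩
  refine ⟨hcyc, ?_⟩
  intro g hg a hga
  obtain ⟨k, hk⟩ := (IsPGroup.iff_orderOf.mp hP) g
  have hk0 : k ≠ 0 := by
    rintro rfl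
    rw [pow_zero, orderOf_eq_one_iff] at hk
    exact hg hk
  have hu1 : g ^ p ^ (k - 1) ≠ 1 := by
    apply pow_ne_one_of_lt_orderOf (pow_pos hp.pos _).ne'
    rw [hk]
    exact Nat.pow_lt_pow_right hp.one_lt (by omega)
  have hup : (g ^ p ^ (k - 1)) ^ p = 1 := by
    rw [← pow_mul, ← pow_succ, Nat.sub_add_cancel (by omega), ← hk, pow_orderOf_eq_one]
  have hucen : g ^ p ^ (k - 1) ∈ Subgroup.center P := by
    rw [Subgroup.mem_center_iff]
    intro h
    exact (IsCyclic.isMulCommutative (α := P)).is_comm.comm h _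
  exact central_fpf hqp hE hconst hucen hu1 hup (pow_smul_fixed hga _)

end main

end Cfsg.Agent.Helper4.ConstStab
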