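import Mathlib

set_option autoImplicit false

namespace Cfsg.Agent.Helper4.CoverP

open scoped Pointwise

universe u v

/-- a finite `p`-group is not the union of at most `p` proper subgroups -/
theorem pgroup_cover {P : Type*} [Group P] [Finite P] (p : ℕ) [Fact p.Prime] (hP : IsPGroup p P)
    {ι : Type*} [Fintype ι] (K : ι → Subgroup P) (hK : ∀ i, K i ≠ ⊤)
    (hcov : ∀ g : P, ∃ i, g ∈ K i) : p + 1 ≤ Fintype.card ι := by
  classical
  have hp : p.Prime := Fact.out
  by_contra hlt
  push Not at hlt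
  have hle : Fintype.card ι ≤ p := by omega
  obtain ⟨n, hn⟩ := hP.exists_card_eq
  have hKcard : ∀ i, Nat.card (K i) * p ≤ p ^ n := by
    intro i
    have h1 : Nat.card (K i) ∣ p ^ n := hn ▸ (K i).card_subgroup_dvd_card
    obtain ⟨k, hk, hk2⟩ := (Nat.dvd_prime_pow hp).mp h1
    have hkn : k ≠ n := by
      intro h
      apply hK i
      apply Subgroup.eq_top_of_card_eq
      rw [hk2, h, hn]
    rw [hk2, ← pow_succ]
    exact Nat.pow_le_pow_right hp.pos (by omega)
  have : Fintype P := Fintype.ofFinite P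
  have hsub : (Finset.univ : Finset P).erase 1 ⊆
      Finset.univ.biUnion (fun i => (Finset.univ.filter (· ∈ K i)).erase 1) := by
    intro g hg
    rw [Finset.mem_erase] at hg
    obtain ⟨i, hi⟩ := hcov g
    rw [Finset.mem_biUnion]
    exact ⟨i, Finset.mem_univ _, Finset.mem_erase.mpr
      ⟨hg.1, Finset.mem_filter.mpr ⟨Finset.mem_univ _, hi⟩⟩⟩
  have h1 := Finset.card_le_card hsub
  have h2 := Finset.card_biUnion_le (s := (Finset.univ : Finset ι))
    (t := fun i => (Finset.univ.filter (· ∈ K i)).erase 1)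
  have h3 : ∀ i ∈ (Finset.univ : Finset ι),
      ((Finset.univ.filter (· ∈ K i)).erase 1).card * p ≤ p ^ n - p := by
    intro i _
    rw [Finset.card_erase_of_mem (Finset.mem_filter.mpr ⟨Finset.mem_univ _, one_mem _⟩)]
    have : (Finset.univ.filter (· ∈ K i)).card = Nat.card (K i) := by
      rw [Nat.card_eq_fintype_card, Fintype.card_subtype]
    rw [this, Nat.sub_mul, one_mul]
    exact Nat.sub_le_sub_right (hKcard i) p
  have h4 : ((Finset.univ : Finset P).erase 1).card = p ^ n - 1 := by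
    rw [Finset.card_erase_of_mem (Finset.mem_univ _), Finset.card_univ, ← Nat.card_eq_fintype_card,
      hn]
  have h5 : (∑ i : ι, ((Finset.univ.filter (· ∈ K i)).erase 1).card) * p
      ≤ Fintype.card ι * (p ^ n - p) := by
    rw [Finset.sum_mul]
    calc ∑ i : ι, ((Finset.univ.filter (· ∈ K i)).erase 1).card * p
        ≤ ∑ _i : ι, (p ^ n - p) := Finset.sum_le_sum h3
      _ = Fintype.card ι * (p ^ n - p) := by simp
  obtain ⟨i₀, hi₀⟩ := hcov 1
  have h6 : p ≤ p ^ n := by
    have := hKcard i₀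
    have h7 : 1 ≤ Nat.card (K i₀) := Nat.card_pos
    calc p = 1 * p := (one_mul p).symm
      _ ≤ Nat.card (K i₀) * p := Nat.mul_le_mul_right p h7
      _ ≤ p ^ n := this
  have h8 : (p ^ n - 1) * p ≤ p * (p ^ n - p) := by
    calc (p ^ n - 1) * p ≤ (∑ i : ι, ((Finset.univ.filter (· ∈ K i)).erase 1).card) * p :=
          Nat.mul_le_mul_right p (h4 ▸ h1.trans h2)
      _ ≤ Fintype.card ι * (p ^ n - p) := h5
      _ ≤ p * (p ^ n - p) := Nat.mul_le_mul_right _ hle
  have h9 : p ^ n - 1 ≤ p ^ n - p := by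
    rw [mul_comm] at h8
    exact Nat.le_of_mul_le_mul_left h8 hp.pos
  have := hp.two_le
  omega

section
variable {G : Type*} [Group G]

/-- subgroup generated by the `p`-elements of `H` -/
def pgen (p : ℕ) (H : Subgroup G) : Subgroup G :=
  Subgroup.closure {g : G | g ∈ H ∧ ∃ k : ℕ, orderOf g = p ^ k}

theorem pgen_le (p : ℕ) (H : Subgroup G) : pgen p H ≤ H :=
  (Subgroup.closure_le _).mpr (fun _ hg => hg.1)

theorem pgen_mono (p : ℕ) {H K : Subgroup G} (h : H ≤ K) : pgen p H ≤ pgen p K :=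
  Subgroup.closure_mono (fun _ hg => ⟨h hg.1, hg.2⟩)

theorem pgen_pgen (p : ℕ) (H : Subgroup G) : pgen p (pgen p H) = pgen p H :=
  le_antisymm (pgen_le p _) ((Subgroup.closure_le _).mpr
    (fun _ hg => Subgroup.subset_closure ⟨Subgroup.subset_closure hg, hg.2⟩))

theorem pgen_smul (p : ℕ) (φ : MulAut G) (H : Subgroup G) : pgen p (φ • H) = φ • pgen p H := by
  unfold pgen
  rw [Subgroup.smul_closure]
  congr 1
  ext g
  rw [Set.mem_smul_set]
  constructor
  · rintro ⟨hg, k, hk⟩
    rw [Subgroup.mem_pointwise_smul_iff_inv_smul_mem] at hg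
    refine ⟨φ⁻¹ • g, ⟨hg, k, ?_⟩, smul_inv_smul φ g⟩
    rw [← hk]
    exact MulEquiv.orderOf_eq φ⁻¹ g
  · rintro ⟨h, ⟨hh, k, hk⟩, rfl⟩
    refine ⟨Subgroup.smul_mem_pointwise_smul _ _ _ hh, k, ?_⟩
    rw [← hk]
    exact MulEquiv.orderOf_eq φ h

theorem closure_subtype (p : ℕ) (H : Subgroup G) (hH : pgen p H = H) :
    Subgroup.closure {h : H | ∃ k : ℕ, orderOf h = p ^ k} = ⊤ := by
  apply Subgroup.map_injective H.subtype_injective
  rw [MonoidHom.map_closure, ← MonoidHom.range_eq_map, Subgroup.range_subtype]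
  conv_rhs => rw [← hH]
  unfold pgen
  congr 1
  ext g
  constructor
  · rintro ⟨h, ⟨k, hk⟩, rfl⟩
    exact ⟨h.2, k, by rw [← hk]; exact Subgroup.orderOf_coe h⟩
  · rintro ⟨hg, k, hk⟩
    exact ⟨⟨g, hg⟩, ⟨k, by rw [← hk, ← Subgroup.orderOf_coe]⟩, rfl⟩

end

theorem cover_aux (p : ℕ) [Fact p.Prime] {ι : Type v} [Fintype ι] :
    ∀ n : ℕ, ∀ (G : Type u) [Group G] [Finite G], Nat.card G = n →
      Subgroup.closure {g : G | ∃ k : ℕ, orderOf g = p ^ k} = ⊤ →
      ∀ K : ι → Subgroup G, (∀ i, K i ≠ ⊤) →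
      (∀ g : G, (∃ k : ℕ, orderOf g = p ^ k) → ∃ i, g ∈ K i) → p + 1 ≤ Fintype.card ι := by
  intro n
  induction n using Nat.strong_induction_on with
  | _ n ih =>
  intro G _ _ hcard hgen K hK hcov
  have hp : p.Prime := Fact.out
  by_cases hPG : IsPGroup p G
  · apply pgroup_cover p hPG K hK
    intro g
    exact hcov g ((IsPGroup.iff_orderOf.mp hPG) g)
  by_contra hlt
  push Not at hlt
  -- (a) proper `p`-generated subgroups lie in a member
  have hA : ∀ H : Subgroup G, H ≠ ⊤ → pgen p H = H → ∃ i, H ≤ K i := by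
    intro H hH1 hH2
    by_contra hno
    push Not at hno
    have hlt' : Nat.card H < n := by
      rw [← hcard]
      apply lt_of_le_of_ne (Subgroup.card_le_card_group H)
      intro h
      exact hH1 (Subgroup.eq_top_of_card_eq H h)
    have := ih (Nat.card H) hlt' H rfl (closure_subtype p H hH2)
      (fun i => (K i).subgroupOf H) ?_ ?_
    · omega
    · intro i h
      exact hno i (Subgroup.subgroupOf_eq_top.mp h)
    · intro g hg
      obtain ⟨i, hi⟩ := hcov (g : G) (by
        obtain ⟨k, hk⟩ := hg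
        exact ⟨k, by rw [Subgroup.orderOf_coe]; exact hk⟩)
      exact ⟨i, Subgroup.mem_subgroupOf.mpr hi⟩
  obtain ⟨𝓗, h𝓗⟩ : ∃ 𝓗 : Subgroup G → Prop, 𝓗 = fun H => H ≠ ⊤ ∧ pgen p H = H := ⟨_, rfl⟩
  have h𝓗iff : ∀ H, 𝓗 H ↔ (H ≠ ⊤ ∧ pgen p H = H) := fun H => by rw [h𝓗]
  have hB : ∀ H, 𝓗 H → ∃ M, H ≤ M ∧ Maximal 𝓗 M := fun H hH => Finite.exists_le_maximal hH
  -- (c) card bound
  have hC : Nat.card {M : Subgroup G // Maximal 𝓗 M} ≤ Fintype.card ι := by
    have hch : ∀ M : {M : Subgroup G // Maximal 𝓗 M}, ∃ i, M.1 ≤ K i :=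
      fun M => hA M.1 ((h𝓗iff _).mp M.2.prop).1 ((h𝓗iff _).mp M.2.prop).2
    choose f hf using hch
    have key : ∀ M : {M : Subgroup G // Maximal 𝓗 M}, M.1 = pgen p (K (f M)) := by
      intro M
      have h1 : M.1 ≤ pgen p (K (f M)) := by
        have := pgen_mono p (hf M)
        rwa [((h𝓗iff _).mp M.2.prop).2] at this
      have h2 : 𝓗 (pgen p (K (f M))) := (h𝓗iff _).mpr
        ⟨fun h => hK (f M) (top_le_iff.mp (h ▸ pgen_le p _)), pgen_pgen p _⟩
      exact le_antisymm h1 (M.2.le_of_ge h2 h1)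
    have hinj : Function.Injective f := by
      intro M N hMN
      apply Subtype.ext
      rw [key M, key N, hMN]
    rw [← Nat.card_eq_fintype_card]
    exact Nat.card_le_card_of_injective f hinj
  -- (d) invariance
  have h𝓗conj : ∀ (φ : MulAut G) (H : Subgroup G), 𝓗 H → 𝓗 (φ • H) := by
    intro φ H hH
    rw [h𝓗iff] at hH ⊢
    refine ⟨?_, by rw [pgen_smul, hH.2]⟩
    intro h
    apply hH.1
    rw [eq_top_iff] at h ⊢
    rw [Subgroup.subset_pointwise_smul_iff] at h
    intro x _
    have : φ • x ∈ (⊤ : Subgroup G) := Subgroup.mem_top _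
    have h2 := h ((Subgroup.mem_inv_pointwise_smul_iff).mpr this)
    exact h2
  have hMconj : ∀ (φ : MulAut G) (M : Subgroup G), Maximal 𝓗 M → Maximal 𝓗 (φ • M) := by
    intro φ M hM
    refine ⟨h𝓗conj φ M hM.prop, ?_⟩
    intro N hN hle
    rw [Subgroup.pointwise_smul_subset_iff] at hle
    have h2 := hM.le_of_ge (h𝓗conj φ⁻¹ N hN) hle
    rw [Subgroup.subset_pointwise_smul_iff]
    exact h2
  -- zpowers of p-elements are in 𝓗
  have hZ : ∀ x : G, (∃ k : ℕ, orderOf x = p ^ k) → 𝓗 (Subgroup.zpowers x) := by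
    intro x hx
    rw [h𝓗iff]
    refine ⟨?_, le_antisymm (pgen_le p _)
      (Subgroup.zpowers_le.mpr (Subgroup.subset_closure ⟨Subgroup.mem_zpowers x, hx⟩))⟩
    intro h
    apply hPG
    obtain ⟨k, hk⟩ := hx
    apply IsPGroup.of_card (n := k)
    rw [← hk, ← Nat.card_zpowers, h, Subgroup.card_top]
  -- (e) p-elements normalize maximal members
  have hE : ∀ x : G, (∃ k : ℕ, orderOf x = p ^ k) → ∀ M, Maximal 𝓗 M →
      MulAut.conj x • M = M := by
    intro x hx M hM
    by_contra hne
    obtain ⟨M₀, hxM₀, hM₀⟩ := hB _ (hZ x hx)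
    have hx0 : x ∈ M₀ := hxM₀ (Subgroup.mem_zpowers x)
    obtain ⟨N, hN⟩ : ∃ N : Subgroup G, N = (MulAction.stabilizer (MulAut G) M).comap MulAut.conj :=
      ⟨_, rfl⟩
    have hNiff : ∀ g : G, g ∈ N ↔ MulAut.conj g • M = M := by
      intro g
      rw [hN, Subgroup.mem_comap, MulAction.mem_stabilizer_iff]
    have hxN : x ∉ N := fun h => hne ((hNiff x).mp h)
    have hpow : ∀ d : ℕ, 0 < d → d < p → x ^ d ∉ N := by
      intro d hd0 hdp hd
      obtain ⟨k, hk⟩ := hx
      have hcop : Nat.Coprime d (orderOf x) := by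
        rw [hk]
        apply Nat.Coprime.pow_right
        exact (Nat.coprime_of_lt_prime hd0.ne' hdp hp).symm
      obtain ⟨m, hm⟩ := exists_pow_eq_self_of_coprime hcop
      exact hxN (hm ▸ N.pow_mem hd m)
    let F : Option (Fin p) → {M : Subgroup G // Maximal 𝓗 M} := fun o => match o with
      | none => ⟨M₀, hM₀⟩
      | some k => ⟨MulAut.conj (x ^ (k : ℕ)) • M, hMconj _ M hM⟩
    have hFinj : Function.Injective F := by
      intro a b hab
      have hnone : ∀ k : Fin p, F none ≠ F (some k) := by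
        intro k h
        have h1 : M₀ = MulAut.conj (x ^ (k : ℕ)) • M := congrArg Subtype.val h
        have h2 : M = M₀ := by
          have := congrArg (fun S => (MulAut.conj (x ^ (k : ℕ)))⁻¹ • S) h1
          simp only [inv_smul_smul] at this
          rw [← this, ← map_inv, Subgroup.conj_smul_eq_self_of_mem (inv_mem (pow_mem hx0 _))]
        apply hne
        rw [h2]
        exact Subgroup.conj_smul_eq_self_of_mem hx0
      have hsome : ∀ i j : Fin p, (i : ℕ) < j → F (some i) ≠ F (some j) := by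
        intro i j hij h
        have h1 : MulAut.conj (x ^ (i : ℕ)) • M = MulAut.conj (x ^ (j : ℕ)) • M :=
          congrArg Subtype.val h
        have e : x ^ (j : ℕ) = x ^ (i : ℕ) * x ^ ((j : ℕ) - i) := by
          rw [← pow_add]; congr 1; omega
        rw [e, map_mul, mul_smul] at h1
        have h2 := smul_left_cancel _ h1
        exact hpow ((j : ℕ) - i) (by omega) (by have := j.2; omega) ((hNiff _).mpr h2.symm)
      match a, b with
      | none, none => rfl
      | none, some k => exact absurd hab (hnone k)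
      | some k, none => exact absurd hab.symm (hnone k)
      | some i, some j =>
        rcases lt_trichotomy (i : ℕ) j with h | h | h
        · exact absurd hab (hsome i j h)
        · rw [Fin.ext h]
        · exact absurd hab.symm (hsome j i h)
    have := Nat.card_le_card_of_injective F hFinj
    rw [Nat.card_eq_fintype_card, Fintype.card_option, Fintype.card_fin] at this
    omega
  -- (f) maximal members are normal
  have hF : ∀ M, Maximal 𝓗 M → M.Normal := by
    intro M hM
    have htop : (MulAction.stabilizer (MulAut G) M).comap MulAut.conj = ⊤ := by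
      rw [eq_top_iff, ← hgen, Subgroup.closure_le]
      intro x hx
      show MulAut.conj x ∈ MulAction.stabilizer (MulAut G) M
      rw [MulAction.mem_stabilizer_iff]
      exact hE x hx M hM
    constructor
    intro m hm g
    have hg : g ∈ (MulAction.stabilizer (MulAut G) M).comap MulAut.conj := by
      rw [htop]; trivial
    have hg' : MulAut.conj g • M = M := hg
    rw [← hg']
    have := Subgroup.smul_mem_pointwise_smul m (MulAut.conj g) M hm
    rwa [MulAut.smul_def, MulAut.conj_apply] at this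
  -- (g) apply the p-group lemma to a Sylow subgroup
  obtain ⟨P⟩ : Nonempty (Sylow p G) := inferInstance
  have : Fintype {M : Subgroup G // Maximal 𝓗 M} := Fintype.ofFinite _
  have hfin := pgroup_cover p P.isPGroup'
    (fun M : {M : Subgroup G // Maximal 𝓗 M} => M.1.subgroupOf (P : Subgroup G)) ?_ ?_
  · rw [← Nat.card_eq_fintype_card] at hfin
    omega
  · intro M h
    rw [Subgroup.subgroupOf_eq_top] at h
    have hMn := hF M.1 M.2
    apply ((h𝓗iff _).mp M.2.prop).1
    rw [eq_top_iff, ← hgen, Subgroup.closure_le]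
    intro y hy
    obtain ⟨k, hk⟩ := hy
    have hzp : IsPGroup p (Subgroup.zpowers y) := by
      apply IsPGroup.of_card (n := k)
      rw [Nat.card_zpowers, hk]
    obtain ⟨Q, hQ⟩ := hzp.exists_le_sylow
    obtain ⟨g, hg⟩ := MulAction.exists_smul_eq G P Q
    have hyQ : y ∈ (Q : Subgroup G) := hQ (Subgroup.mem_zpowers y)
    rw [← hg, Sylow.coe_subgroup_smul] at hyQ
    rw [Subgroup.mem_pointwise_smul_iff_inv_smul_mem] at hyQ
    have h1 := h hyQ
    have h2 := hMn.conj_mem _ h1 g
    rw [← map_inv, MulAut.smul_def, MulAut.conj_apply, inv_inv] at h2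
    have e : g * (g⁻¹ * y * g) * g⁻¹ = y := by group
    rw [e] at h2
    exact h2
  · intro g
    have hgp : ∃ k : ℕ, orderOf (g : G) = p ^ k := by
      obtain ⟨k, hk⟩ := (IsPGroup.iff_orderOf.mp P.isPGroup') g
      exact ⟨k, by rw [Subgroup.orderOf_coe]; exact hk⟩
    obtain ⟨M, hgM, hM⟩ := hB _ (hZ (g : G) hgp)
    exact ⟨⟨M, hM⟩, Subgroup.mem_subgroupOf.mpr (hgM (Subgroup.mem_zpowers _))⟩

end Cfsg.Agent.Helper4.CoverP
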