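import Mathlib
import Cfsg.Agent.Helper4.CycNormal

set_option autoImplicit false

namespace Cfsg.Agent.Helper4.CycNormal2

open Cfsg.Agent.Helper4.CycNormal

/-- `p ∣ k^p - 1 → p ∣ k - 1` -/
theorem nt_fermat (p : ℕ) [Fact p.Prime] (k : ℤ) (h : (p : ℤ) ∣ k ^ p - 1) : (p : ℤ) ∣ k - 1 := by
  have h1 : ((k ^ p - 1 : ℤ) : ZMod p) = 0 := (ZMod.intCast_zmod_eq_zero_iff_dvd _ _).mpr h
  have h2 : ((k - 1 : ℤ) : ZMod p) = 0 := by
    push_cast at h1 ⊢
    rw [ZMod.pow_card] at h1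
    exact h1
  exact (ZMod.intCast_zmod_eq_zero_iff_dvd _ _).mp h2

/-- lifting the exponent, odd prime -/
theorem nt_odd (p : ℕ) [hp : Fact p.Prime] (hodd : p ≠ 2) (n : ℕ) (k : ℤ)
    (h : (p : ℤ) ^ (n + 1) ∣ k ^ p - 1) : (p : ℤ) ^ n ∣ k - 1 := by
  have h1 : (p : ℤ) ∣ k - 1 := by
    apply nt_fermat
    exact dvd_trans (dvd_pow_self _ (Nat.succ_ne_zero n)) h
  have hpk : ¬ (p : ℤ) ∣ k := by
    intro h2
    have h3 : (p : ℤ) ∣ 1 := by
      have := dvd_sub h2 h1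
      simpa using this
    have h4 := Int.natAbs_dvd_natAbs.mpr h3
    simp at h4
    exact hp.out.one_lt.ne' h4
  have hoddp : Odd p := hp.out.odd_of_ne_two hodd
  have key := Int.emultiplicity_pow_sub_pow hp.out hoddp (x := k) (y := 1) h1 hpk p
  rw [one_pow, hp.out.emultiplicity_self] at key
  have h5 : ((n + 1 : ℕ) : ℕ∞) ≤ emultiplicity (p : ℤ) (k ^ p - 1) :=
    pow_dvd_iff_le_emultiplicity.mp h
  rw [key] at h5
  apply pow_dvd_iff_le_emultiplicity.mpr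
  generalize emultiplicity (p : ℤ) (k - 1) = e at h5
  induction e using ENat.recTopCoe with
  | top => exact le_top
  | coe e =>
    have h6 : ((n + 1 : ℕ) : ℕ∞) ≤ ((e + 1 : ℕ) : ℕ∞) := by
      push_cast
      exact h5
    have h7 : n + 1 ≤ e + 1 := by exact_mod_cast h6
    exact_mod_cast (by omega : n ≤ e)

/-- `2^(n+1) ∣ k^4 - 1 → 2^n ∣ k^2 - 1` and `8 ∣ k^2 - 1` -/
theorem nt_four (n : ℕ) (k : ℤ) (h : (2 : ℤ) ^ (n + 1) ∣ k ^ 4 - 1) :
    (2 : ℤ) ^ n ∣ k ^ 2 - 1 ∧ (8 : ℤ) ∣ k ^ 2 - 1 := by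
  have hodd : ¬ (2 : ℤ) ∣ k := by
    intro h2
    have h3 : (2 : ℤ) ∣ k ^ 4 - 1 := dvd_trans (dvd_pow_self 2 (Nat.succ_ne_zero n)) h
    have h4 : (2 : ℤ) ∣ k ^ 4 := dvd_pow h2 (by norm_num)
    have h5 : (2 : ℤ) ∣ 1 := by
      have := dvd_sub h4 h3
      simp at this
    omega
  obtain ⟨j, hj⟩ : ∃ j : ℤ, k = 2 * j + 1 := ⟨k / 2, by omega⟩
  constructor
  · have e : k ^ 4 - 1 = 2 * ((k ^ 2 - 1) * (2 * j ^ 2 + 2 * j + 1)) := by rw [hj]; ring
    rw [e, pow_succ'] at h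
    have h2 : (2 : ℤ) ^ n ∣ (k ^ 2 - 1) * (2 * j ^ 2 + 2 * j + 1) :=
      (mul_dvd_mul_iff_left (by norm_num : (2 : ℤ) ≠ 0)).mp h
    have hcop : IsCoprime ((2 : ℤ) ^ n) (2 * j ^ 2 + 2 * j + 1) := by
      apply IsCoprime.pow_left
      exact ⟨-(j ^ 2 + j), 1, by ring⟩
    exact hcop.dvd_of_dvd_mul_right h2
  · rcases Int.even_or_odd j with ⟨t, ht⟩ | ⟨t, ht⟩
    · exact ⟨t * (2 * t + 1), by rw [hj, ht]; ring⟩
    · exact ⟨(2 * t + 1) * (t + 1), by rw [hj, ht]; ring⟩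

section grp

variable {G : Type*} [Group G]

theorem conj_iter {g a : G} {k : ℤ} (h : g * a * g⁻¹ = a ^ k) (j : ℕ) :
    g ^ j * a * (g ^ j)⁻¹ = a ^ (k ^ j) := by
  induction j with
  | zero => simp
  | succ j ih =>
    calc g ^ (j + 1) * a * (g ^ (j + 1))⁻¹ = g * (g ^ j * a * (g ^ j)⁻¹) * g⁻¹ := by
          rw [pow_succ']; group
      _ = g * a ^ (k ^ j) * g⁻¹ := by rw [ih]
      _ = a ^ (k ^ (j + 1)) := by rw [conj_zpow' h, ← zpow_mul, pow_succ']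

/-- if `g^j` commutes with `a` and `g a g⁻¹ = a^k` then `N ∣ k^j - 1` -/
theorem dvd_of_pow_comm {g a : G} {k : ℤ} {N : ℕ} (ha : orderOf a = N)
    (h : g * a * g⁻¹ = a ^ k) (j : ℕ) (hc : g ^ j * a = a * g ^ j) : (N : ℤ) ∣ k ^ j - 1 := by
  have h1 := conj_iter h j
  rw [hc, mul_inv_cancel_right] at h1
  apply dvd_of_zpow_eq_one ha
  rw [zpow_sub, ← h1, zpow_one, mul_inv_cancel]

theorem zpow_of_dvd_sub {a : G} {N : ℕ} (ha : orderOf a = N) {k l : ℤ} (h : (N : ℤ) ∣ k - l) :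
    a ^ k = a ^ l := by
  have := zpow_eq_one_of_dvd ha h
  rw [zpow_sub, mul_inv_eq_one] at this
  exact this

theorem conj_pow_right {u y w : G} (h : y * u * y⁻¹ = u * w)
    (hwy : Commute w y) (k : ℕ) : y ^ k * u * (y ^ k)⁻¹ = u * w ^ k := by
  induction k with
  | zero => simp
  | succ k ih =>
    have hwy' : y * w ^ k * y⁻¹ = w ^ k := by
      rw [← (hwy.pow_left k).eq, mul_inv_cancel_right]
    calc y ^ (k + 1) * u * (y ^ (k + 1))⁻¹ = y * (y ^ k * u * (y ^ k)⁻¹) * y⁻¹ := by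
          rw [pow_succ']; group
      _ = (y * u * y⁻¹) * (y * w ^ k * y⁻¹) := by rw [ih]; group
      _ = u * w ^ (k + 1) := by rw [h, hwy', mul_assoc, ← pow_succ']

theorem mul_pow_formula {u y w : G} (h : y * u * y⁻¹ = u * w) (hwu : Commute w u)
    (hwy : Commute w y) (k : ℕ) : (u * y) ^ k = u ^ k * w ^ (k.choose 2) * y ^ k := by
  induction k with
  | zero => simp
  | succ k ih =>
    have h1 : y ^ k * u = u * w ^ k * y ^ k := by
      rw [← conj_pow_right h hwy k]; group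
    have hc : Nat.choose (k + 1) 2 = k + Nat.choose k 2 := by
      rw [Nat.choose_succ_succ', Nat.choose_one_right]
    have hwu' : w ^ (k.choose 2) * u = u * w ^ (k.choose 2) := (hwu.pow_left _).eq
    calc (u * y) ^ (k + 1) = u ^ k * w ^ (k.choose 2) * (y ^ k * u) * y := by
          rw [pow_succ, ih]; group
      _ = u ^ k * (w ^ (k.choose 2) * u) * w ^ k * y ^ k * y := by rw [h1]; group
      _ = u ^ k * u * (w ^ (k.choose 2) * w ^ k) * (y ^ k * y) := by rw [hwu']; group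
      _ = u ^ (k + 1) * w ^ ((k + 1).choose 2) * y ^ (k + 1) := by
          rw [← pow_succ, ← pow_succ, ← pow_add, hc, Nat.add_comm (k.choose 2) k]

end grp


section setting

variable {G : Type*} [Group G] {p : ℕ} [hp : Fact p.Prime] {a : G} {N : ℕ}

theorem zpow_natpow (a : G) (p N : ℕ) : a ^ ((p : ℤ) ^ N) = a ^ (p ^ N) := by
  rw [← zpow_natCast]
  congr 1

theorem z0_order (ha : orderOf a = p ^ (N + 1)) : orderOf (a ^ (p ^ N)) = p := by
  rw [orderOf_pow' _ (pow_ne_zero _ hp.out.ne_zero), ha,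
    Nat.gcd_eq_right (pow_dvd_pow p (Nat.le_succ N)), pow_succ,
    Nat.mul_div_cancel_left _ (pow_pos hp.out.pos N)]

/-- elements of `⟨a⟩` of order dividing `p` -/
theorem pow_p_mem (ha : orderOf a = p ^ (N + 1)) {u : G} (hu : u ∈ Subgroup.zpowers a)
    (hup : u ^ p = 1) : u ∈ Subgroup.zpowers (a ^ (p ^ N)) := by
  obtain ⟨i, rfl⟩ := Subgroup.mem_zpowers_iff.mp hu
  have h1 : a ^ (i * p) = 1 := by rw [zpow_mul, zpow_natCast]; exact hup
  have h2 := dvd_of_zpow_eq_one ha h1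
  push_cast at h2
  rw [pow_succ] at h2
  have h3 : (p : ℤ) ^ N ∣ i :=
    (mul_dvd_mul_iff_right (by exact_mod_cast hp.out.ne_zero)).mp h2
  obtain ⟨d, rfl⟩ := h3
  rw [zpow_mul, zpow_natpow]
  exact zpow_mem (Subgroup.mem_zpowers _) d

theorem conj_mem_M (ha : orderOf a = p ^ (N + 1)) {m : G}
    (hm : m * a * m⁻¹ ∈ Subgroup.zpowers a) (hmp : m * a ^ p = a ^ p * m) :
    ∃ j : ℤ, m * a * m⁻¹ = a * (a ^ (p ^ N)) ^ j := by
  obtain ⟨k, hk⟩ := Subgroup.mem_zpowers_iff.mp hm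
  have h1 : m * a ^ p * m⁻¹ = a ^ p := by rw [hmp, mul_inv_cancel_right]
  rw [← conj_pow, ← hk, ← zpow_natCast, ← zpow_mul] at h1
  have h2 : a ^ (k * (p : ℤ) - (p : ℤ)) = 1 := by
    rw [zpow_sub, h1, zpow_natCast, mul_inv_cancel]
  have h3 := dvd_of_zpow_eq_one ha h2
  push_cast at h3
  have e : k * (p : ℤ) - (p : ℤ) = (k - 1) * (p : ℤ) := by ring
  rw [pow_succ, e] at h3
  have h4 : (p : ℤ) ^ N ∣ k - 1 :=
    (mul_dvd_mul_iff_right (by exact_mod_cast hp.out.ne_zero)).mp h3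
  obtain ⟨d, hd⟩ := h4
  refine ⟨d, ?_⟩
  rw [← hk, ← zpow_natpow, ← zpow_mul]
  calc a ^ k = a ^ (1 + (p : ℤ) ^ N * d) := by congr 1; linarith
    _ = a * a ^ ((p : ℤ) ^ N * d) := by rw [zpow_add, zpow_one]

omit hp in
theorem comm_z0 (hN : 1 ≤ N) {m : G} (hmp : m * a ^ p = a ^ p * m) :
    Commute m (a ^ (p ^ N)) := by
  obtain ⟨N', rfl⟩ : ∃ N', N = N' + 1 := ⟨N - 1, by omega⟩
  rw [pow_succ', pow_mul]
  exact Commute.pow_right hmp _

theorem relIndex_eq [Finite G] (ha : orderOf a = p ^ (N + 1)) (hN : 1 ≤ N)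
    (hnorm : ∀ g : G, g * a * g⁻¹ ∈ Subgroup.zpowers a)
    (hcent : ∀ g : G, g * a = a * g → g ∈ Subgroup.zpowers a)
    (M : Subgroup G) (hM : ∀ m : G, m ∈ M ↔ m * a ^ p = a ^ p * m)
    (g : G) (hgM : g ∈ M) (hgU : g ∉ Subgroup.zpowers a) :
    (Subgroup.zpowers a).relIndex M = p := by
  have hB1 : ∀ m ∈ M, ∃ j : ℤ, m * a * m⁻¹ = a * (a ^ (p ^ N)) ^ j :=
    fun m hm => conj_mem_M ha (hnorm m) ((hM m).mp hm)
  have hB2 : ∀ m ∈ M, Commute m (a ^ (p ^ N)) := fun m hm => comm_z0 hN ((hM m).mp hm)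
  obtain ⟨φ, hφ⟩ : ∃ φ : M →* G, ∀ m : M, φ m = a⁻¹ * ((m : G) * a * (m : G)⁻¹) := by
    refine ⟨MonoidHom.mk' (fun m : M => a⁻¹ * ((m : G) * a * (m : G)⁻¹)) ?_, fun m => rfl⟩
    intro m m'
    obtain ⟨j, hj⟩ := hB1 m'.1 m'.2
    have h1 : (m : G) * (a ^ (p ^ N)) ^ j * (m : G)⁻¹ = (a ^ (p ^ N)) ^ j := by
      rw [((hB2 m.1 m.2).zpow_right j).eq, mul_inv_cancel_right]
    show a⁻¹ * (((m * m' : M) : G) * a * ((m * m' : M) : G)⁻¹) =
      a⁻¹ * ((m : G) * a * (m : G)⁻¹) * (a⁻¹ * ((m' : G) * a * (m' : G)⁻¹))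
    rw [hj, inv_mul_cancel_left]
    calc a⁻¹ * (((m * m' : M) : G) * a * ((m * m' : M) : G)⁻¹)
        = a⁻¹ * ((m : G) * ((m' : G) * a * (m' : G)⁻¹) * (m : G)⁻¹) := by
          rw [Subgroup.coe_mul]; group
      _ = a⁻¹ * ((m : G) * a * (m : G)⁻¹) * ((m : G) * (a ^ (p ^ N)) ^ j * (m : G)⁻¹) := by
          rw [hj]; group
      _ = _ := by rw [h1]
  have hker : φ.ker = (Subgroup.zpowers a).subgroupOf M := by
    ext m
    rw [MonoidHom.mem_ker, hφ, Subgroup.mem_subgroupOf]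
    constructor
    · intro h
      apply hcent
      have h2 : (m : G) * a * (m : G)⁻¹ = a := by
        have := congrArg (fun t => a * t) h
        simpa using this
      exact mul_inv_eq_iff_eq_mul.mp h2
    · intro h
      obtain ⟨i, hi⟩ := Subgroup.mem_zpowers_iff.mp h
      rw [← hi]
      have : a ^ i * a * (a ^ i)⁻¹ = a := by
        rw [(Commute.zpow_left (Commute.refl a) i).eq, mul_inv_cancel_right]
      rw [this, inv_mul_cancel]
  have hrange : φ.range ≤ Subgroup.zpowers (a ^ (p ^ N)) := by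
    rintro _ ⟨m, rfl⟩
    obtain ⟨j, hj⟩ := hB1 m.1 m.2
    rw [hφ, hj, inv_mul_cancel_left]
    exact zpow_mem (Subgroup.mem_zpowers _) j
  have hcard : Nat.card φ.range ∣ p := by
    have := Subgroup.card_dvd_of_le hrange
    rwa [Nat.card_zpowers, z0_order ha] at this
  rw [Subgroup.relIndex, ← hker, Subgroup.index_ker]
  rcases (Nat.dvd_prime hp.out).mp hcard with h1 | h1
  · exfalso
    have h2 : φ ⟨g, hgM⟩ = 1 := by
      have hsub : Subsingleton φ.range := (Nat.card_eq_one_iff_unique.mp h1).1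
      have := Subsingleton.elim (⟨φ ⟨g, hgM⟩, ⟨_, rfl⟩⟩ : φ.range) 1
      exact congrArg Subtype.val this
    have hmem : (⟨g, hgM⟩ : M) ∈ φ.ker := h2
    rw [hker, Subgroup.mem_subgroupOf] at hmem
    exact hgU hmem
  · exact h1


omit hp in
/-- `(a^i * y)^p` computed, where `y a y⁻¹ = a * z^j`, `z = a^(p^N)` -/
theorem pow_p_formula (hN : 1 ≤ N) (hdiv : p ∣ p ^ (N - 1) * p.choose 2) {y : G} {j : ℤ}
    (hj : y * a * y⁻¹ = a * (a ^ (p ^ N)) ^ j) (hyz : Commute y (a ^ (p ^ N))) :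
    ∃ q : ℤ, ∀ i : ℤ, (a ^ i * y) ^ p = a ^ ((i * (1 + (p : ℤ) * q * j)) * (p : ℤ)) * y ^ p := by
  obtain ⟨N', rfl⟩ : ∃ N', N = N' + 1 := ⟨N - 1, by omega⟩
  obtain ⟨q₀, hq₀⟩ := hdiv
  simp only [Nat.add_sub_cancel] at hq₀
  have hq : (p : ℤ) ^ (N' + 1) * ((p.choose 2 : ℕ) : ℤ) = (p : ℤ) * ((p : ℤ) * (q₀ : ℤ)) := by
    have : ((p ^ N' * p.choose 2 : ℕ) : ℤ) = ((p * q₀ : ℕ) : ℤ) := by rw [hq₀]
    push_cast at this
    rw [pow_succ]
    linear_combination (p : ℤ) * this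
  refine ⟨q₀, fun i => ?_⟩
  set z := a ^ (p ^ (N' + 1)) with hz
  have hza : Commute z a := (Commute.refl a).pow_left _
  have hconj : y * a ^ i * y⁻¹ = a ^ i * (z ^ j) ^ i := by
    rw [conj_zpow' hj, (hza.symm.zpow_right j).mul_zpow]
  have hc1 : Commute ((z ^ j) ^ i) (a ^ i) := ((hza.zpow_left j).zpow_left i).zpow_right i
  have hc2 : Commute ((z ^ j) ^ i) y := ((hyz.symm.zpow_left j).zpow_left i)
  rw [mul_pow_formula hconj hc1 hc2 p]
  congr 1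
  have e1 : (a ^ i) ^ p = a ^ (i * (p : ℤ)) := by rw [zpow_mul, zpow_natCast]
  have e2 : ((z ^ j) ^ i) ^ (p.choose 2) =
      a ^ ((p : ℤ) ^ (N' + 1) * j * i * ((p.choose 2 : ℕ) : ℤ)) := by
    rw [hz, ← zpow_natpow, ← zpow_mul, ← zpow_mul, ← zpow_natCast, ← zpow_mul]
    congr 1
    ring
  rw [e1, e2, ← zpow_add]
  congr 1
  linear_combination (j * i) * hq

theorem exists_x [Finite G] (ha : orderOf a = p ^ (N + 1)) (hN : 1 ≤ N)
    (hdiv : p ∣ p ^ (N - 1) * p.choose 2)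
    (hnorm : ∀ g : G, g * a * g⁻¹ ∈ Subgroup.zpowers a)
    (hcent : ∀ g : G, g * a = a * g → g ∈ Subgroup.zpowers a)
    (M : Subgroup G) (hM : ∀ m : G, m ∈ M ↔ m * a ^ p = a ^ p * m)
    (g : G) (hgM : g ∈ M) (hgU : g ∉ Subgroup.zpowers a) :
    ∃ x ∈ M, x ∉ Subgroup.zpowers a ∧ x ^ p = 1 := by
  have hzord : orderOf (a ^ (p ^ N)) = p := z0_order ha
  have hzp : (a ^ (p ^ N)) ^ p = 1 := by
    have := pow_orderOf_eq_one (a ^ (p ^ N))
    rwa [hzord] at this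
  have hUM : ∀ u ∈ Subgroup.zpowers a, u ∈ M := by
    intro u hu
    obtain ⟨i, rfl⟩ := Subgroup.mem_zpowers_iff.mp hu
    rw [hM]
    exact (((Commute.refl a).zpow_left i).pow_right p).eq
  obtain ⟨j, hj⟩ := conj_mem_M ha (hnorm g) ((hM g).mp hgM)
  have hgz : Commute g (a ^ (p ^ N)) := comm_z0 hN ((hM g).mp hgM)
  have hza : Commute (a ^ (p ^ N)) a := (Commute.refl a).pow_left _
  have hwp : ((a ^ (p ^ N)) ^ j) ^ p = 1 := by
    rw [← zpow_natCast, ← zpow_mul, mul_comm, zpow_mul, zpow_natCast, hzp, one_zpow]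
  have hw1 : (a ^ (p ^ N)) ^ j ≠ 1 := by
    intro h
    apply hgU
    apply hcent
    rw [h, mul_one] at hj
    exact mul_inv_eq_iff_eq_mul.mp hj
  have hword : orderOf ((a ^ (p ^ N)) ^ j) = p := orderOf_eq_prime hwp hw1
  have hgp : g ^ p ∈ Subgroup.zpowers a := by
    apply hcent
    have := conj_pow_right hj (hgz.symm.zpow_left j) p
    rw [hwp, mul_one] at this
    exact mul_inv_eq_iff_eq_mul.mp this
  obtain ⟨e, he⟩ := Subgroup.mem_zpowers_iff.mp hgp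
  have h3 : g * a ^ e * g⁻¹ = a ^ e := by
    rw [he, ← pow_succ', pow_succ, mul_inv_cancel_right]
  have h4 : g * a ^ e * g⁻¹ = a ^ e * ((a ^ (p ^ N)) ^ j) ^ e := by
    rw [conj_zpow' hj, (hza.symm.zpow_right j).mul_zpow]
  have h5 : ((a ^ (p ^ N)) ^ j) ^ e = 1 := by
    rw [h3] at h4
    exact mul_eq_left.mp h4.symm
  have h6 : (p : ℤ) ∣ e := by rw [← hword]; exact orderOf_dvd_iff_zpow_eq_one.mpr h5
  obtain ⟨e', rfl⟩ := h6
  obtain ⟨q, hq⟩ := pow_p_formula hN hdiv hj hgz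
  have hcop : IsCoprime (1 + (p : ℤ) * q * j) ((p : ℤ) ^ N) :=
    IsCoprime.pow_right ⟨1, -(q * j), by ring⟩
  obtain ⟨s, t, hst⟩ := hcop
  refine ⟨a ^ (-e' * s) * g, mul_mem (hUM _ (zpow_mem (Subgroup.mem_zpowers a) _)) hgM, ?_, ?_⟩
  · intro hmem
    apply hgU
    have : g = (a ^ (-e' * s))⁻¹ * (a ^ (-e' * s) * g) := by group
    rw [this]
    exact mul_mem (inv_mem (zpow_mem (Subgroup.mem_zpowers a) _)) hmem
  · rw [hq, ← he, ← zpow_add]
    apply zpow_eq_one_of_dvd ha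
    push_cast
    refine ⟨e' * t, ?_⟩
    rw [pow_succ]
    linear_combination (-(p : ℤ) * e') * hst


theorem T_form [Finite G] (ha : orderOf a = p ^ (N + 1)) (hN : 1 ≤ N)
    (hdiv : p ∣ p ^ (N - 1) * p.choose 2)
    (hnorm : ∀ g : G, g * a * g⁻¹ ∈ Subgroup.zpowers a)
    (hcent : ∀ g : G, g * a = a * g → g ∈ Subgroup.zpowers a)
    (M : Subgroup G) (hM : ∀ m : G, m ∈ M ↔ m * a ^ p = a ^ p * m)
    (x : G) (hxM : x ∈ M) (hxU : x ∉ Subgroup.zpowers a) (hxp : x ^ p = 1)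
    (m : G) (hmM : m ∈ M) (hmp : m ^ p = 1) :
    ∃ i : ℤ, ∃ c : ℕ, m = (a ^ (p ^ N)) ^ i * x ^ c := by
  have hzord : orderOf (a ^ (p ^ N)) = p := z0_order ha
  have hzp : (a ^ (p ^ N)) ^ p = 1 := by
    have := pow_orderOf_eq_one (a ^ (p ^ N))
    rwa [hzord] at this
  obtain ⟨j, hj⟩ := conj_mem_M ha (hnorm x) ((hM x).mp hxM)
  have hxz : Commute x (a ^ (p ^ N)) := comm_z0 hN ((hM x).mp hxM)
  have hza : Commute (a ^ (p ^ N)) a := (Commute.refl a).pow_left _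
  have hwp : ((a ^ (p ^ N)) ^ j) ^ p = 1 := by
    rw [← zpow_natCast, ← zpow_mul, mul_comm, zpow_mul, zpow_natCast, hzp, one_zpow]
  have hw1 : (a ^ (p ^ N)) ^ j ≠ 1 := by
    intro h
    apply hxU
    apply hcent
    rw [h, mul_one] at hj
    exact mul_inv_eq_iff_eq_mul.mp hj
  have hword : orderOf ((a ^ (p ^ N)) ^ j) = p := orderOf_eq_prime hwp hw1
  have hzw : Subgroup.zpowers ((a ^ (p ^ N)) ^ j) = Subgroup.zpowers (a ^ (p ^ N)) := by
    apply Subgroup.eq_of_le_of_card_ge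
    · rw [Subgroup.zpowers_le]; exact zpow_mem (Subgroup.mem_zpowers _) j
    · rw [Nat.card_zpowers, Nat.card_zpowers, hword, hzord]
  obtain ⟨t, ht⟩ := conj_mem_M ha (hnorm m) ((hM m).mp hmM)
  obtain ⟨c, hc⟩ : ∃ c : ℕ, ((a ^ (p ^ N)) ^ j) ^ c = (a ^ (p ^ N)) ^ t := by
    have h1 : (a ^ (p ^ N)) ^ t ∈ Subgroup.zpowers ((a ^ (p ^ N)) ^ j) := by
      rw [hzw]; exact zpow_mem (Subgroup.mem_zpowers _) t
    exact (Submonoid.mem_powers_iff _ _).mp (mem_powers_iff_mem_zpowers.mpr h1)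
  have hyc : x ^ c * a * (x ^ c)⁻¹ = a * (a ^ (p ^ N)) ^ t := by
    rw [conj_pow_right hj (hxz.symm.zpow_left j) c, hc]
  have hu' : (x ^ c)⁻¹ * m ∈ Subgroup.zpowers a := by
    apply hcent
    have : ((x ^ c)⁻¹ * m) * a * ((x ^ c)⁻¹ * m)⁻¹ = a := by
      calc ((x ^ c)⁻¹ * m) * a * ((x ^ c)⁻¹ * m)⁻¹
          = (x ^ c)⁻¹ * (m * a * m⁻¹) * (x ^ c) := by group
        _ = (x ^ c)⁻¹ * (x ^ c * a * (x ^ c)⁻¹) * (x ^ c) := by rw [ht, hyc]
        _ = a := by group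
    exact mul_inv_eq_iff_eq_mul.mp this
  have hu : m * (x ^ c)⁻¹ ∈ Subgroup.zpowers a := by
    obtain ⟨i', hi'⟩ := Subgroup.mem_zpowers_iff.mp hu'
    have : m * (x ^ c)⁻¹ = (x ^ c * a * (x ^ c)⁻¹) ^ i' := by
      rw [conj_zpow, hi']; group
    rw [this]
    exact zpow_mem (hnorm _) i'
  obtain ⟨i, hi⟩ := Subgroup.mem_zpowers_iff.mp hu
  have hm_eq : m = a ^ i * x ^ c := by rw [hi]; group
  obtain ⟨q, hq⟩ := pow_p_formula hN hdiv hyc (hxz.pow_left c)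
  have h1 := hq i
  rw [← hm_eq, hmp, ← pow_mul, mul_comm c p, pow_mul, hxp, one_pow, mul_one] at h1
  have h2 := dvd_of_zpow_eq_one ha h1.symm
  push_cast at h2
  rw [pow_succ] at h2
  have h3 : (p : ℤ) ^ N ∣ i * (1 + (p : ℤ) * q * t) :=
    (mul_dvd_mul_iff_right (by exact_mod_cast hp.out.ne_zero)).mp h2
  have hcop : IsCoprime ((p : ℤ) ^ N) (1 + (p : ℤ) * q * t) :=
    IsCoprime.pow_left ⟨-(q * t), 1, by ring⟩
  have h4 : (p : ℤ) ^ N ∣ i := hcop.dvd_of_dvd_mul_right h3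
  obtain ⟨d, rfl⟩ := h4
  refine ⟨d, c, ?_⟩
  rw [hm_eq, zpow_mul, zpow_natpow]

theorem caseB [Finite G] (hG : IsPGroup p G) (ha : orderOf a = p ^ (N + 1)) (hN : 1 ≤ N)
    (hdiv : p ∣ p ^ (N - 1) * p.choose 2)
    (hnorm : ∀ g : G, g * a * g⁻¹ ∈ Subgroup.zpowers a)
    (hcent : ∀ g : G, g * a = a * g → g ∈ Subgroup.zpowers a)
    (M : Subgroup G) (hM : ∀ m : G, m ∈ M ↔ m * a ^ p = a ^ p * m)
    (g : G) (hgM : g ∈ M) (hgU : g ∉ Subgroup.zpowers a) :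
    (Subgroup.zpowers a).relIndex M = p ∧
    IsMulCommutative (Subgroup.closure {x : G | x ∈ M ∧ x ^ p = 1}) ∧
    (∀ x ∈ Subgroup.closure {x : G | x ∈ M ∧ x ^ p = 1}, x ^ p = 1) ∧
    Nat.card (Subgroup.closure {x : G | x ∈ M ∧ x ^ p = 1}) = p ^ 2 ∧
    (Subgroup.closure {x : G | x ∈ M ∧ x ^ p = 1}).Characteristic := by
  have hrel := relIndex_eq ha hN hnorm hcent M hM g hgM hgU
  obtain ⟨x, hxM, hxU, hxp⟩ := exists_x ha hN hdiv hnorm hcent M hM g hgM hgU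
  have hT := T_form ha hN hdiv hnorm hcent M hM x hxM hxU hxp
  have hzord : orderOf (a ^ (p ^ N)) = p := z0_order ha
  have hzp : (a ^ (p ^ N)) ^ p = 1 := by
    have := pow_orderOf_eq_one (a ^ (p ^ N))
    rwa [hzord] at this
  have hxz : Commute x (a ^ (p ^ N)) := comm_z0 hN ((hM x).mp hxM)
  have hUM : ∀ u ∈ Subgroup.zpowers a, u ∈ M := by
    intro u hu
    obtain ⟨i, rfl⟩ := Subgroup.mem_zpowers_iff.mp hu
    rw [hM]
    exact (((Commute.refl a).zpow_left i).pow_right p).eq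
  set T : Set G := {x : G | x ∈ M ∧ x ^ p = 1} with hTdef
  have hTc : ∀ s ∈ T, ∀ t ∈ T, s * t = t * s := by
    intro s hs t ht
    obtain ⟨i, c, rfl⟩ := hT s hs.1 hs.2
    obtain ⟨i', c', rfl⟩ := hT t ht.1 ht.2
    have h1 : Commute ((a ^ (p ^ N)) ^ i) ((a ^ (p ^ N)) ^ i') := Commute.zpow_zpow_self _ i i'
    have h2 : Commute ((a ^ (p ^ N)) ^ i) (x ^ c') := (hxz.symm.zpow_left i).pow_right c'
    have h3 : Commute (x ^ c) ((a ^ (p ^ N)) ^ i') := (hxz.zpow_right i').pow_left c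
    have h4 : Commute (x ^ c) (x ^ c') := Commute.pow_pow_self x c c'
    exact ((h1.mul_right h2).mul_left (h3.mul_right h4)).eq
  set E := Subgroup.closure T with hEdef
  have h1 : E ≤ Subgroup.centralizer T := (Subgroup.closure_le _).mpr
    (fun t ht => Subgroup.mem_centralizer_iff.mpr (fun s hs => hTc s hs t ht))
  have h2 : E ≤ Subgroup.centralizer (E : Set G) := (Subgroup.closure_le _).mpr
    (fun s hs => Subgroup.mem_centralizer_iff.mpr
      (fun t ht => ((Subgroup.mem_centralizer_iff.mp (h1 ht)) s hs).symm))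
  have hEc : ∀ s ∈ E, ∀ t ∈ E, s * t = t * s :=
    fun s hs t ht => (Subgroup.mem_centralizer_iff.mp (h2 ht)) s hs
  have hEp : ∀ e ∈ E, e ^ p = 1 := by
    intro e he
    induction he using Subgroup.closure_induction with
    | mem t ht => exact ht.2
    | one => exact one_pow p
    | mul s t hs ht ihs iht =>
      have : Commute s t := hEc s hs t ht
      rw [this.mul_pow, ihs, iht, mul_one]
    | inv s hs ihs => rw [inv_pow, ihs, inv_one]
  have hEM : E ≤ M := (Subgroup.closure_le _).mpr (fun t ht => ht.1)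
  have hzE : a ^ (p ^ N) ∈ E :=
    Subgroup.subset_closure ⟨hUM _ (pow_mem (Subgroup.mem_zpowers a) _), hzp⟩
  have hxE : x ∈ E := Subgroup.subset_closure ⟨hxM, hxp⟩
  have hEU : E ⊓ Subgroup.zpowers a ≤ Subgroup.zpowers (a ^ (p ^ N)) := by
    intro e he
    exact pow_p_mem ha he.2 (hEp e he.1)
  have hcard : Nat.card E = p ^ 2 := by
    have hle : Nat.card E ≤ p * p := by
      have e1 := Subgroup.relIndex_mul_relIndex ⊥ (E ⊓ Subgroup.zpowers a) E bot_le inf_le_left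
      rw [Subgroup.relIndex_bot_left, Subgroup.relIndex_bot_left, Subgroup.inf_relIndex_left] at e1
      have e2 : Nat.card (E ⊓ Subgroup.zpowers a : Subgroup G) ≤ p := by
        have := Subgroup.card_le_of_le hEU
        rwa [Nat.card_zpowers, hzord] at this
      have e3 : (Subgroup.zpowers a).relIndex E ≤ p := by
        have := Subgroup.relIndex_le_of_le_right hEM (H := Subgroup.zpowers a)
          (by rw [hrel]; exact hp.out.ne_zero)
        rwa [hrel] at this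
      rw [← e1]
      exact Nat.mul_le_mul e2 e3
    obtain ⟨k, hk⟩ := IsPGroup.iff_card.mp (hG.to_subgroup E)
    have hdvd : p ∣ Nat.card E := by
      have := Subgroup.card_dvd_of_le ((Subgroup.zpowers_le).mpr hzE)
      rwa [Nat.card_zpowers, hzord] at this
    have hne : Nat.card E ≠ p := by
      intro h
      have : Subgroup.zpowers (a ^ (p ^ N)) = E :=
        Subgroup.eq_of_le_of_card_ge ((Subgroup.zpowers_le).mpr hzE)
          (by rw [Nat.card_zpowers, hzord, h])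
      apply hxU
      have hx' : x ∈ Subgroup.zpowers (a ^ (p ^ N)) := by rw [this]; exact hxE
      obtain ⟨i, hi⟩ := Subgroup.mem_zpowers_iff.mp hx'
      rw [← hi]
      exact zpow_mem (pow_mem (Subgroup.mem_zpowers a) _) i
    rw [hk] at hle hdvd hne ⊢
    have hp2 := hp.out.two_le
    rcases k with _ | _ | _ | k
    · exfalso
      simp at hdvd
      omega
    · simp at hne
    · rfl
    · exfalso
      have h3 : p ^ 3 ≤ p ^ (k + 1 + 1 + 1) := Nat.pow_le_pow_right hp.out.pos (by omega)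
      have h4 : p ^ 3 ≤ p * p := le_trans h3 hle
      have h5 : 0 < p * p := Nat.mul_pos hp.out.pos hp.out.pos
      nlinarith
  have hMn : ∀ g m, m ∈ M → g * m * g⁻¹ ∈ M := by
    intro g m hm
    rw [hM] at hm ⊢
    obtain ⟨k, hk⟩ := Subgroup.mem_zpowers_iff.mp (hnorm g⁻¹)
    have h3 : g⁻¹ * a ^ p * g = (a ^ p) ^ k := by
      have : g⁻¹ * a ^ p * g⁻¹⁻¹ = (a ^ k) ^ p := by rw [← conj_pow, hk]
      rw [inv_inv] at this
      rw [this, ← zpow_natCast, ← zpow_mul, mul_comm, zpow_mul, zpow_natCast]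
    have h4 : m * (g⁻¹ * a ^ p * g) = (g⁻¹ * a ^ p * g) * m := by
      rw [h3]; exact (Commute.zpow_right hm k).eq
    calc g * m * g⁻¹ * a ^ p = g * (m * (g⁻¹ * a ^ p * g)) * g⁻¹ := by group
      _ = g * ((g⁻¹ * a ^ p * g) * m) * g⁻¹ := by rw [h4]
      _ = a ^ p * (g * m * g⁻¹) := by group
  have hEn : ∀ g, ∀ e ∈ E, g * e * g⁻¹ ∈ E := by
    intro g e he
    induction he using Subgroup.closure_induction with
    | mem t ht =>
      exact Subgroup.subset_closure ⟨hMn g t ht.1, by rw [conj_pow, ht.2, mul_one, mul_inv_cancel]⟩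
    | one => simp
    | mul s t hs ht ihs iht =>
      have : g * (s * t) * g⁻¹ = (g * s * g⁻¹) * (g * t * g⁻¹) := by group
      rw [this]; exact mul_mem ihs iht
    | inv s hs ihs =>
      have : g * s⁻¹ * g⁻¹ = (g * s * g⁻¹)⁻¹ := by group
      rw [this]; exact inv_mem ihs
  refine ⟨hrel, ⟨⟨fun s t => Subtype.ext (hEc s.1 s.2 t.1 t.2)⟩⟩, hEp, hcard, ?_⟩
  have key : ∀ (ϕ : G ≃* G), ∀ t ∈ T, ϕ t ∈ T := by
    intro ϕ t ht
    have htE : t ∈ E := Subgroup.subset_closure ht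
    have hfp : (ϕ t) ^ p = 1 := by rw [← map_pow, ht.2, map_one]
    refine ⟨?_, hfp⟩
    rw [hM]
    have hv : ϕ t * a * (ϕ t)⁻¹ * a⁻¹ = ϕ (t * (ϕ.symm a * t⁻¹ * (ϕ.symm a)⁻¹)) := by
      simp [mul_assoc]
    have hvE : t * (ϕ.symm a * t⁻¹ * (ϕ.symm a)⁻¹) ∈ E := mul_mem htE (hEn _ _ (inv_mem htE))
    have hvp : (ϕ t * a * (ϕ t)⁻¹ * a⁻¹) ^ p = 1 := by rw [hv, ← map_pow, hEp _ hvE, map_one]
    have hvU : ϕ t * a * (ϕ t)⁻¹ * a⁻¹ ∈ Subgroup.zpowers a :=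
      mul_mem (hnorm _) (inv_mem (Subgroup.mem_zpowers a))
    obtain ⟨i, hi⟩ := Subgroup.mem_zpowers_iff.mp hvU
    have hva : Commute (ϕ t * a * (ϕ t)⁻¹ * a⁻¹) a := by
      rw [← hi]; exact (Commute.refl a).zpow_left i
    have h5 : ϕ t * a * (ϕ t)⁻¹ = (ϕ t * a * (ϕ t)⁻¹ * a⁻¹) * a := by group
    have h6 : ϕ t * a ^ p * (ϕ t)⁻¹ = a ^ p := by
      rw [← conj_pow, h5, hva.mul_pow, hvp, one_mul]
    exact mul_inv_eq_iff_eq_mul.mp h6
  rw [Subgroup.characteristic_iff_map_le]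
  intro ϕ
  rw [hEdef, MonoidHom.map_closure, Subgroup.closure_le]
  rintro _ ⟨t, ht, rfl⟩
  exact Subgroup.subset_closure (key ϕ t ht)

end setting

section caseA

variable {G : Type*} [Group G] {a : G} {N : ℕ}

theorem caseA [Finite G] (hG : IsPGroup 2 G) (ha : orderOf a = 2 ^ (N + 1)) (hN : 1 ≤ N)
    (hnorm : ∀ g : G, g * a * g⁻¹ ∈ Subgroup.zpowers a)
    (hcent : ∀ g : G, g * a = a * g → g ∈ Subgroup.zpowers a)
    (hnB : ¬ (2 ≤ N ∧ ∃ g : G, g * a * g⁻¹ = a * a ^ (2 ^ N)))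
    (g₀ : G) (hg₀ : g₀ ∉ Subgroup.zpowers a) :
    Nat.card G = 2 ^ (N + 2) ∧ ∃ b : G, b ∉ Subgroup.zpowers a ∧
      ((b * b = 1 ∧ b * a * b⁻¹ = a⁻¹) ∨ (b * b = a ^ (2 ^ N) ∧ b * a * b⁻¹ = a⁻¹) ∨
       (2 ≤ N ∧ b * b = 1 ∧ b * a * b⁻¹ = a⁻¹ * a ^ (2 ^ N))) := by
  have hz := z_sq ha
  have hcomm_of_mem : ∀ u ∈ Subgroup.zpowers a, u * a = a * u := by
    intro u hu
    obtain ⟨i, rfl⟩ := Subgroup.mem_zpowers_iff.mp hu
    exact ((Commute.refl a).zpow_left i).eq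
  have hA0 : ∀ h : G, h ^ 4 ∈ Subgroup.zpowers a → h ^ 2 ∈ Subgroup.zpowers a := by
    intro h h4
    obtain ⟨k, hk⟩ := Subgroup.mem_zpowers_iff.mp (hnorm h)
    have hd := dvd_of_pow_comm ha hk.symm 4 (hcomm_of_mem _ h4)
    push_cast at hd
    obtain ⟨hd1, hd2⟩ := nt_four N k hd
    have hc2 := conj_iter hk.symm 2
    by_cases hN3 : 3 ≤ N
    · obtain ⟨d, hd⟩ := hd1
      have e : a ^ (k ^ 2) = a * (a ^ (2 ^ N)) ^ d := by
        rw [← z_zpow, ← zpow_mul]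
        calc a ^ (k ^ 2) = a ^ (1 + (2 : ℤ) ^ N * d) := by congr 1; linarith
          _ = a * a ^ ((2 : ℤ) ^ N * d) := by rw [zpow_add, zpow_one]
      rw [e] at hc2
      rcases sq_zpow_cases hz d with h1 | h1
      · rw [h1, mul_one] at hc2
        exact hcent _ (mul_inv_eq_iff_eq_mul.mp hc2)
      · rw [h1] at hc2
        exact (hnB ⟨by omega, h ^ 2, hc2⟩).elim
    · apply hcent
      have h9 : a ^ (k ^ 2) = a := by
        have h8 : ((2 ^ (N + 1) : ℕ) : ℤ) ∣ k ^ 2 - 1 := by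
          refine dvd_trans ?_ hd2
          push_cast
          have : (2 : ℤ) ^ (N + 1) ∣ 2 ^ 3 := pow_dvd_pow (2 : ℤ) (by omega : N + 1 ≤ 3)
          exact this
        have := zpow_of_dvd_sub ha h8
        rwa [zpow_one] at this
      rw [h9] at hc2
      exact mul_inv_eq_iff_eq_mul.mp hc2
  have hA1 : ∀ g : G, g ^ 2 ∈ Subgroup.zpowers a := by
    intro g
    obtain ⟨t, ht⟩ := hG g
    have key : ∀ t : ℕ, g ^ (2 ^ (t + 1)) ∈ Subgroup.zpowers a → g ^ 2 ∈ Subgroup.zpowers a := by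
      intro t
      induction t with
      | zero => intro h; simpa using h
      | succ t ih =>
        intro h
        apply ih
        have h1 : (g ^ (2 ^ t)) ^ 4 ∈ Subgroup.zpowers a := by
          rw [← pow_mul]
          have e : 2 ^ t * 4 = 2 ^ (t + 1 + 1) := by ring
          rw [e]; exact h
        have h2 := hA0 (g ^ (2 ^ t)) h1
        rw [← pow_mul] at h2
        have e : 2 ^ t * 2 = 2 ^ (t + 1) := by ring
        rw [e] at h2; exact h2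
    apply key t
    rw [pow_succ, pow_mul, ht, one_pow]
    exact one_mem _
  have hA2 : ∀ g : G, g ∉ Subgroup.zpowers a →
      g * a * g⁻¹ = a⁻¹ ∨ (2 ≤ N ∧ g * a * g⁻¹ = a⁻¹ * a ^ (2 ^ N)) := by
    intro g hg
    have hgg : (g * g) * a = a * (g * g) := by
      apply hcomm_of_mem; rw [← pow_two]; exact hA1 g
    rcases conj_cases ha (hnorm g) hgg with h | h | h | h
    · exact (hg (hcent g (mul_inv_eq_iff_eq_mul.mp h))).elim
    · by_cases hN2 : 2 ≤ N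
      · exact (hnB ⟨hN2, g, h⟩).elim
      · left
        have hN1 : N = 1 := by omega
        have h4 : a ^ 4 = 1 := by
          have := pow_orderOf_eq_one a
          rw [ha, hN1] at this
          exact this
        rw [h, hN1]
        apply eq_inv_of_mul_eq_one_left
        calc a * a ^ (2 ^ 1) * a = a ^ 4 := by group
          _ = 1 := h4
    · exact Or.inl h
    · by_cases hN2 : 2 ≤ N
      · exact Or.inr ⟨hN2, h⟩
      · exfalso
        have hN1 : N = 1 := by omega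
        apply hg
        apply hcent
        rw [hN1] at h
        have : g * a * g⁻¹ = a := by rw [h]; group
        exact mul_inv_eq_iff_eq_mul.mp this
  have hzc : ∀ g : G, g * a ^ (2 ^ N) * g⁻¹ = a ^ (2 ^ N) := by
    intro g
    have hgg : (g * g) * a = a * (g * g) := by
      apply hcomm_of_mem; rw [← pow_two]; exact hA1 g
    exact conj_z ha hN (conj_cases ha (hnorm g) hgg)
  have hzinv : (a ^ (2 ^ N))⁻¹ = a ^ (2 ^ N) := inv_eq_of_mul_eq_one_left hz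
  have hza : Commute (a ^ (2 ^ N)) a := (Commute.refl a).pow_left _
  have hA3 : ∀ g h : G, g ∉ Subgroup.zpowers a → h ∉ Subgroup.zpowers a →
      g * h ∈ Subgroup.zpowers a := by
    intro g h hg hh
    have e : (g * h) * a * (g * h)⁻¹ = g * (h * a * h⁻¹) * g⁻¹ := by group
    rcases hA2 g hg with h1 | ⟨hN2, h1⟩ <;> rcases hA2 h hh with h2 | ⟨hN2', h2⟩
    · apply hcent
      have : (g * h) * a * (g * h)⁻¹ = a := by
        rw [e, h2, ← conj_inv, h1, inv_inv]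
      exact mul_inv_eq_iff_eq_mul.mp this
    · exfalso
      apply hnB
      refine ⟨hN2', g * h, ?_⟩
      rw [e, h2]
      calc g * (a⁻¹ * a ^ (2 ^ N)) * g⁻¹ = (g * a * g⁻¹)⁻¹ * (g * a ^ (2 ^ N) * g⁻¹) := by group
        _ = a * a ^ (2 ^ N) := by rw [h1, inv_inv, hzc]
    · exfalso
      apply hnB
      refine ⟨hN2, g * h, ?_⟩
      rw [e, h2]
      calc g * a⁻¹ * g⁻¹ = (g * a * g⁻¹)⁻¹ := by group
        _ = (a ^ (2 ^ N))⁻¹ * a := by rw [h1]; group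
        _ = a * a ^ (2 ^ N) := by rw [hzinv]; exact hza.eq
    · apply hcent
      have : (g * h) * a * (g * h)⁻¹ = a := by
        rw [e, h2]
        calc g * (a⁻¹ * a ^ (2 ^ N)) * g⁻¹ = (g * a * g⁻¹)⁻¹ * (g * a ^ (2 ^ N) * g⁻¹) := by group
          _ = (a⁻¹ * a ^ (2 ^ N))⁻¹ * a ^ (2 ^ N) := by rw [h1, hzc]
          _ = (a ^ (2 ^ N))⁻¹ * a * a ^ (2 ^ N) := by group
          _ = a := by rw [hzinv, hza.eq, mul_assoc, hz, mul_one]
      exact mul_inv_eq_iff_eq_mul.mp this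
  have hidx : (Subgroup.zpowers a).index = 2 := by
    rw [Subgroup.index_eq_two_iff]
    refine ⟨g₀, fun b => ?_⟩
    by_cases hb : b ∈ Subgroup.zpowers a
    · right
      refine ⟨hb, fun h => hg₀ ?_⟩
      have : g₀ = b⁻¹ * (b * g₀) := by group
      rw [this]; exact mul_mem (inv_mem hb) h
    · left
      exact ⟨hA3 b g₀ hb hg₀, hb⟩
  have hcard : Nat.card G = 2 ^ (N + 2) := by
    have := (Subgroup.zpowers a).card_mul_index
    rw [hidx, Nat.card_zpowers, ha] at this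
    rw [← this]; ring
  refine ⟨hcard, ?_⟩
  have hbb : g₀ * g₀ ∈ Subgroup.zpowers a := by rw [← pow_two]; exact hA1 g₀
  rcases hA2 g₀ hg₀ with h | ⟨hN2, h⟩
  · rcases inv_type_sq ha h hbb with h1 | h1
    · exact ⟨g₀, hg₀, Or.inl ⟨h1, h⟩⟩
    · exact ⟨g₀, hg₀, Or.inr (Or.inl ⟨h1, h⟩)⟩
  · rcases invz_type_sq ha hN2 h hbb with h1 | h1
    · exact ⟨g₀, hg₀, Or.inr (Or.inr ⟨hN2, h1, h⟩)⟩
    · obtain ⟨h2, h3⟩ := invz_fix ha h h1
      refine ⟨a * g₀, ?_, Or.inr (Or.inr ⟨hN2, h2, h3⟩)⟩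
      intro hmem
      apply hg₀
      have : g₀ = a⁻¹ * (a * g₀) := by group
      rw [this]
      exact mul_mem (inv_mem (Subgroup.mem_zpowers a)) hmem

end caseA

end Cfsg.Agent.Helper4.CycNormal2
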