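import Mathlib
import Cfsg.Agent.Helper1.MaxClass
import Cfsg.Agent.Helper4.PFour
import Cfsg.Agent.Helper4.Suzuki2

set_option autoImplicit false

namespace Cfsg.Agent.Helper4.MaxClassNormal

section
variable {G : Type*} [Group G]

theorem lcs_stable (k : ℕ)
    (h : (⊤ : Subgroup G).lowerCentralSeries (k + 1) = (⊤ : Subgroup G).lowerCentralSeries k) :
    ∀ j, (⊤ : Subgroup G).lowerCentralSeries (k + j) = (⊤ : Subgroup G).lowerCentralSeries k := by
  intro j
  induction j with
  | zero => rfl
  | succ j ih =>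
    rw [← add_assoc, Subgroup.lowerCentralSeries_succ, ih, ← Subgroup.lowerCentralSeries_succ, h]

theorem lcs_lt [Group.IsNilpotent G] (k : ℕ) (hk : k < Group.nilpotencyClass G) :
    (⊤ : Subgroup G).lowerCentralSeries (k + 1) < (⊤ : Subgroup G).lowerCentralSeries k := by
  apply lt_of_le_of_ne (Subgroup.lowerCentralSeries_antitone _ (Nat.le_succ k))
  intro h
  have h1 := lcs_stable k h (Group.nilpotencyClass G - k)
  rw [Nat.add_sub_cancel' hk.le, Subgroup.lowerCentralSeries_nilpotencyClass] at h1
  have h2 := Subgroup.lowerCentralSeries_eq_bot_iff_nilpotencyClass_le.mp h1.symm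
  omega

/-- the lower central series of a `p`-group of class `c` has `|γ_{k+1}| ≥ p^(c-k)` -/
theorem card_lcs_ge [Finite G] {p : ℕ} [Fact p.Prime] (hG : IsPGroup p G) :
    ∀ j k : ℕ, k + j = Group.nilpotencyClass G →
      p ^ j ≤ Nat.card ((⊤ : Subgroup G).lowerCentralSeries k) := by
  have hp : p.Prime := Fact.out
  have : Group.IsNilpotent G := hG.isNilpotent
  intro j
  induction j with
  | zero =>
    intro k _
    rw [pow_zero]
    exact Nat.card_pos
  | succ j ih =>
    intro k hk
    have h1 := ih (k + 1) (by omega)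
    have h2 := lcs_lt (G := G) k (by omega)
    obtain ⟨a, ha⟩ := (hG.to_subgroup ((⊤ : Subgroup G).lowerCentralSeries k)).exists_card_eq
    obtain ⟨b, hb⟩ := (hG.to_subgroup ((⊤ : Subgroup G).lowerCentralSeries (k + 1))).exists_card_eq
    have h3 : Nat.card ((⊤ : Subgroup G).lowerCentralSeries (k + 1)) <
        Nat.card ((⊤ : Subgroup G).lowerCentralSeries k) := by
      apply lt_of_le_of_ne (Subgroup.card_le_of_le h2.le)
      intro heq
      exact h2.ne (Subgroup.eq_of_le_of_card_ge h2.le heq.ge)
    rw [ha, hb] at h3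
    have hab : b < a := (Nat.pow_lt_pow_iff_right hp.one_lt).mp h3
    rw [ha]
    rw [hb] at h1
    calc p ^ (j + 1) = p ^ j * p := pow_succ _ _
      _ ≤ p ^ b * p := Nat.mul_le_mul_right p h1
      _ = p ^ (b + 1) := (pow_succ _ _).symm
      _ ≤ p ^ a := Nat.pow_le_pow_right hp.pos hab

/-- a normal subgroup whose quotient has class at most `k` contains `γ_{k+1}` -/
theorem lcs_le_of_quotient (N : Subgroup G) [N.Normal] (k : ℕ) [Group.IsNilpotent (G ⧸ N)]
    (h : Group.nilpotencyClass (G ⧸ N) ≤ k) : (⊤ : Subgroup G).lowerCentralSeries k ≤ N := by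
  have h1 := Subgroup.lowerCentralSeries_eq_bot_iff_nilpotencyClass_le.mpr h
  have h2 := Subgroup.map_lowerCentralSeries (S := (⊤ : Subgroup G)) (QuotientGroup.mk' N) k
  rw [Subgroup.map_top_of_surjective _ (QuotientGroup.mk'_surjective N), h1] at h2
  intro x hx
  have : QuotientGroup.mk' N x ∈ ((⊤ : Subgroup G).lowerCentralSeries k).map (QuotientGroup.mk' N) :=
    Subgroup.mem_map_of_mem _ hx
  rw [h2, Subgroup.mem_bot] at this
  exact (QuotientGroup.eq_one_iff x).mp this

end

theorem normal_eq_lcs {G : Type*} [Group G] [Finite G] {p : ℕ} [Fact p.Prime] (n : ℕ)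
    (hG : Nat.card G = p ^ n) (hcl : Group.nilpotencyClass G = n - 1) (N : Subgroup G)
    [N.Normal] (r : ℕ) (hr : 2 ≤ r) (hN : N.index = p ^ r) :
    N = (⊤ : Subgroup G).lowerCentralSeries (r - 1) := by
  have hp : p.Prime := Fact.out
  have hGp : IsPGroup p G := IsPGroup.of_card hG
  have hrn : r ≤ n := by
    have h1 : N.index ∣ Nat.card G := N.index_dvd_card
    rw [hN, hG] at h1
    exact (Nat.pow_dvd_pow_iff_le_right hp.one_lt).mp h1
  have hQ : Nat.card (G ⧸ N) = p ^ r := by rw [← hN, Subgroup.index_eq_card]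
  have hQp : IsPGroup p (G ⧸ N) := IsPGroup.of_card hQ
  have : Group.IsNilpotent (G ⧸ N) := hQp.isNilpotent
  have hcQ := Cfsg.Agent.Helper1.nilpotencyClass_le_of_card_pow p r (G ⧸ N) hQ
  have hle : (⊤ : Subgroup G).lowerCentralSeries (r - 1) ≤ N :=
    lcs_le_of_quotient N (r - 1) (by
      have : max r 2 = r := max_eq_left hr
      omega)
  symm
  apply Subgroup.eq_of_le_of_card_ge hle
  have h1 := card_lcs_ge hGp (n - r) (r - 1) (by omega)
  have h2 : Nat.card N * p ^ r = p ^ n := by rw [← hN, ← hG]; exact N.card_mul_index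
  have h3 : Nat.card N = p ^ (n - r) := by
    have : p ^ (n - r) * p ^ r = p ^ n := by rw [← pow_add]; congr 1; omega
    exact Nat.eq_of_mul_eq_mul_right (pow_pos hp.pos r) (h2.trans this.symm)
  rw [h3]; exact h1

theorem normal_of_commutator_le {G : Type*} [Group G] (M : Subgroup G)
    (h : commutator G ≤ M) : M.Normal := by
  constructor
  intro m hm g
  have e : g * m * g⁻¹ = (g * m * g⁻¹ * m⁻¹) * m := by group
  rw [e]
  exact mul_mem (h (Cfsg.Agent.Helper4.PFour.comm_mem_commutator g m)) hm

theorem card_normal_index_p {G : Type*} [Group G] [Finite G] {p : ℕ} [Fact p.Prime] (n : ℕ)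
    (hG : Nat.card G = p ^ n) (hcl : Group.nilpotencyClass G = n - 1) (hn : 3 ≤ n) :
    Nat.card {N : Subgroup G // N.Normal ∧ N.index = p} = p + 1 := by
  classical
  have hp : p.Prime := Fact.out
  have hGp : IsPGroup p G := IsPGroup.of_card hG
  have hD : (commutator G).index = p ^ 2 :=
    Cfsg.Agent.Helper4.PFour.index_commutator_of_maximal_class_p p n G (by omega) hG hcl
  have hncyc : ¬ IsCyclic (G ⧸ commutator G) := by
    intro h
    have := Cfsg.Agent.Helper4.Suzuki2.commutator_eq_bot_of_cyclic p n G hG h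
    rw [this, Subgroup.index_bot, hG] at hD
    have := Nat.pow_right_injective hp.two_le hD
    omega
  have hM : ∀ g : G, g ∉ commutator G → (commutator G ⊔ Subgroup.zpowers g).index = p := by
    intro g hg
    have h0 := Subgroup.relIndex_mul_index (le_sup_left : commutator G ≤ commutator G ⊔ Subgroup.zpowers g)
    rw [hD] at h0
    have h1 : (commutator G ⊔ Subgroup.zpowers g).index ∣ p ^ 2 := Dvd.intro_left _ h0
    obtain ⟨k, hk, hk2⟩ := (Nat.dvd_prime_pow hp).mp h1
    have hk0 : k ≠ 0 := by
      rintro rfl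
      rw [pow_zero, Subgroup.index_eq_one] at hk2
      apply hncyc
      refine ⟨⟨QuotientGroup.mk' _ g, ?_⟩⟩
      intro x
      obtain ⟨y, rfl⟩ := QuotientGroup.mk'_surjective _ x
      have hy : y ∈ ((commutator G ⊔ Subgroup.zpowers g : Subgroup G) : Set G) := by
        rw [hk2]; trivial
      rw [Subgroup.normal_mul] at hy
      obtain ⟨d, hd, h, hh, rfl⟩ := Set.mem_mul.mp hy
      obtain ⟨j, rfl⟩ := hh
      refine ⟨j, ?_⟩
      show (QuotientGroup.mk' (commutator G) g) ^ j = QuotientGroup.mk' (commutator G) (d * g ^ j)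
      have hd1 : QuotientGroup.mk' (commutator G) d = 1 := (QuotientGroup.eq_one_iff d).mpr hd
      rw [map_mul, map_zpow, hd1, one_mul]
    have hk2' : k ≠ 2 := by
      rintro rfl
      rw [hk2] at h0
      have h3 : (commutator G).relIndex (commutator G ⊔ Subgroup.zpowers g) = 1 := by
        have : (commutator G).relIndex (commutator G ⊔ Subgroup.zpowers g) * p ^ 2 = 1 * p ^ 2 := by
          rw [h0, one_mul]
        exact Nat.eq_of_mul_eq_mul_right (pow_pos hp.pos 2) this
      rw [Subgroup.relIndex_eq_one] at h3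
      exact hg (h3 ((le_sup_right : Subgroup.zpowers g ≤ _) (Subgroup.mem_zpowers g)))
    have hk1 : k = 1 := by omega
    rw [hk2, hk1, pow_one]
  have hDle : ∀ b : Subgroup G, b.Normal → b.index = p → commutator G ≤ b := by
    intro b hbn hbi
    apply Cfsg.Agent.Helper4.PFour.commutator_le_of_quotient_comm b
    have hc : Nat.card (G ⧸ b) = p := by rw [← hbi, Subgroup.index_eq_card]
    have := isCyclic_of_prime_card hc
    exact IsCyclic.isMulCommutative
  have : Fintype G := Fintype.ofFinite G
  have : Fintype (Subgroup G) := Fintype.ofFinite _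
  obtain ⟨a, ha⟩ : ∃ a : ℕ, a = p ^ (n - 2) := ⟨_, rfl⟩
  have hapos : 0 < a := ha ▸ pow_pos hp.pos _
  have hGa : Nat.card G = a * p * p := by
    rw [hG, ha, mul_assoc, ← pow_two, ← pow_add]; congr 1; omega
  have hDcard : Nat.card (commutator G) = a := by
    have := (commutator G).card_mul_index
    rw [hD, hGa, pow_two, ← mul_assoc] at this
    exact Nat.eq_of_mul_eq_mul_right hp.pos (Nat.eq_of_mul_eq_mul_right hp.pos this)
  have hfD : (Finset.univ.filter (fun g : G => g ∈ commutator G)).card = a := by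
    rw [← hDcard, Nat.card_eq_fintype_card, Fintype.card_subtype]
  have hfb : ∀ b : Subgroup G, b.index = p →
      (Finset.univ.filter (fun g : G => g ∈ b)).card = a * p := by
    intro b hb
    have h1 : (Finset.univ.filter (fun g : G => g ∈ b)).card = Nat.card b := by
      rw [Nat.card_eq_fintype_card, Fintype.card_subtype]
    rw [h1]
    have := b.card_mul_index
    rw [hb, hGa] at this
    exact Nat.eq_of_mul_eq_mul_right hp.pos this
  obtain ⟨s, hs⟩ : ∃ s : Finset G, s = Finset.univ.filter (fun g : G => g ∉ commutator G) :=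
    ⟨_, rfl⟩
  obtain ⟨t, ht⟩ : ∃ t : Finset (Subgroup G),
      t = Finset.univ.filter (fun N : Subgroup G => N.Normal ∧ N.index = p) := ⟨_, rfl⟩
  have hmaps : ∀ x ∈ s, commutator G ⊔ Subgroup.zpowers x ∈ t := by
    intro x hx
    rw [hs, Finset.mem_filter] at hx
    rw [ht, Finset.mem_filter]
    exact ⟨Finset.mem_univ _, normal_of_commutator_le _ le_sup_left, hM x hx.2⟩
  have hcount := Finset.card_eq_sum_card_fiberwise hmaps
  have hfiber : ∀ b ∈ t, (s.filter (fun x => commutator G ⊔ Subgroup.zpowers x = b)).card + a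
      = a * p := by
    intro b hb
    rw [ht, Finset.mem_filter] at hb
    obtain ⟨-, hbn, hbi⟩ := hb
    have hDb := hDle b hbn hbi
    have e : s.filter (fun x => commutator G ⊔ Subgroup.zpowers x = b) =
        (Finset.univ.filter (fun g : G => g ∈ b)) \
          (Finset.univ.filter (fun g : G => g ∈ commutator G)) := by
      ext x
      rw [Finset.mem_filter, hs, Finset.mem_filter, Finset.mem_sdiff, Finset.mem_filter,
        Finset.mem_filter]
      constructor
      · rintro ⟨⟨-, hx⟩, hxb⟩
        refine ⟨⟨Finset.mem_univ _, ?_⟩, fun h => hx h.2⟩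
        rw [← hxb]
        exact (le_sup_right : Subgroup.zpowers x ≤ _) (Subgroup.mem_zpowers x)
      · rintro ⟨⟨-, hxb⟩, hx⟩
        have hx' : x ∉ commutator G := fun h => hx ⟨Finset.mem_univ _, h⟩
        refine ⟨⟨Finset.mem_univ _, hx'⟩, ?_⟩
        have hle : commutator G ⊔ Subgroup.zpowers x ≤ b :=
          sup_le hDb (Subgroup.zpowers_le.mpr hxb)
        have h0 := Subgroup.relIndex_mul_index hle
        rw [hM x hx', hbi] at h0
        have h3 : (commutator G ⊔ Subgroup.zpowers x).relIndex b = 1 := by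
          have : (commutator G ⊔ Subgroup.zpowers x).relIndex b * p = 1 * p := by
            rw [h0, one_mul]
          exact Nat.eq_of_mul_eq_mul_right hp.pos this
        rw [Subgroup.relIndex_eq_one] at h3
        exact le_antisymm hle h3
    rw [e, Finset.card_sdiff_of_subset, hfb b hbi, hfD]
    · apply Nat.sub_add_cancel
      calc a = a * 1 := (mul_one a).symm
        _ ≤ a * p := Nat.mul_le_mul_left a hp.pos
    · intro x hx
      rw [Finset.mem_filter] at hx ⊢
      exact ⟨hx.1, hDb hx.2⟩
  have hscard : s.card + a = a * p * p := by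
    have h1 := Finset.card_filter_add_card_filter_not (s := (Finset.univ : Finset G))
      (fun g : G => g ∈ commutator G)
    rw [hfD, Finset.card_univ, ← Nat.card_eq_fintype_card, hGa, ← hs] at h1
    omega
  have htcard : Nat.card {N : Subgroup G // N.Normal ∧ N.index = p} = t.card := by
    rw [Nat.card_eq_fintype_card, Fintype.card_subtype, ht]
  rw [htcard]
  obtain ⟨m, rfl⟩ : ∃ m, p = m + 1 := ⟨p - 1, by have := hp.pos; omega⟩
  have hm : 0 < m := by have := hp.two_le; omega
  have hF : ∀ b ∈ t, (s.filter (fun x => commutator G ⊔ Subgroup.zpowers x = b)).card = a * m := by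
    intro b hb
    have := hfiber b hb
    rw [mul_add, mul_one] at this
    omega
  rw [Finset.sum_congr rfl hF, Finset.sum_const, smul_eq_mul] at hcount
  have h5 : t.card * (a * m) = (m + 2) * (a * m) := by
    have e1 : a * (m + 1) * (m + 1) = (m + 2) * (a * m) + a := by ring
    rw [e1] at hscard
    omega
  exact Nat.eq_of_mul_eq_mul_right (Nat.mul_pos hapos hm) h5

end Cfsg.Agent.Helper4.MaxClassNormal
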