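import Mathlib
import Cfsg.Agent.Helper4.SelfCentOdd
import Cfsg.Agent.Helper1.RankFour
import Cfsg.Agent.Lead.Quat
import Cfsg.Prelude.Def_CaseTheorems
import Cfsg.Prelude.Def_Transfer

set_option autoImplicit false
open scoped commutatorElement

universe u

namespace Cfsg.Agent.Helper4.NormalE3

/-- odd `p`: a product of two elements of order dividing `p` whose commutator commutes with both
and has order dividing `p` again has order dividing `p` -/
theorem mul_pow_eq_one {G : Type*} [Group G] {p : ℕ} (hp : p.Prime) (hp2 : p ≠ 2) (a b : G)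
    (ha : a ^ p = 1) (hb : b ^ p = 1) (hca : Commute ⁅b, a⁆ a) (hcb : Commute ⁅b, a⁆ b)
    (hc : ⁅b, a⁆ ^ p = 1) : (a * b) ^ p = 1 := by
  obtain ⟨t, ht, hpow⟩ := Cfsg.Agent.Helper1.exists_mul_pow_eq_of_commute a b hca hcb p
  have hpt : p ∣ t := by
    have h2 : p ∣ 2 * t := by rw [ht]; exact dvd_mul_right p (p - 1)
    have hcop : Nat.Coprime p 2 := (Nat.coprime_primes hp Nat.prime_two).mpr hp2
    exact hcop.dvd_of_dvd_mul_left h2
  obtain ⟨s, rfl⟩ := hpt
  rw [hpow, pow_mul, hc, one_pow, ha, hb, one_mul, one_mul]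

/-- the subgroup of elements of `M` of order dividing `p` that centralise `M` modulo a central
subgroup `E` of exponent `p` (`p` odd) -/
def omegaMod {T : Type*} [Group T] (p : ℕ) (hp : p.Prime) (hp2 : p ≠ 2) (E M : Subgroup T)
    (hEc : E ≤ Subgroup.center T) (hEp : ∀ e ∈ E, e ^ p = 1) : Subgroup T where
  carrier := {w | w ∈ M ∧ w ^ p = 1 ∧ ∀ m ∈ M, ⁅w, m⁆ ∈ E}
  one_mem' := ⟨M.one_mem, one_pow _, fun m _ => by
    rw [commutatorElement_def]; simp⟩
  mul_mem' := by
    rintro a b ⟨haM, hap, hac⟩ ⟨hbM, hbp, hbc⟩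
    have hEn : E.Normal := by
      constructor
      intro n hn g
      have h1 := Subgroup.mem_center_iff.mp (hEc hn) g
      have : g * n * g⁻¹ = n := by rw [h1, mul_inv_cancel_right]
      rw [this]; exact hn
    refine ⟨mul_mem haM hbM, ?_, ?_⟩
    · have hE : ⁅b, a⁆ ∈ E := hbc a haM
      have hcen := Subgroup.mem_center_iff.mp (hEc hE)
      exact mul_pow_eq_one hp hp2 a b hap hbp (hcen a).symm (hcen b).symm (hEp _ hE)
    · intro m hm
      have h1 : ⁅a * b, m⁆ = a * ⁅b, m⁆ * a⁻¹ * ⁅a, m⁆ := by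
        rw [commutatorElement_def, commutatorElement_def, commutatorElement_def]; group
      rw [h1]
      exact E.mul_mem (hEn.conj_mem _ (hbc m hm) a) (hac m hm)
  inv_mem' := by
    rintro a ⟨haM, hap, hac⟩
    have hEn : E.Normal := by
      constructor
      intro n hn g
      have h1 := Subgroup.mem_center_iff.mp (hEc hn) g
      have : g * n * g⁻¹ = n := by rw [h1, mul_inv_cancel_right]
      rw [this]; exact hn
    refine ⟨inv_mem haM, by rw [inv_pow, hap, inv_one], ?_⟩
    intro m hm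
    have h1 : ⁅a⁻¹, m⁆ = a⁻¹ * (⁅a, m⁆)⁻¹ * a⁻¹⁻¹ := by
      rw [commutatorElement_def, commutatorElement_def]; group
    rw [h1]
    exact hEn.conj_mem _ (E.inv_mem (hac m hm)) a⁻¹

theorem mem_omegaMod {T : Type*} [Group T] (p : ℕ) (hp : p.Prime) (hp2 : p ≠ 2) (E M : Subgroup T)
    (hEc : E ≤ Subgroup.center T) (hEp : ∀ e ∈ E, e ^ p = 1) (w : T) :
    w ∈ omegaMod p hp hp2 E M hEc hEp ↔ w ∈ M ∧ w ^ p = 1 ∧ ∀ m ∈ M, ⁅w, m⁆ ∈ E := Iff.rfl

theorem omegaMod_normal {T : Type*} [Group T] (p : ℕ) (hp : p.Prime) (hp2 : p ≠ 2)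
    (E M : Subgroup T) (hEc : E ≤ Subgroup.center T) (hEp : ∀ e ∈ E, e ^ p = 1)
    (hEn : E.Normal) (hMn : M.Normal) : (omegaMod p hp hp2 E M hEc hEp).Normal := by
  constructor
  rintro w ⟨hwM, hwp, hwc⟩ g
  refine ⟨hMn.conj_mem _ hwM g, ?_, ?_⟩
  · rw [conj_pow, hwp, mul_one, mul_inv_cancel]
  · intro m hm
    have h1 : ⁅g * w * g⁻¹, m⁆ = g * ⁅w, g⁻¹ * m * g⁻¹⁻¹⁆ * g⁻¹ := by
      rw [commutatorElement_def, commutatorElement_def]; group
    rw [h1]
    exact hEn.conj_mem _ (hwc _ (hMn.conj_mem _ hm g⁻¹)) g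

/-- Key lemma: in a `p`-group `T` (`p` odd) with a central subgroup `E` of exponent `p`, if some
element of order `p` lies outside `E`, then some element of order `p` outside `E` is central
modulo `E`. -/
theorem exists_central_mod (p : ℕ) [hpf : Fact p.Prime] (hp2 : p ≠ 2) :
    ∀ (n : ℕ) (T : Type u) [Group T] [Finite T], Nat.card T = n → IsPGroup p T →
      ∀ (E : Subgroup T), E ≤ Subgroup.center T → (∀ e ∈ E, e ^ p = 1) →
      ∀ x : T, x ^ p = 1 → x ∉ E →
      ∃ w : T, w ^ p = 1 ∧ w ∉ E ∧ ∀ t : T, ⁅w, t⁆ ∈ E := by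
  intro n
  induction n using Nat.strong_induction_on with
  | _ n ih =>
  intro T _ _ hn hT E hEc hEp x hx hxE
  have hEn : E.Normal := by
    constructor
    intro n hn g
    have h1 := Subgroup.mem_center_iff.mp (hEc hn) g
    have : g * n * g⁻¹ = n := by rw [h1, mul_inv_cancel_right]
    rw [this]; exact hn
  by_cases hxY : ∀ t : T, ⁅x, t⁆ ∈ E
  · exact ⟨x, hx, hxE, hxY⟩
  have hBtop : E ⊔ Subgroup.zpowers x ≠ ⊤ := by
    intro htop
    apply hxY
    intro t
    have ht : t ∈ E ⊔ Subgroup.zpowers x := by rw [htop]; exact Subgroup.mem_top t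
    have hcomm : x * t = t * x := by
      rw [Subgroup.sup_eq_closure] at ht
      induction ht using Subgroup.closure_induction with
      | mem y hy =>
        rcases hy with hy | hy
        · exact Subgroup.mem_center_iff.mp (hEc hy) x
        · obtain ⟨k, rfl⟩ := hy
          exact ((Commute.refl x).zpow_right k).eq
      | one => simp
      | mul a b _ _ iha ihb => rw [← mul_assoc, iha, mul_assoc, ihb, mul_assoc]
      | inv a _ iha =>
        have : a⁻¹ * (x * a) * a⁻¹ = a⁻¹ * (a * x) * a⁻¹ := by rw [iha]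
        calc x * a⁻¹ = a⁻¹ * (a * x) * a⁻¹ := by group
          _ = a⁻¹ * (x * a) * a⁻¹ := by rw [iha]
          _ = a⁻¹ * x := by group
    have : ⁅x, t⁆ = 1 := by
      rw [commutatorElement_def, hcomm]; group
    rw [this]; exact E.one_mem
  obtain ⟨M, hMco, hBM⟩ := (eq_top_or_exists_le_coatom (E ⊔ Subgroup.zpowers x)).resolve_left hBtop
  have hnil : Group.IsNilpotent T := hT.isNilpotent
  have hMn : M.Normal :=
    Subgroup.NormalizerCondition.normal_of_coatom M (Group.normalizerCondition_of_isNilpotent (G := T)) hMco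
  have hEM : E ≤ M := le_trans le_sup_left hBM
  have hxM : x ∈ M := hBM (Subgroup.mem_sup_right (Subgroup.mem_zpowers x))
  have hlt : Nat.card M < n := by
    rw [← hn]
    apply lt_of_le_of_ne (Subgroup.card_le_card_group M)
    intro h
    exact hMco.1 (Subgroup.eq_top_of_card_eq M h)
  obtain ⟨w', hw'p, hw'E, hw'c⟩ := ih (Nat.card M) hlt M rfl (hT.to_subgroup M) (E.subgroupOf M)
    (by
      intro e he
      rw [Subgroup.mem_center_iff]
      intro g
      apply Subtype.ext
      exact Subgroup.mem_center_iff.mp (hEc (Subgroup.mem_subgroupOf.mp he)) g)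
    (by
      intro e he
      apply Subtype.ext
      simpa using hEp _ (Subgroup.mem_subgroupOf.mp he))
    ⟨x, hxM⟩ (by apply Subtype.ext; simpa using hx)
    (by rw [Subgroup.mem_subgroupOf]; exact hxE)
  -- the subgroup W
  have hWn := omegaMod_normal p hpf.out hp2 E M hEc hEp hEn hMn
  set W := omegaMod p hpf.out hp2 E M hEc hEp with hWdef
  have hw'W : (w' : T) ∈ W := by
    refine ⟨w'.2, ?_, ?_⟩
    · have := congrArg Subtype.val hw'p
      simpa using this
    · intro m hm
      have := hw'c ⟨m, hm⟩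
      rw [Subgroup.mem_subgroupOf] at this
      exact this
  have hw'E' : (w' : T) ∉ E := fun h => hw'E (Subgroup.mem_subgroupOf.mpr h)
  have hπ : Function.Surjective (QuotientGroup.mk' E) := QuotientGroup.mk'_surjective E
  have hNn : (W.map (QuotientGroup.mk' E)).Normal := Subgroup.Normal.map hWn _ hπ
  have hne : W.map (QuotientGroup.mk' E) ≠ ⊥ := by
    intro h
    have h1 : (QuotientGroup.mk' E) (w' : T) ∈ W.map (QuotientGroup.mk' E) :=
      Subgroup.mem_map_of_mem _ hw'W
    rw [h, Subgroup.mem_bot] at h1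
    exact hw'E' ((QuotientGroup.eq_one_iff _).mp h1)
  obtain ⟨b, hb, hb1, hbz⟩ := Cfsg.Agent.Lead.normal_inf_center_ne_bot' p (hT.to_quotient E) _ hne
  obtain ⟨w, hwW, rfl⟩ := hb
  refine ⟨w, hwW.2.1, fun h => hb1 ((QuotientGroup.eq_one_iff w).mpr h), ?_⟩
  intro t
  rw [← QuotientGroup.eq_one_iff]
  have h1 : ((⁅w, t⁆ : T) : T ⧸ E) = ⁅(QuotientGroup.mk' E) w, (QuotientGroup.mk' E) t⁆ := by
    rw [← map_commutatorElement]; rfl
  rw [h1, commutatorElement_def]
  have h2 := Subgroup.mem_center_iff.mp hbz ((QuotientGroup.mk' E) t)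
  rw [← h2]; group


/-- For odd `p`: in a `p`-group containing an elementary abelian subgroup of order `> p²`, every
normal elementary abelian subgroup of order `p²` lies in a normal elementary abelian subgroup of
order `p³`. -/
theorem exists_normal_e3 {R : Type*} [Group R] [Finite R] (p : ℕ) [hpf : Fact p.Prime] (hp : p ≠ 2)
    (hR : IsPGroup p R) (hr : ¬ Cfsg.PRankLE p 2 R)
    (E : Subgroup R) [hEn : E.Normal] (hE : Cfsg.IsElementaryAbelian p E)
    (hE2 : Nat.card E = p ^ 2) :
    ∃ B : Subgroup R, B.Normal ∧ E ≤ B ∧ Cfsg.IsElementaryAbelian p B ∧ Nat.card B = p ^ 3 := by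
  have hpp : p.Prime := hpf.out
  obtain ⟨hEcomm, hEexp⟩ := hE
  have hEab : ∀ a ∈ E, ∀ b ∈ E, a * b = b * a := by
    intro a ha b hb
    have := hEcomm.is_comm.comm (⟨a, ha⟩ : E) ⟨b, hb⟩
    exact congrArg Subtype.val this
  set T := Subgroup.centralizer (E : Set R) with hTdef
  have hTn : T.Normal := inferInstance
  have hET : E ≤ T := by
    intro e he
    rw [hTdef, Subgroup.mem_centralizer_iff]
    intro g hg
    exact hEab g hg e he
  -- an element of order p in T outside E
  have hex : ∃ x ∈ T, x ^ p = 1 ∧ x ∉ E := by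
    unfold Cfsg.PRankLE at hr
    push Not at hr
    obtain ⟨A, hAc, hAexp, hAcard⟩ := hr
    have hAab : ∀ a ∈ A, ∀ b ∈ A, a * b = b * a := by
      intro a ha b hb
      have := hAc.is_comm.comm (⟨a, ha⟩ : A) ⟨b, hb⟩
      exact congrArg Subtype.val this
    obtain ⟨k, hk⟩ := IsPGroup.iff_card.mp (hR.to_subgroup A)
    have hk3 : 3 ≤ k := by
      by_contra hcon
      have : k ≤ 2 := by omega
      have := Nat.pow_le_pow_right hpp.pos this
      omega
    have hA3 : p ^ 3 ≤ Nat.card A := by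
      rw [hk]; exact Nat.pow_le_pow_right hpp.pos hk3
    have hidx : T.index ≤ p := by
      have h1 := Cfsg.Agent.Helper4.SelfCentOdd.card_le_of_normal_sq hR E hE2
      rw [← hTdef] at h1
      have h2 := Subgroup.card_mul_index T
      have hpos : 0 < Nat.card T := Nat.card_pos
      have h3 : T.index * Nat.card T ≤ p * Nat.card T := by
        rw [mul_comm, h2]; exact h1
      exact Nat.le_of_mul_le_mul_right h3 hpos
    have hrel : T.relIndex A ≤ p := by
      have h1 : T.relIndex A ∣ T.index := Subgroup.relIndex_dvd_index_of_normal T A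
      have hpos : 0 < T.index := Nat.pos_of_ne_zero (Subgroup.index_ne_zero_of_finite)
      exact le_trans (Nat.le_of_dvd hpos h1) hidx
    have hmul : Nat.card (A ⊓ T : Subgroup R) * T.relIndex A = Nat.card A := by
      have h1 := Subgroup.relIndex_mul_relIndex ⊥ (A ⊓ T) A bot_le inf_le_left
      rw [Subgroup.relIndex_bot_left, Subgroup.relIndex_bot_left, Subgroup.inf_relIndex_left] at h1
      exact h1
    by_contra hcon
    push Not at hcon
    have hle : A ⊓ T ≤ E := by
      intro x hx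
      exact hcon x hx.2 (hAexp x hx.1)
    have hcard_le : Nat.card (A ⊓ T : Subgroup R) ≤ p ^ 2 := by
      rw [← hE2]; exact Subgroup.card_le_of_le hle
    have hcard_ge : p ^ 2 ≤ Nat.card (A ⊓ T : Subgroup R) := by
      by_contra hlt
      push Not at hlt
      have h1 : Nat.card (A ⊓ T : Subgroup R) * T.relIndex A < p ^ 2 * p := by
        calc Nat.card (A ⊓ T : Subgroup R) * T.relIndex A
            ≤ Nat.card (A ⊓ T : Subgroup R) * p := Nat.mul_le_mul_left _ hrel
          _ < p ^ 2 * p := Nat.mul_lt_mul_of_pos_right hlt hpp.pos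
      rw [hmul] at h1
      have : p ^ 2 * p = p ^ 3 := by ring
      omega
    have hEq : A ⊓ T = E := Subgroup.eq_of_le_of_card_ge hle (by rw [hE2]; exact hcard_ge)
    have hEA : E ≤ A := by rw [← hEq]; exact inf_le_left
    have hAT : A ≤ T := by
      intro a ha
      rw [hTdef, Subgroup.mem_centralizer_iff]
      intro g hg
      exact hAab g (hEA hg) a ha
    have : A ⊓ T = A := inf_eq_left.mpr hAT
    rw [this] at hEq
    rw [hEq, hE2] at hAcard
    exact lt_irrefl _ hAcard
  obtain ⟨x, hxT, hxp, hxE⟩ := hex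
  -- apply the key lemma inside T
  have hEcT : E.subgroupOf T ≤ Subgroup.center T := by
    intro e he
    rw [Subgroup.mem_center_iff]
    intro g
    apply Subtype.ext
    have h1 : (g : R) ∈ Subgroup.centralizer (E : Set R) := g.2
    rw [Subgroup.mem_centralizer_iff] at h1
    exact (h1 e (Subgroup.mem_subgroupOf.mp he)).symm
  have hEpT : ∀ e ∈ E.subgroupOf T, e ^ p = 1 := by
    intro e he
    apply Subtype.ext
    simpa using hEexp _ (Subgroup.mem_subgroupOf.mp he)
  obtain ⟨w', hw'p, hw'E, hw'c⟩ := exists_central_mod p hp (Nat.card T) T rfl (hR.to_subgroup T)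
    (E.subgroupOf T) hEcT hEpT ⟨x, hxT⟩ (by apply Subtype.ext; simpa using hxp)
    (by rw [Subgroup.mem_subgroupOf]; exact hxE)
  -- the subgroup W of R
  let W : Subgroup R :=
    { carrier := {w | w ∈ T ∧ w ^ p = 1 ∧ ∀ t ∈ T, ⁅w, t⁆ ∈ E}
      one_mem' := ⟨T.one_mem, one_pow _, fun m _ => by
        rw [commutatorElement_def]; simp⟩
      mul_mem' := by
        rintro a b ⟨haT, hap, hac⟩ ⟨hbT, hbp, hbc⟩
        refine ⟨mul_mem haT hbT, ?_, ?_⟩
        · have hcE : ⁅b, a⁆ ∈ E := hbc a haT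
          have hcen : ∀ g ∈ T, g * ⁅b, a⁆ = ⁅b, a⁆ * g := by
            intro g hg
            rw [hTdef, Subgroup.mem_centralizer_iff] at hg
            exact (hg _ hcE).symm
          exact mul_pow_eq_one hpp hp a b hap hbp (hcen a haT).symm (hcen b hbT).symm
            (hEexp _ hcE)
        · intro m hm
          have h1 : ⁅a * b, m⁆ = a * ⁅b, m⁆ * a⁻¹ * ⁅a, m⁆ := by
            rw [commutatorElement_def, commutatorElement_def, commutatorElement_def]; group
          rw [h1]
          exact E.mul_mem (hEn.conj_mem _ (hbc m hm) a) (hac m hm)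
      inv_mem' := by
        rintro a ⟨haT, hap, hac⟩
        refine ⟨inv_mem haT, by rw [inv_pow, hap, inv_one], ?_⟩
        intro m hm
        have h1 : ⁅a⁻¹, m⁆ = a⁻¹ * (⁅a, m⁆)⁻¹ * a⁻¹⁻¹ := by
          rw [commutatorElement_def, commutatorElement_def]; group
        rw [h1]
        exact hEn.conj_mem _ (E.inv_mem (hac m hm)) a⁻¹ }
  have hWmem : ∀ w : R, w ∈ W ↔ w ∈ T ∧ w ^ p = 1 ∧ ∀ t ∈ T, ⁅w, t⁆ ∈ E := fun w => Iff.rfl
  have hWn : W.Normal := by
    constructor
    rintro w ⟨hwT, hwp, hwc⟩ g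
    refine ⟨hTn.conj_mem _ hwT g, ?_, ?_⟩
    · rw [conj_pow, hwp, mul_one, mul_inv_cancel]
    · intro m hm
      have h1 : ⁅g * w * g⁻¹, m⁆ = g * ⁅w, g⁻¹ * m * g⁻¹⁻¹⁆ * g⁻¹ := by
        rw [commutatorElement_def, commutatorElement_def]; group
      rw [h1]
      exact hEn.conj_mem _ (hwc _ (hTn.conj_mem _ hm g⁻¹)) g
  have hEW : E ≤ W := by
    intro e he
    refine ⟨hET he, hEexp e he, ?_⟩
    intro t ht
    rw [hTdef, Subgroup.mem_centralizer_iff] at ht
    have : ⁅e, t⁆ = 1 := by
      rw [commutatorElement_def, ht e he]; group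
    rw [this]; exact E.one_mem
  have hWT : W ≤ T := fun w hw => hw.1
  have hEneW : E ≠ W := by
    intro h
    apply hw'E
    rw [Subgroup.mem_subgroupOf, h]
    refine ⟨w'.2, ?_, ?_⟩
    · have := congrArg Subtype.val hw'p
      simpa using this
    · intro m hm
      have := hw'c ⟨m, hm⟩
      rw [Subgroup.mem_subgroupOf] at this
      exact this
  obtain ⟨B, hBn, hEB, hBW, hrel⟩ := Cfsg.Agent.Helper1.exists_normal_step hR E W hEn hWn hEW hEneW
  have hBexp : ∀ b ∈ B, b ^ p = 1 := fun b hb => (hBW hb).2.1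
  have hBcard : Nat.card B = p ^ 3 := by
    have h1 := Subgroup.relIndex_mul_relIndex ⊥ E B bot_le hEB
    rw [Subgroup.relIndex_bot_left, Subgroup.relIndex_bot_left, hrel, hE2] at h1
    rw [← h1]; ring
  have hBcomm : IsMulCommutative B := by
    have : (E.subgroupOf B).Normal := inferInstance
    have hcard : Nat.card (B ⧸ E.subgroupOf B) = p := by
      rw [← Subgroup.index_eq_card]
      exact hrel
    have : IsCyclic (B ⧸ E.subgroupOf B) := isCyclic_of_prime_card hcard
    apply MonoidHom.isMulCommutative_of_isCyclic_of_ker_le_center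
      (QuotientGroup.mk' (E.subgroupOf B))
    rw [QuotientGroup.ker_mk']
    intro e he
    rw [Subgroup.mem_center_iff]
    intro g
    apply Subtype.ext
    have h1 : (g : R) ∈ T := hWT (hBW g.2)
    rw [hTdef, Subgroup.mem_centralizer_iff] at h1
    exact (h1 e (Subgroup.mem_subgroupOf.mp he)).symm
  exact ⟨B, hBn, hEB, ⟨hBcomm, hBexp⟩, hBcard⟩

end Cfsg.Agent.Helper4.NormalE3
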