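import Mathlib

set_option autoImplicit false

namespace Cfsg.Agent.Helper4.Par

open Equiv

/-- sign of a permutation of order dividing four in terms of supports -/
theorem sign4 {X : Type*} [Fintype X] [DecidableEq X] (σ : Perm X) (h4 : σ ^ 4 = 1) :
    ∃ t q : ℕ, σ.support.card = 2 * t + 4 * q ∧ (σ ^ 2).support.card = 4 * q ∧
      Perm.sign σ = (-1) ^ (t + q) := by
  revert h4
  refine Perm.cycle_induction_on (fun σ : Perm X => σ ^ 4 = 1 → ∃ t q : ℕ,
    σ.support.card = 2 * t + 4 * q ∧ (σ ^ 2).support.card = 4 * q ∧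
      Perm.sign σ = (-1) ^ (t + q)) σ ?_ ?_ ?_
  · intro _
    exact ⟨0, 0, by simp, by simp, by simp⟩
  · intro σ hσ h4
    have ho : orderOf σ ∣ 4 := orderOf_dvd_of_pow_eq_one h4
    have hc := hσ.orderOf
    have h2 := hσ.two_le_card_support
    have hs := hσ.sign
    have hle : orderOf σ ≤ 4 := Nat.le_of_dvd (by norm_num) ho
    have hcases : orderOf σ = 2 ∨ orderOf σ = 4 := by
      rw [hc] at ho hle ⊢
      generalize σ.support.card = k at *
      interval_cases k
      · left; rfl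
      · exfalso; revert ho; decide
      · right; rfl
    rcases hcases with h | h
    · refine ⟨1, 0, by rw [← hc, h], ?_, ?_⟩
      · have : σ ^ 2 = 1 := by rw [← h]; exact pow_orderOf_eq_one σ
        rw [this]; simp
      · rw [hs, ← hc, h]; simp
    · refine ⟨0, 1, by rw [← hc, h], ?_, ?_⟩
      · have : (σ ^ 2).support = σ.support := hσ.support_pow_eq_iff.mpr (by rw [h]; decide)
        rw [this, ← hc, h]
      · rw [hs, ← hc, h]; decide
  · intro σ τ hd hσ ih1 ih2 h4
    have hcomm := hd.commute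
    have h4' : σ ^ 4 * τ ^ 4 = 1 := by rw [← hcomm.mul_pow]; exact h4
    have h5 := (hd.pow_disjoint_pow 4 4).mul_eq_one_iff.mp h4'
    obtain ⟨t1, q1, a1, b1, c1⟩ := ih1 h5.1
    obtain ⟨t2, q2, a2, b2, c2⟩ := ih2 h5.2
    refine ⟨t1 + t2, q1 + q2, ?_, ?_, ?_⟩
    · rw [hd.card_support_mul, a1, a2]; ring
    · rw [hcomm.mul_pow, (hd.pow_disjoint_pow 2 2).card_support_mul, b1, b2]; ring
    · rw [map_mul, c1, c2, ← pow_add]; congr 1; ring

theorem card_fix_add {X : Type*} [Fintype X] [DecidableEq X] (σ : Perm X) :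
    Nat.card {x : X // σ x = x} + σ.support.card = Fintype.card X := by
  have e : Nat.card {x : X // σ x = x} = (σ.supportᶜ).card := by
    rw [Nat.card_eq_fintype_card, Fintype.card_subtype]
    congr 1
    ext x
    simp [Perm.mem_support]
  rw [e, Finset.card_compl]
  have := Finset.card_le_univ σ.support
  omega

theorem hom_trivial {G : Type*} [Group G] [Finite G] [IsSimpleGroup G] (hG : 2 < Nat.card G)
    (f : G →* ℤˣ) (g : G) : f g = 1 := by
  rcases IsSimpleGroup.eq_bot_or_eq_top_of_normal f.ker (MonoidHom.normal_ker f) with hb | ht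
  · exfalso
    have hinj : Function.Injective f := (MonoidHom.ker_eq_bot_iff f).mp hb
    have h1 := Nat.card_le_card_of_injective f hinj
    have h2 : Nat.card ℤˣ = 2 := by rw [Nat.card_eq_fintype_card]; exact Fintype.card_units_int
    omega
  · have : g ∈ f.ker := by rw [ht]; trivial
    exact MonoidHom.mem_ker.mp this

/-- parity of an element of order dividing four acting on a finite set -/
theorem parity_act {G : Type*} [Group G] [Finite G] [IsSimpleGroup G] (hG : 2 < Nat.card G)
    {X : Type*} [MulAction G X] [Finite X] (a : G) (ha : a ^ 4 = 1) :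
    ∃ t q : ℕ, Nat.card X = Nat.card {x : X // a • x = x} + 2 * t + 4 * q ∧
      Nat.card X = Nat.card {x : X // (a ^ 2) • x = x} + 4 * q ∧ Even (t + q) := by
  classical
  haveI := Fintype.ofFinite X
  have h4 : (MulAction.toPermHom G X a) ^ 4 = 1 := by rw [← map_pow, ha, map_one]
  obtain ⟨t, q, h1, h2, h3⟩ := sign4 (MulAction.toPermHom G X a) h4
  have hs : Perm.sign (MulAction.toPermHom G X a) = 1 :=
    hom_trivial hG (Perm.sign.comp (MulAction.toPermHom G X)) a
  have e1 := card_fix_add (MulAction.toPermHom G X a)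
  have e2 := card_fix_add (MulAction.toPermHom G X (a ^ 2))
  rw [map_pow] at e2
  rw [← Nat.card_eq_fintype_card] at e1 e2
  refine ⟨t, q, ?_, ?_, ?_⟩
  · have e1' : Nat.card {x : X // a • x = x} + (MulAction.toPermHom G X a).support.card =
        Nat.card X := e1
    omega
  · have e2' : Nat.card {x : X // (a ^ 2) • x = x} +
        ((MulAction.toPermHom G X a) ^ 2).support.card = Nat.card X := by
      rw [← e2, ← map_pow]; rfl
    omega
  · rw [hs] at h3
    exact (neg_one_pow_eq_one_iff_even (by decide)).mp h3.symm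

variable {G : Type*} [Group G]

/-- number of cosets of `H` fixed by `a` -/
noncomputable def fixQ (H : Subgroup G) (a : G) : ℕ := Nat.card {q : G ⧸ H // a • q = q}

/-- number of conjugates of `a` in `H` -/
noncomputable def kap (a : G) (H : Subgroup G) : ℕ :=
  Nat.card {v : G // v ∈ H ∧ ∃ g : G, g⁻¹ * a * g = v}

theorem kap_eq_ncard (a : G) (H : Subgroup G) :
    kap a H = ({v : G | v ∈ H ∧ ∃ g : G, g⁻¹ * a * g = v}).ncard :=
  Nat.card_coe_set_eq _

theorem fixQ_mul_card (H : Subgroup G) (a : G) :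
    fixQ H a * Nat.card H = Nat.card {g : G // g⁻¹ * a * g ∈ H} := by
  have h1 := QuotientGroup.card_preimage_mk H {q : G ⧸ H | a • q = q}
  have e : (QuotientGroup.mk ⁻¹' {q : G ⧸ H | a • q = q} : Set G) =
      {g : G | g⁻¹ * a * g ∈ H} := by
    ext g
    show a • (g : G ⧸ H) = (g : G ⧸ H) ↔ g⁻¹ * a * g ∈ H
    rw [MulAction.Quotient.smul_mk, QuotientGroup.eq, ← inv_mem_iff (x := g⁻¹ * a * g)]
    have : (g⁻¹ * a * g)⁻¹ = (a • g)⁻¹ * g := by rw [smul_eq_mul]; group
    rw [this]
  rw [e] at h1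
  unfold fixQ
  rw [mul_comm]
  exact h1.symm

theorem conj_mul_cent (a c r : G) (hc : c * a = a * c) :
    (c * r)⁻¹ * a * (c * r) = r⁻¹ * a * r := by
  calc (c * r)⁻¹ * a * (c * r) = r⁻¹ * (c⁻¹ * (a * c)) * r := by group
    _ = r⁻¹ * (c⁻¹ * (c * a)) * r := by rw [hc]
    _ = r⁻¹ * a * r := by group

theorem card_conj_mem [Finite G] (H : Subgroup G) (a : G) :
    Nat.card {g : G // g⁻¹ * a * g ∈ H} =
      Nat.card (Subgroup.centralizer ({a} : Set G)) * kap a H := by
  classical
  unfold kap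
  rw [← Nat.card_prod]
  have hrep : ∀ v : {v : G // v ∈ H ∧ ∃ g : G, g⁻¹ * a * g = v}, ∃ g : G, g⁻¹ * a * g = v.1 :=
    fun v => v.2.2
  choose r hr using hrep
  have hval : ∀ (c : Subgroup.centralizer ({a} : Set G))
      (v : {v : G // v ∈ H ∧ ∃ g : G, g⁻¹ * a * g = v}),
      ((c : G) * r v)⁻¹ * a * ((c : G) * r v) = v.1 := by
    intro c v
    rw [conj_mul_cent a c (r v) (Subgroup.mem_centralizer_singleton_iff.mp c.2), hr v]
  let f : (Subgroup.centralizer ({a} : Set G)) × {v : G // v ∈ H ∧ ∃ g : G, g⁻¹ * a * g = v} →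
      {g : G // g⁻¹ * a * g ∈ H} := fun cv => ⟨(cv.1 : G) * r cv.2, by
        rw [hval cv.1 cv.2]; exact cv.2.2.1⟩
  have hf : Function.Bijective f := by
    constructor
    · rintro ⟨c, v⟩ ⟨c', v'⟩ hcv
      have h1 : (c : G) * r v = (c' : G) * r v' := congrArg Subtype.val hcv
      have h2 : v.1 = v'.1 := by rw [← hval c v, ← hval c' v', h1]
      have h3 : v = v' := Subtype.ext h2
      subst h3
      have h4 : (c : G) = (c' : G) := mul_right_cancel h1
      have h5 : c = c' := Subtype.ext h4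
      rw [h5]
    · rintro ⟨g, hg⟩
      let v : {v : G // v ∈ H ∧ ∃ g : G, g⁻¹ * a * g = v} := ⟨g⁻¹ * a * g, hg, g, rfl⟩
      have hrv : (r v)⁻¹ * a * r v = g⁻¹ * a * g := hr v
      have hc : g * (r v)⁻¹ ∈ Subgroup.centralizer ({a} : Set G) := by
        rw [Subgroup.mem_centralizer_singleton_iff]
        calc g * (r v)⁻¹ * a = g * ((r v)⁻¹ * a * r v) * (r v)⁻¹ := by group
          _ = g * (g⁻¹ * a * g) * (r v)⁻¹ := by rw [hrv]
          _ = a * (g * (r v)⁻¹) := by group
      refine ⟨(⟨g * (r v)⁻¹, hc⟩, v), ?_⟩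
      apply Subtype.ext
      show g * (r v)⁻¹ * r v = g
      group
  exact (Nat.card_congr (Equiv.ofBijective f hf)).symm

/-- parity for elements of order dividing four on cosets -/
theorem par4 [Finite G] [IsSimpleGroup G] (hG : 2 < Nat.card G) (H : Subgroup G) (a : G)
    (ha : a ^ 4 = 1) :
    ∃ fa fb t q : ℕ,
      fa * Nat.card H = Nat.card (Subgroup.centralizer ({a} : Set G)) * kap a H ∧
      fb * Nat.card H = Nat.card (Subgroup.centralizer ({a ^ 2} : Set G)) * kap (a ^ 2) H ∧
      H.index = fa + 2 * t + 4 * q ∧ H.index = fb + 4 * q ∧ Even (t + q) := by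
  obtain ⟨t, q, h1, h2, h3⟩ := parity_act hG (X := G ⧸ H) a ha
  refine ⟨fixQ H a, fixQ H (a ^ 2), t, q, ?_, ?_, h1, h2, h3⟩
  · rw [fixQ_mul_card, card_conj_mem]
  · rw [fixQ_mul_card, card_conj_mem]

/-- parity for involutions on cosets -/
theorem par2 [Finite G] [IsSimpleGroup G] (hG : 2 < Nat.card G) (H : Subgroup G) (a : G)
    (ha : a ^ 2 = 1) :
    ∃ fa t : ℕ, fa * Nat.card H = Nat.card (Subgroup.centralizer ({a} : Set G)) * kap a H ∧
      H.index = fa + 4 * t := by
  have ha4 : a ^ 4 = 1 := by rw [show 4 = 2 * 2 from rfl, pow_mul, ha, one_pow]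
  obtain ⟨t, q, h1, h2, h3⟩ := parity_act hG (X := G ⧸ H) a ha4
  have hq : q = 0 := by
    have e : Nat.card {x : G ⧸ H // (a ^ 2) • x = x} = Nat.card (G ⧸ H) := by
      rw [ha]
      exact Nat.card_congr (Equiv.subtypeUnivEquiv (fun x => one_smul G x))
    omega
  subst hq
  obtain ⟨k, hk⟩ := h3
  refine ⟨fixQ H a, k, ?_, ?_⟩
  · rw [fixQ_mul_card, card_conj_mem]
  · have h1' : H.index = fixQ H a + 2 * t + 4 * 0 := h1
    omega

/-- conjugate elements have centralisers of the same order -/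
theorem card_cen_conj [Finite G] (a g : G) :
    Nat.card (Subgroup.centralizer ({g⁻¹ * a * g} : Set G)) =
      Nat.card (Subgroup.centralizer ({a} : Set G)) := by
  apply Nat.card_congr
  refine ⟨fun c => ⟨g * (c : G) * g⁻¹, ?_⟩, fun c => ⟨g⁻¹ * (c : G) * g, ?_⟩, ?_, ?_⟩
  · have hc := Subgroup.mem_centralizer_singleton_iff.mp c.2
    rw [Subgroup.mem_centralizer_singleton_iff]
    calc g * (c : G) * g⁻¹ * a = g * ((c : G) * (g⁻¹ * a * g)) * g⁻¹ := by group
      _ = g * ((g⁻¹ * a * g) * (c : G)) * g⁻¹ := by rw [hc]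
      _ = a * (g * (c : G) * g⁻¹) := by group
  · have hc := Subgroup.mem_centralizer_singleton_iff.mp c.2
    rw [Subgroup.mem_centralizer_singleton_iff]
    calc g⁻¹ * (c : G) * g * (g⁻¹ * a * g) = g⁻¹ * ((c : G) * a) * g := by group
      _ = g⁻¹ * (a * (c : G)) * g := by rw [hc]
      _ = g⁻¹ * a * g * (g⁻¹ * (c : G) * g) := by group
  · intro c
    apply Subtype.ext
    show g⁻¹ * (g * (c : G) * g⁻¹) * g = c
    group
  · intro c
    apply Subtype.ext
    show g * (g⁻¹ * (c : G) * g) * g⁻¹ = c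
    group

/-- class equation for one class -/
theorem card_cen_mul_kap_top [Finite G] (a : G) :
    Nat.card (Subgroup.centralizer ({a} : Set G)) * kap a ⊤ = Nat.card G := by
  rw [← card_conj_mem]
  exact Nat.card_congr (Equiv.subtypeUnivEquiv (fun g => Subgroup.mem_top _))

end Cfsg.Agent.Helper4.Par
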