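import Mathlib
import Cfsg.Agent.Helper4.Simple168b

set_option autoImplicit false

namespace Cfsg.Agent.Helper4.Simple168c

open Cfsg.Agent.Helper4.Simple168 Cfsg.Agent.Helper4.Simple168b

theorem mem_zpowers_three {T : Type*} [Group T] (a c : T) (ha : orderOf a = 3)
    (hc : c ∈ Subgroup.zpowers a) : c = 1 ∨ c = a ∨ c = a⁻¹ := by
  obtain ⟨k, rfl⟩ := Subgroup.mem_zpowers_iff.mp hc
  have h3n : a ^ 3 = 1 := by rw [← ha]; exact pow_orderOf_eq_one a
  have h3 : a ^ (3 : ℤ) = 1 := by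
    have : a ^ ((3 : ℕ) : ℤ) = 1 := by rw [zpow_natCast]; exact h3n
    exact_mod_cast this
  have hk : a ^ k = a ^ (k % 3) := by
    conv_lhs => rw [← Int.emod_add_mul_ediv k 3]
    rw [zpow_add, zpow_mul, h3, one_zpow, mul_one]
  rw [hk]
  have h0 := Int.emod_nonneg k (by norm_num : (3 : ℤ) ≠ 0)
  have h1 := Int.emod_lt_of_pos k (by norm_num : (0 : ℤ) < 3)
  generalize k % 3 = j at *
  interval_cases j
  · left; simp
  · right; left; simp
  · right; right
    rw [eq_inv_iff_mul_eq_one]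
    have : a ^ (2 : ℤ) * a = a ^ (3 : ℤ) := by
      rw [show (3 : ℤ) = 2 + 1 by norm_num, zpow_add, zpow_one]
    rw [this, h3]

theorem pow_of_orderOf_four {D : Type*} [Group D] (d : D) (hd : orderOf d = 4) :
    d ^ 2 ≠ 1 ∧ d ^ 4 = 1 := by
  constructor
  · intro h2
    have := orderOf_dvd_of_pow_eq_one h2
    rw [hd] at this; omega
  · have := pow_orderOf_eq_one d
    rwa [hd] at this

theorem dihedral4_order4 : ∀ x y : DihedralGroup 4, x ^ 2 ≠ 1 → x ^ 4 = 1 → y ^ 2 ≠ 1 →
    y ^ 4 = 1 → y = x ∨ y = x⁻¹ := by decide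

theorem dihedral4_invert : ∀ x : DihedralGroup 4, x ^ 2 ≠ 1 → x ^ 4 = 1 →
    ∃ b, b * x * b⁻¹ = x⁻¹ := by decide

variable {G : Type*} [Group G] [Finite G]

theorem sylow_of_prime_order {p : ℕ} [Fact p.Prime]
    (hfac : (Nat.card G).factorization p = 1) (x : G) (hx : orderOf x = p) :
    ∃ P : Sylow p G, (P : Subgroup G) = Subgroup.zpowers x := by
  have hQcard : Nat.card (Subgroup.zpowers x) = p ^ (Nat.card G).factorization p := by
    rw [Nat.card_zpowers, hx, hfac, pow_one]
  exact ⟨Sylow.ofCard (Subgroup.zpowers x) hQcard, Sylow.coe_ofCard _ _⟩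

/-- class equation for one class -/
theorem card_conj_class (x : G) :
    Nat.card G = Nat.card {g : G // IsConj x g} *
      Nat.card (Subgroup.centralizer ({x} : Set G)) := by
  apply card_eq_mul_of_unique (fun (c : G) (y : {g : G // IsConj x g}) => c * x * c⁻¹ = (y : G))
  · intro c
    refine ⟨⟨c * x * c⁻¹, isConj_iff.mpr ⟨c, rfl⟩⟩, rfl, ?_⟩
    intro y hy
    exact Subtype.ext hy.symm
  · rintro ⟨y, hy⟩
    obtain ⟨d, rfl⟩ := isConj_iff.mp hy
    apply Nat.card_congr
    exact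
      { toFun := fun c => ⟨d⁻¹ * c.1, by
          rw [Subgroup.mem_centralizer_singleton_iff]
          have hc : c.1 * x * c.1⁻¹ = d * x * d⁻¹ := c.2
          calc d⁻¹ * c.1 * x = d⁻¹ * (c.1 * x * c.1⁻¹) * c.1 := by group
            _ = d⁻¹ * (d * x * d⁻¹) * c.1 := by rw [hc]
            _ = x * (d⁻¹ * c.1) := by group⟩
        invFun := fun k => ⟨d * k.1, by
          have hk : k.1 * x = x * k.1 := Subgroup.mem_centralizer_singleton_iff.mp k.2
          show d * k.1 * x * (d * k.1)⁻¹ = d * x * d⁻¹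
          calc d * k.1 * x * (d * k.1)⁻¹ = d * (k.1 * x) * k.1⁻¹ * d⁻¹ := by group
            _ = d * (x * k.1) * k.1⁻¹ * d⁻¹ := by rw [hk]
            _ = d * x * d⁻¹ := by group⟩
        left_inv := fun c => Subtype.ext (by simp)
        right_inv := fun k => Subtype.ext (by simp) }

section simple

variable [IsSimpleGroup G]

theorem exists_invert3 (h : Nat.card G = 168) (t : G) (ht : orderOf t = 3) :
    ∃ n, n * t * n⁻¹ = t⁻¹ := by
  have : Fact (Nat.Prime 3) := ⟨by norm_num⟩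
  obtain ⟨P, hP⟩ := sylow_of_prime_order (by rw [h]; exact fac3) t ht
  have hN := card_normalizer3 h P
  have hC := card_centralizer3 h P
  have hex : ∃ n, n ∈ Subgroup.normalizer ((P : Subgroup G) : Set G) ∧
      n ∉ Subgroup.centralizer ((P : Subgroup G) : Set G) := by
    by_contra hcon
    push Not at hcon
    have hle : Subgroup.normalizer ((P : Subgroup G) : Set G) ≤
        Subgroup.centralizer ((P : Subgroup G) : Set G) := hcon
    have := Subgroup.card_le_of_le hle
    omega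
  obtain ⟨n, hnN, hnC⟩ := hex
  refine ⟨n, ?_⟩
  have hmem : n * t * n⁻¹ ∈ Subgroup.zpowers t := by
    rw [← hP]
    exact (Subgroup.mem_normalizer_iff.mp hnN t).mp (by rw [hP]; exact Subgroup.mem_zpowers t)
  rcases mem_zpowers_three t _ ht hmem with h1 | h1 | h1
  · exfalso
    have ht1 : t = 1 := by
      have e : t = n⁻¹ * (n * t * n⁻¹) * n := by group
      rw [e, h1]; group
    rw [ht1, orderOf_one] at ht; omega
  · exfalso
    apply hnC
    rw [Subgroup.mem_centralizer_iff]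
    intro y hy
    rw [SetLike.mem_coe, hP] at hy
    obtain ⟨i, rfl⟩ := Subgroup.mem_zpowers_iff.mp hy
    have hc : Commute n t := by
      show n * t = t * n
      calc n * t = (n * t * n⁻¹) * n := by group
        _ = t * n := by rw [h1]
    exact (hc.zpow_right i).eq.symm
  · exact h1

theorem order3_conj (h : Nat.card G = 168) (s t : G) (hs : orderOf s = 3)
    (ht : orderOf t = 3) : IsConj s t := by
  have : Fact (Nat.Prime 3) := ⟨by norm_num⟩
  obtain ⟨P, hP⟩ := sylow_of_prime_order (by rw [h]; exact fac3) s hs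
  obtain ⟨Q, hQ⟩ := sylow_of_prime_order (by rw [h]; exact fac3) t ht
  obtain ⟨g, hg⟩ := MulAction.exists_smul_eq G P Q
  have hmem : g * s * g⁻¹ ∈ Subgroup.zpowers t := by
    rw [← hQ, ← hg]; exact conj_mem_smul P g s (by rw [hP]; exact Subgroup.mem_zpowers s)
  rw [isConj_iff]
  rcases mem_zpowers_three t _ ht hmem with h1 | h1 | h1
  · exfalso
    have hs1 : s = 1 := by
      have e : s = g⁻¹ * (g * s * g⁻¹) * g := by group
      rw [e, h1]; group
    rw [hs1, orderOf_one] at hs; omega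
  · exact ⟨g, h1⟩
  · obtain ⟨n, hn⟩ := exists_invert3 h t ht
    refine ⟨n * g, ?_⟩
    calc n * g * s * (n * g)⁻¹ = n * (g * s * g⁻¹) * n⁻¹ := by group
      _ = n * t⁻¹ * n⁻¹ := by rw [h1]
      _ = (n * t * n⁻¹)⁻¹ := by group
      _ = t := by rw [hn, inv_inv]

theorem sylow2_order4_eq (h : Nat.card G = 168) (S : Sylow 2 G) (x y : G)
    (hx : x ∈ (S : Subgroup G)) (hy : y ∈ (S : Subgroup G)) (hx4 : orderOf x = 4)
    (hy4 : orderOf y = 4) : y = x ∨ y = x⁻¹ := by
  obtain ⟨e⟩ := sylow2_dihedral h S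
  have hx' : orderOf (e ⟨x, hx⟩) = 4 := by
    rw [MulEquiv.orderOf_eq, Subgroup.orderOf_mk]; exact hx4
  have hy' : orderOf (e ⟨y, hy⟩) = 4 := by
    rw [MulEquiv.orderOf_eq, Subgroup.orderOf_mk]; exact hy4
  obtain ⟨a1, a2⟩ := pow_of_orderOf_four _ hx'
  obtain ⟨b1, b2⟩ := pow_of_orderOf_four _ hy'
  rcases dihedral4_order4 _ _ a1 a2 b1 b2 with h1 | h1
  · left
    exact congrArg Subtype.val (e.injective h1)
  · right
    rw [← map_inv] at h1
    exact congrArg Subtype.val (e.injective h1)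

theorem sylow2_invert4 (h : Nat.card G = 168) (S : Sylow 2 G) (x : G)
    (hx : x ∈ (S : Subgroup G)) (hx4 : orderOf x = 4) :
    ∃ b, b ∈ (S : Subgroup G) ∧ b * x * b⁻¹ = x⁻¹ := by
  obtain ⟨e⟩ := sylow2_dihedral h S
  have hx' : orderOf (e ⟨x, hx⟩) = 4 := by
    rw [MulEquiv.orderOf_eq, Subgroup.orderOf_mk]; exact hx4
  obtain ⟨a1, a2⟩ := pow_of_orderOf_four _ hx'
  obtain ⟨b', hb'⟩ := dihedral4_invert _ a1 a2
  refine ⟨(e.symm b' : (S : Subgroup G)), (e.symm b').2, ?_⟩
  have he : e (e.symm b' * ⟨x, hx⟩ * (e.symm b')⁻¹) = e ((⟨x, hx⟩ : (S : Subgroup G))⁻¹) := by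
    rw [map_mul, map_mul, map_inv, map_inv, MulEquiv.apply_symm_apply]; exact hb'
  exact congrArg Subtype.val (e.injective he)

theorem order4_conj (h : Nat.card G = 168) (s t : G) (hs : orderOf s = 4)
    (ht : orderOf t = 4) : IsConj s t := by
  have : Fact (Nat.Prime 2) := ⟨Nat.prime_two⟩
  obtain ⟨S, hsS, -⟩ := unique_sylow2_of_order4 h s hs
  obtain ⟨S', htS, -⟩ := unique_sylow2_of_order4 h t ht
  obtain ⟨g, hg⟩ := MulAction.exists_smul_eq G S S'
  have hmem : g * s * g⁻¹ ∈ (S' : Subgroup G) := by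
    rw [← hg]; exact conj_mem_smul S g s hsS
  have hord : orderOf (g * s * g⁻¹) = 4 := by
    have := MulEquiv.orderOf_eq (MulAut.conj g) s
    rw [MulAut.conj_apply] at this
    rw [this, hs]
  rw [isConj_iff]
  rcases sylow2_order4_eq h S' t (g * s * g⁻¹) htS hmem ht hord with h1 | h1
  · exact ⟨g, h1⟩
  · obtain ⟨n, -, hn⟩ := sylow2_invert4 h S' t htS ht
    refine ⟨n * g, ?_⟩
    calc n * g * s * (n * g)⁻¹ = n * (g * s * g⁻¹) * n⁻¹ := by group
      _ = n * t⁻¹ * n⁻¹ := by rw [h1]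
      _ = (n * t * n⁻¹)⁻¹ := by group
      _ = t := by rw [hn, inv_inv]

theorem card_centralizer_order7 (h : Nat.card G = 168) (x : G) (hx : orderOf x = 7) :
    Nat.card (Subgroup.centralizer ({x} : Set G)) = 7 := by
  have : Fact (Nat.Prime 7) := ⟨by norm_num⟩
  obtain ⟨P, hP⟩ := sylow_of_prime_order (by rw [h]; exact fac7) x hx
  have hCC : Subgroup.centralizer ({x} : Set G) =
      Subgroup.centralizer ((P : Subgroup G) : Set G) := by
    apply le_antisymm
    · intro c hc
      rw [Subgroup.mem_centralizer_singleton_iff] at hc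
      rw [Subgroup.mem_centralizer_iff]
      intro y hy
      rw [SetLike.mem_coe, hP] at hy
      obtain ⟨i, rfl⟩ := Subgroup.mem_zpowers_iff.mp hy
      exact ((show Commute c x from hc).zpow_right i).eq.symm
    · apply Subgroup.centralizer_le
      rw [Set.singleton_subset_iff, SetLike.mem_coe, hP]; exact Subgroup.mem_zpowers x
  rw [hCC, card_centralizer7 h P]

theorem order7_class (h : Nat.card G = 168) (x : G) (hx : orderOf x = 7) :
    Nat.card {g : G // IsConj x g} = 24 := by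
  have := card_conj_class x
  rw [h, card_centralizer_order7 h x hx] at this
  omega

theorem order7_not_conj_inv (h : Nat.card G = 168) (x : G) (hx : orderOf x = 7) :
    ¬ IsConj x x⁻¹ := by
  have : Fact (Nat.Prime 7) := ⟨by norm_num⟩
  intro hc
  obtain ⟨g, hg⟩ := isConj_iff.mp hc
  obtain ⟨P, hP⟩ := sylow_of_prime_order (by rw [h]; exact fac7) x hx
  have hg' : g⁻¹ * x * g = x⁻¹ := by
    have e : x = g⁻¹ * x⁻¹ * g := by rw [← hg]; group
    calc g⁻¹ * x * g = (g⁻¹ * x⁻¹ * g)⁻¹ := by group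
      _ = x⁻¹ := by rw [← e]
  have key : ∀ c : G, c * x * c⁻¹ = x⁻¹ → ∀ y ∈ Subgroup.zpowers x,
      c * y * c⁻¹ ∈ Subgroup.zpowers x := by
    intro c hc y hy
    obtain ⟨i, rfl⟩ := Subgroup.mem_zpowers_iff.mp hy
    have e : c * x ^ i * c⁻¹ = (c * x * c⁻¹) ^ i := by rw [conj_zpow]
    rw [e, hc]
    exact zpow_mem (inv_mem (Subgroup.mem_zpowers x)) i
  have hgN : g ∈ Subgroup.normalizer ((P : Subgroup G) : Set G) := by
    rw [Subgroup.mem_normalizer_iff]
    intro y
    rw [hP]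
    constructor
    · exact key g hg y
    · intro hy
      have h1 := key g⁻¹ (by rw [inv_inv]; exact hg') _ hy
      rw [inv_inv] at h1
      have e : g⁻¹ * (g * y * g⁻¹) * g = y := by group
      rwa [e] at h1
  have hg21 : g ^ 21 = 1 := by
    have h1 := orderOf_dvd_natCard (⟨g, hgN⟩ : Subgroup.normalizer ((P : Subgroup G) : Set G))
    rw [Subgroup.orderOf_mk, card_normalizer7 h P] at h1
    exact orderOf_dvd_iff_pow_eq_one.mp h1
  have hcomm2 : Commute (g * g) x := by
    show g * g * x = x * (g * g)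
    calc g * g * x = g * (g * x * g⁻¹) * g⁻¹ * (g * g) := by group
      _ = g * x⁻¹ * g⁻¹ * (g * g) := by rw [hg]
      _ = (g * x * g⁻¹)⁻¹ * (g * g) := by group
      _ = x * (g * g) := by rw [hg, inv_inv]
  have hgpow : g = (g * g) ^ 11 := by
    have e : (g * g) ^ 11 = g ^ 22 := by rw [← pow_two, ← pow_mul]
    rw [e, show 22 = 21 + 1 by norm_num, pow_succ, hg21, one_mul]
  have hcomm : Commute g x := by rw [hgpow]; exact hcomm2.pow_left 11
  have hxinv : x⁻¹ = x := by
    rw [← hg, hcomm.eq]; group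
  have hxx : x * x = 1 := by
    have h1 := mul_inv_cancel x
    rwa [hxinv] at h1
  have : orderOf x ∣ 2 := orderOf_dvd_of_pow_eq_one (by rw [pow_two]; exact hxx)
  rw [hx] at this
  omega

end simple

end Cfsg.Agent.Helper4.Simple168c
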