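import Mathlib
import Cfsg.Agent.Helper4.Simple168c
import Cfsg.Agent.S1012

set_option autoImplicit false

namespace Cfsg.Agent.Helper4.Simple168d

open Cfsg.Agent.Helper4.Simple168 Cfsg.Agent.Helper4.Simple168b Cfsg.Agent.Helper4.Simple168c

section klein

variable {D : Type*} [Group D]

/-- a subgroup of order four all of whose elements square to one is a Klein four-group -/
theorem isKleinFour_of_sq (V : Subgroup D) (hc : Nat.card V = 4) (hsq : ∀ v ∈ V, v * v = 1) :
    IsKleinFour V := by
  refine ⟨hc, ?_⟩
  have hdvd : Monoid.exponent V ∣ 2 := by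
    apply Monoid.exponent_dvd_of_forall_pow_eq_one
    intro v
    rw [pow_two]
    exact Subtype.ext (hsq v v.2)
  rcases (Nat.dvd_prime Nat.prime_two).mp hdvd with h1 | h1
  · exfalso
    have hsub : Subsingleton V := Monoid.exp_eq_one_iff.mp h1
    have : Nat.card V = 1 := Nat.card_unique
    omega
  · exact h1

theorem klein_of_equiv {H K : Type*} [Group H] [Group K] (e : H ≃* K) (hK : IsKleinFour K) :
    IsKleinFour H :=
  ⟨by rw [Nat.card_congr e.toEquiv]; exact hK.card_four,
   by rw [Monoid.exponent_eq_of_mulEquiv e]; exact hK.exponent_two⟩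

theorem klein_sq (V : Subgroup D) (hV : IsKleinFour V) (v : D) (hv : v ∈ V) : v * v = 1 :=
  congrArg Subtype.val (@IsKleinFour.mul_self V _ hV ⟨v, hv⟩)

theorem klein_comm (V : Subgroup D) (hV : IsKleinFour V) (v w : D) (hv : v ∈ V) (hw : w ∈ V) :
    v * w = w * v :=
  congrArg Subtype.val ((@IsKleinFour.isMulCommutative V _ hV).is_comm.comm ⟨v, hv⟩ ⟨w, hw⟩)

/-- a dihedral group of order 8 has exactly two Klein four-subgroups -/
theorem klein_count (hc : Nat.card D = 8) (a : D) (ha : orderOf a = 4)
    (hs : ∀ b, b ∉ Subgroup.zpowers a → (b * a * b⁻¹ = a⁻¹ ∧ b * b = 1)) :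
    Nat.card {V : Subgroup D // IsKleinFour V} = 2 := by
  have : Finite D := Nat.finite_of_card_ne_zero (by rw [hc]; norm_num)
  obtain ⟨ha1, ha2, ha4, hainv, hainv2⟩ := four_facts a ha
  have hA : Nat.card (Subgroup.zpowers a) = 4 := by rw [Nat.card_zpowers, ha]
  have hidx : (Subgroup.zpowers a).index = 2 := by
    have := (Subgroup.zpowers a).card_mul_index
    rw [hA, hc] at this; omega
  have hnorm : (Subgroup.zpowers a).Normal := Subgroup.normal_of_index_eq_two hidx
  have hX : Nat.card {x : D // x ∉ Subgroup.zpowers a} = 4 := by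
    have h1 : Nat.card {x : D // x ∉ Subgroup.zpowers a} =
        Set.ncard ((Subgroup.zpowers a : Set D)ᶜ) := Nat.card_coe_set_eq _
    have h2 : (Subgroup.zpowers a : Set D).ncard = 4 := by
      rw [← Nat.card_coe_set_eq]; exact hA
    rw [h1, Set.ncard_compl, hc, h2]
  have hZ : ∀ x : D, x ∉ Subgroup.zpowers a → ∀ g, g * x = x * g → g * g = 1 := by
    intro x hx g hg
    by_cases hgA : g ∈ Subgroup.zpowers a
    · rcases mem_zpowers_four a _ ha hgA with h1 | h1 | h1 | h1
      · rw [h1, one_mul]
      · exfalso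
        apply hainv
        have hax : a * x = x * a := by rw [← h1]; exact hg
        rw [← (hs x hx).1, ← hax]; group
      · rw [h1]; exact ha4
      · exfalso
        apply hainv
        have hax : a * x = x * a := by
          have h2 : a⁻¹ * x = x * a⁻¹ := by rw [← h1]; exact hg
          calc a * x = a * (x * a⁻¹) * a := by group
            _ = a * (a⁻¹ * x) * a := by rw [h2]
            _ = x * a := by group
        rw [← (hs x hx).1, ← hax]; group
    · exact (hs g hgA).2
  have hzc : ∀ x : D, x * (a * a) = (a * a) * x := by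
    intro x
    exact struct8_central a ha (fun b hb => ⟨(hs b hb).1, Or.inl (hs b hb).2⟩) x
  have hC4 : ∀ x : D, x ∉ Subgroup.zpowers a →
      Nat.card (Subgroup.centralizer ({x} : Set D)) = 4 := by
    intro x hx
    have hz_le : Subgroup.zpowers (a * a) ≤ Subgroup.centralizer ({x} : Set D) := by
      rw [Subgroup.zpowers_le, Subgroup.mem_centralizer_singleton_iff]
      exact (hzc x).symm
    have hzcard : Nat.card (Subgroup.zpowers (a * a)) = 2 := by
      rw [Nat.card_zpowers]
      exact orderOf_eq_prime (by rw [pow_two]; exact ha4) ha2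
    have hd1 : 2 ∣ Nat.card (Subgroup.centralizer ({x} : Set D)) :=
      hzcard ▸ Subgroup.card_dvd_of_le hz_le
    have hd2 : Nat.card (Subgroup.centralizer ({x} : Set D)) ∣ 8 :=
      hc ▸ Subgroup.card_subgroup_dvd_card _
    have hne2 : Nat.card (Subgroup.centralizer ({x} : Set D)) ≠ 2 := by
      intro h2
      have e := Subgroup.eq_of_le_of_card_ge hz_le (by rw [h2, hzcard])
      have hxz : x ∈ Subgroup.zpowers (a * a) := by
        rw [e, Subgroup.mem_centralizer_singleton_iff]
      apply hx
      have hle : Subgroup.zpowers (a * a) ≤ Subgroup.zpowers a := by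
        rw [Subgroup.zpowers_le]
        exact mul_mem (Subgroup.mem_zpowers a) (Subgroup.mem_zpowers a)
      exact hle hxz
    have hne8 : Nat.card (Subgroup.centralizer ({x} : Set D)) ≠ 8 := by
      intro h8
      have htop : Subgroup.centralizer ({x} : Set D) = ⊤ :=
        Subgroup.eq_top_of_card_eq _ (by rw [h8, hc])
      have hmem : a ∈ Subgroup.centralizer ({x} : Set D) := by rw [htop]; trivial
      rw [Subgroup.mem_centralizer_singleton_iff] at hmem
      apply hainv
      rw [← (hs x hx).1, ← hmem]; group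
    have hle := Nat.le_of_dvd (by norm_num) hd2
    generalize Nat.card (Subgroup.centralizer ({x} : Set D)) = n at *
    interval_cases n <;> omega
  have hKC : ∀ x : D, x ∉ Subgroup.zpowers a →
      IsKleinFour (Subgroup.centralizer ({x} : Set D)) := by
    intro x hx
    apply isKleinFour_of_sq _ (hC4 x hx)
    intro v hv
    exact hZ x hx v (Subgroup.mem_centralizer_singleton_iff.mp hv)
  have key := card_eq_mul_of_unique
    (fun (x : {x : D // x ∉ Subgroup.zpowers a}) (V : {V : Subgroup D // IsKleinFour V}) =>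
      (x : D) ∈ V.1) 2 ?_ ?_
  · rw [hX] at key; omega
  · rintro ⟨x, hx⟩
    refine ⟨⟨Subgroup.centralizer ({x} : Set D), hKC x hx⟩, ?_, ?_⟩
    · show x ∈ Subgroup.centralizer ({x} : Set D)
      rw [Subgroup.mem_centralizer_singleton_iff]
    · rintro ⟨V, hV⟩ hxV
      apply Subtype.ext
      show V = Subgroup.centralizer ({x} : Set D)
      apply Subgroup.eq_of_le_of_card_ge
      · intro v hv
        rw [Subgroup.mem_centralizer_singleton_iff]
        exact klein_comm V hV v x hv hxV
      · rw [hC4 x hx, hV.card_four]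
  · rintro ⟨V, hV⟩
    have hVc : Nat.card V = 4 := hV.card_four
    have hnotle : ¬ V ≤ Subgroup.zpowers a := by
      intro hle
      have e := Subgroup.eq_of_le_of_card_ge hle (by rw [hVc, hA])
      apply ha2
      exact klein_sq V hV a (by rw [e]; exact Subgroup.mem_zpowers a)
    have hrel : ((Subgroup.zpowers a).subgroupOf V).index = 2 := by
      have h1 : (Subgroup.zpowers a).relIndex V ∣ (Subgroup.zpowers a).index :=
        Subgroup.relIndex_dvd_index_of_normal (Subgroup.zpowers a) V
      rw [hidx] at h1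
      rcases (Nat.dvd_prime Nat.prime_two).mp h1 with h2 | h2
      · exfalso; exact hnotle (Subgroup.relIndex_eq_one.mp h2)
      · exact h2
    have hcardAV : Nat.card ((Subgroup.zpowers a).subgroupOf V) = 2 := by
      have := ((Subgroup.zpowers a).subgroupOf V).card_mul_index
      rw [hrel, hVc] at this; omega
    have e : {x : {x : D // x ∉ Subgroup.zpowers a} // (x : D) ∈ V} ≃
        {v : V // v ∉ (Subgroup.zpowers a).subgroupOf V} :=
      { toFun := fun x => ⟨⟨x.1.1, x.2⟩, fun hmem => x.1.2 (Subgroup.mem_subgroupOf.mp hmem)⟩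
        invFun := fun v => ⟨⟨v.1.1, fun hmem => v.2 (Subgroup.mem_subgroupOf.mpr hmem)⟩, v.1.2⟩
        left_inv := fun x => rfl
        right_inv := fun v => rfl }
    rw [Nat.card_congr e]
    have h1 : Nat.card {v : V // v ∉ (Subgroup.zpowers a).subgroupOf V} =
        Set.ncard ((((Subgroup.zpowers a).subgroupOf V : Subgroup V) : Set V)ᶜ) :=
      Nat.card_coe_set_eq _
    have h2 : (((Subgroup.zpowers a).subgroupOf V : Subgroup V) : Set V).ncard = 2 := by
      rw [← Nat.card_coe_set_eq]; exact hcardAV
    rw [h1, Set.ncard_compl, hVc, h2]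

end klein

variable {G : Type*} [Group G] [Finite G]

theorem le_normalizer_of_index_two (U T : Subgroup G) (hUT : U ≤ T) (hU : Nat.card U = 4)
    (hT : Nat.card T = 8) : T ≤ Subgroup.normalizer (U : Set G) := by
  have hidx : (U.subgroupOf T).index = 2 := by
    have h1 := (U.subgroupOf T).card_mul_index
    rw [Nat.card_congr (Subgroup.subgroupOfEquivOfLe hUT).toEquiv, hU, hT] at h1
    omega
  have hn := Subgroup.normal_of_index_eq_two hidx
  exact (Subgroup.normal_subgroupOf_iff_le_normalizer hUT).mp hn

theorem map_conj_eq_of_mem_normalizer (W : Subgroup G) (g : G)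
    (hg : g ∈ Subgroup.normalizer (W : Set G)) : W.map (MulAut.conj g).toMonoidHom = W := by
  ext y
  rw [Subgroup.mem_map]
  constructor
  · rintro ⟨x, hx, rfl⟩
    exact (Subgroup.mem_normalizer_iff.mp hg x).mp hx
  · intro hy
    refine ⟨g⁻¹ * y * g, ?_, ?_⟩
    · apply (Subgroup.mem_normalizer_iff.mp hg _).mpr
      have e : g * (g⁻¹ * y * g) * g⁻¹ = y := by group
      rw [e]; exact hy
    · show g * (g⁻¹ * y * g) * g⁻¹ = y
      group

section simple

variable [IsSimpleGroup G]

theorem sylow2_struct' (h : Nat.card G = 168) (T : Sylow 2 G) :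
    ∃ a : (T : Subgroup G), orderOf a = 4 ∧ ∀ b, b ∉ Subgroup.zpowers a →
      (b * a * b⁻¹ = a⁻¹ ∧ b * b = 1) := by
  obtain ⟨a, ha, hs⟩ := sylow2_struct h T
  refine ⟨a, ha, ?_⟩
  intro b hb
  refine ⟨(hs b hb).1, ?_⟩
  rcases (hs b hb).2 with h1 | h1
  · exact h1
  · exfalso
    have hb4 : orderOf b = 4 := orderOf_eq_four_of_sq a ha b h1
    rcases sylow2_order4_eq h T (a : G) (b : G) a.2 b.2
      (by rw [Subgroup.orderOf_coe]; exact ha) (by rw [Subgroup.orderOf_coe]; exact hb4)
      with h2 | h2
    · apply hb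
      have e : b = a := Subtype.ext h2
      rw [e]; exact Subgroup.mem_zpowers a
    · apply hb
      have e : b = a⁻¹ := Subtype.ext h2
      rw [e]; exact inv_mem (Subgroup.mem_zpowers a)

/-- a Sylow 2-subgroup contains exactly two Klein four-subgroups -/
theorem sylow2_klein_count (h : Nat.card G = 168) (T : Sylow 2 G) :
    Nat.card {U : Subgroup G // U ≤ (T : Subgroup G) ∧ IsKleinFour ↥U} = 2 := by
  obtain ⟨a, ha, hs⟩ := sylow2_struct' h T
  have hcount := klein_count (card_sylow2 h T) a ha hs
  refine (Nat.card_congr ?_).trans hcount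
  exact
    { toFun := fun U => ⟨U.1.subgroupOf (T : Subgroup G),
        klein_of_equiv (Subgroup.subgroupOfEquivOfLe U.2.1) U.2.2⟩
      invFun := fun V => ⟨V.1.map (T : Subgroup G).subtype,
        ⟨Subgroup.map_subtype_le V.1,
          klein_of_equiv (V.1.equivMapOfInjective _ (Subgroup.subtype_injective _)).symm V.2⟩⟩
      left_inv := fun U => Subtype.ext (Subgroup.map_subgroupOf_eq_of_le U.2.1)
      right_inv := fun V => Subtype.ext (by
        show (V.1.map (T : Subgroup G).subtype).comap (T : Subgroup G).subtype = V.1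
        exact Subgroup.comap_map_eq_self_of_injective (Subgroup.subtype_injective _) V.1) }

/-- two Klein four-subgroups of a Sylow 2-subgroup conjugate in `G` are equal -/
theorem klein_not_conj (h : Nat.card G = 168) (T : Sylow 2 G) (U W : Subgroup G)
    (hU : U ≤ (T : Subgroup G)) (hW : W ≤ (T : Subgroup G)) (hUK : IsKleinFour U)
    (hWK : IsKleinFour W) (g : G) (hmap : U.map (MulAut.conj g).toMonoidHom = W) : U = W := by
  have : Fact (Nat.Prime 2) := ⟨Nat.prime_two⟩
  have hT8 : Nat.card (T : Subgroup G) = 8 := card_sylow2 h T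
  have hTU : (T : Subgroup G) ≤ Subgroup.normalizer (U : Set G) :=
    le_normalizer_of_index_two U T hU hUK.card_four hT8
  have hTW : (T : Subgroup G) ≤ Subgroup.normalizer (W : Set G) :=
    le_normalizer_of_index_two W T hW hWK.card_four hT8
  have hgT : ((g • T : Sylow 2 G) : Subgroup G) ≤ Subgroup.normalizer (W : Set G) := by
    intro y hy
    obtain ⟨x, hx, rfl⟩ := exists_of_mem_smul T g y hy
    rw [← hmap, ← Subgroup.map_equiv_normalizer_eq U (MulAut.conj g)]
    exact ⟨x, hTU hx, rfl⟩
  obtain ⟨n, hn⟩ := MulAction.exists_smul_eq (Subgroup.normalizer (W : Set G))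
    (T.subtype hTW) ((g • T).subtype hgT)
  have hnT : n • T = g • T := by
    rw [Sylow.smul_subtype] at hn
    exact Sylow.subtype_injective hn
  have hmem : g⁻¹ * (n : G) ∈ (T : Subgroup G) := by
    have h1 : (g⁻¹ * (n : G)) • T = T := by
      rw [mul_smul]
      have h2 : (n : G) • T = g • T := hnT
      rw [h2, inv_smul_smul]
    have h3 : g⁻¹ * (n : G) ∈ Subgroup.normalizer ((T : Subgroup G) : Set G) :=
      Sylow.smul_eq_iff_mem_normalizer.mp h1
    rw [normalizer2 h T] at h3
    exact h3
  have hgN : g ∈ Subgroup.normalizer (W : Set G) := by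
    have e : g = (n : G) * (g⁻¹ * (n : G))⁻¹ := by group
    rw [e]
    exact mul_mem n.2 (inv_mem (hTW hmem))
  have hW' := map_conj_eq_of_mem_normalizer W g hgN
  have hinj : Function.Injective (MulAut.conj g).toMonoidHom := (MulAut.conj g).injective
  exact Subgroup.map_injective hinj (hmap.trans hW'.symm)

/-- the normaliser of a Klein four-subgroup has order 24 -/
theorem card_normalizer_klein (h : Nat.card G = 168) (U : Subgroup G) (hU : IsKleinFour U) :
    Nat.card (Subgroup.normalizer (U : Set G)) = 24 := by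
  have : Fact (Nat.Prime 2) := ⟨Nat.prime_two⟩
  have hU4 : Nat.card U = 4 := hU.card_four
  have hp : IsPGroup 2 U := IsPGroup.of_card (n := 2) (by rw [hU4]; norm_num)
  obtain ⟨T, hUT⟩ := hp.exists_le_sylow
  have hT8 : Nat.card (T : Subgroup G) = 8 := card_sylow2 h T
  have hTN : (T : Subgroup G) ≤ Subgroup.normalizer (U : Set G) :=
    le_normalizer_of_index_two U T hUT hU4 hT8
  obtain ⟨z, hzT, hz2, hzc⟩ := sylow2_exists_central h T
  have hex : ∃ x ∈ U, x ≠ 1 ∧ x ≠ z := by
    by_contra hcon
    push Not at hcon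
    have hsub : (U : Set G) ⊆ {1, z} := by
      intro x hx
      by_cases h1 : x = 1
      · left; exact h1
      · right; exact hcon x hx h1
    have h1 : (U : Set G).ncard ≤ ({1, z} : Set G).ncard :=
      Set.ncard_le_ncard hsub (Set.toFinite _)
    have h2 : ({1, z} : Set G).ncard ≤ 2 :=
      (Set.ncard_insert_le 1 {z}).trans (by rw [Set.ncard_singleton])
    have h3 : (U : Set G).ncard = 4 := by rw [← Nat.card_coe_set_eq]; exact hU4
    omega
  obtain ⟨x, hxU, hx1, hxz⟩ := hex
  have hx2 : orderOf x = 2 := by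
    apply orderOf_eq_prime
    · rw [pow_two]; exact klein_sq U hU x hxU
    · exact hx1
  obtain ⟨S, hxS, hxc⟩ := involution_central h x hx2
  have hCS := centralizer_central2 h S x hxS hx1 hxc
  have hUS : U ≤ (S : Subgroup G) := by
    rw [← hCS]
    intro u hu
    rw [Subgroup.mem_centralizer_singleton_iff]
    exact klein_comm U hU u x hu hxU
  have hS8 : Nat.card (S : Subgroup G) = 8 := card_sylow2 h S
  have hSN : (S : Subgroup G) ≤ Subgroup.normalizer (U : Set G) :=
    le_normalizer_of_index_two U S hUS hU4 hS8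
  have hST : S ≠ T := by
    rintro rfl
    apply hxz
    have hz1 : z ≠ 1 := by rintro rfl; rw [orderOf_one] at hz2; omega
    exact sylow2_central_unique h S x z hxS hx1 hxc hzT hz1 hzc
  have hd1 : 8 ∣ Nat.card (Subgroup.normalizer (U : Set G)) := by
    have := Subgroup.card_dvd_of_le hTN
    rwa [hT8] at this
  have hd2 : Nat.card (Subgroup.normalizer (U : Set G)) ∣ 168 :=
    h ▸ Subgroup.card_subgroup_dvd_card _
  have hne8 : Nat.card (Subgroup.normalizer (U : Set G)) ≠ 8 := by
    intro h8
    apply hST
    apply Sylow.ext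
    have e1 := Subgroup.eq_of_le_of_card_ge hTN (by rw [h8, hT8])
    have e2 := Subgroup.eq_of_le_of_card_ge hSN (by rw [h8, hS8])
    rw [e2, e1]
  have hne56 : Nat.card (Subgroup.normalizer (U : Set G)) ≠ 56 := by
    intro h56
    have hidx := (Subgroup.normalizer (U : Set G)).card_mul_index
    rw [h56, h] at hidx
    have := index_ge h (Subgroup.normalizer (U : Set G))
      (by intro htop; rw [htop, Subgroup.card_top, h] at h56; omega)
    omega
  have hne168 : Nat.card (Subgroup.normalizer (U : Set G)) ≠ 168 := by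
    intro h168
    have htop : Subgroup.normalizer (U : Set G) = ⊤ :=
      Subgroup.eq_top_of_card_eq _ (by rw [h168, h])
    have hUn : U.Normal := Subgroup.normalizer_eq_top_iff.mp htop
    rcases IsSimpleGroup.eq_bot_or_eq_top_of_normal U hUn with hb | ht
    · rw [hb, Subgroup.card_bot] at hU4; omega
    · rw [ht, Subgroup.card_top, h] at hU4; omega
  generalize Nat.card (Subgroup.normalizer (U : Set G)) = n at *
  obtain ⟨m, rfl⟩ := hd1
  have hm21 : m ∣ 21 := by
    have : 8 * m ∣ 8 * 21 := hd2
    exact Nat.dvd_of_mul_dvd_mul_left (by norm_num) this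
  have hm : m ≤ 21 := Nat.le_of_dvd (by norm_num) hm21
  interval_cases m <;> omega

/-- a subgroup of order 24 is a symmetric group of degree 4 -/
theorem equiv_perm_of_card (h : Nat.card G = 168) (M : Subgroup G) (hM : Nat.card M = 24) :
    Nonempty (M ≃* Equiv.Perm (Fin 4)) := by
  apply Cfsg.Agent.S1012.result hM
  intro g hg
  have := orderOf_mem h (g : G)
  rw [Subgroup.orderOf_coe, hg] at this
  omega

theorem normalizer_klein_equiv (h : Nat.card G = 168) (U : Subgroup G) (hU : IsKleinFour U) :
    Nonempty (Subgroup.normalizer (U : Set G) ≃* Equiv.Perm (Fin 4)) :=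
  equiv_perm_of_card h _ (card_normalizer_klein h U hU)

end simple

end Cfsg.Agent.Helper4.Simple168d
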