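import Mathlib
import Cfsg.Agent.Helper4.Simple168d

set_option autoImplicit false

namespace Cfsg.Agent.Helper4.Simple168e

open Cfsg.Agent.Helper4.Simple168 Cfsg.Agent.Helper4.Simple168b Cfsg.Agent.Helper4.Simple168c
  Cfsg.Agent.Helper4.Simple168d

variable {G : Type*} [Group G] [Finite G]

/-- two subgroups with trivial intersection inside `M` -/
theorem card_mul_le (P Q M : Subgroup G) (hP : P ≤ M) (hQ : Q ≤ M) (hPQ : P ⊓ Q = ⊥) :
    Nat.card P * Nat.card Q ≤ Nat.card M := by
  rw [← Nat.card_prod]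
  apply Nat.card_le_card_of_injective
    (fun x : P × Q => (⟨(x.1 : G) * (x.2 : G), mul_mem (hP x.1.2) (hQ x.2.2)⟩ : M))
  rintro ⟨p, q⟩ ⟨p', q'⟩ hpq
  have h1 : (p : G) * (q : G) = (p' : G) * (q' : G) := congrArg Subtype.val hpq
  have h2 : (p' : G)⁻¹ * (p : G) = (q' : G) * (q : G)⁻¹ := by
    calc (p' : G)⁻¹ * (p : G) = (p' : G)⁻¹ * ((p : G) * (q : G)) * (q : G)⁻¹ := by group
      _ = (p' : G)⁻¹ * ((p' : G) * (q' : G)) * (q : G)⁻¹ := by rw [h1]
      _ = (q' : G) * (q : G)⁻¹ := by group
  have h3 : (p' : G)⁻¹ * (p : G) ∈ P ⊓ Q := by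
    refine Subgroup.mem_inf.mpr ⟨mul_mem (inv_mem p'.2) p.2, ?_⟩
    rw [h2]; exact mul_mem q'.2 (inv_mem q.2)
  rw [hPQ, Subgroup.mem_bot] at h3
  have h4 : (p : G) = (p' : G) := by
    calc (p : G) = (p' : G) * ((p' : G)⁻¹ * (p : G)) := by group
      _ = (p' : G) := by rw [h3, mul_one]
  have h5 : (q : G) = (q' : G) := by
    rw [h4] at h1
    exact mul_left_cancel h1
  exact Prod.ext (Subtype.ext h4) (Subtype.ext h5)

theorem le_normalizer_of_card_two (U T : Subgroup G) (hUT : U ≤ T)
    (hc : Nat.card T = 2 * Nat.card U) : T ≤ Subgroup.normalizer (U : Set G) := by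
  have hidx : (U.subgroupOf T).index = 2 := by
    have h1 := (U.subgroupOf T).card_mul_index
    rw [Nat.card_congr (Subgroup.subgroupOfEquivOfLe hUT).toEquiv, hc] at h1
    have hpos : 0 < Nat.card U := Nat.card_pos
    have h2 : Nat.card U * (U.subgroupOf T).index = Nat.card U * 2 := by rw [h1, mul_comm]
    exact Nat.eq_of_mul_eq_mul_left hpos h2
  have hn := Subgroup.normal_of_index_eq_two hidx
  exact (Subgroup.normal_subgroupOf_iff_le_normalizer hUT).mp hn

theorem mem_normalizer_of_map_conj_eq (H : Subgroup G) (k : G)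
    (hk : H.map (MulAut.conj k).toMonoidHom = H) : k ∈ Subgroup.normalizer (H : Set G) := by
  rw [Subgroup.mem_normalizer_iff]
  intro x
  constructor
  · intro hx
    have : k * x * k⁻¹ ∈ H.map (MulAut.conj k).toMonoidHom := ⟨x, hx, rfl⟩
    rw [hk] at this
    exact this
  · intro hx
    have hx' : k * x * k⁻¹ ∈ H.map (MulAut.conj k).toMonoidHom := by rw [hk]; exact hx
    obtain ⟨x', hx'H, hx'e⟩ := hx'
    have e : k * x' * k⁻¹ = k * x * k⁻¹ := hx'e
    have : x' = x := by
      have e2 : k⁻¹ * (k * x' * k⁻¹) * k = k⁻¹ * (k * x * k⁻¹) * k := by rw [e]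
      have l1 : k⁻¹ * (k * x' * k⁻¹) * k = x' := by group
      have l2 : k⁻¹ * (k * x * k⁻¹) * k = x := by group
      rw [l1, l2] at e2
      exact e2
    rw [← this]; exact hx'H

theorem map_conj_map_conj_inv (W : Subgroup G) (g : G) :
    (W.map (MulAut.conj g⁻¹).toMonoidHom).map (MulAut.conj g).toMonoidHom = W := by
  rw [Subgroup.map_map]
  have : (MulAut.conj g).toMonoidHom.comp (MulAut.conj g⁻¹).toMonoidHom = MonoidHom.id G := by
    ext x
    show g * (g⁻¹ * x * g⁻¹⁻¹) * g⁻¹ = x
    group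
  rw [this, Subgroup.map_id]

theorem klein_map_conj (U : Subgroup G) (hU : IsKleinFour U) (g : G) :
    IsKleinFour (U.map (MulAut.conj g).toMonoidHom) :=
  klein_of_equiv (U.equivMapOfInjective _ (MulAut.conj g).injective).symm hU

theorem normalizer_smul {p : ℕ} [Fact p.Prime] (P : Sylow p G) (g : G) :
    Subgroup.normalizer (((g • P : Sylow p G) : Subgroup G) : Set G) =
      (Subgroup.normalizer ((P : Subgroup G) : Set G)).map (MulAut.conj g).toMonoidHom := by
  rw [Subgroup.map_equiv_normalizer_eq (P : Subgroup G) (MulAut.conj g)]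
  rfl

section simple

variable [IsSimpleGroup G]

theorem card_le_of_ne_top (h : Nat.card G = 168) (M : Subgroup G) (hM : M ≠ ⊤) :
    Nat.card M ≤ 24 := by
  have h1 := M.card_mul_index
  have h2 := index_ge h M hM
  rw [h] at h1
  by_contra hcon
  push Not at hcon
  have : 25 * 7 ≤ Nat.card M * M.index := Nat.mul_le_mul hcon h2
  omega

theorem ne_top_of_card (h : Nat.card G = 168) (M : Subgroup G) (hM : Nat.card M ≠ 168) :
    M ≠ ⊤ := by
  rintro rfl
  rw [Subgroup.card_top] at hM
  exact hM h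

/-- a proper subgroup containing a coatom with a different order: contradiction -/
theorem coatom_le (M K : Subgroup G) (hM : IsCoatom M) (hMK : M ≤ K) (hK : K ≠ ⊤) : M = K := by
  rcases eq_or_lt_of_le hMK with h1 | h1
  · exact h1
  · exact absurd (hM.2 K h1) hK

theorem coatom_of_card_24 (h : Nat.card G = 168) (M : Subgroup G) (hM : Nat.card M = 24) :
    IsCoatom M := by
  refine ⟨ne_top_of_card h M (by rw [hM]; norm_num), ?_⟩
  intro K hK
  have hd1 : 24 ∣ Nat.card K := hM ▸ Subgroup.card_dvd_of_le hK.le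
  have hd2 : Nat.card K ∣ 168 := h ▸ Subgroup.card_subgroup_dvd_card K
  have hne : Nat.card K ≠ 24 := by
    intro h24
    have := Subgroup.eq_of_le_of_card_ge hK.le (by rw [h24, hM])
    exact hK.ne this
  apply Subgroup.eq_top_of_card_eq
  rw [h]
  generalize Nat.card K = n at *
  obtain ⟨m, rfl⟩ := hd1
  have hm7 : m ∣ 7 := by
    have : 24 * m ∣ 24 * 7 := hd2
    exact Nat.dvd_of_mul_dvd_mul_left (by norm_num) this
  have hm : m ≤ 7 := Nat.le_of_dvd (by norm_num) hm7
  interval_cases m <;> omega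

/-- a maximal subgroup of order divisible by 7 is the normaliser of a Sylow 7-subgroup -/
theorem coatom_seven (h : Nat.card G = 168) (M : Subgroup G) (hM : IsCoatom M)
    (h7 : 7 ∣ Nat.card M) :
    ∃ P : Sylow 7 G, M = Subgroup.normalizer ((P : Subgroup G) : Set G) := by
  have : Fact (Nat.Prime 7) := ⟨by norm_num⟩
  have hle := card_le_of_ne_top h M hM.1
  obtain ⟨y, hy⟩ := exists_prime_orderOf_dvd_card' (G := M) 7 h7
  have hy7 : orderOf (y : G) = 7 := by rw [Subgroup.orderOf_coe]; exact hy
  obtain ⟨P, hP⟩ := sylow_of_prime_order (by rw [h]; exact fac7) (y : G) hy7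
  have hPM : (P : Subgroup G) ≤ M := by
    rw [hP, Subgroup.zpowers_le]; exact y.2
  refine ⟨P, ?_⟩
  apply coatom_le M _ hM
  · intro m hm
    apply Sylow.smul_eq_iff_mem_normalizer.mp
    by_contra hne
    have hQM : ((m • P : Sylow 7 G) : Subgroup G) ≤ M := by
      intro q hq
      obtain ⟨x, hx, rfl⟩ := exists_of_mem_smul P m q hq
      exact mul_mem (mul_mem hm (hPM hx)) (inv_mem hm)
    have hcP : Nat.card (P : Subgroup G) = 7 := card_sylow7 h P
    have hcQ : Nat.card ((m • P : Sylow 7 G) : Subgroup G) = 7 := card_sylow7 h (m • P)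
    have hinf : (P : Subgroup G) ⊓ ((m • P : Sylow 7 G) : Subgroup G) = ⊥ := by
      have hd : Nat.card ((P : Subgroup G) ⊓ ((m • P : Sylow 7 G) : Subgroup G) : Subgroup G) ∣ 7 := by
        have h0 := Subgroup.card_dvd_of_le
          (inf_le_left : (P : Subgroup G) ⊓ ((m • P : Sylow 7 G) : Subgroup G) ≤ (P : Subgroup G))
        rwa [hcP] at h0
      rcases (Nat.dvd_prime (by norm_num : Nat.Prime 7)).mp hd with h1 | h1
      · exact Subgroup.eq_bot_of_card_eq _ h1
      · exfalso
        apply hne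
        have e1 : (P : Subgroup G) ⊓ ((m • P : Sylow 7 G) : Subgroup G) = (P : Subgroup G) :=
          Subgroup.eq_of_le_of_card_ge inf_le_left (by rw [h1, hcP])
        have e2 : (P : Subgroup G) ⊓ ((m • P : Sylow 7 G) : Subgroup G) =
            ((m • P : Sylow 7 G) : Subgroup G) :=
          Subgroup.eq_of_le_of_card_ge inf_le_right (by rw [h1, hcQ])
        apply Sylow.ext
        rw [← e2, e1]
    have := card_mul_le _ _ M hPM hQM hinf
    rw [hcP, hcQ] at this
    omega
  · apply ne_top_of_card h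
    rw [card_normalizer7 h P]; norm_num

theorem normalizer7_not_comm (h : Nat.card G = 168) (P : Sylow 7 G) :
    ¬ IsMulCommutative (Subgroup.normalizer ((P : Subgroup G) : Set G)) := by
  intro hc
  have hle : Subgroup.normalizer ((P : Subgroup G) : Set G) ≤
      Subgroup.centralizer ((P : Subgroup G) : Set G) := by
    intro n hn
    rw [Subgroup.mem_centralizer_iff]
    intro y hy
    have hyN : y ∈ Subgroup.normalizer ((P : Subgroup G) : Set G) := Subgroup.le_normalizer hy
    exact congrArg Subtype.val (hc.is_comm.comm (⟨y, hyN⟩ : Subgroup.normalizer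
      ((P : Subgroup G) : Set G)) ⟨n, hn⟩)
  have := Subgroup.card_le_of_le hle
  rw [card_normalizer7 h P, card_centralizer7 h P] at this
  omega

theorem exists_klein (h : Nat.card G = 168) (T : Sylow 2 G) :
    ∃ U : Subgroup G, U ≤ (T : Subgroup G) ∧ IsKleinFour U := by
  have h2 := sylow2_klein_count h T
  have hne : Nonempty {U : Subgroup G // U ≤ (T : Subgroup G) ∧ IsKleinFour ↥U} := by
    by_contra hcon
    rw [not_nonempty_iff] at hcon
    rw [Nat.card_of_isEmpty] at h2
    omega
  obtain ⟨U, hU⟩ := hne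
  exact ⟨U, hU⟩

/-- a maximal subgroup is not a 2-group -/
theorem coatom_not_two (h : Nat.card G = 168) (M : Subgroup G) (hM : IsCoatom M)
    (h8 : Nat.card M ∣ 8) : False := by
  have : Fact (Nat.Prime 2) := ⟨Nat.prime_two⟩
  have h8' : Nat.card M ∣ 2 ^ 3 := h8
  obtain ⟨k, hk, hk2⟩ := (Nat.dvd_prime_pow Nat.prime_two).mp h8'
  have hp : IsPGroup 2 M := IsPGroup.of_card hk2
  obtain ⟨T, hMT⟩ := hp.exists_le_sylow
  obtain ⟨U, hUT, hU⟩ := exists_klein h T
  have hT8 : Nat.card (T : Subgroup G) = 8 := card_sylow2 h T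
  have hTN : (T : Subgroup G) ≤ Subgroup.normalizer (U : Set G) :=
    le_normalizer_of_index_two U T hUT hU.card_four hT8
  have hN := card_normalizer_klein h U hU
  have e := coatom_le M _ hM (hMT.trans hTN) (ne_top_of_card h _ (by rw [hN]; norm_num))
  rw [← e] at hN
  have := Nat.le_of_dvd (by norm_num) h8
  omega

theorem num_aux24 (a n : ℕ) (h1 : a * n = 24) (h2 : n % 3 = 1) (h3 : 3 ∣ a) (hle : a ≤ 6) :
    a = 6 := by
  obtain ⟨c, rfl⟩ := h3
  have hc : c ≤ 2 := by omega
  interval_cases c
  · omega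
  · omega
  · rfl

/-- the normaliser of a Sylow 3-subgroup lying in a subgroup of order 24 lies in it -/
theorem normalizer3_le (h : Nat.card G = 168) (K : Subgroup G) (hK : Nat.card K = 24)
    (Q : Sylow 3 G) (hQK : (Q : Subgroup G) ≤ K) :
    Subgroup.normalizer ((Q : Subgroup G) : Set G) ≤ K := by
  have : Fact (Nat.Prime 3) := ⟨by norm_num⟩
  have hQ3 : Nat.card (Q : Subgroup G) = 3 := card_sylow3 h Q
  have hN6 := card_normalizer3 h Q
  have hQ'coe : ((Q.subtype hQK : Sylow 3 K) : Subgroup K) = (Q : Subgroup G).subgroupOf K :=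
    Sylow.coe_subtype Q hQK
  have hQ'card : Nat.card ((Q.subtype hQK : Sylow 3 K) : Subgroup K) = 3 := by
    rw [hQ'coe, Nat.card_congr (Subgroup.subgroupOfEquivOfLe hQK).toEquiv, hQ3]
  have h1 := Lead.card_normalizer_mul_card_sylow (Q.subtype hQK)
  rw [hK] at h1
  have h2 : Nat.card (Sylow 3 K) ≡ 1 [MOD 3] := card_sylow_modEq_one 3 K
  have h3 : 3 ∣ Nat.card (Subgroup.normalizer
      (((Q.subtype hQK : Sylow 3 K) : Subgroup K) : Set K)) := by
    have := Subgroup.card_dvd_of_le (Subgroup.le_normalizer :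
      ((Q.subtype hQK : Sylow 3 K) : Subgroup K) ≤
        Subgroup.normalizer (((Q.subtype hQK : Sylow 3 K) : Subgroup K) : Set K))
    rwa [hQ'card] at this
  have hNeq : Subgroup.normalizer (((Q.subtype hQK : Sylow 3 K) : Subgroup K) : Set K) =
      (Subgroup.normalizer ((Q : Subgroup G) : Set G)).subgroupOf K := by
    rw [hQ'coe]; exact (Subgroup.subgroupOf_normalizer_eq hQK).symm
  have hcardN : Nat.card (Subgroup.normalizer
      (((Q.subtype hQK : Sylow 3 K) : Subgroup K) : Set K)) =
      Nat.card ((Subgroup.normalizer ((Q : Subgroup G) : Set G)) ⊓ K : Subgroup G) := by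
    rw [hNeq, ← Subgroup.inf_subgroupOf_right]
    exact Nat.card_congr (Subgroup.subgroupOfEquivOfLe inf_le_right).toEquiv
  have hle6 : Nat.card ((Subgroup.normalizer ((Q : Subgroup G) : Set G)) ⊓ K : Subgroup G) ≤ 6 := by
    rw [← hN6]; exact Subgroup.card_le_of_le inf_le_left
  have h6 : Nat.card ((Subgroup.normalizer ((Q : Subgroup G) : Set G)) ⊓ K : Subgroup G) = 6 := by
    rw [← hcardN] at hle6 ⊢
    exact num_aux24 _ _ h1 h2 h3 hle6
  have e := Subgroup.eq_of_le_of_card_ge
    (inf_le_left : (Subgroup.normalizer ((Q : Subgroup G) : Set G)) ⊓ K ≤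
      Subgroup.normalizer ((Q : Subgroup G) : Set G)) (by rw [h6, hN6])
  rw [← e]; exact inf_le_right

theorem normalizer3_in_24 (h : Nat.card G = 168) (P : Sylow 3 G) :
    ∃ K : Subgroup G, Nat.card K = 24 ∧ Subgroup.normalizer ((P : Subgroup G) : Set G) ≤ K := by
  have : Fact (Nat.Prime 3) := ⟨by norm_num⟩
  have : Fact (Nat.Prime 2) := ⟨Nat.prime_two⟩
  obtain ⟨T⟩ : Nonempty (Sylow 2 G) := inferInstance
  obtain ⟨U, hUT, hU⟩ := exists_klein h T
  have hN := card_normalizer_klein h U hU
  obtain ⟨y, hy⟩ := exists_prime_orderOf_dvd_card' (G := Subgroup.normalizer (U : Set G)) 3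
    (by rw [hN]; norm_num)
  have hy3 : orderOf (y : G) = 3 := by rw [Subgroup.orderOf_coe]; exact hy
  obtain ⟨Q, hQ⟩ := sylow_of_prime_order (by rw [h]; exact fac3) (y : G) hy3
  have hQK : (Q : Subgroup G) ≤ Subgroup.normalizer (U : Set G) := by
    rw [hQ, Subgroup.zpowers_le]; exact y.2
  have hNQ := normalizer3_le h _ hN Q hQK
  obtain ⟨g, hg⟩ := MulAction.exists_smul_eq G Q P
  refine ⟨(Subgroup.normalizer (U : Set G)).map (MulAut.conj g).toMonoidHom, ?_, ?_⟩
  · rw [Subgroup.card_map_of_injective (MulAut.conj g).injective, hN]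
  · rw [← hg, normalizer_smul]
    exact Subgroup.map_mono hNQ

theorem coatom_not_three (h : Nat.card G = 168) (M : Subgroup G) (hM : IsCoatom M)
    (h3 : Nat.card M = 3 ∨ Nat.card M = 6) : False := by
  have : Fact (Nat.Prime 3) := ⟨by norm_num⟩
  obtain ⟨y, hy⟩ := exists_prime_orderOf_dvd_card' (G := M) 3
    (by rcases h3 with h3 | h3 <;> rw [h3] <;> norm_num)
  have hy3 : orderOf (y : G) = 3 := by rw [Subgroup.orderOf_coe]; exact hy
  obtain ⟨Q, hQ⟩ := sylow_of_prime_order (by rw [h]; exact fac3) (y : G) hy3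
  have hQM : (Q : Subgroup G) ≤ M := by rw [hQ, Subgroup.zpowers_le]; exact y.2
  have hQ3 : Nat.card (Q : Subgroup G) = 3 := card_sylow3 h Q
  have hMN : M ≤ Subgroup.normalizer ((Q : Subgroup G) : Set G) := by
    rcases h3 with h3 | h3
    · have e := Subgroup.eq_of_le_of_card_ge hQM (by rw [h3, hQ3])
      rw [← e]; exact Subgroup.le_normalizer
    · exact le_normalizer_of_card_two _ M hQM (by rw [h3, hQ3])
  obtain ⟨K, hK, hNK⟩ := normalizer3_in_24 h Q
  have e := coatom_le M K hM (hMN.trans hNK) (ne_top_of_card h K (by rw [hK]; norm_num))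
  rw [← e] at hK
  rcases h3 with h3 | h3 <;> omega

theorem fac12_3 : (12 : ℕ).factorization 3 = 1 := by
  have e : (12 : ℕ) = 3 * 4 := by norm_num
  rw [e, Nat.factorization_mul (by norm_num) (by norm_num), Finsupp.add_apply,
    Nat.Prime.factorization_self (by norm_num),
    Nat.factorization_eq_zero_of_not_dvd (by norm_num)]

theorem fac12_2 : (12 : ℕ).factorization 2 = 2 := by
  have e : (12 : ℕ) = 2 ^ 2 * 3 := by norm_num
  rw [e, Nat.factorization_mul (by norm_num) (by norm_num), Finsupp.add_apply,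
    Nat.factorization_pow, Finsupp.smul_apply, Nat.Prime.factorization_self Nat.prime_two,
    Nat.factorization_eq_zero_of_not_dvd (by norm_num)]
  rfl

theorem num_aux12 (a n : ℕ) (h1 : a * n = 12) (h2 : n % 3 = 1) (h3 : 3 ∣ a) (hn : n ≠ 1) :
    n = 4 := by
  obtain ⟨c, rfl⟩ := h3
  have hc : c ≤ 4 := by
    by_contra hcon
    push Not at hcon
    have hn0 : 1 ≤ n := by
      rcases Nat.eq_zero_or_pos n with h0 | h0
      · rw [h0] at h2; omega
      · exact h0
    have : 3 * 5 * 1 ≤ 3 * c * n := Nat.mul_le_mul (by omega) hn0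
    omega
  interval_cases c <;> omega

theorem coatom_not_twelve (h : Nat.card G = 168) (M : Subgroup G) (hM : IsCoatom M)
    (h12 : Nat.card M = 12) : False := by
  have : Fact (Nat.Prime 3) := ⟨by norm_num⟩
  have : Fact (Nat.Prime 2) := ⟨Nat.prime_two⟩
  obtain ⟨y, hy⟩ := exists_prime_orderOf_dvd_card' (G := M) 3 (by rw [h12]; norm_num)
  have hy3 : orderOf (y : G) = 3 := by rw [Subgroup.orderOf_coe]; exact hy
  obtain ⟨Q, hQ⟩ := sylow_of_prime_order (by rw [h]; exact fac3) (y : G) hy3
  have hQM : (Q : Subgroup G) ≤ M := by rw [hQ, Subgroup.zpowers_le]; exact y.2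
  have hQ3 : Nat.card (Q : Subgroup G) = 3 := card_sylow3 h Q
  have hfac3 : (Nat.card M).factorization 3 = 1 := by rw [h12]; exact fac12_3
  have hfac2 : (Nat.card M).factorization 2 = 2 := by rw [h12]; exact fac12_2
  have hQ'coe : ((Q.subtype hQM : Sylow 3 M) : Subgroup M) = (Q : Subgroup G).subgroupOf M :=
    Sylow.coe_subtype Q hQM
  have hQ'card : Nat.card ((Q.subtype hQM : Sylow 3 M) : Subgroup M) = 3 := by
    rw [hQ'coe, Nat.card_congr (Subgroup.subgroupOfEquivOfLe hQM).toEquiv, hQ3]
  have h1 := Lead.card_normalizer_mul_card_sylow (Q.subtype hQM)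
  rw [h12] at h1
  have h2 : Nat.card (Sylow 3 M) ≡ 1 [MOD 3] := card_sylow_modEq_one 3 M
  have h3 : 3 ∣ Nat.card (Subgroup.normalizer
      (((Q.subtype hQM : Sylow 3 M) : Subgroup M) : Set M)) := by
    have := Subgroup.card_dvd_of_le (Subgroup.le_normalizer :
      ((Q.subtype hQM : Sylow 3 M) : Subgroup M) ≤
        Subgroup.normalizer (((Q.subtype hQM : Sylow 3 M) : Subgroup M) : Set M))
    rwa [hQ'card] at this
  have hn1 : Nat.card (Sylow 3 M) ≠ 1 := by
    intro hone
    have hidx := index_normalizer (Q.subtype hQM)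
    rw [hone, Subgroup.index_eq_one, hQ'coe, ← Subgroup.subgroupOf_normalizer_eq hQM,
      Subgroup.subgroupOf_eq_top] at hidx
    have := Subgroup.card_le_of_le hidx
    rw [h12, card_normalizer3 h Q] at this
    omega
  have hn4 : Nat.card (Sylow 3 M) = 4 := num_aux12 _ _ h1 h2 h3 hn1
  have hord3 : Nat.card {m : M // orderOf m = 3} = 8 := by
    rw [card_orderOf_eq_prime 3 hfac3, hn4]
  have hS0 : Set.ncard {m : M | orderOf m ≠ 3} = 4 := by
    have e : {m : M | orderOf m ≠ 3} = {m : M | orderOf m = 3}ᶜ := rfl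
    have e2 : Set.ncard {m : M | orderOf m = 3} = 8 := by
      rw [← Nat.card_coe_set_eq]; exact hord3
    rw [e, Set.ncard_compl, h12, e2]
  have hVc : ∀ V : Sylow 2 M, Nat.card (V : Subgroup M) = 4 := by
    intro V
    have := V.card_eq_multiplicity
    rw [hfac2] at this
    rw [this]; norm_num
  have hV : ∀ V : Sylow 2 M, ((V : Subgroup M) : Set M) = {m : M | orderOf m ≠ 3} := by
    intro V
    apply Set.eq_of_subset_of_ncard_le
    · intro v hv
      show orderOf v ≠ 3
      intro hv3
      have := orderOf_dvd_natCard (⟨v, hv⟩ : (V : Subgroup M))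
      rw [Subgroup.orderOf_mk, hv3, hVc V] at this
      omega
    · have e : ((V : Subgroup M) : Set M).ncard = 4 := by
        rw [← Nat.card_coe_set_eq]; exact hVc V
      rw [hS0, e]
    · exact Set.toFinite _
  have hsub : Nat.card (Sylow 2 M) = 1 := by
    rw [Nat.card_eq_one_iff_unique]
    exact ⟨⟨fun V V' => Sylow.ext (SetLike.coe_injective ((hV V).trans (hV V').symm))⟩,
      inferInstance⟩
  obtain ⟨V'⟩ : Nonempty (Sylow 2 M) := inferInstance
  have hV'n : (V' : Subgroup M).Normal := by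
    have hidx := index_normalizer V'
    rw [hsub, Subgroup.index_eq_one] at hidx
    exact Subgroup.normalizer_eq_top_iff.mp hidx
  have hVM : (V' : Subgroup M).map M.subtype ≤ M := Subgroup.map_subtype_le _
  have hV4 : Nat.card ((V' : Subgroup M).map M.subtype) = 4 := by
    rw [Subgroup.card_map_of_injective (Subgroup.subtype_injective M)]; exact hVc V'
  have hMNV : M ≤ Subgroup.normalizer (((V' : Subgroup M).map M.subtype : Subgroup G) : Set G) := by
    apply (Subgroup.normal_subgroupOf_iff_le_normalizer hVM).mp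
    have e : ((V' : Subgroup M).map M.subtype).subgroupOf M = (V' : Subgroup M) :=
      Subgroup.comap_map_eq_self_of_injective (Subgroup.subtype_injective M) _
    rw [e]; exact hV'n
  by_cases hsq : ∀ v ∈ (V' : Subgroup M).map M.subtype, v * v = 1
  · have hVK : IsKleinFour ((V' : Subgroup M).map M.subtype) := isKleinFour_of_sq _ hV4 hsq
    have hN := card_normalizer_klein h _ hVK
    have e := coatom_le M _ hM hMNV (ne_top_of_card h _ (by rw [hN]; norm_num))
    rw [← e] at hN
    omega
  · push Not at hsq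
    obtain ⟨v, hvV, hv2⟩ := hsq
    have hv4 : orderOf v = 4 := by
      have hd : orderOf v ∣ 4 := by
        have := orderOf_dvd_natCard (⟨v, hvV⟩ : (V' : Subgroup M).map M.subtype)
        rwa [Subgroup.orderOf_mk, hV4] at this
      have hnd : ¬ orderOf v ∣ 2 := by
        intro h2
        apply hv2
        have := orderOf_dvd_iff_pow_eq_one.mp h2
        rwa [pow_two] at this
      have hle := Nat.le_of_dvd (by norm_num) hd
      have hpos := orderOf_pos v
      generalize orderOf v = n at *
      interval_cases n <;> omega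
    have hVz : (V' : Subgroup M).map M.subtype = Subgroup.zpowers v := by
      symm
      apply Subgroup.eq_of_le_of_card_ge
      · rw [Subgroup.zpowers_le]; exact hvV
      · rw [Nat.card_zpowers, hv4, hV4]
    have hyN : (y : G) ∈ Subgroup.normalizer
        (((V' : Subgroup M).map M.subtype : Subgroup G) : Set G) := hMNV y.2
    have hmem : (y : G) * v * (y : G)⁻¹ ∈ Subgroup.zpowers v := by
      rw [← hVz]; exact (Subgroup.mem_normalizer_iff.mp hyN v).mp hvV
    have hord : orderOf ((y : G) * v * (y : G)⁻¹) = 4 := by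
      have := MulEquiv.orderOf_eq (MulAut.conj (y : G)) v
      rw [MulAut.conj_apply] at this
      rw [this, hv4]
    obtain ⟨hv1, hvv, hv44, hvinv, hvinv2⟩ := four_facts v hv4
    have h2v : 2 ∣ orderOf v := by rw [hv4]; norm_num
    rcases mem_zpowers_four v _ hv4 hmem with c1 | c1 | c1 | c1
    · rw [c1, orderOf_one] at hord; omega
    · apply not_commute_three h (y : G) v hy3 h2v
      calc (y : G) * v = ((y : G) * v * (y : G)⁻¹) * (y : G) := by group
        _ = v * (y : G) := by rw [c1]
    · have : orderOf ((y : G) * v * (y : G)⁻¹) ∣ 2 := by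
        apply orderOf_dvd_of_pow_eq_one; rw [c1, pow_two]; exact hv44
      rw [hord] at this; omega
    · have hy3' : (y : G) ^ 3 = 1 := by rw [← hy3]; exact pow_orderOf_eq_one _
      have hyy : (y : G) * (y : G) = (y : G)⁻¹ := by
        rw [eq_inv_iff_mul_eq_one, ← hy3']
        simp only [pow_succ, pow_zero, one_mul]
      have hc2 : (y : G)⁻¹ * v = v * (y : G)⁻¹ := by
        have e1 : (y : G) * ((y : G) * v * (y : G)⁻¹) * (y : G)⁻¹ = v := by
          have e0 : (y : G) * ((y : G) * v * (y : G)⁻¹) * (y : G)⁻¹ =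
              (y : G) * v⁻¹ * (y : G)⁻¹ := by rw [c1]
          rw [e0]
          calc (y : G) * v⁻¹ * (y : G)⁻¹ = ((y : G) * v * (y : G)⁻¹)⁻¹ := by group
            _ = v := by rw [c1, inv_inv]
        have e2 : (y : G) * (y : G) * v = v * ((y : G) * (y : G)) := by
          calc (y : G) * (y : G) * v =
              ((y : G) * ((y : G) * v * (y : G)⁻¹) * (y : G)⁻¹) * ((y : G) * (y : G)) := by group
            _ = v * ((y : G) * (y : G)) := by rw [e1]
        rw [hyy] at e2; exact e2
      exact not_commute_three h (y : G)⁻¹ v (by rw [orderOf_inv]; exact hy3) h2v hc2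

/-- classification of the maximal subgroups by order -/
theorem coatom_classify (h : Nat.card G = 168) (M : Subgroup G) (hM : IsCoatom M) :
    Nonempty (M ≃* Equiv.Perm (Fin 4)) ∨ (Nat.card M = 21 ∧ ¬ IsMulCommutative M) := by
  have hle := card_le_of_ne_top h M hM.1
  have hd : Nat.card M ∣ 168 := h ▸ Subgroup.card_subgroup_dvd_card M
  by_cases h7 : 7 ∣ Nat.card M
  · right
    obtain ⟨P, hP⟩ := coatom_seven h M hM h7
    subst hP
    exact ⟨card_normalizer7 h P, normalizer7_not_comm h P⟩
  · left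
    have hc7 : Nat.Coprime (Nat.card M) 7 :=
      ((Nat.Prime.coprime_iff_not_dvd (by norm_num : Nat.Prime 7)).mpr h7).symm
    have hd24 : Nat.card M ∣ 24 := by
      apply Nat.Coprime.dvd_of_dvd_mul_right hc7
      norm_num
      exact hd
    have hpos : 0 < Nat.card M := Nat.card_pos
    by_cases h24 : Nat.card M = 24
    · exact equiv_perm_of_card h M h24
    · exfalso
      by_cases h8 : Nat.card M ∣ 8
      · exact coatom_not_two h M hM h8
      · by_cases h3 : Nat.card M = 3 ∨ Nat.card M = 6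
        · exact coatom_not_three h M hM h3
        · have h12 : Nat.card M = 12 := by
            clear hd hc7 h7
            generalize Nat.card M = n at *
            interval_cases n <;> omega
          exact coatom_not_twelve h M hM h12

theorem coatom21_conj (h : Nat.card G = 168) (M M' : Subgroup G) (hM : IsCoatom M)
    (hM' : IsCoatom M') (h21 : Nat.card M = 21) (h21' : Nat.card M' = 21) :
    ∃ g : G, M' = M.map (MulAut.conj g).toMonoidHom := by
  have : Fact (Nat.Prime 7) := ⟨by norm_num⟩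
  obtain ⟨P, hP⟩ := coatom_seven h M hM (by rw [h21]; norm_num)
  obtain ⟨P', hP'⟩ := coatom_seven h M' hM' (by rw [h21']; norm_num)
  obtain ⟨g, hg⟩ := MulAction.exists_smul_eq G P P'
  refine ⟨g, ?_⟩
  rw [hP', hP, ← hg, normalizer_smul]

/-- a Klein four-subgroup is determined by its normaliser -/
theorem klein_eq_of_normalizer_eq (h : Nat.card G = 168) (U W : Subgroup G)
    (hU : IsKleinFour U) (hW : IsKleinFour W)
    (hN : Subgroup.normalizer (U : Set G) = Subgroup.normalizer (W : Set G)) : U = W := by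
  have : Fact (Nat.Prime 2) := ⟨Nat.prime_two⟩
  by_contra hne
  have hU4 : Nat.card U = 4 := hU.card_four
  have hW4 : Nat.card W = 4 := hW.card_four
  have hKc := card_normalizer_klein h U hU
  have hUK : U ≤ Subgroup.normalizer (U : Set G) := Subgroup.le_normalizer
  have hWK : W ≤ Subgroup.normalizer (U : Set G) := by rw [hN]; exact Subgroup.le_normalizer
  have hpU : IsPGroup 2 U := IsPGroup.of_card (n := 2) (by rw [hU4]; norm_num)
  have hpW : IsPGroup 2 W := IsPGroup.of_card (n := 2) (by rw [hW4]; norm_num)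
  have hpJ : IsPGroup 2 (U ⊔ W : Subgroup G) :=
    IsPGroup.to_sup_of_normal_right' hpU hpW (by rw [← hN]; exact hUK)
  have hJK : U ⊔ W ≤ Subgroup.normalizer (U : Set G) := sup_le hUK hWK
  have hKJ : Subgroup.normalizer (U : Set G) ≤
      Subgroup.normalizer ((U ⊔ W : Subgroup G) : Set G) := by
    intro k hk
    apply mem_normalizer_of_map_conj_eq
    rw [Subgroup.map_sup, map_conj_eq_of_mem_normalizer U k hk,
      map_conj_eq_of_mem_normalizer W k (by rw [← hN]; exact hk)]
  obtain ⟨k, hk⟩ := IsPGroup.iff_card.mp hpJ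
  have hd1 : 4 ∣ Nat.card (U ⊔ W : Subgroup G) := by
    have := Subgroup.card_dvd_of_le (le_sup_left : U ≤ U ⊔ W)
    rwa [hU4] at this
  have hd2 : Nat.card (U ⊔ W : Subgroup G) ∣ 24 := by
    have := Subgroup.card_dvd_of_le hJK
    rwa [hKc] at this
  have hne4 : Nat.card (U ⊔ W : Subgroup G) ≠ 4 := by
    intro h4
    apply hne
    have e1 := Subgroup.eq_of_le_of_card_ge (le_sup_left : U ≤ U ⊔ W) (by rw [h4, hU4])
    have e2 := Subgroup.eq_of_le_of_card_ge (le_sup_right : W ≤ U ⊔ W) (by rw [h4, hW4])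
    exact e1.trans e2.symm
  have h8 : Nat.card (U ⊔ W : Subgroup G) = 8 := by
    have hle := Nat.le_of_dvd (by norm_num) hd2
    have hk4 : k ≤ 4 := by
      by_contra hcon
      push Not at hcon
      have : 2 ^ 5 ≤ 2 ^ k := Nat.pow_le_pow_right (by norm_num) hcon
      omega
    generalize Nat.card (U ⊔ W : Subgroup G) = n at *
    interval_cases k <;> norm_num at hk <;> subst hk <;> omega
  have hcard : Nat.card (U ⊔ W : Subgroup G) = 2 ^ (Nat.card G).factorization 2 := by
    rw [h8, h, fac2]; norm_num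
  have hT' : ((Sylow.ofCard (U ⊔ W) hcard : Sylow 2 G) : Subgroup G) = U ⊔ W :=
    Sylow.coe_ofCard _ _
  have hNT := normalizer2 h (Sylow.ofCard (U ⊔ W) hcard)
  rw [hT'] at hNT
  have := Subgroup.card_le_of_le hKJ
  rw [hNT, hKc, h8] at this
  omega

omit [Finite G] [IsSimpleGroup G] in
/-- a subgroup isomorphic to the symmetric group of degree 4 has a normal Klein four-subgroup -/
theorem exists_normal_klein (M : Subgroup G) (e : M ≃* Equiv.Perm (Fin 4)) :
    ∃ W : Subgroup G, W ≤ M ∧ IsKleinFour W ∧ M ≤ Subgroup.normalizer (W : Set G) := by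
  have h4 : Nat.card (Fin 4) = 4 := by simp
  have hchar := alternatingGroup.characteristic_kleinFour h4
  have hK := alternatingGroup.kleinFour_isKleinFour h4
  have hV4n : ((alternatingGroup.kleinFour (Fin 4)).map
      (alternatingGroup (Fin 4)).subtype).Normal := inferInstance
  have hV4K : IsKleinFour ((alternatingGroup.kleinFour (Fin 4)).map
      (alternatingGroup (Fin 4)).subtype) :=
    klein_of_equiv ((alternatingGroup.kleinFour (Fin 4)).equivMapOfInjective _
      (Subgroup.subtype_injective _)).symm hK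
  have hW'n : (((alternatingGroup.kleinFour (Fin 4)).map
      (alternatingGroup (Fin 4)).subtype).map e.symm.toMonoidHom).Normal :=
    hV4n.map e.symm.toMonoidHom e.symm.surjective
  have hW'K : IsKleinFour (((alternatingGroup.kleinFour (Fin 4)).map
      (alternatingGroup (Fin 4)).subtype).map e.symm.toMonoidHom) :=
    klein_of_equiv (((alternatingGroup.kleinFour (Fin 4)).map
      (alternatingGroup (Fin 4)).subtype).equivMapOfInjective _ e.symm.injective).symm hV4K
  refine ⟨(((alternatingGroup.kleinFour (Fin 4)).map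
      (alternatingGroup (Fin 4)).subtype).map e.symm.toMonoidHom).map M.subtype,
    Subgroup.map_subtype_le _, ?_, ?_⟩
  · exact klein_of_equiv ((((alternatingGroup.kleinFour (Fin 4)).map
      (alternatingGroup (Fin 4)).subtype).map e.symm.toMonoidHom).equivMapOfInjective _
      (Subgroup.subtype_injective M)).symm hW'K
  · apply (Subgroup.normal_subgroupOf_iff_le_normalizer (Subgroup.map_subtype_le _)).mp
    have e' : ((((alternatingGroup.kleinFour (Fin 4)).map
        (alternatingGroup (Fin 4)).subtype).map e.symm.toMonoidHom).map M.subtype).subgroupOf M =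
        (((alternatingGroup.kleinFour (Fin 4)).map
        (alternatingGroup (Fin 4)).subtype).map e.symm.toMonoidHom) :=
      Subgroup.comap_map_eq_self_of_injective (Subgroup.subtype_injective M) _
    rw [e']; exact hW'n

theorem coatom_s4_classes (h : Nat.card G = 168) :
    ∃ M₁ M₂ : Subgroup G, IsCoatom M₁ ∧ IsCoatom M₂ ∧
      Nonempty (M₁ ≃* Equiv.Perm (Fin 4)) ∧ Nonempty (M₂ ≃* Equiv.Perm (Fin 4)) ∧
      (∀ g : G, M₂ ≠ M₁.map (MulAut.conj g).toMonoidHom) ∧
      ∀ M : Subgroup G, IsCoatom M → Nonempty (M ≃* Equiv.Perm (Fin 4)) →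
        ∃ g : G, M = M₁.map (MulAut.conj g).toMonoidHom ∨
          M = M₂.map (MulAut.conj g).toMonoidHom := by
  have : Fact (Nat.Prime 2) := ⟨Nat.prime_two⟩
  obtain ⟨T⟩ : Nonempty (Sylow 2 G) := inferInstance
  obtain ⟨U₁, U₂, hne, huniv⟩ := Nat.card_eq_two_iff.mp (sylow2_klein_count h T)
  have hN1 := card_normalizer_klein h U₁.1 U₁.2.2
  have hN2 := card_normalizer_klein h U₂.1 U₂.2.2
  refine ⟨Subgroup.normalizer (U₁.1 : Set G), Subgroup.normalizer (U₂.1 : Set G),
    coatom_of_card_24 h _ hN1, coatom_of_card_24 h _ hN2, equiv_perm_of_card h _ hN1,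
    equiv_perm_of_card h _ hN2, ?_, ?_⟩
  · intro g hg
    rw [Subgroup.map_equiv_normalizer_eq U₁.1 (MulAut.conj g)] at hg
    have e := klein_eq_of_normalizer_eq h _ _ U₂.2.2 (klein_map_conj U₁.1 U₁.2.2 g) hg
    have e2 := klein_not_conj h T U₁.1 U₂.1 U₁.2.1 U₂.2.1 U₁.2.2 U₂.2.2 g e.symm
    exact hne (Subtype.ext e2)
  · rintro M hM ⟨e⟩
    have hM24 : Nat.card M = 24 := by
      rw [Nat.card_congr e.toEquiv, Nat.card_eq_fintype_card, Fintype.card_perm,
        Fintype.card_fin]
      rfl
    obtain ⟨W, hWM, hWK, hMN⟩ := exists_normal_klein M e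
    have hNW := card_normalizer_klein h W hWK
    have hMeq : M = Subgroup.normalizer (W : Set G) :=
      Subgroup.eq_of_le_of_card_ge hMN (by rw [hNW, hM24])
    have hp : IsPGroup 2 W := IsPGroup.of_card (n := 2) (by rw [hWK.card_four]; norm_num)
    obtain ⟨T', hWT'⟩ := hp.exists_le_sylow
    obtain ⟨g, hg⟩ := MulAction.exists_smul_eq G T T'
    have hW0T : W.map (MulAut.conj g⁻¹).toMonoidHom ≤ (T : Subgroup G) := by
      rintro _ ⟨w, hw, rfl⟩
      have h1 := conj_mem_smul T' g⁻¹ w (hWT' hw)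
      rw [← hg, inv_smul_smul] at h1
      exact h1
    have hW0K := klein_map_conj W hWK g⁻¹
    have hmem : (⟨W.map (MulAut.conj g⁻¹).toMonoidHom, hW0T, hW0K⟩ :
        {U : Subgroup G // U ≤ (T : Subgroup G) ∧ IsKleinFour ↥U}) ∈
        ({U₁, U₂} : Set {U : Subgroup G // U ≤ (T : Subgroup G) ∧ IsKleinFour ↥U}) := by
      rw [huniv]; trivial
    refine ⟨g, ?_⟩
    have hMg : M = (Subgroup.normalizer
        ((W.map (MulAut.conj g⁻¹).toMonoidHom : Subgroup G) : Set G)).map
        (MulAut.conj g).toMonoidHom := by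
      rw [Subgroup.map_equiv_normalizer_eq, map_conj_map_conj_inv]; exact hMeq
    rcases hmem with h1 | h1
    · left
      have e1 : W.map (MulAut.conj g⁻¹).toMonoidHom = U₁.1 := congrArg Subtype.val h1
      rw [← e1]; exact hMg
    · right
      have e1 : W.map (MulAut.conj g⁻¹).toMonoidHom = U₂.1 := congrArg Subtype.val h1
      rw [← e1]; exact hMg

end simple

end Cfsg.Agent.Helper4.Simple168e
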