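import Mathlib
import Cfsg.Agent.Helper4.Simple168e

set_option autoImplicit false

namespace Cfsg.Agent.Helper4.Simple168f

def cFun : Fin 8 → Fin 8 := ![1, 2, 3, 4, 5, 6, 0, 7]
def cInv : Fin 8 → Fin 8 := ![6, 0, 1, 2, 3, 4, 5, 7]
def mFun : Fin 8 → Fin 8 := ![0, 2, 4, 6, 1, 3, 5, 7]
def mInv : Fin 8 → Fin 8 := ![0, 4, 1, 5, 2, 6, 3, 7]
def tFun : Fin 8 → Fin 8 := ![7, 6, 3, 2, 5, 4, 1, 0]

def cPerm : Equiv.Perm (Fin 8) := ⟨cFun, cInv, by decide, by decide⟩
def mPerm : Equiv.Perm (Fin 8) := ⟨mFun, mInv, by decide, by decide⟩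
def tPerm : Equiv.Perm (Fin 8) := ⟨tFun, tFun, by decide, by decide⟩

/-- the model: `PSL(2,7)` acting on the projective line -/
def model : Subgroup (Equiv.Perm (Fin 8)) := Subgroup.closure {cPerm, mPerm, tPerm}

def candF (a b : Fin 8) : Fin 8 → Fin 8 :=
  ![7, a, mInv a, b, mInv (mInv a), mInv (mInv b), mInv b, 0]

theorem cand_cases : ∀ a b : Fin 8, (∀ i, candF a b (candF a b i) = i) →
    ((∀ i, (candF a b ∘ cFun)^[4] i = i) ∨ (∀ i, (candF a b ∘ cFun)^[3] i = i) ∨
      (∀ i, (candF a b ∘ cFun)^[7] i = i)) →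
    (a = 3 ∧ b = 1) ∨ (a = 5 ∧ b = 4) ∨ (a = 6 ∧ b = 2) := by decide

theorem cand62 : ∀ i, candF 6 2 i = tPerm i := by decide
theorem cand31 : ∀ i, candF 3 1 i = (tPerm * mPerm) i := by decide
theorem cand54 : ∀ i, candF 5 4 i = (mPerm * tPerm) i := by decide

theorem cPerm_apply : ∀ k : ℕ, ∀ hk : k < 7, cPerm ⟨k, by omega⟩ = ⟨(k + 1) % 7, by omega⟩ := by
  intro k hk
  interval_cases k <;> rfl

theorem mPerm_apply : ∀ k : ℕ, ∀ hk : k < 7, mPerm ⟨k, by omega⟩ = ⟨(2 * k) % 7, by omega⟩ := by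
  intro k hk
  interval_cases k <;> rfl

theorem cPerm_seven : cPerm 7 = 7 := rfl
theorem mPerm_seven : mPerm 7 = 7 := rfl


open Cfsg.Agent.Helper4.Simple168 Cfsg.Agent.Helper4.Simple168b Cfsg.Agent.Helper4.Simple168c
  Cfsg.Agent.Helper4.Simple168d Cfsg.Agent.Helper4.Simple168e

theorem exists_pow_lt {T : Type*} [Group T] (x : T) (n : ℕ) (hx : orderOf x = n) (hn : 0 < n)
    (c : T) (hc : c ∈ Subgroup.zpowers x) : ∃ k < n, x ^ k = c := by
  have hfin : IsOfFinOrder x := orderOf_pos_iff.mp (by rw [hx]; exact hn)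
  rw [← hfin.mem_powers_iff_mem_zpowers] at hc
  obtain ⟨m, rfl⟩ := hc
  refine ⟨m % n, Nat.mod_lt _ hn, ?_⟩
  rw [← hx, pow_mod_orderOf]

variable {G : Type*} [Group G] [Finite G] [IsSimpleGroup G]

theorem sylow7_eq_of_mem (h : Nat.card G = 168) (Q : Sylow 7 G) (g : G) (hg : orderOf g = 7)
    (hgQ : g ∈ (Q : Subgroup G)) : (Q : Subgroup G) = Subgroup.zpowers g := by
  symm
  apply Subgroup.eq_of_le_of_card_ge
  · rw [Subgroup.zpowers_le]; exact hgQ
  · rw [Nat.card_zpowers, hg]; exact (card_sylow7 h Q).le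

theorem mem_of_normalizes7 (h : Nat.card G = 168) (Q : Sylow 7 G) (g : G) (hg : orderOf g = 7)
    (hgQ : g • Q = Q) : g ∈ (Q : Subgroup G) := by
  have : Fact (Nat.Prime 7) := ⟨by norm_num⟩
  have hN : g ∈ Subgroup.normalizer ((Q : Subgroup G) : Set G) :=
    Sylow.smul_eq_iff_mem_normalizer.mp hgQ
  by_contra hgn
  have hcQ : Nat.card (Q : Subgroup G) = 7 := card_sylow7 h Q
  have hcR : Nat.card (Subgroup.zpowers g) = 7 := by rw [Nat.card_zpowers, hg]
  have hinf : Subgroup.zpowers g ⊓ (Q : Subgroup G) = ⊥ := by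
    have hd : Nat.card (Subgroup.zpowers g ⊓ (Q : Subgroup G) : Subgroup G) ∣ 7 := by
      have h0 := Subgroup.card_dvd_of_le
        (inf_le_left : Subgroup.zpowers g ⊓ (Q : Subgroup G) ≤ Subgroup.zpowers g)
      rwa [hcR] at h0
    rcases (Nat.dvd_prime (by norm_num : Nat.Prime 7)).mp hd with h1 | h1
    · exact Subgroup.eq_bot_of_card_eq _ h1
    · exfalso
      apply hgn
      have e1 : Subgroup.zpowers g ⊓ (Q : Subgroup G) = Subgroup.zpowers g :=
        Subgroup.eq_of_le_of_card_ge inf_le_left (by rw [h1, hcR])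
      have hle : Subgroup.zpowers g ≤ (Q : Subgroup G) := by rw [← e1]; exact inf_le_right
      exact hle (Subgroup.mem_zpowers g)
  have := card_mul_le _ _ (Subgroup.normalizer ((Q : Subgroup G) : Set G))
    (by rw [Subgroup.zpowers_le]; exact hN) Subgroup.le_normalizer hinf
  rw [hcR, hcQ, card_normalizer7 h Q] at this
  omega

theorem stab_two (h : Nat.card G = 168) (P Q : Sylow 7 G) (hPQ : P ≠ Q) (g : G)
    (hgP : g • P = P) (hgQ : g • Q = Q) : orderOf g = 1 ∨ orderOf g = 3 := by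
  have : Fact (Nat.Prime 7) := ⟨by norm_num⟩
  have hN : g ∈ Subgroup.normalizer ((P : Subgroup G) : Set G) :=
    Sylow.smul_eq_iff_mem_normalizer.mp hgP
  have hd : orderOf g ∣ 21 := by
    have := orderOf_dvd_natCard (⟨g, hN⟩ : Subgroup.normalizer ((P : Subgroup G) : Set G))
    rwa [Subgroup.orderOf_mk, card_normalizer7 h P] at this
  rcases orderOf_mem h g with h1 | h1 | h1 | h1 | h1
  · left; exact h1
  · rw [h1] at hd; omega
  · right; exact h1
  · rw [h1] at hd; omega
  · exfalso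
    apply hPQ
    apply Sylow.ext
    rw [sylow7_eq_of_mem h P g h1 (mem_of_normalizes7 h P g h1 hgP),
      sylow7_eq_of_mem h Q g h1 (mem_of_normalizes7 h Q g h1 hgQ)]

theorem exists_xy (h : Nat.card G = 168) :
    ∃ (P : Sylow 7 G) (x y : G), orderOf x = 7 ∧ (P : Subgroup G) = Subgroup.zpowers x ∧
      orderOf y = 3 ∧ y • P = P ∧ y * x * y⁻¹ = x ^ 2 := by
  have : Fact (Nat.Prime 7) := ⟨by norm_num⟩
  have : Fact (Nat.Prime 3) := ⟨by norm_num⟩
  obtain ⟨P⟩ : Nonempty (Sylow 7 G) := inferInstance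
  obtain ⟨x', hx'⟩ := exists_prime_orderOf_dvd_card' (G := (P : Subgroup G)) 7
    (by rw [show Nat.card (P : Subgroup G) = 7 from card_sylow7 h P])
  have hx7 : orderOf (x' : G) = 7 := by rw [Subgroup.orderOf_coe]; exact hx'
  have hP : (P : Subgroup G) = Subgroup.zpowers (x' : G) := sylow7_eq_of_mem h P _ hx7 x'.2
  obtain ⟨y', hy'⟩ := exists_prime_orderOf_dvd_card'
    (G := Subgroup.normalizer ((P : Subgroup G) : Set G)) 3
    (by rw [card_normalizer7 h P]; norm_num)
  have hy3 : orderOf (y' : G) = 3 := by rw [Subgroup.orderOf_coe]; exact hy'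
  have hyN : (y' : G) ∈ Subgroup.normalizer ((P : Subgroup G) : Set G) := y'.2
  generalize (x' : G) = x at hx7 hP
  generalize (y' : G) = y at hy3 hyN
  have hyP : y • P = P := Sylow.smul_eq_iff_mem_normalizer.mpr hyN
  have hmem : y * x * y⁻¹ ∈ Subgroup.zpowers x := by
    rw [← hP]
    exact (Subgroup.mem_normalizer_iff.mp hyN x).mp (by rw [hP]; exact Subgroup.mem_zpowers x)
  obtain ⟨k, hk7, hk⟩ := exists_pow_lt x 7 hx7 (by norm_num) _ hmem
  have e1 : ∀ j : ℕ, y * x ^ j * y⁻¹ = x ^ (k * j) := by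
    intro j
    rw [← conj_pow, ← hk, ← pow_mul]
  have hy3' : y ^ 3 = 1 := by rw [← hy3]; exact pow_orderOf_eq_one y
  have e3 : x ^ (k * (k * k)) = x ^ 1 := by
    have e : y * (y * (y * x * y⁻¹) * y⁻¹) * y⁻¹ = x := by
      have e' : y * (y * (y * x * y⁻¹) * y⁻¹) * y⁻¹ = y ^ 3 * x * (y ^ 3)⁻¹ := by
        simp only [pow_succ, pow_zero, one_mul, mul_inv_rev, mul_assoc]
      rw [e', hy3']; simp
    rw [← hk, e1 k, e1 (k * k)] at e
    rw [pow_one]; exact e
  have hmod : k * (k * k) ≡ 1 [MOD 7] := by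
    have := pow_eq_pow_iff_modEq.mp e3
    rwa [hx7] at this
  have hy3inv : orderOf y⁻¹ = 3 := by rw [orderOf_inv]; exact hy3
  have hk124 : k = 1 ∨ k = 2 ∨ k = 4 := by
    unfold Nat.ModEq at hmod
    interval_cases k <;> omega
  rcases hk124 with rfl | rfl | rfl
  · exfalso
    rw [pow_one] at hk
    have hc : y ∈ Subgroup.centralizer ({x} : Set G) := by
      rw [Subgroup.mem_centralizer_singleton_iff]
      calc y * x = (y * x * y⁻¹) * y := by group
        _ = x * y := by rw [← hk]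
    have := orderOf_dvd_natCard (⟨y, hc⟩ : Subgroup.centralizer ({x} : Set G))
    rw [Subgroup.orderOf_mk, hy3, card_centralizer_order7 h x hx7] at this
    omega
  · exact ⟨P, x, y, hx7, hP, hy3, hyP, hk.symm⟩
  · refine ⟨P, x, y⁻¹, hx7, hP, hy3inv, ?_, ?_⟩
    · rw [inv_smul_eq_iff, hyP]
    · rw [inv_inv]
      have hw4 : (y⁻¹ * x * y) ^ 4 = x := by
        have e : (y⁻¹ * x * y) ^ 4 = y⁻¹ * x ^ 4 * y := by
          have := conj_pow (i := 4) (a := y⁻¹) (b := x)
          rw [inv_inv] at this; exact this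
        rw [e, hk]; group
      have hw7 : (y⁻¹ * x * y) ^ 7 = 1 := by
        have e : (y⁻¹ * x * y) ^ 7 = y⁻¹ * x ^ 7 * y := by
          have := conj_pow (i := 7) (a := y⁻¹) (b := x)
          rw [inv_inv] at this; exact this
        have hx7' : x ^ 7 = 1 := by
          have := pow_orderOf_eq_one x
          rwa [hx7] at this
        rw [e, hx7']; group
      calc y⁻¹ * x * y = (y⁻¹ * x * y) ^ 8 := by
            rw [show 8 = 7 + 1 by norm_num, pow_succ, hw7, one_mul]
        _ = ((y⁻¹ * x * y) ^ 4) ^ 2 := by rw [← pow_mul]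
        _ = x ^ 2 := by rw [hw4]

theorem exists_fixed (h : Nat.card G = 168) (P : Sylow 7 G) (y : G) (hy : orderOf y = 3) :
    ∃ Q : Sylow 7 G, Q ≠ P ∧ y • Q = Q := by
  have : Fact (Nat.Prime 3) := ⟨by norm_num⟩
  have : Fact (Nat.Prime 7) := ⟨by norm_num⟩
  have hK : IsPGroup 3 (Subgroup.zpowers y) :=
    IsPGroup.of_card (n := 1) (by rw [Nat.card_zpowers, hy]; norm_num)
  have hmod := hK.card_modEq_card_fixedPoints (Sylow 7 G)
  rw [n7 h] at hmod
  by_contra hcon
  push Not at hcon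
  have hsub : Subsingleton (MulAction.fixedPoints (Subgroup.zpowers y) (Sylow 7 G)) := by
    constructor
    intro a b
    apply Subtype.ext
    have ha : (a : Sylow 7 G) = P := by
      by_contra hne
      apply hcon a hne
      exact a.2 ⟨y, Subgroup.mem_zpowers y⟩
    have hb : (b : Sylow 7 G) = P := by
      by_contra hne
      apply hcon b hne
      exact b.2 ⟨y, Subgroup.mem_zpowers y⟩
    rw [ha, hb]
  have hle : Nat.card (MulAction.fixedPoints (Subgroup.zpowers y) (Sylow 7 G)) ≤ 1 :=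
    Finite.card_le_one_iff_subsingleton.mpr hsub
  unfold Nat.ModEq at hmod
  omega

/-- a simple group of order 168 is isomorphic to the model -/
theorem equiv_model (h : Nat.card G = 168) : Nonempty (G ≃* model) := by
  have : Fact (Nat.Prime 7) := ⟨by norm_num⟩
  have : Fact (Nat.Prime 3) := ⟨by norm_num⟩
  obtain ⟨P, x, y, hx7, hP, hy3, hyP, hyx⟩ := exists_xy h
  have hxP : x ∈ (P : Subgroup G) := by rw [hP]; exact Subgroup.mem_zpowers x
  have hx7' : x ^ 7 = 1 := by
    have := pow_orderOf_eq_one x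
    rwa [hx7] at this
  have e7 : ∀ n : ℕ, x ^ (n % 7) = x ^ n := by
    intro n
    have := pow_mod_orderOf x n
    rwa [hx7] at this
  have hPfix : ∀ g ∈ (P : Subgroup G), g • P = P := fun g hg =>
    Sylow.smul_eq_iff_mem_normalizer.mpr (Subgroup.le_normalizer hg)
  obtain ⟨Q₀, hQ₀P, hyQ₀⟩ := exists_fixed h P y hy3
  have hfree : ∀ g ∈ (P : Subgroup G), g • Q₀ = Q₀ → g = 1 := by
    intro g hg hgQ
    by_contra hg1
    have ho : orderOf g = 7 := by
      have hd : orderOf g ∣ 7 := by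
        have := orderOf_dvd_natCard (⟨g, hg⟩ : (P : Subgroup G))
        rwa [Subgroup.orderOf_mk, show Nat.card (P : Subgroup G) = 7 from card_sylow7 h P] at this
      rcases (Nat.dvd_prime (by norm_num : Nat.Prime 7)).mp hd with h1 | h1
      · exact absurd (orderOf_eq_one_iff.mp h1) hg1
      · exact h1
    apply hQ₀P
    apply Sylow.ext
    rw [sylow7_eq_of_mem h Q₀ g ho (mem_of_normalizes7 h Q₀ g ho hgQ),
      sylow7_eq_of_mem h P g ho hg]
  -- the labelling
  let ι : Fin 8 → Sylow 7 G := fun i => if (i : ℕ) < 7 then x ^ (i : ℕ) • Q₀ else P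
  have hι_lt : ∀ (k : ℕ) (hk : k < 7), ι ⟨k, by omega⟩ = x ^ k • Q₀ := by
    intro k hk
    show (if k < 7 then x ^ k • Q₀ else P) = x ^ k • Q₀
    rw [if_pos hk]
  have hι7 : ∀ hk : 7 < 8, ι ⟨7, hk⟩ = P := by
    intro hk
    show (if 7 < 7 then x ^ 7 • Q₀ else P) = P
    rw [if_neg (by norm_num)]
  have hι0 : ι 0 = Q₀ := by
    have := hι_lt 0 (by norm_num)
    rw [pow_zero, one_smul] at this
    exact this
  have hinj : Function.Injective ι := by
    rintro ⟨i, hi⟩ ⟨j, hj⟩ hij
    by_cases hi7 : i < 7 <;> by_cases hj7 : j < 7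
    · rw [hι_lt i hi7, hι_lt j hj7] at hij
      have h1 : ((x ^ j)⁻¹ * x ^ i) • Q₀ = Q₀ := by rw [mul_smul, hij, inv_smul_smul]
      have h2 := hfree _ (mul_mem (inv_mem (pow_mem hxP j)) (pow_mem hxP i)) h1
      have h3 : x ^ i = x ^ j := by
        calc x ^ i = x ^ j * ((x ^ j)⁻¹ * x ^ i) := by group
          _ = x ^ j := by rw [h2, mul_one]
      have h4 := pow_eq_pow_iff_modEq.mp h3
      rw [hx7] at h4
      unfold Nat.ModEq at h4
      rw [Nat.mod_eq_of_lt hi7, Nat.mod_eq_of_lt hj7] at h4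
      exact Fin.ext h4
    · exfalso
      have hj' : j = 7 := by omega
      subst hj'
      rw [hι_lt i hi7, hι7 hj] at hij
      apply hQ₀P
      have e : Q₀ = (x ^ i)⁻¹ • P := by rw [← hij, inv_smul_smul]
      rw [e]; exact hPfix _ (inv_mem (pow_mem hxP i))
    · exfalso
      have hi' : i = 7 := by omega
      subst hi'
      rw [hι_lt j hj7, hι7 hi] at hij
      apply hQ₀P
      have e : Q₀ = (x ^ j)⁻¹ • P := by rw [hij, inv_smul_smul]
      rw [e]; exact hPfix _ (inv_mem (pow_mem hxP j))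
    · have hi' : i = 7 := by omega
      have hj' : j = 7 := by omega
      subst hi'; subst hj'; rfl
  have hbij : Function.Bijective ι :=
    hinj.bijective_of_nat_card_le (by rw [n7 h, Nat.card_fin])
  let e : Fin 8 ≃ Sylow 7 G := Equiv.ofBijective ι hbij
  let ψ : G →* Equiv.Perm (Fin 8) :=
    (e.symm.permCongrHom).toMonoidHom.comp (MulAction.toPermHom G (Sylow 7 G))
  have hψ : ∀ (g : G) (i j : Fin 8), g • ι i = ι j → ψ g i = j := by
    intro g i j hij
    show e.symm (g • e i) = j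
    rw [Equiv.symm_apply_eq]
    exact hij
  have hψx : ψ x = cPerm := by
    apply Equiv.ext
    rintro ⟨k, hk⟩
    by_cases hk7 : k < 7
    · rw [cPerm_apply k hk7]
      apply hψ
      rw [hι_lt k hk7, hι_lt ((k + 1) % 7) (Nat.mod_lt _ (by norm_num)), ← mul_smul,
        ← pow_succ', e7]
    · have hk' : k = 7 := by omega
      subst hk'
      have hc : cPerm ⟨7, hk⟩ = ⟨7, hk⟩ := rfl
      rw [hc]
      apply hψ
      rw [hι7 hk]; exact hPfix x hxP
  have hyk : ∀ k : ℕ, y * x ^ k = x ^ (2 * k) * y := by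
    intro k
    have e1 : y * x ^ k * y⁻¹ = x ^ (2 * k) := by rw [← conj_pow, hyx, ← pow_mul]
    calc y * x ^ k = (y * x ^ k * y⁻¹) * y := by group
      _ = x ^ (2 * k) * y := by rw [e1]
  have hψy : ψ y = mPerm := by
    apply Equiv.ext
    rintro ⟨k, hk⟩
    by_cases hk7 : k < 7
    · rw [mPerm_apply k hk7]
      apply hψ
      rw [hι_lt k hk7, hι_lt ((2 * k) % 7) (Nat.mod_lt _ (by norm_num)), ← mul_smul, hyk,
        mul_smul, hyQ₀, e7]
    · have hk' : k = 7 := by omega
      subst hk'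
      have hc : mPerm ⟨7, hk⟩ = ⟨7, hk⟩ := rfl
      rw [hc]
      apply hψ
      rw [hι7 hk]; exact hyP
  have hψinj : Function.Injective ψ := by
    rw [← MonoidHom.ker_eq_bot_iff]
    rcases IsSimpleGroup.eq_bot_or_eq_top_of_normal ψ.ker (MonoidHom.normal_ker ψ) with hb | ht
    · exact hb
    · exfalso
      have hxk : x ∈ ψ.ker := by rw [ht]; trivial
      rw [MonoidHom.mem_ker, hψx] at hxk
      have h0 : cPerm 0 = (1 : Equiv.Perm (Fin 8)) 0 := by rw [hxk]
      exact absurd h0 (by decide)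
  -- the involution t
  obtain ⟨g, hg⟩ := MulAction.exists_smul_eq G Q₀ P
  have hgP : g • P ≠ P := by
    intro hgP
    apply hQ₀P
    have e1 : g • Q₀ = g • P := by rw [hg, hgP]
    exact smul_left_cancel g e1
  obtain ⟨⟨k, hk⟩, hj⟩ := hbij.2 (g • P)
  have hk7 : k < 7 := by
    by_contra hk7
    have hk' : k = 7 := by omega
    subst hk'
    apply hgP
    rw [← hj]; exact hι7 hk
  rw [hι_lt k hk7] at hj
  obtain ⟨t, ht⟩ : ∃ t : G, t = (x ^ k)⁻¹ * g := ⟨_, rfl⟩
  have htP : t • P = Q₀ := by rw [ht, mul_smul, ← hj, inv_smul_smul]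
  have htQ : t • Q₀ = P := by
    rw [ht, mul_smul, hg]; exact hPfix _ (inv_mem (pow_mem hxP k))
  have htt : orderOf (t * t) = 1 ∨ orderOf (t * t) = 3 :=
    stab_two h P Q₀ (Ne.symm hQ₀P) (t * t) (by rw [mul_smul, htP, htQ])
      (by rw [mul_smul, htQ, htP])
  have ht6 : t ^ 6 = 1 := by
    have h3 : (t * t) ^ 3 = 1 := by
      rcases htt with h1 | h1
      · rw [orderOf_eq_one_iff.mp h1, one_pow]
      · rw [← h1]; exact pow_orderOf_eq_one _
    rw [← h3, ← pow_two, ← pow_mul]
  have ht2 : orderOf t = 2 := by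
    have hd : orderOf t ∣ 6 := orderOf_dvd_of_pow_eq_one ht6
    rcases orderOf_mem h t with h1 | h1 | h1 | h1 | h1
    · exfalso
      rw [orderOf_eq_one_iff] at h1
      rw [h1, one_smul] at htP
      exact hQ₀P htP.symm
    · exact h1
    · exfalso
      have h3 : t ^ 3 = 1 := by rw [← h1]; exact pow_orderOf_eq_one t
      have h4 : t ^ 3 • P = Q₀ := by
        rw [show 3 = 1 + 1 + 1 by norm_num, pow_succ, pow_succ, pow_one, mul_smul, mul_smul,
          htP, htQ, htP]
      rw [h3, one_smul] at h4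
      exact hQ₀P h4.symm
    · rw [h1] at hd; omega
    · rw [h1] at hd; omega
  have htt1 : t * t = 1 := by
    have := pow_orderOf_eq_one t
    rwa [ht2, pow_two] at this
  have htinv : t⁻¹ = t := inv_eq_of_mul_eq_one_left htt1
  have hw : t * y * t⁻¹ = y⁻¹ := by
    have hwP : (t * y * t⁻¹) • P = P := by
      rw [htinv, mul_smul, mul_smul, htP, hyQ₀, htQ]
    have hwQ : (t * y * t⁻¹) • Q₀ = Q₀ := by
      rw [htinv, mul_smul, mul_smul, htQ, hyP, htP]
    have hSord : ∀ s ∈ MulAction.stabilizer G P ⊓ MulAction.stabilizer G Q₀,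
        orderOf s = 1 ∨ orderOf s = 3 := by
      intro s hs
      exact stab_two h P Q₀ (Ne.symm hQ₀P) s
        (MulAction.mem_stabilizer_iff.mp (Subgroup.mem_inf.mp hs).1)
        (MulAction.mem_stabilizer_iff.mp (Subgroup.mem_inf.mp hs).2)
    have hyS : y ∈ MulAction.stabilizer G P ⊓ MulAction.stabilizer G Q₀ :=
      Subgroup.mem_inf.mpr ⟨MulAction.mem_stabilizer_iff.mpr hyP,
        MulAction.mem_stabilizer_iff.mpr hyQ₀⟩
    have hwS : t * y * t⁻¹ ∈ MulAction.stabilizer G P ⊓ MulAction.stabilizer G Q₀ :=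
      Subgroup.mem_inf.mpr ⟨MulAction.mem_stabilizer_iff.mpr hwP,
        MulAction.mem_stabilizer_iff.mpr hwQ⟩
    have hd21 : Nat.card (MulAction.stabilizer G P ⊓ MulAction.stabilizer G Q₀ : Subgroup G) ∣ 21 := by
      have h0 := Subgroup.card_dvd_of_le
        (inf_le_left : MulAction.stabilizer G P ⊓ MulAction.stabilizer G Q₀ ≤
          MulAction.stabilizer G P)
      have h1 : Nat.card (MulAction.stabilizer G P) = 21 := by
        rw [Sylow.stabilizer_eq_normalizer]; exact card_normalizer7 h P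
      rwa [h1] at h0
    have hn7 : ¬ 7 ∣ Nat.card (MulAction.stabilizer G P ⊓ MulAction.stabilizer G Q₀ : Subgroup G) := by
      intro h7
      obtain ⟨s, hs⟩ := exists_prime_orderOf_dvd_card'
        (G := (MulAction.stabilizer G P ⊓ MulAction.stabilizer G Q₀ : Subgroup G)) 7 h7
      have hs7 : orderOf (s : G) = 7 := by rw [Subgroup.orderOf_coe]; exact hs
      rcases hSord s s.2 with h1 | h1 <;> omega
    have hd3 : 3 ∣ Nat.card (MulAction.stabilizer G P ⊓ MulAction.stabilizer G Q₀ : Subgroup G) := by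
      have := orderOf_dvd_natCard (⟨y, hyS⟩ :
        (MulAction.stabilizer G P ⊓ MulAction.stabilizer G Q₀ : Subgroup G))
      rwa [Subgroup.orderOf_mk, hy3] at this
    have hS3 : Nat.card (MulAction.stabilizer G P ⊓ MulAction.stabilizer G Q₀ : Subgroup G) = 3 := by
      have hle := Nat.le_of_dvd (by norm_num) hd21
      generalize Nat.card (MulAction.stabilizer G P ⊓ MulAction.stabilizer G Q₀ : Subgroup G) = n at *
      interval_cases n <;> omega
    have hSz : Subgroup.zpowers y = MulAction.stabilizer G P ⊓ MulAction.stabilizer G Q₀ := by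
      apply Subgroup.eq_of_le_of_card_ge
      · rw [Subgroup.zpowers_le]; exact hyS
      · rw [hS3, Nat.card_zpowers, hy3]
    have hmem : t * y * t⁻¹ ∈ Subgroup.zpowers y := by rw [hSz]; exact hwS
    rcases mem_zpowers_three y _ hy3 hmem with c1 | c1 | c1
    · exfalso
      have hy1 : y = 1 := by
        have e1 : y = t⁻¹ * (t * y * t⁻¹) * t := by group
        rw [e1, c1]; group
      rw [hy1, orderOf_one] at hy3; omega
    · exfalso
      apply not_commute_three h y t hy3 (by rw [ht2])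
      calc y * t = (t * y * t⁻¹) * t := by rw [c1]
        _ = t * y := by group
    · exact c1
  -- the permutation of t
  have hσ7 : ψ t 7 = 0 := hψ t 7 0 (by rw [hι0]; exact (congrArg (t • ·) (hι7 (by norm_num))).trans htP)
  have hσ0 : ψ t 0 = 7 := hψ t 0 7 (by rw [hι0, htQ]; exact (hι7 (by norm_num)).symm)
  have hσσ : ∀ i, ψ t (ψ t i) = i := by
    intro i
    have e1 : ψ t * ψ t = 1 := by rw [← map_mul, htt1, map_one]
    have e2 := congrArg (fun p : Equiv.Perm (Fin 8) => p i) e1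
    exact e2
  have hσm : ∀ i, ψ t (mPerm i) = mInv (ψ t i) := by
    intro i
    have e1 : ψ t * ψ y = (ψ y)⁻¹ * ψ t := by
      rw [← map_inv, ← map_mul, ← map_mul]
      congr 1
      calc t * y = (t * y * t⁻¹) * t := by group
        _ = y⁻¹ * t := by rw [hw]
    rw [hψy] at e1
    have e2 := congrArg (fun p : Equiv.Perm (Fin 8) => p i) e1
    exact e2
  have hF : ∀ i, ψ t i = candF (ψ t 1) (ψ t 3) i := by
    have h2 : ψ t 2 = mInv (ψ t 1) := hσm 1
    have h4 : ψ t 4 = mInv (ψ t 2) := hσm 2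
    have h6 : ψ t 6 = mInv (ψ t 3) := hσm 3
    have h5 : ψ t 5 = mInv (ψ t 6) := hσm 6
    intro i
    fin_cases i
    · exact hσ0
    · rfl
    · exact h2
    · rfl
    · exact h4.trans (congrArg mInv h2)
    · exact h5.trans (congrArg mInv h6)
    · exact h6
    · exact hσ7
  have hinv : ∀ i, candF (ψ t 1) (ψ t 3) (candF (ψ t 1) (ψ t 3) i) = i := by
    intro i
    exact ((congrArg (candF (ψ t 1) (ψ t 3)) (hF i).symm).trans (hF (ψ t i)).symm).trans (hσσ i)
  have hfun : (candF (ψ t 1) (ψ t 3) ∘ cFun) = ⇑(ψ t * cPerm) := by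
    funext i
    show candF (ψ t 1) (ψ t 3) (cFun i) = ψ t (cPerm i)
    rw [hF (cPerm i)]; rfl
  have hiter : ∀ n : ℕ, (ψ t * cPerm) ^ n = 1 →
      ∀ i, (candF (ψ t 1) (ψ t 3) ∘ cFun)^[n] i = i := by
    intro n hn i
    rw [hfun, Equiv.Perm.iterate_eq_pow, hn]; rfl
  have hord : (ψ t * cPerm) ^ 4 = 1 ∨ (ψ t * cPerm) ^ 3 = 1 ∨ (ψ t * cPerm) ^ 7 = 1 := by
    have e1 : ψ t * cPerm = ψ (t * x) := by rw [map_mul, hψx]
    have e2 : orderOf (ψ (t * x)) = orderOf (t * x) := orderOf_injective ψ hψinj (t * x)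
    rw [e1]
    rcases orderOf_mem h (t * x) with h1 | h1 | h1 | h1 | h1
    · left; exact orderOf_dvd_iff_pow_eq_one.mp (by rw [e2, h1]; norm_num)
    · left; exact orderOf_dvd_iff_pow_eq_one.mp (by rw [e2, h1]; norm_num)
    · right; left; exact orderOf_dvd_iff_pow_eq_one.mp (by rw [e2, h1])
    · left; exact orderOf_dvd_iff_pow_eq_one.mp (by rw [e2, h1])
    · right; right; exact orderOf_dvd_iff_pow_eq_one.mp (by rw [e2, h1])
  have hcases := cand_cases (ψ t 1) (ψ t 3) hinv
    (by
      rcases hord with h1 | h1 | h1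
      · left; exact hiter 4 h1
      · right; left; exact hiter 3 h1
      · right; right; exact hiter 7 h1)
  -- generation
  have htop : Subgroup.closure ({x, y, t} : Set G) = ⊤ := by
    by_contra hne
    have hle := card_le_of_ne_top h _ hne
    have d7 : 7 ∣ Nat.card (Subgroup.closure ({x, y, t} : Set G)) := by
      have := orderOf_dvd_natCard (⟨x, Subgroup.subset_closure (by simp)⟩ :
        Subgroup.closure ({x, y, t} : Set G))
      rwa [Subgroup.orderOf_mk, hx7] at this
    have d3 : 3 ∣ Nat.card (Subgroup.closure ({x, y, t} : Set G)) := by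
      have := orderOf_dvd_natCard (⟨y, Subgroup.subset_closure (by simp)⟩ :
        Subgroup.closure ({x, y, t} : Set G))
      rwa [Subgroup.orderOf_mk, hy3] at this
    have d2 : 2 ∣ Nat.card (Subgroup.closure ({x, y, t} : Set G)) := by
      have := orderOf_dvd_natCard (⟨t, Subgroup.subset_closure (by simp)⟩ :
        Subgroup.closure ({x, y, t} : Set G))
      rwa [Subgroup.orderOf_mk, ht2] at this
    have hpos : 0 < Nat.card (Subgroup.closure ({x, y, t} : Set G)) := Nat.card_pos
    omega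
  have hrange : ψ.range = Subgroup.closure {cPerm, mPerm, ψ t} := by
    rw [MonoidHom.range_eq_map, ← htop, MonoidHom.map_closure]
    congr 1
    rw [Set.image_insert_eq, Set.image_insert_eq, Set.image_singleton, hψx, hψy]
  have hcl : Subgroup.closure {cPerm, mPerm, ψ t} = model := by
    have hc : cPerm ∈ model := Subgroup.subset_closure (by simp)
    have hm : mPerm ∈ model := Subgroup.subset_closure (by simp)
    have ht' : tPerm ∈ model := Subgroup.subset_closure (by simp)
    rcases hcases with ⟨h1, h3⟩ | ⟨h1, h3⟩ | ⟨h1, h3⟩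
    · have hσ : ψ t = tPerm * mPerm :=
        Equiv.ext (fun i => by rw [hF i, h1, h3]; exact cand31 i)
      rw [hσ]
      apply le_antisymm
      · rw [Subgroup.closure_le]
        rintro p (rfl | rfl | rfl)
        · exact hc
        · exact hm
        · exact mul_mem ht' hm
      · show Subgroup.closure {cPerm, mPerm, tPerm} ≤ _
        rw [Subgroup.closure_le]
        rintro p (rfl | rfl | rfl)
        · exact Subgroup.subset_closure (by simp)
        · exact Subgroup.subset_closure (by simp)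
        · have key : tPerm * mPerm * mPerm⁻¹ ∈
              Subgroup.closure ({cPerm, mPerm, tPerm * mPerm} : Set (Equiv.Perm (Fin 8))) :=
            mul_mem (Subgroup.subset_closure (by simp))
              (inv_mem (Subgroup.subset_closure (by simp)))
          rwa [mul_inv_cancel_right] at key
    · have hσ : ψ t = mPerm * tPerm :=
        Equiv.ext (fun i => by rw [hF i, h1, h3]; exact cand54 i)
      rw [hσ]
      apply le_antisymm
      · rw [Subgroup.closure_le]
        rintro p (rfl | rfl | rfl)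
        · exact hc
        · exact hm
        · exact mul_mem hm ht'
      · show Subgroup.closure {cPerm, mPerm, tPerm} ≤ _
        rw [Subgroup.closure_le]
        rintro p (rfl | rfl | rfl)
        · exact Subgroup.subset_closure (by simp)
        · exact Subgroup.subset_closure (by simp)
        · have key : mPerm⁻¹ * (mPerm * tPerm) ∈
              Subgroup.closure ({cPerm, mPerm, mPerm * tPerm} : Set (Equiv.Perm (Fin 8))) :=
            mul_mem (inv_mem (Subgroup.subset_closure (by simp)))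
              (Subgroup.subset_closure (by simp))
          rwa [inv_mul_cancel_left] at key
    · have hσ : ψ t = tPerm :=
        Equiv.ext (fun i => by rw [hF i, h1, h3]; exact cand62 i)
      rw [hσ]; rfl
  exact ⟨(MonoidHom.ofInjective hψinj).trans (MulEquiv.subgroupCongr (hrange.trans hcl))⟩

/-- any two simple groups of order 168 are isomorphic -/
theorem equiv_of_card {G' : Type*} [Group G'] [Finite G'] [IsSimpleGroup G']
    (h : Nat.card G = 168) (h' : Nat.card G' = 168) : Nonempty (G ≃* G') := by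
  obtain ⟨e⟩ := equiv_model h
  obtain ⟨e'⟩ := equiv_model h'
  exact ⟨e.trans e'.symm⟩

end Cfsg.Agent.Helper4.Simple168f
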