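import Mathlib
import Cfsg.Agent.Lead.Transfer
import Cfsg.Agent.Helper4.Par
import Cfsg.Agent.Helper4.Simple168f

set_option autoImplicit false

namespace Cfsg.Agent.Helper4.P504

open Cfsg.Agent.Helper4.Simple168f Cfsg.Agent.Helper4.Par

/-- `7` is prime -/
local instance fact7 : Fact (Nat.Prime 7) := ⟨by norm_num⟩
/-- `3` is prime -/
local instance fact3 : Fact (Nat.Prime 3) := ⟨Nat.prime_three⟩
/-- `2` is prime -/
local instance fact2 : Fact (Nat.Prime 2) := ⟨Nat.prime_two⟩

variable {G : Type*} [Group G] [Finite G]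

theorem fac7 : (504 : ℕ).factorization 7 = 1 := by
  have e : (504 : ℕ) = 7 ^ 1 * 72 := by norm_num
  rw [e, Nat.factorization_mul (by norm_num) (by norm_num), Finsupp.add_apply,
    Nat.factorization_pow, Finsupp.smul_apply, Nat.Prime.factorization_self (by norm_num),
    Nat.factorization_eq_zero_of_not_dvd (by norm_num)]
  rfl

theorem card_sylow7 (h : Nat.card G = 504) (P : Sylow 7 G) : Nat.card (P : Subgroup G) = 7 := by
  have h1 := P.card_eq_multiplicity
  rw [h, fac7] at h1
  simpa using h1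

theorem ncard_coe (H : Subgroup G) : (H : Set G).ncard = Nat.card H :=
  (Nat.card_coe_set_eq _).symm

theorem odd_even_one (g : G) (h7 : g ^ 7 = 1) (h2 : g ^ 2 = 1) : g = 1 := by
  calc g = g ^ 7 * ((g ^ 2) ^ 3)⁻¹ := by group
    _ = 1 := by rw [h7, h2]; simp

theorem eq_zpowers7 (h : Nat.card G = 504) (P : Sylow 7 G) (x : G)
    (hx : x ∈ (P : Subgroup G)) (hx1 : x ≠ 1) : (P : Subgroup G) = Subgroup.zpowers x := by
  have hle : Subgroup.zpowers x ≤ (P : Subgroup G) := (Subgroup.zpowers_le).mpr hx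
  have hc : Nat.card (Subgroup.zpowers x) = 7 := by
    have hd : Nat.card (Subgroup.zpowers x) ∣ 7 := by
      have h0 := Subgroup.card_dvd_of_le hle
      rwa [card_sylow7 h P] at h0
    have h1 : Nat.card (Subgroup.zpowers x) ≠ 1 := by
      intro h1
      rw [Subgroup.card_eq_one, Subgroup.zpowers_eq_bot] at h1
      exact hx1 h1
    rcases (Nat.dvd_prime (by norm_num : Nat.Prime 7)).mp hd with h' | h'
    · exact absurd h' h1
    · exact h'
  exact (Subgroup.eq_of_le_of_card_ge hle (by rw [hc, card_sylow7 h P])).symm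

theorem orderOf7 (h : Nat.card G = 504) (P : Sylow 7 G) (x : G)
    (hx : x ∈ (P : Subgroup G)) (hx1 : x ≠ 1) : orderOf x = 7 := by
  have hc : Nat.card (Subgroup.zpowers x) = 7 := by
    rw [← eq_zpowers7 h P x hx hx1]; exact card_sylow7 h P
  rwa [Nat.card_zpowers] at hc

theorem pow7 (h : Nat.card G = 504) (P : Sylow 7 G) (x : G) (hx : x ∈ (P : Subgroup G)) :
    x ^ 7 = 1 := by
  by_cases hx1 : x = 1
  · rw [hx1, one_pow]
  · rw [← orderOf7 h P x hx hx1]; exact pow_orderOf_eq_one x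

theorem exists_pow7 (h : Nat.card G = 504) (P : Sylow 7 G) (x : G)
    (hx : x ∈ (P : Subgroup G)) (hx1 : x ≠ 1) (w : G) (hw : w ∈ (P : Subgroup G)) :
    ∃ i < 7, x ^ i = w := by
  have hw' : w ∈ Subgroup.zpowers x := by rw [← eq_zpowers7 h P x hx hx1]; exact hw
  exact exists_pow_lt x 7 (orderOf7 h P x hx hx1) (by norm_num) w hw'

theorem sylow7_comm (h : Nat.card G = 504) (P : Sylow 7 G) (u v : G)
    (hu : u ∈ (P : Subgroup G)) (hv : v ∈ (P : Subgroup G)) : u * v = v * u := by
  by_cases hu1 : u = 1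
  · rw [hu1]; simp
  · obtain ⟨i, -, hi⟩ := exists_pow7 h P u hu hu1 v hv
    rw [← hi]
    exact ((Commute.refl u).pow_right i).eq

theorem ti7 (h : Nat.card G = 504) (P Q : Sylow 7 G) (w : G) (hwP : w ∈ (P : Subgroup G))
    (hwQ : w ∈ (Q : Subgroup G)) (hw1 : w ≠ 1) : P = Q := by
  apply Sylow.ext
  rw [eq_zpowers7 h P w hwP hw1, eq_zpowers7 h Q w hwQ hw1]

theorem free7 (h : Nat.card G = 504) (P Q : Sylow 7 G) (hQP : Q ≠ P) (g : G)
    (hg : g ∈ (P : Subgroup G)) (hgQ : g • Q = Q) : g = 1 := by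
  by_contra hg1
  have hN : g ∈ Subgroup.normalizer ((Q : Subgroup G) : Set G) :=
    Sylow.smul_eq_iff_mem_normalizer.mp hgQ
  have h1 : g ∈ (P : Subgroup G) ⊓ Subgroup.normalizer ((Q : Subgroup G) : Set G) := ⟨hg, hN⟩
  have e : (P : Subgroup G) ⊓ Subgroup.normalizer ((Q : Subgroup G) : Set G) =
      (P : Subgroup G) ⊓ (Q : Subgroup G) := P.isPGroup'.inf_normalizer_sylow Q
  rw [e] at h1
  exact hQP (ti7 h P Q g h1.1 h1.2 hg1).symm

section simple

variable [IsSimpleGroup G]

/-- an element fixing every Sylow subgroup is trivial -/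
theorem act_faithful {p : ℕ} [Fact p.Prime] (g : G) (hall : ∀ R : Sylow p G, g • R = R)
    (P Q : Sylow p G) (hQP : Q ≠ P) : g = 1 := by
  have hker : g ∈ (MulAction.toPermHom G (Sylow p G)).ker := by
    rw [MonoidHom.mem_ker]
    apply Equiv.ext
    intro R
    exact hall R
  rcases IsSimpleGroup.eq_bot_or_eq_top_of_normal (MulAction.toPermHom G (Sylow p G)).ker
    (MonoidHom.normal_ker _) with hb | ht
  · rw [hb] at hker; exact Subgroup.mem_bot.mp hker
  · exfalso
    obtain ⟨g', hg'⟩ := MulAction.exists_smul_eq G Q P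
    have h1 : g' ∈ (MulAction.toPermHom G (Sylow p G)).ker := by rw [ht]; trivial
    rw [MonoidHom.mem_ker] at h1
    have h2 : g' • Q = Q := by
      have := congrArg (fun σ : Equiv.Perm (Sylow p G) => σ Q) h1
      exact this
    exact hQP (h2.symm.trans hg')

theorem exists_smul7 (h : Nat.card G = 504) (h8 : Nat.card (Sylow 7 G) = 8) (P Q : Sylow 7 G)
    (hQP : Q ≠ P) (R : Sylow 7 G) (hR : R ≠ P) : ∃ u ∈ (P : Subgroup G), R = u • Q := by
  have hne : ∀ u : (P : Subgroup G), (u : G) • Q ≠ P := by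
    intro u hu
    apply hQP
    have e : Q = (u : G)⁻¹ • P := eq_inv_smul_iff.mpr hu
    rw [e]
    exact Sylow.smul_eq_iff_mem_normalizer.mpr (Subgroup.le_normalizer (inv_mem u.2))
  let f : ↥(P : Subgroup G) → {R : Sylow 7 G // R ≠ P} := fun u => ⟨(u : G) • Q, hne u⟩
  have hinj : Function.Injective f := by
    intro u u' huu
    have h1 : (u : G) • Q = (u' : G) • Q := congrArg Subtype.val huu
    have h2 : ((u' : G)⁻¹ * (u : G)) • Q = Q := by rw [mul_smul, h1, inv_smul_smul]
    have h3 := free7 h P Q hQP _ (mul_mem (inv_mem u'.2) u.2) h2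
    apply Subtype.ext
    exact (inv_mul_eq_one.mp h3).symm
  have hcard : Nat.card {R : Sylow 7 G // R ≠ P} ≤ Nat.card (P : Subgroup G) := by
    rw [card_sylow7 h P]
    have e1 : Nat.card {R : Sylow 7 G // R ≠ P} = ({R : Sylow 7 G | R ≠ P}).ncard :=
      Nat.card_coe_set_eq _
    have e2 : ({R : Sylow 7 G | R ≠ P}) = Set.univ \ {P} := by
      ext R; simp
    rw [e1, e2, Set.ncard_sdiff_singleton_of_mem (Set.mem_univ P), Set.ncard_univ, h8]
  have hbij := hinj.bijective_of_nat_card_le hcard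
  obtain ⟨u, hu⟩ := hbij.2 ⟨R, hR⟩
  exact ⟨u, u.2, (congrArg Subtype.val hu).symm⟩

theorem n7_ne_8 (h : Nat.card G = 504) : Nat.card (Sylow 7 G) ≠ 8 := by
  intro h8
  obtain ⟨P⟩ : Nonempty (Sylow 7 G) := inferInstance
  have hP := card_sylow7 h P
  have hN := Lead.card_normalizer_mul_card_sylow P
  rw [h8, h] at hN
  have hN63 : Nat.card (Subgroup.normalizer ((P : Subgroup G) : Set G)) = 63 := by omega
  have hrel := Lead.relIndex_centralizer_dvd_card_mulAut (P : Subgroup G)
  rw [Lead.card_mulAut_of_prime_card (p := 7) hP] at hrel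
  have hCN : Subgroup.centralizer ((P : Subgroup G) : Set G) ≤
      Subgroup.normalizer ((P : Subgroup G) : Set G) := Subgroup.centralizer_le_normalizer _
  have hmul := Subgroup.relIndex_mul_relIndex ⊥ _ _ bot_le hCN
  rw [Subgroup.relIndex_bot_left, Subgroup.relIndex_bot_left, hN63] at hmul
  have key : ∀ k m : ℕ, k ∣ 6 → m * k = 63 → 3 ∣ m := by
    intro k m hk hm
    have hle := Nat.le_of_dvd (by norm_num) hk
    have h0 : 0 < k := Nat.pos_of_dvd_of_pos hk (by norm_num)
    interval_cases k <;> omega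
  have h3 : 3 ∣ Nat.card (Subgroup.centralizer ((P : Subgroup G) : Set G)) :=
    key _ _ hrel hmul
  obtain ⟨c, hc⟩ := exists_prime_orderOf_dvd_card' 3 h3
  have hcC : (c : G) ∈ Subgroup.centralizer ((P : Subgroup G) : Set G) := c.2
  have hcomm : ∀ v ∈ (P : Subgroup G), v * (c : G) = (c : G) * v :=
    Subgroup.mem_centralizer_iff.mp hcC
  have hcP : (c : G) • P = P := Sylow.smul_eq_iff_mem_normalizer.mpr (hCN hcC)
  obtain ⟨Q0, hQ0⟩ : ∃ Q : Sylow 7 G, Q ≠ P := by
    by_contra hcon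
    push Not at hcon
    have : Nat.card (Sylow 7 G) ≤ 1 :=
      Finite.card_le_one_iff_subsingleton.mpr ⟨fun a b => (hcon a).trans (hcon b).symm⟩
    omega
  have hcQ : (c : G) • Q0 ≠ P := by
    intro hh
    have e1 : (c : G) • Q0 = (c : G) • P := by rw [hh, hcP]
    exact hQ0 (smul_left_cancel _ e1)
  obtain ⟨u, hu, huQ⟩ := exists_smul7 h h8 P Q0 hQ0 _ hcQ
  have hall : ∀ R : Sylow 7 G, (u⁻¹ * (c : G)) • R = R := by
    intro R
    by_cases hR : R = P
    · rw [hR, mul_smul, hcP]
      exact Sylow.smul_eq_iff_mem_normalizer.mpr (Subgroup.le_normalizer (inv_mem hu))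
    · obtain ⟨v, hv, rfl⟩ := exists_smul7 h h8 P Q0 hQ0 R hR
      have e1 : (u⁻¹ * (c : G)) * v = v * (u⁻¹ * (c : G)) := by
        have e2 : u⁻¹ * v = v * u⁻¹ := sylow7_comm h P _ _ (inv_mem hu) hv
        calc (u⁻¹ * (c : G)) * v = u⁻¹ * ((c : G) * v) := by group
          _ = u⁻¹ * (v * (c : G)) := by rw [hcomm v hv]
          _ = (u⁻¹ * v) * (c : G) := by group
          _ = v * (u⁻¹ * (c : G)) := by rw [e2]; group
      rw [← mul_smul, e1, mul_smul, mul_smul, huQ, inv_smul_smul]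
  have h1 := act_faithful _ hall P Q0 hQ0
  have hcu : (c : G) = u := by
    have := congrArg (fun z => u * z) h1
    simpa using this
  have hc7 : (c : G) ^ 7 = 1 := by rw [hcu]; exact pow7 h P u hu
  have hc3 : (c : G) ^ 3 = 1 := by
    have := pow_orderOf_eq_one c
    rw [hc] at this
    exact congrArg Subtype.val this
  have hc1 : (c : G) = 1 := by
    calc (c : G) = (c : G) ^ 7 * (((c : G) ^ 3) ^ 2)⁻¹ := by group
      _ = 1 := by rw [hc7, hc3]; simp
  have : c = 1 := Subtype.ext hc1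
  rw [this, orderOf_one] at hc
  omega

theorem n7 (h : Nat.card G = 504) : Nat.card (Sylow 7 G) = 36 := by
  obtain ⟨P⟩ : Nonempty (Sylow 7 G) := inferInstance
  have hP := card_sylow7 h P
  have hidx : (P : Subgroup G).index = 72 := by
    have h1 := (P : Subgroup G).card_mul_index
    rw [h, hP] at h1
    omega
  have hn1 : Nat.card (Sylow 7 G) ∣ 72 := hidx ▸ P.card_dvd_index
  have hn2 : Nat.card (Sylow 7 G) ≡ 1 [MOD 7] := card_sylow_modEq_one 7 G
  have hn3 : Nat.card (Sylow 7 G) ≠ 1 :=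
    Lead.simple_card_sylow_ne_one P (by rw [hP]; norm_num) (by rw [hP, h]; norm_num)
  have hn8 := n7_ne_8 h
  have hle : Nat.card (Sylow 7 G) ≤ 72 := Nat.le_of_dvd (by norm_num) hn1
  generalize Nat.card (Sylow 7 G) = n at *
  unfold Nat.ModEq at hn2
  interval_cases n <;> omega

theorem card_normalizer7 (h : Nat.card G = 504) (P : Sylow 7 G) :
    Nat.card (Subgroup.normalizer ((P : Subgroup G) : Set G)) = 14 := by
  have h1 := Lead.card_normalizer_mul_card_sylow P
  rw [n7 h, h] at h1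
  omega

theorem not_normalizer_le_centralizer7 (h : Nat.card G = 504) (P : Sylow 7 G) :
    ¬ Subgroup.normalizer ((P : Subgroup G) : Set G) ≤
      Subgroup.centralizer ((P : Subgroup G) : Set G) := by
  intro hNC
  have hP := card_sylow7 h P
  rcases Lead.simple_sylow_card P hNC with h1 | h1
  · rw [hP] at h1; omega
  · rw [hP, h] at h1; omega

theorem centralizer7 (h : Nat.card G = 504) (P : Sylow 7 G) :
    Subgroup.centralizer ((P : Subgroup G) : Set G) = (P : Subgroup G) := by
  have hPC : (P : Subgroup G) ≤ Subgroup.centralizer ((P : Subgroup G) : Set G) := by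
    intro u hu
    rw [Subgroup.mem_centralizer_iff]
    intro v hv
    exact sylow7_comm h P v u hv hu
  have hCN : Subgroup.centralizer ((P : Subgroup G) : Set G) ≤
      Subgroup.normalizer ((P : Subgroup G) : Set G) := Subgroup.centralizer_le_normalizer _
  have hN := card_normalizer7 h P
  have hP := card_sylow7 h P
  have hd1 : 7 ∣ Nat.card (Subgroup.centralizer ((P : Subgroup G) : Set G)) := by
    have h0 := Subgroup.card_dvd_of_le hPC
    rwa [hP] at h0
  have hd2 : Nat.card (Subgroup.centralizer ((P : Subgroup G) : Set G)) ∣ 14 := by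
    have h0 := Subgroup.card_dvd_of_le hCN
    rwa [hN] at h0
  have hne : Nat.card (Subgroup.centralizer ((P : Subgroup G) : Set G)) ≠ 14 := by
    intro h14
    have e : Subgroup.centralizer ((P : Subgroup G) : Set G) =
        Subgroup.normalizer ((P : Subgroup G) : Set G) :=
      Subgroup.eq_of_le_of_card_ge hCN (by rw [h14, hN])
    exact not_normalizer_le_centralizer7 h P (le_of_eq e.symm)
  have h7 : Nat.card (Subgroup.centralizer ((P : Subgroup G) : Set G)) = 7 := by
    have hle := Nat.le_of_dvd (by norm_num) hd2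
    generalize Nat.card (Subgroup.centralizer ((P : Subgroup G) : Set G)) = n at *
    interval_cases n <;> omega
  exact (Subgroup.eq_of_le_of_card_ge hPC (by rw [h7, hP])).symm

theorem mem_of_commute7 (h : Nat.card G = 504) (P : Sylow 7 G) (x : G)
    (hx : x ∈ (P : Subgroup G)) (hx1 : x ≠ 1) (g : G) (hg : g * x = x * g) :
    g ∈ (P : Subgroup G) := by
  have key : g ∈ Subgroup.centralizer ((P : Subgroup G) : Set G) := by
    rw [Subgroup.mem_centralizer_iff]
    intro v hv
    obtain ⟨i, -, hi⟩ := exists_pow7 h P x hx hx1 v hv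
    rw [← hi]
    exact ((show Commute x g from hg.symm).pow_left i).eq
  rwa [centralizer7 h P] at key

theorem inv7 (h : Nat.card G = 504) (P : Sylow 7 G) (s : G)
    (hsN : s ∈ Subgroup.normalizer ((P : Subgroup G) : Set G)) (hs2 : s ^ 2 = 1) (hs1 : s ≠ 1)
    (w : G) (hw : w ∈ (P : Subgroup G)) : s * w * s⁻¹ = w⁻¹ := by
  by_cases hw1 : w = 1
  · rw [hw1]; simp
  have ho := orderOf7 h P w hw hw1
  have hmem : s * w * s⁻¹ ∈ (P : Subgroup G) := (Subgroup.mem_normalizer_iff.mp hsN w).mp hw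
  obtain ⟨k, hk, hk2⟩ := exists_pow7 h P w hw hw1 _ hmem
  have hss : s * s = 1 := by rw [← pow_two]; exact hs2
  have hsinv : s⁻¹ = s := inv_eq_of_mul_eq_one_left hss
  have h1 : w ^ (k * k) = w ^ 1 := by
    rw [pow_mul, hk2, conj_pow, hk2, pow_one, hsinv]
    calc s * (s * w * s) * s = (s * s) * w * (s * s) := by group
      _ = w := by rw [hss]; group
  rw [pow_eq_pow_iff_modEq, ho] at h1
  unfold Nat.ModEq at h1
  have hk' : k = 1 ∨ k = 6 := by
    interval_cases k <;> simp at h1 <;> simp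
  rcases hk' with rfl | rfl
  · exfalso
    rw [pow_one] at hk2
    have hcomm : s * w = w * s := by
      calc s * w = (s * w * s⁻¹) * s := by group
        _ = w * s := by rw [← hk2]
    have hsP := mem_of_commute7 h P w hw hw1 s hcomm
    exact hs1 (odd_even_one s (pow7 h P s hsP) hs2)
  · rw [← hk2]
    apply eq_inv_of_mul_eq_one_left
    rw [← pow_succ]
    exact pow7 h P w hw

theorem exists_invol7 (h : Nat.card G = 504) (P : Sylow 7 G) :
    ∃ s ∈ Subgroup.normalizer ((P : Subgroup G) : Set G), s ^ 2 = 1 ∧ s ≠ 1 := by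
  have hN := card_normalizer7 h P
  obtain ⟨s, hs⟩ := exists_prime_orderOf_dvd_card'
    (G := Subgroup.normalizer ((P : Subgroup G) : Set G)) 2 (by rw [hN]; norm_num)
  refine ⟨s.1, s.2, ?_, ?_⟩
  · have := pow_orderOf_eq_one s
    rw [hs] at this
    exact congrArg Subtype.val this
  · intro h1
    have : s = 1 := Subtype.ext h1
    rw [this, orderOf_one] at hs
    omega

theorem invol_not_mem7 (h : Nat.card G = 504) (P : Sylow 7 G) (s : G) (hs2 : s ^ 2 = 1)
    (hs1 : s ≠ 1) : s ∉ (P : Subgroup G) :=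
  fun hsP => hs1 (odd_even_one s (pow7 h P s hsP) hs2)

theorem mul_mem7 (h : Nat.card G = 504) (P : Sylow 7 G) (a b : G)
    (ha : a ∈ Subgroup.normalizer ((P : Subgroup G) : Set G))
    (hb : b ∈ Subgroup.normalizer ((P : Subgroup G) : Set G))
    (haP : a ∉ (P : Subgroup G)) (hbP : b ∉ (P : Subgroup G)) : a * b ∈ (P : Subgroup G) := by
  have hidx : ((P : Subgroup G).subgroupOf
      (Subgroup.normalizer ((P : Subgroup G) : Set G))).index = 2 := by
    have h1 := Subgroup.card_mul_index ((P : Subgroup G).subgroupOf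
      (Subgroup.normalizer ((P : Subgroup G) : Set G)))
    rw [Nat.card_congr (Subgroup.subgroupOfEquivOfLe (Subgroup.le_normalizer)).toEquiv,
      card_sylow7 h P, card_normalizer7 h P] at h1
    omega
  have key := Subgroup.mul_mem_iff_of_index_two hidx
    (a := (⟨a, ha⟩ : Subgroup.normalizer ((P : Subgroup G) : Set G))) (b := ⟨b, hb⟩)
  rw [Subgroup.mem_subgroupOf, Subgroup.mem_subgroupOf, Subgroup.mem_subgroupOf] at key
  exact key.mpr (iff_of_false haP hbP)

theorem sylow7_cent_invol (h : Nat.card G = 504) (P : Sylow 7 G) (s : G)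
    (hsN : s ∈ Subgroup.normalizer ((P : Subgroup G) : Set G)) (hs2 : s ^ 2 = 1) (hs1 : s ≠ 1)
    (n : G) (hn : n ∈ (P : Subgroup G)) (hns : n * s = s * n) : n = 1 := by
  have h1 := inv7 h P s hsN hs2 hs1 n hn
  have h2 : s * n * s⁻¹ = n := by rw [← hns]; group
  have h3 : n⁻¹ = n := by rw [← h1, h2]
  have h4 : n ^ 2 = 1 := by
    rw [pow_two]
    nth_rewrite 1 [← h3]
    exact inv_mul_cancel n
  exact odd_even_one n (pow7 h P n hn) h4

theorem cent_inv7 (h : Nat.card G = 504) (P : Sylow 7 G) (s : G)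
    (hsN : s ∈ Subgroup.normalizer ((P : Subgroup G) : Set G)) (hs2 : s ^ 2 = 1) (hs1 : s ≠ 1)
    (n : G) (hn : n ∈ Subgroup.normalizer ((P : Subgroup G) : Set G)) (hns : n * s = s * n) :
    n = 1 ∨ n = s := by
  have hss : s * s = 1 := by rw [← pow_two]; exact hs2
  by_cases hnP : n ∈ (P : Subgroup G)
  · left
    exact sylow7_cent_invol h P s hsN hs2 hs1 n hnP hns
  · right
    have h1 : n * s ∈ (P : Subgroup G) :=
      mul_mem7 h P n s hn hsN hnP (invol_not_mem7 h P s hs2 hs1)
    have h2 : (n * s) * s = s * (n * s) := by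
      calc (n * s) * s = (s * n) * s := by rw [hns]
        _ = s * (n * s) := by group
    have h3 := sylow7_cent_invol h P s hsN hs2 hs1 (n * s) h1 h2
    calc n = (n * s) * s := by rw [mul_assoc, hss, mul_one]
      _ = s := by rw [h3, one_mul]

theorem conj_pow4 (h : Nat.card G = 504) (P : Sylow 7 G) (s : G)
    (hsN : s ∈ Subgroup.normalizer ((P : Subgroup G) : Set G)) (hs2 : s ^ 2 = 1) (hs1 : s ≠ 1)
    (w : G) (hw : w ∈ (P : Subgroup G)) : (w ^ 4)⁻¹ * s * w ^ 4 = s * w := by
  have h1 := inv7 h P s hsN hs2 hs1 (w ^ 4) (pow_mem hw 4)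
  have h2 := inv7 h P s hsN hs2 hs1 w hw
  have h3 : s * w ^ 4 = (w ^ 4)⁻¹ * s := by rw [← h1]; group
  have h4 : s * w = w⁻¹ * s := by rw [← h2]; group
  have h7 := pow7 h P w hw
  have h5 : (w ^ 4)⁻¹ * (w ^ 4)⁻¹ = w⁻¹ := by
    calc (w ^ 4)⁻¹ * (w ^ 4)⁻¹ = (w ^ 7)⁻¹ * w⁻¹ := by group
      _ = w⁻¹ := by rw [h7]; simp
  rw [mul_assoc, h3, ← mul_assoc, h5, h4]

theorem kap7 (h : Nat.card G = 504) (P : Sylow 7 G) (s : G)
    (hsN : s ∈ Subgroup.normalizer ((P : Subgroup G) : Set G)) (hs2 : s ^ 2 = 1) (hs1 : s ≠ 1) :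
    kap s (Subgroup.normalizer ((P : Subgroup G) : Set G)) = 7 := by
  rw [kap_eq_ncard]
  apply le_antisymm
  · have hsub : {v : G | v ∈ Subgroup.normalizer ((P : Subgroup G) : Set G) ∧
        ∃ g : G, g⁻¹ * s * g = v} ⊆
        ((Subgroup.normalizer ((P : Subgroup G) : Set G) : Subgroup G) : Set G) \
          ((P : Subgroup G) : Set G) := by
      rintro v ⟨hvN, g, rfl⟩
      refine ⟨hvN, fun hvP => ?_⟩
      have h2 : (g⁻¹ * s * g) ^ 2 = 1 := by
        have hss : s * s = 1 := by rw [← pow_two]; exact hs2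
        have e : (g⁻¹ * s * g) ^ 2 = g⁻¹ * (s * s) * g := by rw [pow_two]; group
        rw [e, hss]; group
      have h3 := odd_even_one _ (pow7 h P _ hvP) h2
      apply hs1
      calc s = g * (g⁻¹ * s * g) * g⁻¹ := by group
        _ = 1 := by rw [h3]; group
    have hcard : (((Subgroup.normalizer ((P : Subgroup G) : Set G) : Subgroup G) : Set G) \
          ((P : Subgroup G) : Set G)).ncard = 7 := by
      rw [Set.ncard_sdiff (Subgroup.le_normalizer : (P : Subgroup G) ≤ _) (Set.toFinite _),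
        ncard_coe, ncard_coe, card_normalizer7 h P, card_sylow7 h P]
    calc _ ≤ _ := Set.ncard_le_ncard hsub (Set.toFinite _)
      _ = 7 := hcard
  · have hsub : (fun w : G => s * w) '' ((P : Subgroup G) : Set G) ⊆
        {v : G | v ∈ Subgroup.normalizer ((P : Subgroup G) : Set G) ∧
          ∃ g : G, g⁻¹ * s * g = v} := by
      rintro _ ⟨w, hw, rfl⟩
      exact ⟨mul_mem hsN (Subgroup.le_normalizer hw), w ^ 4, conj_pow4 h P s hsN hs2 hs1 w hw⟩
    have hcard : ((fun w : G => s * w) '' ((P : Subgroup G) : Set G)).ncard = 7 := by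
      rw [Set.ncard_image_of_injective _ (mul_right_injective s), ncard_coe, card_sylow7 h P]
    calc 7 = _ := hcard.symm
      _ ≤ _ := Set.ncard_le_ncard hsub (Set.toFinite _)

end simple

end Cfsg.Agent.Helper4.P504
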