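import Mathlib
import Cfsg.Agent.Helper4.P504a

set_option autoImplicit false

namespace Cfsg.Agent.Helper4.P504

open Cfsg.Agent.Helper4.Simple168f Cfsg.Agent.Helper4.Par

/-- `7` is prime -/
local instance fact7b : Fact (Nat.Prime 7) := ⟨by norm_num⟩
/-- `2` is prime -/
local instance fact2b : Fact (Nat.Prime 2) := ⟨Nat.prime_two⟩

theorem inj_aux {G : Type*} [Group G] (s k k' w w' : G) (hk : k * s = s * k)
    (hk' : k' * s = s * k') (e : k * (s * w) * k⁻¹ = k' * (s * w') * k'⁻¹) :
    (k'⁻¹ * k) * w * (k'⁻¹ * k)⁻¹ = w' := by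
  have e3 : s * (k * w * k⁻¹) = s * (k' * w' * k'⁻¹) := by
    calc s * (k * w * k⁻¹) = (s * k) * w * k⁻¹ := by group
      _ = (k * s) * w * k⁻¹ := by rw [hk]
      _ = k * (s * w) * k⁻¹ := by group
      _ = k' * (s * w') * k'⁻¹ := e
      _ = (k' * s) * w' * k'⁻¹ := by group
      _ = (s * k') * w' * k'⁻¹ := by rw [hk']
      _ = s * (k' * w' * k'⁻¹) := by group
  have e4 := mul_left_cancel e3
  calc (k'⁻¹ * k) * w * (k'⁻¹ * k)⁻¹ = k'⁻¹ * (k * w * k⁻¹) * k' := by group
    _ = k'⁻¹ * (k' * w' * k'⁻¹) * k' := by rw [e4]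
    _ = w' := by group

theorem comm_aux {G : Type*} [Group G] (s k k' : G) (hk : k * s = s * k)
    (hk' : k' * s = s * k') : (k'⁻¹ * k) * s = s * (k'⁻¹ * k) := by
  calc k'⁻¹ * k * s = k'⁻¹ * (k * s) := by group
    _ = k'⁻¹ * (s * k) := by rw [hk]
    _ = (k'⁻¹ * (s * k')) * k'⁻¹ * k := by group
    _ = (k'⁻¹ * (k' * s)) * k'⁻¹ * k := by rw [hk']
    _ = s * (k'⁻¹ * k) := by group

theorem conj_trans_aux {G : Type*} [Group G] (s a v g0 g1 : G) (h0 : g0⁻¹ * s * g0 = a)
    (h1 : g1⁻¹ * s * g1 = v) : (g0⁻¹ * g1)⁻¹ * a * (g0⁻¹ * g1) = v := by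
  rw [← h0, ← h1]; group

variable {G : Type*} [Group G] [Finite G] [IsSimpleGroup G]

theorem mem_normalizer_of_conj7 (h : Nat.card G = 504) (P : Sylow 7 G) (n w w' : G)
    (hw : w ∈ (P : Subgroup G)) (hw1 : w ≠ 1) (hw' : w' ∈ (P : Subgroup G)) (hw'1 : w' ≠ 1)
    (e : n * w * n⁻¹ = w') : n ∈ Subgroup.normalizer ((P : Subgroup G) : Set G) := by
  rw [Subgroup.mem_normalizer_iff]
  intro v
  constructor
  · intro hv
    obtain ⟨m, -, hm⟩ := exists_pow7 h P w hw hw1 v hv
    rw [← hm, ← conj_pow, e]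
    exact pow_mem hw' m
  · intro hv
    obtain ⟨m, -, hm⟩ := exists_pow7 h P w' hw' hw'1 _ hv
    have h1 : n * v * n⁻¹ = n * w ^ m * n⁻¹ := by rw [← hm, ← e, conj_pow]
    have h2 : v = w ^ m := mul_left_cancel (mul_right_cancel h1)
    rw [h2]
    exact pow_mem hw m

theorem three_mul_card_cen_le (h : Nat.card G = 504) (P : Sylow 7 G) (s : G)
    (hsN : s ∈ Subgroup.normalizer ((P : Subgroup G) : Set G)) (hs2 : s ^ 2 = 1) (hs1 : s ≠ 1) :
    3 * Nat.card (Subgroup.centralizer ({s} : Set G)) ≤ kap s ⊤ := by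
  obtain ⟨x', hx'⟩ := exists_prime_orderOf_dvd_card' (G := (P : Subgroup G)) 7
    (by rw [card_sylow7 h P])
  obtain ⟨x, hxe⟩ : ∃ x : G, x = (x' : G) := ⟨_, rfl⟩
  have hx : x ∈ (P : Subgroup G) := by rw [hxe]; exact x'.2
  have hx1 : x ≠ 1 := by
    intro h1
    have : x' = 1 := Subtype.ext (hxe ▸ h1)
    rw [this, orderOf_one] at hx'
    omega
  have ho : orderOf x = 7 := orderOf7 h P x hx hx1
  have hpow1 : ∀ i : Fin 3, x ^ (i.val + 1) ≠ 1 := by
    intro i hi
    have := orderOf_dvd_of_pow_eq_one hi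
    rw [ho] at this
    have hi3 := i.isLt
    omega
  have hmem : ∀ (k : Subgroup.centralizer ({s} : Set G)) (i : Fin 3),
      (k : G) * (s * x ^ (i.val + 1)) * (k : G)⁻¹ ∈ (⊤ : Subgroup G) ∧
      ∃ g : G, g⁻¹ * s * g = (k : G) * (s * x ^ (i.val + 1)) * (k : G)⁻¹ := by
    intro k i
    refine ⟨Subgroup.mem_top _, (x ^ (i.val + 1)) ^ 4 * (k : G)⁻¹, ?_⟩
    have e := conj_pow4 h P s hsN hs2 hs1 (x ^ (i.val + 1)) (pow_mem hx _)
    generalize x ^ (i.val + 1) = w at e ⊢
    calc (w ^ 4 * (k : G)⁻¹)⁻¹ * s * (w ^ 4 * (k : G)⁻¹)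
        = (k : G) * ((w ^ 4)⁻¹ * s * w ^ 4) * (k : G)⁻¹ := by group
      _ = _ := by rw [e]
  let f : (Subgroup.centralizer ({s} : Set G)) × Fin 3 →
      {v : G // v ∈ (⊤ : Subgroup G) ∧ ∃ g : G, g⁻¹ * s * g = v} :=
    fun ki => ⟨(ki.1 : G) * (s * x ^ (ki.2.val + 1)) * (ki.1 : G)⁻¹, hmem ki.1 ki.2⟩
  have hinj : Function.Injective f := by
    rintro ⟨k, i⟩ ⟨k', j⟩ hkk
    have e : (k : G) * (s * x ^ (i.val + 1)) * (k : G)⁻¹ =
        (k' : G) * (s * x ^ (j.val + 1)) * (k' : G)⁻¹ := congrArg Subtype.val hkk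
    have hk : (k : G) * s = s * (k : G) := Subgroup.mem_centralizer_singleton_iff.mp k.2
    have hk' : (k' : G) * s = s * (k' : G) := Subgroup.mem_centralizer_singleton_iff.mp k'.2
    have e2 := inj_aux s (k : G) (k' : G) _ _ hk hk' e
    have hns := comm_aux s (k : G) (k' : G) hk hk'
    have hnN := mem_normalizer_of_conj7 h P _ _ _ (pow_mem hx _) (hpow1 i) (pow_mem hx _)
      (hpow1 j) e2
    have hi3 := i.isLt
    have hj3 := j.isLt
    rcases cent_inv7 h P s hsN hs2 hs1 _ hnN hns with h1 | h1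
    · have hkk' : (k' : G) = (k : G) := inv_mul_eq_one.mp h1
      rw [h1] at e2
      have e3 : x ^ (i.val + 1) = x ^ (j.val + 1) := by simpa using e2
      rw [pow_eq_pow_iff_modEq, ho] at e3
      unfold Nat.ModEq at e3
      have hij : i = j := Fin.ext (by omega)
      have hkeq : k = k' := Subtype.ext hkk'.symm
      rw [hij, hkeq]
    · exfalso
      rw [h1, inv7 h P s hsN hs2 hs1 _ (pow_mem hx _)] at e2
      have e3 : x ^ (j.val + 1 + (i.val + 1)) = 1 := by
        rw [pow_add, ← e2]; group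
      have := orderOf_dvd_of_pow_eq_one e3
      rw [ho] at this
      omega
  have hcard := Nat.card_le_card_of_injective f hinj
  rw [Nat.card_prod, Nat.card_fin] at hcard
  unfold kap
  omega

theorem card_cen_invol7 (h : Nat.card G = 504) (P : Sylow 7 G) (s : G)
    (hsN : s ∈ Subgroup.normalizer ((P : Subgroup G) : Set G)) (hs2 : s ^ 2 = 1) (hs1 : s ≠ 1) :
    Nat.card (Subgroup.centralizer ({s} : Set G)) = 8 := by
  obtain ⟨fa, t, h1, h2⟩ := par2 (by rw [h]; norm_num)
    (Subgroup.normalizer ((P : Subgroup G) : Set G)) s hs2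
  rw [card_normalizer7 h P, kap7 h P s hsN hs2 hs1] at h1
  have hidx : (Subgroup.normalizer ((P : Subgroup G) : Set G)).index = 36 := by
    have := Subgroup.card_mul_index (Subgroup.normalizer ((P : Subgroup G) : Set G))
    rw [card_normalizer7 h P, h] at this
    omega
  rw [hidx] at h2
  have hbound := three_mul_card_cen_le h P s hsN hs2 hs1
  have hcl := card_cen_mul_kap_top s
  rw [h] at hcl
  have hpos : 0 < Nat.card (Subgroup.centralizer ({s} : Set G)) := Nat.card_pos
  generalize Nat.card (Subgroup.centralizer ({s} : Set G)) = c at *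
  generalize kap s ⊤ = j at *
  have hC : c = 2 * fa := by omega
  subst hC
  have h3 : 3 * (2 * fa * (2 * fa)) ≤ 504 := by nlinarith
  have hfa : fa ≤ 36 := by omega
  interval_cases fa <;> omega

theorem exists_invol (h : Nat.card G = 504) :
    ∃ s : G, s ^ 2 = 1 ∧ s ≠ 1 ∧ Nat.card (Subgroup.centralizer ({s} : Set G)) = 8 := by
  obtain ⟨P⟩ : Nonempty (Sylow 7 G) := inferInstance
  obtain ⟨s, hsN, hs2, hs1⟩ := exists_invol7 h P
  exact ⟨s, hs2, hs1, card_cen_invol7 h P s hsN hs2 hs1⟩

omit [Finite G] [IsSimpleGroup G] in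
/-- the four-group generated by two commuting involutions -/
def four (s u : G) (hs : s * s = 1) (hu : u * u = 1) (hc : s * u = u * s) : Subgroup G where
  carrier := {1, s, u, s * u}
  mul_mem' := by
    intro a b ha hb
    have e1 : s * (s * u) = u := by rw [← mul_assoc, hs, one_mul]
    have e2 : u * s = s * u := hc.symm
    have e3 : u * (s * u) = s := by rw [← mul_assoc, ← hc, mul_assoc, hu, mul_one]
    have e4 : s * u * s = u := by rw [hc, mul_assoc, hs, mul_one]
    have e5 : s * u * u = s := by rw [mul_assoc, hu, mul_one]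
    have e6 : s * u * (s * u) = 1 := by rw [← mul_assoc, e4, hu]
    simp only [Set.mem_insert_iff, Set.mem_singleton_iff] at ha hb ⊢
    rcases ha with rfl | rfl | rfl | rfl <;> rcases hb with rfl | rfl | rfl | rfl <;>
      simp [hs, hu, e1, e2, e3, e4, e5, e6]
  one_mem' := by simp
  inv_mem' := by
    intro a ha
    have e4 : s * u * s = u := by rw [hc, mul_assoc, hs, mul_one]
    have e6 : s * u * (s * u) = 1 := by rw [← mul_assoc, e4, hu]
    have i1 : s⁻¹ = s := inv_eq_of_mul_eq_one_left hs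
    have i2 : u⁻¹ = u := inv_eq_of_mul_eq_one_left hu
    have i3 : (s * u)⁻¹ = s * u := inv_eq_of_mul_eq_one_left e6
    simp only [Set.mem_insert_iff, Set.mem_singleton_iff] at ha ⊢
    rcases ha with rfl | rfl | rfl | rfl
    · simp
    · rw [i1]; simp
    · rw [i2]; simp
    · rw [i3]; simp

omit [Finite G] [IsSimpleGroup G] in
theorem mem_four (s u : G) (hs : s * s = 1) (hu : u * u = 1) (hc : s * u = u * s) (v : G) :
    v ∈ four s u hs hu hc ↔ v = 1 ∨ v = s ∨ v = u ∨ v = s * u := by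
  show v ∈ ({1, s, u, s * u} : Set G) ↔ _
  simp only [Set.mem_insert_iff, Set.mem_singleton_iff]

omit [Finite G] [IsSimpleGroup G] in
theorem card_four (s u : G) (hs : s * s = 1) (hu : u * u = 1) (hc : s * u = u * s)
    (hs1 : s ≠ 1) (hu1 : u ≠ 1) (hus : u ≠ s) : Nat.card (four s u hs hu hc) = 4 := by
  have e : Nat.card (four s u hs hu hc) = ({1, s, u, s * u} : Set G).ncard :=
    Nat.card_coe_set_eq _
  have hsu1 : s * u ≠ 1 := by
    intro h1
    have : s = u⁻¹ := eq_inv_of_mul_eq_one_left h1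
    rw [inv_eq_of_mul_eq_one_left hu] at this
    exact hus this.symm
  have h1 : (1 : G) ∉ ({s, u, s * u} : Set G) := by
    simp only [Set.mem_insert_iff, Set.mem_singleton_iff, not_or]
    exact ⟨fun h => hs1 h.symm, fun h => hu1 h.symm, fun h => hsu1 h.symm⟩
  have h2 : s ∉ ({u, s * u} : Set G) := by
    simp only [Set.mem_insert_iff, Set.mem_singleton_iff, not_or]
    refine ⟨fun h => hus h.symm, fun h => hu1 ?_⟩
    have : s * 1 = s * u := by rw [mul_one]; exact h
    exact (mul_left_cancel this).symm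
  have h3 : u ≠ s * u := by
    intro h
    have : 1 * u = s * u := by rw [one_mul]; exact h
    exact hs1 (mul_right_cancel this).symm
  rw [e, Set.ncard_insert_of_notMem h1, Set.ncard_insert_of_notMem h2, Set.ncard_pair h3]

/-- another conjugate of `s` in its centraliser -/
theorem exists_conj_in_cen (h : Nat.card G = 504) (s : G) (hs2 : s ^ 2 = 1)
    (hc8 : Nat.card (Subgroup.centralizer ({s} : Set G)) = 8) :
    ∃ u g : G, u * s = s * u ∧ g⁻¹ * s * g = u ∧ u ≠ s := by
  obtain ⟨fa, t, h1, h2⟩ := par2 (by rw [h]; norm_num) (Subgroup.centralizer ({s} : Set G)) s hs2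
  have hidx : (Subgroup.centralizer ({s} : Set G)).index = 63 := by
    have := Subgroup.card_mul_index (Subgroup.centralizer ({s} : Set G))
    rw [hc8, h] at this
    omega
  rw [hidx] at h2
  rw [hc8] at h1
  have hk : 2 ≤ kap s (Subgroup.centralizer ({s} : Set G)) := by omega
  by_contra hcon
  push Not at hcon
  have hsub : {v : G | v ∈ Subgroup.centralizer ({s} : Set G) ∧ ∃ g : G, g⁻¹ * s * g = v} ⊆
      {s} := by
    rintro v ⟨hv, g, hg⟩
    exact hcon v g (Subgroup.mem_centralizer_singleton_iff.mp hv) hg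
  have := Set.ncard_le_ncard hsub (Set.toFinite _)
  rw [Set.ncard_singleton, ← kap_eq_ncard] at this
  omega

/-- the structural facts on involutions -/
structure Facts (G : Type*) [Group G] : Prop where
  conj : ∀ a b : G, a ^ 2 = 1 → a ≠ 1 → b ^ 2 = 1 → b ≠ 1 → ∃ g : G, g⁻¹ * a * g = b
  cen : ∀ a : G, a ^ 2 = 1 → a ≠ 1 → Nat.card (Subgroup.centralizer ({a} : Set G)) = 8
  sq : ∀ g : G, g ^ 4 = 1 → g ^ 2 = 1

theorem facts (h : Nat.card G = 504) : Facts G := by
  obtain ⟨s, hs2, hs1, hc8⟩ := exists_invol h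
  obtain ⟨u, g, hus, hgu, hne⟩ := exists_conj_in_cen h s hs2 hc8
  have hss : s * s = 1 := by rw [← pow_two]; exact hs2
  have huu : u * u = 1 := by
    rw [← hgu]
    calc g⁻¹ * s * g * (g⁻¹ * s * g) = g⁻¹ * (s * s) * g := by group
      _ = 1 := by rw [hss]; group
  have hu1 : u ≠ 1 := by
    intro hu1
    apply hs1
    calc s = g * (g⁻¹ * s * g) * g⁻¹ := by group
      _ = 1 := by rw [hgu, hu1]; group
  have hG : 2 < Nat.card G := by rw [h]; norm_num
  have hidx : (four s u hss huu hus.symm).index = 126 := by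
    have := Subgroup.card_mul_index (four s u hss huu hus.symm)
    rw [card_four s u hss huu hus.symm hs1 hu1 hne, h] at this
    omega
  have hM4 := card_four s u hss huu hus.symm hs1 hu1 hne
  -- `s * u` is conjugate to `s`
  have hsu : ∃ g' : G, g'⁻¹ * s * g' = s * u := by
    by_contra hcon
    obtain ⟨fa, t, h1, h2⟩ := par2 hG (four s u hss huu hus.symm) s hs2
    rw [hidx] at h2
    rw [hM4, hc8] at h1
    have hset : {v : G | v ∈ four s u hss huu hus.symm ∧ ∃ g : G, g⁻¹ * s * g = v} = {s, u} := by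
      ext v
      simp only [Set.mem_setOf_eq, Set.mem_insert_iff, Set.mem_singleton_iff, mem_four]
      constructor
      · rintro ⟨hv | hv | hv | hv, g', hg'⟩
        · exfalso
          apply hs1
          calc s = g' * (g'⁻¹ * s * g') * g'⁻¹ := by group
            _ = 1 := by rw [hg', hv]; group
        · left; exact hv
        · right; exact hv
        · exact absurd ⟨g', hv ▸ hg'⟩ hcon
      · rintro (hv | hv)
        · exact ⟨Or.inr (Or.inl hv), 1, by rw [hv]; group⟩
        · exact ⟨Or.inr (Or.inr (Or.inl hv)), g, by rw [hv]; exact hgu⟩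
    have hk : kap s (four s u hss huu hus.symm) = 2 := by
      rw [kap_eq_ncard, hset, Set.ncard_pair (Ne.symm hne)]
    rw [hk] at h1
    omega
  obtain ⟨g2, hg2⟩ := hsu
  -- every involution is conjugate to `s`
  have hall : ∀ a : G, a ^ 2 = 1 → a ≠ 1 → ∃ g' : G, g'⁻¹ * s * g' = a := by
    intro a ha2 ha1
    obtain ⟨fa, t, h1, h2⟩ := par2 hG (four s u hss huu hus.symm) a ha2
    rw [hidx] at h2
    have hk : kap a (four s u hss huu hus.symm) ≠ 0 := by
      intro hk
      rw [hk, hM4] at h1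
      omega
    rw [kap_eq_ncard] at hk
    obtain ⟨v, hvM, g', hg'⟩ := Set.nonempty_of_ncard_ne_zero hk
    rw [mem_four] at hvM
    have key : ∀ g1 : G, g1⁻¹ * s * g1 = v → ∃ g'' : G, g''⁻¹ * s * g'' = a := by
      intro g1 hg1
      refine ⟨g1 * g'⁻¹, ?_⟩
      calc (g1 * g'⁻¹)⁻¹ * s * (g1 * g'⁻¹) = g' * (g1⁻¹ * s * g1) * g'⁻¹ := by group
        _ = g' * (g'⁻¹ * a * g') * g'⁻¹ := by rw [hg1, hg']
        _ = a := by group
    rcases hvM with hv | hv | hv | hv
    · exfalso
      apply ha1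
      calc a = g' * (g'⁻¹ * a * g') * g'⁻¹ := by group
        _ = 1 := by rw [hg', hv]; group
    · exact key 1 (by rw [hv]; group)
    · exact key g (by rw [hv]; exact hgu)
    · exact key g2 (by rw [hv]; exact hg2)
  have hcen : ∀ a : G, a ^ 2 = 1 → a ≠ 1 →
      Nat.card (Subgroup.centralizer ({a} : Set G)) = 8 := by
    intro a ha2 ha1
    obtain ⟨g', hg'⟩ := hall a ha2 ha1
    rw [← hg', card_cen_conj, hc8]
  refine ⟨?_, hcen, ?_⟩
  · intro a b ha2 ha1 hb2 hb1
    obtain ⟨g0, hg0⟩ := hall a ha2 ha1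
    obtain ⟨g1, hg1⟩ := hall b hb2 hb1
    exact ⟨_, conj_trans_aux s a b g0 g1 hg0 hg1⟩
  · intro x hx4
    by_contra hx2
    have hb2 : (x ^ 2) ^ 2 = 1 := by rw [← pow_mul]; exact hx4
    obtain ⟨g0, hg0⟩ := hall (x ^ 2) hb2 hx2
    obtain ⟨fa, fb, t, q, h1, h2, h3, h4, h5⟩ := par4 hG (four s u hss huu hus.symm) x hx4
    rw [hidx] at h3 h4
    have hk0 : kap x (four s u hss huu hus.symm) = 0 := by
      rw [kap_eq_ncard]
      have hempty : {v : G | v ∈ four s u hss huu hus.symm ∧ ∃ g : G, g⁻¹ * x * g = v} = ∅ := by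
        ext v
        simp only [Set.mem_setOf_eq, Set.mem_empty_iff_false, iff_false, not_and, not_exists]
        intro hvM g' hg'
        have hvv : v * v = 1 := by
          have := (four s u hss huu hus.symm).mul_mem hvM hvM
          rw [mem_four] at hvM
          rcases hvM with hv | hv | hv | hv
          · rw [hv, one_mul]
          · rw [hv, hss]
          · rw [hv, huu]
          · rw [hv]
            calc s * u * (s * u) = s * (u * s) * u := by group
              _ = s * (s * u) * u := by rw [hus]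
              _ = (s * s) * (u * u) := by group
              _ = 1 := by rw [hss, huu, one_mul]
        apply hx2
        calc x ^ 2 = g' * ((g'⁻¹ * x * g') * (g'⁻¹ * x * g')) * g'⁻¹ := by
              rw [pow_two]; group
          _ = 1 := by rw [hg', hvv]; group
      rw [hempty, Set.ncard_empty]
    have hk3 : kap (x ^ 2) (four s u hss huu hus.symm) = 3 := by
      rw [kap_eq_ncard]
      have hset : {v : G | v ∈ four s u hss huu hus.symm ∧ ∃ g : G, g⁻¹ * x ^ 2 * g = v} =
          {s, u, s * u} := by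
        ext v
        simp only [Set.mem_setOf_eq, Set.mem_insert_iff, Set.mem_singleton_iff, mem_four]
        constructor
        · rintro ⟨hv | hv | hv | hv, g', hg'⟩
          · exfalso
            apply hx2
            calc x ^ 2 = g' * (g'⁻¹ * x ^ 2 * g') * g'⁻¹ := by group
              _ = 1 := by rw [hg', hv]; group
          · left; exact hv
          · right; left; exact hv
          · right; right; exact hv
        · rintro (hv | hv | hv)
          · exact ⟨Or.inr (Or.inl hv), _,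
              conj_trans_aux s (x ^ 2) v g0 1 hg0 (by rw [hv]; group)⟩
          · exact ⟨Or.inr (Or.inr (Or.inl hv)), _,
              conj_trans_aux s (x ^ 2) v g0 g hg0 (by rw [hv]; exact hgu)⟩
          · exact ⟨Or.inr (Or.inr (Or.inr hv)), _,
              conj_trans_aux s (x ^ 2) v g0 g2 hg0 (by rw [hv]; exact hg2)⟩
      have hsu1 : s ≠ s * u := by
        intro hh
        have : s * 1 = s * u := by rw [mul_one]; exact hh
        exact hu1 (mul_left_cancel this).symm
      have husu : u ≠ s * u := by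
        intro hh
        have : 1 * u = s * u := by rw [one_mul]; exact hh
        exact hs1 (mul_right_cancel this).symm
      have hnm : s ∉ ({u, s * u} : Set G) := by
        simp only [Set.mem_insert_iff, Set.mem_singleton_iff, not_or]
        exact ⟨fun hh => hne hh.symm, hsu1⟩
      rw [hset, Set.ncard_insert_of_notMem hnm, Set.ncard_pair husu]
    rw [hk0, hM4] at h1
    rw [hk3, hM4, hcen (x ^ 2) hb2 hx2] at h2
    obtain ⟨k, hk⟩ := h5
    omega

end Cfsg.Agent.Helper4.P504
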