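import Mathlib
import Cfsg.Agent.Helper4.P504b

set_option autoImplicit false

namespace Cfsg.Agent.Helper4.P504

open Cfsg.Agent.Helper4.Simple168e Cfsg.Agent.Helper4.Simple168f Cfsg.Agent.Helper4.Par

/-- `7` is prime -/
local instance fact7c : Fact (Nat.Prime 7) := ⟨by norm_num⟩
/-- `2` is prime -/
local instance fact2c : Fact (Nat.Prime 2) := ⟨Nat.prime_two⟩

/-- the conjugate of `a` by `y ^ i` -/
def cj {G : Type*} [Group G] (y a : G) (i : ℕ) : G := y ^ i * a * (y ^ i)⁻¹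

theorem cj_shift {G : Type*} [Group G] (y a : G) (k i : ℕ) :
    y ^ k * cj y a i * (y ^ k)⁻¹ = cj y a (k + i) := by
  unfold cj
  rw [pow_add]; group

theorem cj_add7 {G : Type*} [Group G] (y a : G) (hy : y ^ 7 = 1) (i : ℕ) :
    cj y a (i + 7) = cj y a i := by
  unfold cj
  rw [pow_add, hy, mul_one]

theorem cj_ne_one {G : Type*} [Group G] (y a : G) (ha1 : a ≠ 1) (i : ℕ) : cj y a i ≠ 1 := by
  intro hi
  apply ha1
  unfold cj at hi
  calc a = (y ^ i)⁻¹ * (y ^ i * a * (y ^ i)⁻¹) * y ^ i := by group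
    _ = 1 := by rw [hi]; group

variable {G : Type*} [Group G] [Finite G]

theorem fac2 : (504 : ℕ).factorization 2 = 3 := by
  have e : (504 : ℕ) = 2 ^ 3 * 63 := by norm_num
  rw [e, Nat.factorization_mul (by norm_num) (by norm_num), Finsupp.add_apply,
    Nat.factorization_pow, Finsupp.smul_apply, Nat.Prime.factorization_self Nat.prime_two,
    Nat.factorization_eq_zero_of_not_dvd (by norm_num)]
  rfl

theorem card_sylow2 (h : Nat.card G = 504) (R : Sylow 2 G) : Nat.card (R : Subgroup G) = 8 := by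
  have h1 := R.card_eq_multiplicity
  rw [h, fac2] at h1
  rw [h1]; norm_num

/-- the stabiliser of two Sylow subgroups -/
def stab2 (R Q : Sylow 2 G) : Subgroup G := MulAction.stabilizer G R ⊓ MulAction.stabilizer G Q

theorem mem_stab2 {R Q : Sylow 2 G} {g : G} : g ∈ stab2 R Q ↔ g • R = R ∧ g • Q = Q := by
  show g ∈ MulAction.stabilizer G R ⊓ MulAction.stabilizer G Q ↔ _
  rw [Subgroup.mem_inf, MulAction.mem_stabilizer_iff, MulAction.mem_stabilizer_iff]

variable [IsSimpleGroup G]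

theorem sq_one2 (h : Nat.card G = 504) (R : Sylow 2 G) (a : G) (ha : a ∈ (R : Subgroup G)) :
    a ^ 2 = 1 := by
  have hF := facts h
  have h8 : a ^ 8 = 1 := by
    have h1 : (⟨a, ha⟩ : (R : Subgroup G)) ^ Nat.card (R : Subgroup G) = 1 := pow_card_eq_one'
    rw [card_sylow2 h R] at h1
    exact congrArg Subtype.val h1
  have h4 : a ^ 4 = 1 := by
    have := hF.sq (a ^ 2) (by rw [← pow_mul]; exact h8)
    rw [← pow_mul] at this
    exact this
  exact hF.sq a h4

theorem comm2 (h : Nat.card G = 504) (R : Sylow 2 G) (a b : G) (ha : a ∈ (R : Subgroup G))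
    (hb : b ∈ (R : Subgroup G)) : a * b = b * a := by
  have h1 := sq_one2 h R a ha
  have h2 := sq_one2 h R b hb
  have h3 := sq_one2 h R (a * b) (mul_mem ha hb)
  have ia : a⁻¹ = a := inv_eq_of_mul_eq_one_left (by rw [← pow_two]; exact h1)
  have ib : b⁻¹ = b := inv_eq_of_mul_eq_one_left (by rw [← pow_two]; exact h2)
  have iab : (a * b)⁻¹ = a * b := inv_eq_of_mul_eq_one_left (by rw [← pow_two]; exact h3)
  calc a * b = (a * b)⁻¹ := iab.symm
    _ = b⁻¹ * a⁻¹ := mul_inv_rev a b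
    _ = b * a := by rw [ia, ib]

theorem cen2 (h : Nat.card G = 504) (R : Sylow 2 G) (a : G) (ha : a ∈ (R : Subgroup G))
    (ha1 : a ≠ 1) : Subgroup.centralizer ({a} : Set G) = (R : Subgroup G) := by
  have hle : (R : Subgroup G) ≤ Subgroup.centralizer ({a} : Set G) := by
    intro b hb
    rw [Subgroup.mem_centralizer_singleton_iff]
    exact comm2 h R b a hb ha
  exact (Subgroup.eq_of_le_of_card_ge hle
    (by rw [(facts h).cen a (sq_one2 h R a ha) ha1, card_sylow2 h R])).symm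

theorem mem_of_commute2 (h : Nat.card G = 504) (R : Sylow 2 G) (a : G)
    (ha : a ∈ (R : Subgroup G)) (ha1 : a ≠ 1) (g : G) (hg : g * a = a * g) :
    g ∈ (R : Subgroup G) := by
  rw [← cen2 h R a ha ha1]
  exact Subgroup.mem_centralizer_singleton_iff.mpr hg

theorem ti2 (h : Nat.card G = 504) (R Q : Sylow 2 G) (a : G) (haR : a ∈ (R : Subgroup G))
    (haQ : a ∈ (Q : Subgroup G)) (ha1 : a ≠ 1) : R = Q := by
  apply Sylow.ext
  rw [← cen2 h R a haR ha1, ← cen2 h Q a haQ ha1]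

theorem free2 (h : Nat.card G = 504) (R Q : Sylow 2 G) (hQR : Q ≠ R) (g : G)
    (hg : g ∈ (R : Subgroup G)) (hgQ : g • Q = Q) : g = 1 := by
  by_contra hg1
  have hN : g ∈ Subgroup.normalizer ((Q : Subgroup G) : Set G) :=
    Sylow.smul_eq_iff_mem_normalizer.mp hgQ
  have h1 : g ∈ (R : Subgroup G) ⊓ Subgroup.normalizer ((Q : Subgroup G) : Set G) := ⟨hg, hN⟩
  have e : (R : Subgroup G) ⊓ Subgroup.normalizer ((Q : Subgroup G) : Set G) =
      (R : Subgroup G) ⊓ (Q : Subgroup G) := R.isPGroup'.inf_normalizer_sylow Q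
  rw [e] at h1
  exact hQR (ti2 h R Q g h1.1 h1.2 hg1).symm

theorem card_normalizer2 (h : Nat.card G = 504) (R : Sylow 2 G) :
    Nat.card (Subgroup.normalizer ((R : Subgroup G) : Set G)) = 56 := by
  obtain ⟨a', ha'⟩ := exists_prime_orderOf_dvd_card' (G := (R : Subgroup G)) 2
    (by rw [card_sylow2 h R]; norm_num)
  obtain ⟨a, hae⟩ : ∃ a : G, a = (a' : G) := ⟨_, rfl⟩
  have ha : a ∈ (R : Subgroup G) := by rw [hae]; exact a'.2
  have ha1 : a ≠ 1 := by
    intro h1
    have : a' = 1 := Subtype.ext (hae ▸ h1)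
    rw [this, orderOf_one] at ha'
    omega
  have ha2 := sq_one2 h R a ha
  have hF := facts h
  have hset : ∀ g : G, g ∈ Subgroup.normalizer ((R : Subgroup G) : Set G) ↔
      g⁻¹ * a * g ∈ (R : Subgroup G) := by
    intro g
    constructor
    · intro hg
      have := (Subgroup.mem_normalizer_iff.mp (inv_mem hg) a).mp ha
      simpa using this
    · intro hb
      have hb1 : g⁻¹ * a * g ≠ 1 := by
        intro hb1
        apply ha1
        calc a = g * (g⁻¹ * a * g) * g⁻¹ := by group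
          _ = 1 := by rw [hb1]; group
      have hinv : g⁻¹ ∈ Subgroup.normalizer ((R : Subgroup G) : Set G) := by
        rw [Subgroup.mem_normalizer_iff]
        intro r
        constructor
        · intro hr
          apply mem_of_commute2 h R (g⁻¹ * a * g) hb hb1
          have hra : r * a = a * r := comm2 h R r a hr ha
          calc g⁻¹ * r * g⁻¹⁻¹ * (g⁻¹ * a * g) = g⁻¹ * (r * a) * g := by group
            _ = g⁻¹ * (a * r) * g := by rw [hra]
            _ = g⁻¹ * a * g * (g⁻¹ * r * g⁻¹⁻¹) := by group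
        · intro hr
          apply mem_of_commute2 h R a ha ha1
          have hc := comm2 h R (g⁻¹ * r * g⁻¹⁻¹) (g⁻¹ * a * g) hr hb
          calc r * a = g * ((g⁻¹ * r * g⁻¹⁻¹) * (g⁻¹ * a * g)) * g⁻¹ := by group
            _ = g * ((g⁻¹ * a * g) * (g⁻¹ * r * g⁻¹⁻¹)) * g⁻¹ := by rw [hc]
            _ = a * r := by group
      have := inv_mem hinv
      simpa using this
  have hcard : Nat.card (Subgroup.normalizer ((R : Subgroup G) : Set G)) =
      Nat.card {g : G // g⁻¹ * a * g ∈ (R : Subgroup G)} :=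
    Nat.card_congr (Equiv.subtypeEquivRight hset)
  have hk : kap a (R : Subgroup G) = 7 := by
    rw [kap_eq_ncard]
    have hset2 : {v : G | v ∈ (R : Subgroup G) ∧ ∃ g : G, g⁻¹ * a * g = v} =
        ((R : Subgroup G) : Set G) \ {1} := by
      ext v
      constructor
      · rintro ⟨hv, g, hg⟩
        refine ⟨hv, fun hv1 => ha1 ?_⟩
        have hv1' : v = 1 := hv1
        calc a = g * (g⁻¹ * a * g) * g⁻¹ := by group
          _ = 1 := by rw [hg, hv1']; group
      · rintro ⟨hv, hv1⟩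
        exact ⟨hv, hF.conj a v ha2 ha1 (sq_one2 h R v hv) hv1⟩
    rw [hset2, Set.ncard_sdiff_singleton_of_mem (one_mem _), ncard_coe, card_sylow2 h R]
  rw [hcard, card_conj_mem, hF.cen a ha2 ha1, hk]

theorem n2 (h : Nat.card G = 504) : Nat.card (Sylow 2 G) = 9 := by
  obtain ⟨R⟩ : Nonempty (Sylow 2 G) := inferInstance
  have h1 := Lead.card_normalizer_mul_card_sylow R
  rw [card_normalizer2 h R, h] at h1
  omega

theorem card_stab2 (h : Nat.card G = 504) (R Q : Sylow 2 G) (hQR : Q ≠ R) :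
    Nat.card (stab2 R Q) = 7 := by
  set N := Subgroup.normalizer ((R : Subgroup G) : Set G) with hN
  have hcN : Nat.card N = 56 := card_normalizer2 h R
  have hle : stab2 R Q ≤ N := fun g hg =>
    Sylow.smul_eq_iff_mem_normalizer.mp (mem_stab2.mp hg).1
  have hinf : (R : Subgroup G) ⊓ stab2 R Q = ⊥ := by
    rw [eq_bot_iff]
    rintro g ⟨hgP, hgH⟩
    exact Subgroup.mem_bot.mpr (free2 h R Q hQR g hgP (mem_stab2.mp hgH).2)
  have h1 := card_mul_le (R : Subgroup G) (stab2 R Q) N Subgroup.le_normalizer hle hinf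
  rw [card_sylow2 h R, hcN] at h1
  have hos : Nat.card (MulAction.orbit N Q) * Nat.card (MulAction.stabilizer N Q) =
      Nat.card N := by
    rw [Nat.card_congr (MulAction.orbitEquivQuotientStabilizer N Q)]
    exact (Subgroup.card_eq_card_quotient_mul_card_subgroup _).symm
  have horb : Nat.card (MulAction.orbit N Q) ≤ 8 := by
    rw [Nat.card_coe_set_eq]
    have hP : R ∉ MulAction.orbit N Q := by
      rintro ⟨n, hn⟩
      have h1 : (n : G) • Q = R := hn
      have h2 : Q = (n : G)⁻¹ • R := by rw [← h1, inv_smul_smul]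
      have h3 : (n : G)⁻¹ • R = R := Sylow.smul_eq_iff_mem_normalizer.mpr (inv_mem n.2)
      exact hQR (h2.trans h3)
    have h1 : (insert R (MulAction.orbit N Q)).ncard = (MulAction.orbit N Q).ncard + 1 :=
      Set.ncard_insert_of_notMem hP
    have h2 : (insert R (MulAction.orbit N Q)).ncard ≤ Nat.card (Sylow 2 G) :=
      Set.ncard_le_card _
    rw [n2 h] at h2
    omega
  have hst : Nat.card (MulAction.stabilizer N Q) ≤ Nat.card (stab2 R Q) := by
    apply Nat.card_le_card_of_injective (fun n : MulAction.stabilizer N Q =>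
      (⟨((n : N) : G), mem_stab2.mpr ⟨Sylow.smul_eq_iff_mem_normalizer.mpr (n : N).2,
        MulAction.mem_stabilizer_iff.mp n.2⟩⟩ : stab2 R Q))
    intro a b hab
    apply Subtype.ext; apply Subtype.ext
    exact congrArg (fun d : stab2 R Q => (d : G)) hab
  rw [hcN] at hos
  have h4 : 7 ≤ Nat.card (MulAction.stabilizer N Q) := by
    by_contra hlt
    push Not at hlt
    have h5 : Nat.card (MulAction.orbit N Q) * Nat.card (MulAction.stabilizer N Q) ≤ 8 * 6 :=
      Nat.mul_le_mul horb (by omega)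
    omega
  omega

theorem exists_smul2 (h : Nat.card G = 504) (R Q : Sylow 2 G) (hQR : Q ≠ R) (S : Sylow 2 G)
    (hS : S ≠ R) : ∃ u ∈ (R : Subgroup G), S = u • Q := by
  have hne : ∀ u : (R : Subgroup G), (u : G) • Q ≠ R := by
    intro u hu
    apply hQR
    have e : Q = (u : G)⁻¹ • R := eq_inv_smul_iff.mpr hu
    rw [e]
    exact Sylow.smul_eq_iff_mem_normalizer.mpr (Subgroup.le_normalizer (inv_mem u.2))
  let f : ↥(R : Subgroup G) → {S : Sylow 2 G // S ≠ R} := fun u => ⟨(u : G) • Q, hne u⟩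
  have hinj : Function.Injective f := by
    intro u u' huu
    have h1 : (u : G) • Q = (u' : G) • Q := congrArg Subtype.val huu
    have h2 : ((u' : G)⁻¹ * (u : G)) • Q = Q := by rw [mul_smul, h1, inv_smul_smul]
    have h3 := free2 h R Q hQR _ (mul_mem (inv_mem u'.2) u.2) h2
    apply Subtype.ext
    exact (inv_mul_eq_one.mp h3).symm
  have hcard : Nat.card {S : Sylow 2 G // S ≠ R} ≤ Nat.card (R : Subgroup G) := by
    rw [card_sylow2 h R]
    have e1 : Nat.card {S : Sylow 2 G // S ≠ R} = ({S : Sylow 2 G | S ≠ R}).ncard :=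
      Nat.card_coe_set_eq _
    have e2 : ({S : Sylow 2 G | S ≠ R}) = Set.univ \ {R} := by
      ext S; simp
    rw [e1, e2, Set.ncard_sdiff_singleton_of_mem (Set.mem_univ R), Set.ncard_univ, n2 h]
  have hbij := hinj.bijective_of_nat_card_le hcard
  obtain ⟨u, hu⟩ := hbij.2 ⟨S, hS⟩
  exact ⟨u, u.2, (congrArg Subtype.val hu).symm⟩

theorem cj_mem2 (R Q : Sylow 2 G) (y a : G) (hy : y ∈ stab2 R Q) (ha : a ∈ (R : Subgroup G))
    (i : ℕ) : cj y a i ∈ (R : Subgroup G) := by
  have hyN : y ^ i ∈ Subgroup.normalizer ((R : Subgroup G) : Set G) :=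
    pow_mem (Sylow.smul_eq_iff_mem_normalizer.mp (mem_stab2.mp hy).1) i
  exact (Subgroup.mem_normalizer_iff.mp hyN a).mp ha

theorem cj_inj2 (h : Nat.card G = 504) (R Q : Sylow 2 G) (hQR : Q ≠ R) (y a : G)
    (hy : y ∈ stab2 R Q) (hy7 : orderOf y = 7) (ha : a ∈ (R : Subgroup G)) (ha1 : a ≠ 1)
    (i j : ℕ) (hi : i < 7) (hj : j < 7) (e : cj y a i = cj y a j) : i = j := by
  have hg : ((y ^ j)⁻¹ * y ^ i) * a = a * ((y ^ j)⁻¹ * y ^ i) := by
    unfold cj at e
    calc ((y ^ j)⁻¹ * y ^ i) * a = (y ^ j)⁻¹ * (y ^ i * a * (y ^ i)⁻¹) * y ^ i := by group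
      _ = (y ^ j)⁻¹ * (y ^ j * a * (y ^ j)⁻¹) * y ^ i := by rw [e]
      _ = a * ((y ^ j)⁻¹ * y ^ i) := by group
  have hgR := mem_of_commute2 h R a ha ha1 _ hg
  have hgQ : ((y ^ j)⁻¹ * y ^ i) • Q = Q := by
    have : (y ^ j)⁻¹ * y ^ i ∈ stab2 R Q := mul_mem (inv_mem (pow_mem hy j)) (pow_mem hy i)
    exact (mem_stab2.mp this).2
  have h1 := free2 h R Q hQR _ hgR hgQ
  have h2 : y ^ i = y ^ j := (inv_mul_eq_one.mp h1).symm
  rw [pow_eq_pow_iff_modEq, hy7] at h2
  unfold Nat.ModEq at h2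
  omega

theorem exists_cj2 (h : Nat.card G = 504) (R Q : Sylow 2 G) (hQR : Q ≠ R) (y a : G)
    (hy : y ∈ stab2 R Q) (hy7 : orderOf y = 7) (ha : a ∈ (R : Subgroup G)) (ha1 : a ≠ 1)
    (g : G) (hg : g ∈ (R : Subgroup G)) (hg1 : g ≠ 1) : ∃ i < 7, g = cj y a i := by
  let f : Fin 7 → {g : G // g ∈ (R : Subgroup G) ∧ g ≠ 1} := fun i =>
    ⟨cj y a i.val, cj_mem2 R Q y a hy ha i.val, cj_ne_one y a ha1 i.val⟩
  have hinj : Function.Injective f := by
    intro i j hij
    exact Fin.ext (cj_inj2 h R Q hQR y a hy hy7 ha ha1 i.val j.val i.isLt j.isLt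
      (congrArg Subtype.val hij))
  have hcard : Nat.card {g : G // g ∈ (R : Subgroup G) ∧ g ≠ 1} ≤ Nat.card (Fin 7) := by
    rw [Nat.card_fin]
    have e1 : Nat.card {g : G // g ∈ (R : Subgroup G) ∧ g ≠ 1} =
        ({g : G | g ∈ (R : Subgroup G) ∧ g ≠ 1}).ncard := Nat.card_coe_set_eq _
    have e2 : {g : G | g ∈ (R : Subgroup G) ∧ g ≠ 1} = ((R : Subgroup G) : Set G) \ {1} := by
      ext g
      constructor
      · rintro ⟨hgR, hg1⟩; exact ⟨hgR, hg1⟩
      · rintro ⟨hgR, hg1⟩; exact ⟨hgR, hg1⟩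
    rw [e1, e2, Set.ncard_sdiff_singleton_of_mem (one_mem _), ncard_coe, card_sylow2 h R]
  have hbij := hinj.bijective_of_nat_card_le hcard
  obtain ⟨i, hi⟩ := hbij.2 ⟨g, hg, hg1⟩
  exact ⟨i.val, i.isLt, (congrArg Subtype.val hi).symm⟩

/-- a generator of the two-point stabiliser, normalised -/
theorem exists_y (h : Nat.card G = 504) (R Q : Sylow 2 G) (hQR : Q ≠ R) (a : G)
    (ha : a ∈ (R : Subgroup G)) (ha1 : a ≠ 1) :
    ∃ y : G, y ∈ stab2 R Q ∧ orderOf y = 7 ∧ stab2 R Q = Subgroup.zpowers y ∧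
      a * (y * a * y⁻¹) = y ^ 3 * a * (y ^ 3)⁻¹ := by
  have hc7 := card_stab2 h R Q hQR
  obtain ⟨y', hy'⟩ := exists_prime_orderOf_dvd_card' (G := stab2 R Q) 7 (by rw [hc7])
  obtain ⟨y, hye⟩ : ∃ y : G, y = (y' : G) := ⟨_, rfl⟩
  have hy : y ∈ stab2 R Q := by rw [hye]; exact y'.2
  have hy7 : orderOf y = 7 := by rw [hye, Subgroup.orderOf_coe]; exact hy'
  have hz : ∀ z : G, z ∈ stab2 R Q → orderOf z = 7 → stab2 R Q = Subgroup.zpowers z := by
    intro z hz hz7
    have hle : Subgroup.zpowers z ≤ stab2 R Q := Subgroup.zpowers_le.mpr hz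
    exact (Subgroup.eq_of_le_of_card_ge hle (by rw [Nat.card_zpowers, hz7, hc7])).symm
  have hy71 : y ^ 7 = 1 := by rw [← hy7]; exact pow_orderOf_eq_one y
  have hmem : ∀ i, cj y a i ∈ (R : Subgroup G) := cj_mem2 R Q y a hy ha
  have hsq : ∀ i, cj y a i * cj y a i = 1 := by
    intro i
    have := sq_one2 h R _ (hmem i)
    rwa [pow_two] at this
  have hcomm : ∀ i j, cj y a i * cj y a j = cj y a j * cj y a i :=
    fun i j => comm2 h R _ _ (hmem i) (hmem j)
  have hinj : ∀ i j, i < 7 → j < 7 → cj y a i = cj y a j → i = j :=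
    cj_inj2 h R Q hQR y a hy hy7 ha ha1
  have hne : ∀ i, cj y a i ≠ 1 := cj_ne_one y a ha1
  have h01 : cj y a 0 * cj y a 1 ≠ 1 := by
    intro h1
    have : cj y a 0 = cj y a 1 := by
      calc cj y a 0 = cj y a 0 * (cj y a 1 * cj y a 1) := by rw [hsq, mul_one]
        _ = (cj y a 0 * cj y a 1) * cj y a 1 := by rw [mul_assoc]
        _ = cj y a 1 := by rw [h1, one_mul]
    have := hinj 0 1 (by norm_num) (by norm_num) this
    omega
  obtain ⟨r, hr7, hr⟩ := exists_cj2 h R Q hQR y a hy hy7 ha ha1 _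
    (mul_mem (hmem 0) (hmem 1)) h01
  have hshift : ∀ k, cj y a k * cj y a (k + 1) = cj y a (k + r) := by
    intro k
    calc cj y a k * cj y a (k + 1)
        = (y ^ k * cj y a 0 * (y ^ k)⁻¹) * (y ^ k * cj y a 1 * (y ^ k)⁻¹) := by
          rw [cj_shift, cj_shift, add_zero]
      _ = y ^ k * (cj y a 0 * cj y a 1) * (y ^ k)⁻¹ := by group
      _ = y ^ k * cj y a r * (y ^ k)⁻¹ := by rw [hr]
      _ = cj y a (k + r) := cj_shift y a k r
  have e7 : cj y a 7 = cj y a 0 := cj_add7 y a hy71 0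
  interval_cases r
  · exfalso
    have : cj y a 0 * cj y a 1 = cj y a 0 * 1 := by rw [mul_one]; exact hr
    exact hne 1 (mul_left_cancel this)
  · exfalso
    have : cj y a 0 * cj y a 1 = 1 * cj y a 1 := by rw [one_mul]; exact hr
    exact hne 0 (mul_right_cancel this)
  · exfalso
    have h1 := hshift 1
    have : cj y a 3 = cj y a 0 := by
      calc cj y a 3 = cj y a 1 * cj y a 2 := h1.symm
        _ = cj y a 1 * (cj y a 0 * cj y a 1) := by rw [hr]
        _ = cj y a 0 * (cj y a 1 * cj y a 1) := by rw [← mul_assoc, hcomm 1 0, mul_assoc]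
        _ = cj y a 0 := by rw [hsq, mul_one]
    have := hinj 3 0 (by norm_num) (by norm_num) this
    omega
  · refine ⟨y, hy, hy7, hz y hy hy7, ?_⟩
    simpa [cj] using hr
  · exfalso
    have h1 : cj y a 3 * cj y a 4 = cj y a 0 := by rw [← e7]; exact hshift 3
    have : cj y a 3 = cj y a 1 := by
      calc cj y a 3 = cj y a 3 * (cj y a 4 * cj y a 4) := by rw [hsq, mul_one]
        _ = (cj y a 3 * cj y a 4) * cj y a 4 := by rw [mul_assoc]
        _ = cj y a 0 * (cj y a 0 * cj y a 1) := by rw [h1, hr]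
        _ = (cj y a 0 * cj y a 0) * cj y a 1 := by rw [mul_assoc]
        _ = cj y a 1 := by rw [hsq, one_mul]
    have := hinj 3 1 (by norm_num) (by norm_num) this
    omega
  · have e11 : cj y a 11 = cj y a 4 := cj_add7 y a hy71 4
    have e18 : cj y a 18 = cj y a 4 := by
      rw [show 18 = 4 + 7 + 7 from rfl, cj_add7 _ _ hy71, cj_add7 _ _ hy71]
    have h1 : cj y a 6 * cj y a 0 = cj y a 4 := by rw [← e7, ← e11]; exact hshift 6
    have key : cj y a 0 * cj y a 6 = cj y a 18 := by rw [e18, hcomm 0 6, h1]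
    have ho : orderOf (y ^ 6) = 7 := by
      rw [Nat.Coprime.orderOf_pow (by rw [hy7]; decide), hy7]
    refine ⟨y ^ 6, pow_mem hy 6, ho, hz _ (pow_mem hy 6) ho, ?_⟩
    have e : (y ^ 6) ^ 3 = y ^ 18 := by rw [← pow_mul]
    rw [e]
    simpa [cj] using key
  · exfalso
    have e12 : cj y a 12 = cj y a 5 := cj_add7 y a hy71 5
    have h1 : cj y a 6 * cj y a 0 = cj y a 5 := by rw [← e7, ← e12]; exact hshift 6
    have : cj y a 5 = cj y a 1 := by
      calc cj y a 5 = cj y a 6 * cj y a 0 := h1.symm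
        _ = (cj y a 0 * cj y a 1) * cj y a 0 := by rw [hr]
        _ = cj y a 1 * (cj y a 0 * cj y a 0) := by rw [hcomm 0 1, mul_assoc]
        _ = cj y a 1 := by rw [hsq, mul_one]
    have := hinj 5 1 (by norm_num) (by norm_num) this
    omega

end Cfsg.Agent.Helper4.P504
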