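import Mathlib
import Cfsg.Agent.Helper4.P504c

set_option autoImplicit false

namespace Cfsg.Agent.Helper4.P504

open Cfsg.Agent.Helper4.Simple168e Cfsg.Agent.Helper4.Simple168f Cfsg.Agent.Helper4.Par

/-- `7` is prime -/
local instance fact7d : Fact (Nat.Prime 7) := ⟨by norm_num⟩
/-- `2` is prime -/
local instance fact2d : Fact (Nat.Prime 2) := ⟨Nat.prime_two⟩

/-- binary addition of indices -/
def bx (i j : ℕ) : ℕ :=
  (i % 2 + j % 2) % 2 + 2 * ((i / 2 % 2 + j / 2 % 2) % 2) + 4 * ((i / 4 + j / 4) % 2)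

theorem bx_lt (i j : ℕ) : bx i j < 8 := by unfold bx; omega

/-- the action of the torus generator on indices -/
def yfun (i : ℕ) : ℕ := i / 4 % 2 + 2 * ((i % 2 + i / 4) % 2) + 4 * (i / 2 % 2)

theorem yfun_lt (i : ℕ) : yfun i < 8 := by unfold yfun; omega

theorem mul3_comm {G : Type*} [Group G] (u v w u' v' w' : G) (e1 : w * u' = u' * w)
    (e2 : v * u' = u' * v) (e3 : w * v' = v' * w) :
    u * v * w * (u' * v' * w') = u * u' * (v * v') * (w * w') := by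
  calc u * v * w * (u' * v' * w') = u * v * (w * u') * v' * w' := by group
    _ = u * v * (u' * w) * v' * w' := by rw [e1]
    _ = u * (v * u') * (w * v') * w' := by group
    _ = u * (u' * v) * (v' * w) * w' := by rw [e2, e3]
    _ = u * u' * (v * v') * (w * w') := by group

/-- two distinct Sylow `2`-subgroups and three generators of the first -/
structure Cfg (G : Type*) [Group G] where
  R : Sylow 2 G
  Q : Sylow 2 G
  x1 : G
  x2 : G
  x3 : G
  hQR : Q ≠ R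
  h1 : x1 ∈ (R : Subgroup G)
  h2 : x2 ∈ (R : Subgroup G)
  h3 : x3 ∈ (R : Subgroup G)
  gen : ∀ g ∈ (R : Subgroup G), ∃ a < 2, ∃ b < 2, ∃ d < 2, g = x1 ^ a * x2 ^ b * x3 ^ d

variable {G : Type*} [Group G] [Finite G]

namespace Cfg

variable (c : Cfg G)

/-- the element `x1 ^ a * x2 ^ b * x3 ^ d` -/
def elt (a b d : ℕ) : G := c.x1 ^ a * c.x2 ^ b * c.x3 ^ d

theorem elt_mem (a b d : ℕ) : c.elt a b d ∈ (c.R : Subgroup G) :=
  mul_mem (mul_mem (pow_mem c.h1 a) (pow_mem c.h2 b)) (pow_mem c.h3 d)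

/-- the element with binary index `i` -/
def e8 (i : ℕ) : G := c.elt (i % 2) (i / 2 % 2) (i / 4)

theorem e8_mem (i : ℕ) : c.e8 i ∈ (c.R : Subgroup G) := c.elt_mem _ _ _

theorem e8_zero : c.e8 0 = 1 := by unfold e8 elt; simp

theorem e8_one : c.e8 1 = c.x1 := by unfold e8 elt; simp

theorem e8_two : c.e8 2 = c.x2 := by unfold e8 elt; simp

theorem e8_four : c.e8 4 = c.x3 := by unfold e8 elt; simp

theorem exists_e8 (g : G) (hg : g ∈ (c.R : Subgroup G)) : ∃ i < 8, g = c.e8 i := by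
  obtain ⟨a, ha, b, hb, d, hd, habd⟩ := c.gen g hg
  refine ⟨a + 2 * b + 4 * d, by omega, ?_⟩
  unfold e8 elt
  have e1 : (a + 2 * b + 4 * d) % 2 = a := by omega
  have e2 : (a + 2 * b + 4 * d) / 2 % 2 = b := by omega
  have e3 : (a + 2 * b + 4 * d) / 4 = d := by omega
  rw [e1, e2, e3]
  exact habd

theorem R_fix (g : G) (hg : g ∈ (c.R : Subgroup G)) : g • c.R = c.R :=
  Sylow.smul_eq_iff_mem_normalizer.mpr (Subgroup.le_normalizer hg)

/-- the stabiliser of the two base points -/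
def stabH : Subgroup G := stab2 c.R c.Q

theorem mem_stabH {g : G} : g ∈ c.stabH ↔ g • c.R = c.R ∧ g • c.Q = c.Q := mem_stab2

section simple

variable [IsSimpleGroup G]

theorem o1 (h : Nat.card G = 504) : c.x1 ^ 2 = 1 := sq_one2 h c.R _ c.h1

theorem o2 (h : Nat.card G = 504) : c.x2 ^ 2 = 1 := sq_one2 h c.R _ c.h2

theorem o3 (h : Nat.card G = 504) : c.x3 ^ 2 = 1 := sq_one2 h c.R _ c.h3

theorem elt_mul (h : Nat.card G = 504) (a b d a' b' d' : ℕ) :
    c.elt a b d * c.elt a' b' d' = c.elt (a + a') (b + b') (d + d') := by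
  unfold elt
  have c12 : Commute c.x1 c.x2 := comm2 h c.R _ _ c.h1 c.h2
  have c13 : Commute c.x1 c.x3 := comm2 h c.R _ _ c.h1 c.h3
  have c23 : Commute c.x2 c.x3 := comm2 h c.R _ _ c.h2 c.h3
  rw [pow_add, pow_add, pow_add]
  exact mul3_comm _ _ _ _ _ _ ((c13.pow_pow a' d).symm).eq ((c12.pow_pow a' b).symm).eq
    ((c23.pow_pow b' d).symm).eq

theorem elt_mod (h : Nat.card G = 504) (a b d : ℕ) :
    c.elt (a % 2) (b % 2) (d % 2) = c.elt a b d := by
  unfold elt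
  rw [← pow_eq_pow_mod a (c.o1 h), ← pow_eq_pow_mod b (c.o2 h), ← pow_eq_pow_mod d (c.o3 h)]

theorem e8_mul (h : Nat.card G = 504) (i j : ℕ) : c.e8 i * c.e8 j = c.e8 (bx i j) := by
  unfold e8
  rw [c.elt_mul h, ← c.elt_mod h]
  have e1 : bx i j % 2 = (i % 2 + j % 2) % 2 := by unfold bx; omega
  have e2 : bx i j / 2 % 2 = (i / 2 % 2 + j / 2 % 2) % 2 := by unfold bx; omega
  have e3 : bx i j / 4 = (i / 4 + j / 4) % 2 := by unfold bx; omega
  rw [e1, e2, e3]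

theorem e8_bij (h : Nat.card G = 504) :
    Function.Bijective (fun i : Fin 8 => (⟨c.e8 i.val, c.e8_mem _⟩ : (c.R : Subgroup G))) := by
  apply Function.Surjective.bijective_of_nat_card_le
  · rintro ⟨g, hg⟩
    obtain ⟨i, hi, hi2⟩ := c.exists_e8 g hg
    exact ⟨⟨i, hi⟩, Subtype.ext hi2.symm⟩
  · rw [card_sylow2 h c.R, Nat.card_fin]

theorem e8_inj (h : Nat.card G = 504) (i j : ℕ) (hi : i < 8) (hj : j < 8)
    (he : c.e8 i = c.e8 j) : i = j := by
  have h1 := (c.e8_bij h).1 (a₁ := ⟨i, hi⟩) (a₂ := ⟨j, hj⟩) (Subtype.ext he)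
  exact congrArg Fin.val h1

theorem x1_ne_one (h : Nat.card G = 504) : c.x1 ≠ 1 := by
  intro h1
  have e : c.e8 1 = c.e8 0 := by rw [c.e8_one, c.e8_zero, h1]
  have := c.e8_inj h 1 0 (by omega) (by omega) e
  omega

theorem free (h : Nat.card G = 504) (g : G) (hg : g ∈ (c.R : Subgroup G))
    (hgQ : g • c.Q = c.Q) : g = 1 := free2 h c.R c.Q c.hQR g hg hgQ

/-- the labelling of the Sylow subgroups -/
def lab : Fin 9 → Sylow 2 G := fun i =>
  if (i : ℕ) < 8 then c.e8 (i : ℕ) • c.Q else c.R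

theorem lab_lt (i : ℕ) (hi : i < 8) : c.lab ⟨i, by omega⟩ = c.e8 i • c.Q := by
  show (if i < 8 then c.e8 i • c.Q else c.R) = _
  rw [if_pos hi]

theorem lab_last : c.lab ⟨8, by omega⟩ = c.R := by
  show (if 8 < 8 then c.e8 8 • c.Q else c.R) = _
  rw [if_neg (lt_irrefl 8)]

theorem lab_zero : c.lab ⟨0, by omega⟩ = c.Q := by
  have h0 := c.lab_lt 0 (by omega)
  rwa [c.e8_zero, one_smul] at h0

theorem lab_inj (h : Nat.card G = 504) : Function.Injective c.lab := by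
  rintro ⟨i, hi⟩ ⟨j, hj⟩ hij
  by_cases hi9 : i < 8 <;> by_cases hj9 : j < 8
  · rw [c.lab_lt i hi9, c.lab_lt j hj9] at hij
    have h1 : ((c.e8 j)⁻¹ * c.e8 i) • c.Q = c.Q := by
      rw [mul_smul, hij, inv_smul_smul]
    have h2 := c.free h _ (mul_mem (inv_mem (c.e8_mem _)) (c.e8_mem _)) h1
    have h3 : c.e8 i = c.e8 j := (inv_mul_eq_one.mp h2).symm
    have h4 := c.e8_inj h _ _ hi9 hj9 h3
    exact Fin.ext h4
  · exfalso
    have hj' : j = 8 := by omega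
    subst hj'
    rw [c.lab_lt i hi9, c.lab_last] at hij
    apply c.hQR
    have e : c.Q = (c.e8 i)⁻¹ • c.R := by rw [← hij, inv_smul_smul]
    rw [e]; exact c.R_fix _ (inv_mem (c.e8_mem _))
  · exfalso
    have hi' : i = 8 := by omega
    subst hi'
    rw [c.lab_lt j hj9, c.lab_last] at hij
    apply c.hQR
    have e : c.Q = (c.e8 j)⁻¹ • c.R := by rw [hij, inv_smul_smul]
    rw [e]; exact c.R_fix _ (inv_mem (c.e8_mem _))
  · have hi' : i = 8 := by omega
    have hj' : j = 8 := by omega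
    exact Fin.ext (hi'.trans hj'.symm)

theorem lab_bij (h : Nat.card G = 504) : Function.Bijective c.lab :=
  (c.lab_inj h).bijective_of_nat_card_le (by rw [n2 h, Nat.card_fin])

/-- the labelling as an equivalence -/
noncomputable def labE (h : Nat.card G = 504) : Fin 9 ≃ Sylow 2 G :=
  Equiv.ofBijective c.lab (c.lab_bij h)

/-- the permutation representation on the labels -/
noncomputable def psi (h : Nat.card G = 504) : G →* Equiv.Perm (Fin 9) :=
  ((c.labE h).symm.permCongrHom).toMonoidHom.comp (MulAction.toPermHom G (Sylow 2 G))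

theorem psi_apply (h : Nat.card G = 504) (g : G) (i j : Fin 9)
    (hg : g • c.lab i = c.lab j) : c.psi h g i = j := by
  show (c.labE h).symm (g • (c.labE h) i) = j
  rw [Equiv.symm_apply_eq]
  exact hg

theorem lab_psi (h : Nat.card G = 504) (g : G) (i : Fin 9) :
    c.lab (c.psi h g i) = g • c.lab i := by
  show (c.labE h) ((c.labE h).symm (g • (c.labE h) i)) = _
  rw [Equiv.apply_symm_apply]; rfl

theorem psi_R (h : Nat.card G = 504) (j : ℕ) (i : ℕ) (hi : i < 8) :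
    c.psi h (c.e8 j) ⟨i, by omega⟩ = ⟨bx j i, by have := bx_lt j i; omega⟩ := by
  apply c.psi_apply
  rw [c.lab_lt i hi, c.lab_lt (bx j i) (bx_lt j i), ← mul_smul, c.e8_mul h]

theorem psi_R_last (h : Nat.card G = 504) (g : G) (hg : g ∈ (c.R : Subgroup G)) :
    c.psi h g ⟨8, by omega⟩ = ⟨8, by omega⟩ := by
  apply c.psi_apply
  rw [c.lab_last]; exact c.R_fix _ hg

theorem psi_inj (h : Nat.card G = 504) : Function.Injective (c.psi h) := by
  rw [← MonoidHom.ker_eq_bot_iff]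
  rcases IsSimpleGroup.eq_bot_or_eq_top_of_normal (c.psi h).ker (MonoidHom.normal_ker _)
    with hb | ht
  · exact hb
  · exfalso
    have hyp : ∀ g : G, g • c.Q = c.Q := by
      intro g
      have hgk : g ∈ (c.psi h).ker := by rw [ht]; trivial
      rw [MonoidHom.mem_ker] at hgk
      have h1 := c.lab_psi h g ⟨0, by omega⟩
      rw [hgk, Equiv.Perm.one_apply, c.lab_zero] at h1
      exact h1.symm
    obtain ⟨g, hg⟩ := MulAction.exists_smul_eq G c.Q c.R
    exact c.hQR ((hyp g).symm.trans hg)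

theorem exists_e8_smul (h : Nat.card G = 504) (S : Sylow 2 G) (hS : S ≠ c.R) :
    ∃ i < 8, S = c.e8 i • c.Q := by
  obtain ⟨u, hu, hu2⟩ := exists_smul2 h c.R c.Q c.hQR S hS
  obtain ⟨i, hi, hi2⟩ := c.exists_e8 u hu
  exact ⟨i, hi, by rw [hu2, hi2]⟩

theorem smul_Q_ne (g : G) (hg : g • c.R = c.R) : g • c.Q ≠ c.R := by
  intro h1
  apply c.hQR
  have e : g • c.Q = g • c.R := by rw [h1, hg]
  exact smul_left_cancel g e

theorem decompN (h : Nat.card G = 504) (g : G) (hg : g • c.R = c.R) :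
    ∃ i < 8, (c.e8 i)⁻¹ * g ∈ c.stabH := by
  obtain ⟨i, hi, hi2⟩ := c.exists_e8_smul h (g • c.Q) (c.smul_Q_ne g hg)
  refine ⟨i, hi, ?_⟩
  rw [c.mem_stabH]
  constructor
  · rw [mul_smul, hg]; exact c.R_fix _ (inv_mem (c.e8_mem _))
  · rw [mul_smul, hi2, inv_smul_smul]

theorem card_stabH (h : Nat.card G = 504) : Nat.card c.stabH = 7 :=
  card_stab2 h c.R c.Q c.hQR

theorem conj_elt (h : Nat.card G = 504) (y : G) (hy1 : y * c.x1 * y⁻¹ = c.x2)
    (hy2 : y * c.x2 * y⁻¹ = c.x3) (hy3 : y * c.x3 * y⁻¹ = c.x1 * c.x2) (a b d : ℕ) :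
    y * c.elt a b d * y⁻¹ = c.elt d (a + d) b := by
  have c12 : Commute c.x1 c.x2 := comm2 h c.R _ _ c.h1 c.h2
  have e1 : y * c.elt a b d * y⁻¹ =
      (y * c.x1 * y⁻¹) ^ a * (y * c.x2 * y⁻¹) ^ b * (y * c.x3 * y⁻¹) ^ d := by
    unfold elt
    rw [conj_pow, conj_pow, conj_pow]; group
  have f1 : c.elt 0 a 0 = c.x2 ^ a := by unfold elt; simp
  have f2 : c.elt 0 0 b = c.x3 ^ b := by unfold elt; simp
  have f3 : c.elt d d 0 = (c.x1 * c.x2) ^ d := by
    unfold elt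
    rw [c12.mul_pow, pow_zero, mul_one]
  rw [e1, hy1, hy2, hy3, ← f1, ← f2, ← f3, c.elt_mul h, c.elt_mul h]
  congr 1 <;> omega

theorem conj_e8 (h : Nat.card G = 504) (y : G) (hy1 : y * c.x1 * y⁻¹ = c.x2)
    (hy2 : y * c.x2 * y⁻¹ = c.x3) (hy3 : y * c.x3 * y⁻¹ = c.x1 * c.x2) (i : ℕ) (hi : i < 8) :
    y * c.e8 i * y⁻¹ = c.e8 (yfun i) := by
  unfold e8
  rw [c.conj_elt h y hy1 hy2 hy3, ← c.elt_mod h]
  have e1 : yfun i % 2 = i / 4 % 2 := by interval_cases i <;> rfl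
  have e2 : yfun i / 2 % 2 = (i % 2 + i / 4) % 2 := by interval_cases i <;> rfl
  have e3 : yfun i / 4 = i / 2 % 2 % 2 := by interval_cases i <;> rfl
  rw [e1, e2, e3]

theorem psi_y (h : Nat.card G = 504) (y : G) (hy : y ∈ c.stabH)
    (hy1 : y * c.x1 * y⁻¹ = c.x2) (hy2 : y * c.x2 * y⁻¹ = c.x3)
    (hy3 : y * c.x3 * y⁻¹ = c.x1 * c.x2) (i : ℕ) (hi : i < 8) :
    c.psi h y ⟨i, by omega⟩ = ⟨yfun i, by have := yfun_lt i; omega⟩ := by
  apply c.psi_apply
  rw [c.lab_lt i hi, c.lab_lt (yfun i) (yfun_lt i), ← mul_smul]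
  have e1 : y * c.e8 i = c.e8 (yfun i) * y := by
    rw [← c.conj_e8 h y hy1 hy2 hy3 i hi]; group
  rw [e1, mul_smul, (c.mem_stabH.mp hy).2]

theorem psi_H_last (h : Nat.card G = 504) (g : G) (hg : g ∈ c.stabH) :
    c.psi h g ⟨8, by omega⟩ = ⟨8, by omega⟩ := by
  apply c.psi_apply
  rw [c.lab_last]; exact (c.mem_stabH.mp hg).1

theorem exists_t (h : Nat.card G = 504) : ∃ t : G, t • c.R = c.Q ∧ t • c.Q = c.R := by
  obtain ⟨g, hg⟩ := MulAction.exists_smul_eq G c.Q c.R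
  have hgP : g • c.R ≠ c.R := by
    intro hgP
    apply c.hQR
    have e1 : g • c.Q = g • c.R := by rw [hg, hgP]
    exact smul_left_cancel g e1
  obtain ⟨i, hi, hi2⟩ := c.exists_e8_smul h _ hgP
  refine ⟨(c.e8 i)⁻¹ * g, ?_, ?_⟩
  · rw [mul_smul, hi2, inv_smul_smul]
  · rw [mul_smul, hg]; exact c.R_fix _ (inv_mem (c.e8_mem _))

theorem psi_t_last (h : Nat.card G = 504) (t : G) (htP : t • c.R = c.Q) :
    c.psi h t ⟨8, by omega⟩ = ⟨0, by omega⟩ := by
  apply c.psi_apply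
  rw [c.lab_last, htP, c.lab_zero]

theorem psi_t_zero (h : Nat.card G = 504) (t : G) (htQ : t • c.Q = c.R) :
    c.psi h t ⟨0, by omega⟩ = ⟨8, by omega⟩ := by
  apply c.psi_apply
  rw [c.lab_last, c.lab_zero, htQ]

theorem decomp (h : Nat.card G = 504) (y : G) (hyH : c.stabH = Subgroup.zpowers y)
    (hym : orderOf y = 7) (g : G) (hg : g • c.R = c.R) :
    ∃ i < 8, ∃ l < 7, g = c.e8 i * y ^ l := by
  obtain ⟨i, hi, hmem⟩ := c.decompN h g hg
  rw [hyH] at hmem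
  obtain ⟨l, hl, hl2⟩ := exists_pow_lt y 7 hym (by norm_num) _ hmem
  refine ⟨i, hi, l, hl, ?_⟩
  rw [hl2]; group

theorem closure_top (h : Nat.card G = 504) (y : G) (hyH : c.stabH = Subgroup.zpowers y)
    (hym : orderOf y = 7) (t : G) (htP : t • c.R = c.Q) :
    Subgroup.closure ({c.x1, c.x2, c.x3, y, t} : Set G) = ⊤ := by
  rw [Subgroup.eq_top_iff']
  intro g
  have hx1 : c.x1 ∈ Subgroup.closure ({c.x1, c.x2, c.x3, y, t} : Set G) :=
    Subgroup.subset_closure (by simp)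
  have hx2 : c.x2 ∈ Subgroup.closure ({c.x1, c.x2, c.x3, y, t} : Set G) :=
    Subgroup.subset_closure (by simp)
  have hx3 : c.x3 ∈ Subgroup.closure ({c.x1, c.x2, c.x3, y, t} : Set G) :=
    Subgroup.subset_closure (by simp)
  have hyc : y ∈ Subgroup.closure ({c.x1, c.x2, c.x3, y, t} : Set G) :=
    Subgroup.subset_closure (by simp)
  have htc : t ∈ Subgroup.closure ({c.x1, c.x2, c.x3, y, t} : Set G) :=
    Subgroup.subset_closure (by simp)
  have helt : ∀ i, c.e8 i ∈ Subgroup.closure ({c.x1, c.x2, c.x3, y, t} : Set G) :=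
    fun i => mul_mem (mul_mem (pow_mem hx1 _) (pow_mem hx2 _)) (pow_mem hx3 _)
  have hB : ∀ g : G, g • c.R = c.R →
      g ∈ Subgroup.closure ({c.x1, c.x2, c.x3, y, t} : Set G) := by
    intro g hg
    obtain ⟨i, -, l, -, rfl⟩ := c.decomp h y hyH hym g hg
    exact mul_mem (helt i) (pow_mem hyc l)
  by_cases hg : g • c.R = c.R
  · exact hB g hg
  · obtain ⟨i, hi, hgk⟩ := c.exists_e8_smul h _ hg
    have h1 : ((c.e8 i * t)⁻¹ * g) • c.R = c.R := by
      rw [mul_smul, hgk, ← htP, ← mul_smul (c.e8 i) t, inv_smul_smul]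
    have h2 := hB _ h1
    have e1 : g = (c.e8 i * t) * ((c.e8 i * t)⁻¹ * g) := by group
    rw [e1]
    exact mul_mem (mul_mem (helt i) htc) h2

theorem rel1 (h : Nat.card G = 504) (y : G) (hyH : c.stabH = Subgroup.zpowers y)
    (hym : orderOf y = 7) (t : G) (htP : t • c.R = c.Q) (htQ : t • c.Q = c.R) :
    ∃ i < 8, ∃ i' < 8, ∃ l < 7, t * c.x1 * t = c.e8 i * t * (c.e8 i' * y ^ l) := by
  have h1 : (t * c.x1 * t) • c.R ≠ c.R := by
    rw [mul_smul, mul_smul, htP]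
    intro h2
    have e1 : t • (c.x1 • c.Q) = t • c.Q := by rw [h2, htQ]
    exact c.x1_ne_one h (c.free h c.x1 c.h1 (smul_left_cancel t e1))
  obtain ⟨i, hi, hg⟩ := c.exists_e8_smul h _ h1
  have h5 : ((c.e8 i * t)⁻¹ * (t * c.x1 * t)) • c.R = c.R := by
    rw [mul_smul, hg, ← htP, ← mul_smul (c.e8 i) t, inv_smul_smul]
  obtain ⟨i', hi', l, hl, hkl⟩ := c.decomp h y hyH hym _ h5
  refine ⟨i, hi, i', hi', l, hl, ?_⟩
  rw [← hkl]; group

theorem rel2 (y : G) (hyH : c.stabH = Subgroup.zpowers y)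
    (hym : orderOf y = 7) (t : G) (htP : t • c.R = c.Q) (htQ : t • c.Q = c.R) :
    ∃ j < 7, t * y = y ^ j * t := by
  have hyS : y ∈ c.stabH := by rw [hyH]; exact Subgroup.mem_zpowers y
  have hP' : t⁻¹ • c.R = c.Q := by rw [inv_smul_eq_iff, htQ]
  have hQ' : t⁻¹ • c.Q = c.R := by rw [inv_smul_eq_iff, htP]
  have hmem : t * y * t⁻¹ ∈ c.stabH := by
    rw [c.mem_stabH]
    constructor
    · rw [mul_smul, mul_smul, hP', (c.mem_stabH.mp hyS).2, htQ]
    · rw [mul_smul, mul_smul, hQ', (c.mem_stabH.mp hyS).1, htP]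
  rw [hyH] at hmem
  obtain ⟨j, hj, hj2⟩ := exists_pow_lt y 7 hym (by norm_num) _ hmem
  refine ⟨j, hj, ?_⟩
  rw [hj2]; group

theorem psi_rel2 (h : Nat.card G = 504) (y : G) (hyH : c.stabH = Subgroup.zpowers y)
    (hym : orderOf y = 7) (t : G) (htP : t • c.R = c.Q) (htQ : t • c.Q = c.R) :
    ∃ j < 7, ∀ z, c.psi h t (c.psi h y z) = (c.psi h y ^ j) (c.psi h t z) := by
  obtain ⟨j, hj, hr⟩ := c.rel2 y hyH hym t htP htQ
  refine ⟨j, hj, fun z => ?_⟩
  have h1 := congrArg (fun g => c.psi h g z) hr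
  simp only [map_mul, map_pow, Equiv.Perm.mul_apply] at h1
  exact h1

theorem psi_rel1 (h : Nat.card G = 504) (y : G) (hyH : c.stabH = Subgroup.zpowers y)
    (hym : orderOf y = 7) (t : G) (htP : t • c.R = c.Q) (htQ : t • c.Q = c.R) :
    ∃ i, ∃ hi : i < 8, ∃ i' < 8, ∃ l < 7,
      c.psi h t (c.psi h c.x1 ⟨0, by omega⟩) = ⟨i, by omega⟩ ∧
      ∀ z, c.psi h t (c.psi h c.x1 (c.psi h t z)) =
        c.psi h (c.e8 i) (c.psi h t (c.psi h (c.e8 i') ((c.psi h y ^ l) z))) := by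
  obtain ⟨i, hi, i', hi', l, hl, hr⟩ := c.rel1 h y hyH hym t htP htQ
  have hall : ∀ z, c.psi h t (c.psi h c.x1 (c.psi h t z)) =
        c.psi h (c.e8 i) (c.psi h t (c.psi h (c.e8 i') ((c.psi h y ^ l) z))) := by
    intro z
    have h1 := congrArg (fun g => c.psi h g z) hr
    simp only [map_mul, map_pow, Equiv.Perm.mul_apply] at h1
    exact h1
  refine ⟨i, hi, i', hi', l, hl, ?_, hall⟩
  have h2 := hall ⟨8, by omega⟩
  rw [c.psi_t_last h t htP] at h2
  rw [h2]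
  have hyS : y ∈ c.stabH := by rw [hyH]; exact Subgroup.mem_zpowers y
  have h3 : c.psi h (c.e8 i') ((c.psi h y ^ l) ⟨8, by omega⟩) = ⟨8, by omega⟩ := by
    rw [← map_pow, c.psi_H_last h _ (pow_mem hyS l), c.psi_R_last h _ (c.e8_mem _)]
  rw [h3, c.psi_t_last h t htP]
  have h4 := c.psi_R h i 0 (by omega)
  rw [h4]
  apply Fin.ext
  show bx i 0 = i
  unfold bx
  omega

theorem range_psi (h : Nat.card G = 504) (y : G) (hyH : c.stabH = Subgroup.zpowers y)
    (hym : orderOf y = 7) (t : G) (htP : t • c.R = c.Q) :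
    (c.psi h).range =
      Subgroup.closure {c.psi h c.x1, c.psi h c.x2, c.psi h c.x3, c.psi h y, c.psi h t} := by
  rw [MonoidHom.range_eq_map, ← c.closure_top h y hyH hym t htP, MonoidHom.map_closure]
  congr 1
  simp [Set.image_insert_eq]

end simple

end Cfg

section simple

variable [IsSimpleGroup G]

theorem exists_cfg (h : Nat.card G = 504) :
    ∃ (c : Cfg G) (y : G), orderOf y = 7 ∧ c.stabH = Subgroup.zpowers y ∧
      y * c.x1 * y⁻¹ = c.x2 ∧ y * c.x2 * y⁻¹ = c.x3 ∧ y * c.x3 * y⁻¹ = c.x1 * c.x2 := by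
  obtain ⟨R⟩ : Nonempty (Sylow 2 G) := inferInstance
  obtain ⟨Q, hQR⟩ : ∃ Q : Sylow 2 G, Q ≠ R := by
    by_contra hcon
    push Not at hcon
    have : Nat.card (Sylow 2 G) ≤ 1 :=
      Finite.card_le_one_iff_subsingleton.mpr ⟨fun a b => (hcon a).trans (hcon b).symm⟩
    rw [n2 h] at this
    omega
  obtain ⟨a', ha'⟩ := exists_prime_orderOf_dvd_card' (G := (R : Subgroup G)) 2
    (by rw [card_sylow2 h R]; norm_num)
  obtain ⟨a, hae⟩ : ∃ a : G, a = (a' : G) := ⟨_, rfl⟩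
  have ha : a ∈ (R : Subgroup G) := by rw [hae]; exact a'.2
  have ha1 : a ≠ 1 := by
    intro h1
    have : a' = 1 := Subtype.ext (hae ▸ h1)
    rw [this, orderOf_one] at ha'
    omega
  obtain ⟨y, hy, hy7, hz, hrel⟩ := exists_y h R Q hQR a ha ha1
  have hyN : y ∈ Subgroup.normalizer ((R : Subgroup G) : Set G) :=
    Sylow.smul_eq_iff_mem_normalizer.mp (mem_stab2.mp hy).1
  have hx2 : y * a * y⁻¹ ∈ (R : Subgroup G) := (Subgroup.mem_normalizer_iff.mp hyN _).mp ha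
  have hx3 : y * (y * a * y⁻¹) * y⁻¹ ∈ (R : Subgroup G) :=
    (Subgroup.mem_normalizer_iff.mp hyN _).mp hx2
  have hy3 : y * (y * (y * a * y⁻¹) * y⁻¹) * y⁻¹ = a * (y * a * y⁻¹) := by
    rw [hrel, pow_succ, pow_succ, pow_one, mul_inv_rev, mul_inv_rev]
    simp only [mul_assoc]
  have hc : ∀ u v : G, u ∈ (R : Subgroup G) → v ∈ (R : Subgroup G) → u * v = v * u :=
    fun u v hu hv => comm2 h R u v hu hv
  have hsq : ∀ u : G, u ∈ (R : Subgroup G) → u * u = 1 := by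
    intro u hu
    have := sq_one2 h R u hu
    rwa [pow_two] at this
  have hcj : ∀ i, cj y a (i + 1) = y * cj y a i * y⁻¹ := by
    intro i
    rw [add_comm, ← cj_shift y a 1 i, pow_one]
  have A0 : cj y a 0 = a := by unfold cj; simp
  have A1 : cj y a 1 = y * a * y⁻¹ := by rw [hcj, A0]
  have A2 : cj y a 2 = y * (y * a * y⁻¹) * y⁻¹ := by rw [hcj, A1]
  have A3 : cj y a 3 = a * (y * a * y⁻¹) := by rw [hcj, A2, hy3]
  have A4 : cj y a 4 = (y * a * y⁻¹) * (y * (y * a * y⁻¹) * y⁻¹) := by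
    rw [hcj, A3]; group
  have A5 : cj y a 5 = (y * (y * a * y⁻¹) * y⁻¹) * (a * (y * a * y⁻¹)) := by
    rw [hcj, A4, ← hy3]; group
  have A6 : cj y a 6 = (a * (y * a * y⁻¹)) * ((y * a * y⁻¹) * (y * (y * a * y⁻¹) * y⁻¹)) := by
    rw [hcj, A5]
    have e : y * (y * (y * a * y⁻¹) * y⁻¹ * (a * (y * a * y⁻¹))) * y⁻¹ =
        (y * (y * (y * a * y⁻¹) * y⁻¹) * y⁻¹) *
          ((y * a * y⁻¹) * (y * (y * a * y⁻¹) * y⁻¹)) := by group
    rw [e, hy3]
  have hgen : ∀ g ∈ (R : Subgroup G), ∃ p < 2, ∃ b < 2, ∃ d < 2,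
      g = a ^ p * (y * a * y⁻¹) ^ b * (y * (y * a * y⁻¹) * y⁻¹) ^ d := by
    intro g hg
    by_cases hg1 : g = 1
    · exact ⟨0, by omega, 0, by omega, 0, by omega, by rw [hg1]; simp⟩
    obtain ⟨i, hi, hi2⟩ := exists_cj2 h R Q hQR y a hy hy7 ha ha1 g hg hg1
    generalize hx2e : y * a * y⁻¹ = x2 at *
    generalize hx3e : y * x2 * y⁻¹ = x3 at *
    interval_cases i
    · exact ⟨1, by omega, 0, by omega, 0, by omega, by rw [hi2, A0]; simp⟩
    · exact ⟨0, by omega, 1, by omega, 0, by omega, by rw [hi2, A1]; simp⟩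
    · exact ⟨0, by omega, 0, by omega, 1, by omega, by rw [hi2, A2]; simp⟩
    · exact ⟨1, by omega, 1, by omega, 0, by omega, by rw [hi2, A3]; simp⟩
    · exact ⟨0, by omega, 1, by omega, 1, by omega, by rw [hi2, A4]; simp⟩
    · refine ⟨1, by omega, 1, by omega, 1, by omega, ?_⟩
      rw [hi2, A5, hc x3 (a * x2) hx3 (mul_mem ha hx2)]
      simp
    · refine ⟨1, by omega, 0, by omega, 1, by omega, ?_⟩
      rw [hi2, A6]
      calc a * x2 * (x2 * x3) = a * (x2 * x2) * x3 := by group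
        _ = a ^ 1 * x2 ^ 0 * x3 ^ 1 := by rw [hsq x2 hx2]; simp
  let c : Cfg G :=
    { R := R, Q := Q, x1 := a, x2 := y * a * y⁻¹, x3 := y * (y * a * y⁻¹) * y⁻¹, hQR := hQR
      h1 := ha, h2 := hx2, h3 := hx3, gen := hgen }
  exact ⟨c, y, hy7, hz, rfl, rfl, hy3⟩

end simple

end Cfsg.Agent.Helper4.P504
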