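import Mathlib
import Cfsg.Agent.Helper4.P504d

set_option autoImplicit false

namespace Cfsg.Agent.Helper4.P504

open Cfsg.Agent.Helper4.Simple168e Cfsg.Agent.Helper4.Simple168f

/-- translation by the element with index `j` (`8` is `∞`) -/
def tr (j : ℕ) (z : Fin 9) : Fin 9 :=
  if h : z.val < 8 then ⟨bx j z.val, by have := bx_lt j z.val; omega⟩ else z

/-- multiplication by the generator of the multiplicative group -/
def yf (z : Fin 9) : Fin 9 :=
  if h : z.val < 8 then ⟨yfun z.val, by have := yfun_lt z.val; omega⟩ else z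

/-- powers of `yf` -/
def ypow (l : ℕ) (z : Fin 9) : Fin 9 :=
  match l % 7 with
  | 0 => z
  | 1 => yf z
  | 2 => yf (yf z)
  | 3 => yf (yf (yf z))
  | 4 => yf (yf (yf (yf z)))
  | 5 => yf (yf (yf (yf (yf z))))
  | _ => yf (yf (yf (yf (yf (yf z)))))

/-- translation by `1` -/
def x1Perm : Equiv.Perm (Fin 9) := ⟨tr 1, tr 1, by decide, by decide⟩

/-- translation by `2` -/
def x2Perm : Equiv.Perm (Fin 9) := ⟨tr 2, tr 2, by decide, by decide⟩

/-- translation by `4` -/
def x3Perm : Equiv.Perm (Fin 9) := ⟨tr 4, tr 4, by decide, by decide⟩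

/-- the multiplication -/
def yPerm : Equiv.Perm (Fin 9) := ⟨yf, ypow 6, by decide, by decide⟩

theorem x1Perm_zero : x1Perm 0 = 1 := by decide

theorem yPerm_pow7 : yPerm ^ 7 = 1 := by
  apply Equiv.ext
  decide

theorem yPerm_pow (l : ℕ) (z : Fin 9) : (yPerm ^ l) z = ypow l z := by
  rw [pow_eq_pow_mod l yPerm_pow7]
  unfold ypow
  have hl : l % 7 < 7 := Nat.mod_lt _ (by norm_num)
  generalize l % 7 = r at *
  interval_cases r <;> rfl

theorem ypow_mod (e : ℕ) (z : Fin 9) : ypow (e % 7) z = ypow e z := by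
  unfold ypow
  rw [Nat.mod_mod]

theorem ypow_zero (z : Fin 9) : ypow 0 z = z := rfl

theorem ypow_add (a b : ℕ) (z : Fin 9) : ypow a (ypow b z) = ypow (a + b) z := by
  rw [← yPerm_pow, ← yPerm_pow, ← yPerm_pow, pow_add, Equiv.Perm.mul_apply]

/-- a map commuting suitably with `yPerm`, given by one of its values -/
def candF (j : ℕ) (A : Fin 9) (z : Fin 9) : Fin 9 :=
  match z.val with
  | 0 => 8
  | 1 => A
  | 2 => ypow (j * 1 % 7) A
  | 3 => ypow (j * 3 % 7) A
  | 4 => ypow (j * 2 % 7) A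
  | 5 => ypow (j * 6 % 7) A
  | 6 => ypow (j * 4 % 7) A
  | 7 => ypow (j * 5 % 7) A
  | _ => 0

/-- the relation check -/
def relOK (j : ℕ) (A : Fin 9) : Prop :=
  ∃ (i' : Fin 8) (l : Fin 7), ∀ z : Fin 9,
    candF j A (tr 1 (candF j A z)) = tr A.val (candF j A (tr i'.val (ypow l.val z)))

instance (j : ℕ) (A : Fin 9) : Decidable (relOK j A) := by
  unfold relOK; infer_instance

/-- the map `z ↦ 1 / z` -/
def sFun (z : Fin 9) : Fin 9 := candF 6 1 z

/-- the permutation `z ↦ 1 / z` -/
def sPerm : Equiv.Perm (Fin 9) := ⟨sFun, sFun, by decide, by decide⟩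

/-- the model group -/
def model : Subgroup (Equiv.Perm (Fin 9)) :=
  Subgroup.closure {x1Perm, x2Perm, x3Perm, yPerm, sPerm}

/-- the conclusion of the case check -/
def concl (j : ℕ) (A : Fin 9) : Prop :=
  ∃ e : Fin 7, ∀ z : Fin 9, candF j A z = sFun (ypow e.val z)

instance (j : ℕ) (A : Fin 9) : Decidable (concl j A) := by
  unfold concl; infer_instance

set_option maxRecDepth 100000 in
theorem cand_cases_fin : ∀ (j : Fin 7) (A : Fin 9), A ≠ 8 → relOK j.val A → concl j.val A := by
  decide +kernel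

theorem cand_cases (j : ℕ) (hj : j < 7) (A : Fin 9) (hA : A ≠ 8) (h : relOK j A) :
    concl j A := cand_cases_fin ⟨j, hj⟩ A hA h

theorem cand_eq (σ : Fin 9 → Fin 9) (j : ℕ) (h0 : σ 0 = 8) (hinf : σ 8 = 0)
    (hstep : ∀ e z, σ (ypow e z) = ypow (j * e) (σ z)) :
    ∀ z, σ z = candF j (σ 1) z := by
  intro z
  fin_cases z
  · exact h0
  · rfl
  · exact (hstep 1 1).trans (ypow_mod _ _).symm
  · exact (hstep 3 1).trans (ypow_mod _ _).symm
  · exact (hstep 2 1).trans (ypow_mod _ _).symm
  · exact (hstep 6 1).trans (ypow_mod _ _).symm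
  · exact (hstep 4 1).trans (ypow_mod _ _).symm
  · exact (hstep 5 1).trans (ypow_mod _ _).symm
  · exact hinf

variable {G : Type*} [Group G] [Finite G] [IsSimpleGroup G]

theorem psi_e8 (c : Cfg G) (h : Nat.card G = 504) (j : ℕ) (z : Fin 9) :
    c.psi h (c.e8 j) z = tr j z := by
  obtain ⟨i, hi⟩ := z
  by_cases hi8 : i < 8
  · rw [c.psi_R h j i hi8]
    unfold tr
    rw [dif_pos hi8]
  · have hi' : i = 8 := by omega
    subst hi'
    rw [c.psi_R_last h _ (c.e8_mem j)]
    rfl

theorem equiv_model (h : Nat.card G = 504) : Nonempty (G ≃* model) := by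
  obtain ⟨c, y, hym, hyH, hy1, hy2, hy3⟩ := exists_cfg h
  have hyS : y ∈ c.stabH := by rw [hyH]; exact Subgroup.mem_zpowers y
  obtain ⟨t, htP, htQ⟩ := c.exists_t h
  have hX1 : c.psi h c.x1 = x1Perm := by
    apply Equiv.ext
    intro z
    rw [← c.e8_one, psi_e8 c h 1 z]; rfl
  have hX2 : c.psi h c.x2 = x2Perm := by
    apply Equiv.ext
    intro z
    rw [← c.e8_two, psi_e8 c h 2 z]; rfl
  have hX3 : c.psi h c.x3 = x3Perm := by
    apply Equiv.ext
    intro z
    rw [← c.e8_four, psi_e8 c h 4 z]; rfl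
  have hY : c.psi h y = yPerm := by
    apply Equiv.ext
    rintro ⟨i, hi⟩
    by_cases hi8 : i < 8
    · rw [c.psi_y h y hyS hy1 hy2 hy3 i hi8]
      show _ = yf ⟨i, hi⟩
      unfold yf
      rw [dif_pos hi8]
    · have hi' : i = 8 := by omega
      subst hi'
      rw [c.psi_H_last h y hyS]; rfl
  obtain ⟨j, hj, hr2⟩ := c.psi_rel2 h y hyH hym t htP htQ
  obtain ⟨i, hi, i', hi', l, hl, hab, hr1⟩ := c.psi_rel1 h y hyH hym t htP htQ
  have hrange := c.range_psi h y hyH hym t htP
  have hinf : c.psi h t 8 = 0 := c.psi_t_last h t htP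
  have h0 : c.psi h t 0 = 8 := c.psi_t_zero h t htQ
  rw [hY] at hr2
  rw [hX1, hY] at hr1
  rw [hX1, hX2, hX3, hY] at hrange
  rw [hX1] at hab
  simp only [psi_e8] at hr1
  generalize c.psi h t = σ at hr2 hr1 hrange hinf h0 hab
  have hstep1 : ∀ z, σ (ypow 1 z) = ypow j (σ z) := fun z =>
    (hr2 z).trans (yPerm_pow j (σ z))
  have hstep : ∀ e z, σ (ypow e z) = ypow (j * e) (σ z) := by
    intro e
    induction e with
    | zero => intro z; rw [ypow_zero, Nat.mul_zero, ypow_zero]
    | succ n ih =>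
      intro z
      calc σ (ypow (n + 1) z) = σ (ypow 1 (ypow n z)) := by rw [ypow_add, Nat.add_comm 1 n]
        _ = ypow j (σ (ypow n z)) := hstep1 _
        _ = ypow j (ypow (j * n) (σ z)) := by rw [ih]
        _ = ypow (j * (n + 1)) (σ z) := by
          rw [ypow_add]; congr 1; ring
  have hcand : ∀ z, σ z = candF j (σ 1) z := cand_eq σ j h0 hinf hstep
  have hfun : (σ : Fin 9 → Fin 9) = candF j (σ 1) := funext hcand
  have hA : σ 1 = ⟨i, by omega⟩ := by
    rw [← x1Perm_zero]; exact hab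
  have hAv : (σ 1).val = i := by rw [hA]
  have hA8 : σ 1 ≠ 8 := by
    intro hc
    have h1 := congrArg Fin.val hc
    rw [hAv] at h1
    have h2 : i = 8 := h1
    omega
  have hrel : relOK j (σ 1) := by
    unfold relOK
    rw [← hfun, hAv]
    refine ⟨⟨i', hi'⟩, ⟨l, hl⟩, fun z => ?_⟩
    have h1 := hr1 z
    rw [yPerm_pow] at h1
    exact h1
  obtain ⟨e, he⟩ := cand_cases j hj (σ 1) hA8 hrel
  have hσ : σ = sPerm * yPerm ^ (e : ℕ) := Equiv.ext fun z => by
    rw [hcand z, Equiv.Perm.mul_apply, yPerm_pow]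
    exact he z
  have hcl : Subgroup.closure ({x1Perm, x2Perm, x3Perm, yPerm, σ} :
      Set (Equiv.Perm (Fin 9))) = model := by
    rw [hσ]
    apply le_antisymm
    · rw [Subgroup.closure_le]
      rintro g (rfl | rfl | rfl | rfl | rfl)
      · exact Subgroup.subset_closure (by simp)
      · exact Subgroup.subset_closure (by simp)
      · exact Subgroup.subset_closure (by simp)
      · exact Subgroup.subset_closure (by simp)
      · exact mul_mem (Subgroup.subset_closure (by simp))
          (pow_mem (Subgroup.subset_closure (by simp)) _)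
    · unfold model
      rw [Subgroup.closure_le]
      rintro g (rfl | rfl | rfl | rfl | rfl)
      · exact Subgroup.subset_closure (by simp)
      · exact Subgroup.subset_closure (by simp)
      · exact Subgroup.subset_closure (by simp)
      · exact Subgroup.subset_closure (by simp)
      · have key : (sPerm * yPerm ^ (e : ℕ)) * (yPerm ^ (e : ℕ))⁻¹ ∈
            Subgroup.closure ({x1Perm, x2Perm, x3Perm, yPerm, sPerm * yPerm ^ (e : ℕ)} :
              Set (Equiv.Perm (Fin 9))) :=
          mul_mem (Subgroup.subset_closure (by simp))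
            (inv_mem (pow_mem (Subgroup.subset_closure (by simp)) _))
        rwa [mul_inv_cancel_right] at key
  exact ⟨(MonoidHom.ofInjective (c.psi_inj h)).trans
    (MulEquiv.subgroupCongr (hrange.trans hcl))⟩

/-- any two simple groups of order 504 are isomorphic -/
theorem equiv_of_card {G' : Type*} [Group G'] [Finite G'] [IsSimpleGroup G']
    (h : Nat.card G = 504) (h' : Nat.card G' = 504) : Nonempty (G ≃* G') := by
  obtain ⟨e⟩ := equiv_model h
  obtain ⟨e'⟩ := equiv_model h'
  exact ⟨e.trans e'.symm⟩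

end Cfsg.Agent.Helper4.P504
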