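import Mathlib

set_option autoImplicit false

namespace Cfsg.Agent.Helper4

open MulAction Finset

/-- Sharply 4-transitive action, in unbundled form. -/
structure Sharp4 (G α : Type*) [Group G] [MulAction G α] : Prop where
  ex : ∀ a b c d a' b' c' d' : α, a ≠ b → a ≠ c → a ≠ d → b ≠ c → b ≠ d → c ≠ d →
    a' ≠ b' → a' ≠ c' → a' ≠ d' → b' ≠ c' → b' ≠ d' → c' ≠ d' →
    ∃ g : G, g • a = a' ∧ g • b = b' ∧ g • c = c' ∧ g • d = d'
  uniq : ∀ (g : G) (a b c d : α), a ≠ b → a ≠ c → a ≠ d → b ≠ c → b ≠ d → c ≠ d →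
    g • a = a → g • b = b → g • c = c → g • d = d → g = 1

theorem sharp4_of_emb {G α : Type*} [Group G] [MulAction G α] [IsMultiplyPretransitive G α 4]
    (hsharp : ∀ x : Fin 4 ↪ α, stabilizer G x = ⊥) : Sharp4 G α := by
  have emb : ∀ a b c d : α, a ≠ b → a ≠ c → a ≠ d → b ≠ c → b ≠ d → c ≠ d →
      ∃ x : Fin 4 ↪ α, x 0 = a ∧ x 1 = b ∧ x 2 = c ∧ x 3 = d := by
    intro a b c d hab hac had hbc hbd hcd
    refine ⟨⟨![a, b, c, d], ?_⟩, rfl, rfl, rfl, rfl⟩
    intro i j hij
    fin_cases i <;> fin_cases j <;> simp_all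
  constructor
  · intro a b c d a' b' c' d' hab hac had hbc hbd hcd hab' hac' had' hbc' hbd' hcd'
    obtain ⟨x, hx0, hx1, hx2, hx3⟩ := emb a b c d hab hac had hbc hbd hcd
    obtain ⟨y, hy0, hy1, hy2, hy3⟩ := emb a' b' c' d' hab' hac' had' hbc' hbd' hcd'
    obtain ⟨g, hg⟩ := exists_smul_eq G x y
    refine ⟨g, ?_, ?_, ?_, ?_⟩
    · rw [← hx0, ← hy0, ← hg]; rfl
    · rw [← hx1, ← hy1, ← hg]; rfl
    · rw [← hx2, ← hy2, ← hg]; rfl
    · rw [← hx3, ← hy3, ← hg]; rfl
  · intro g a b c d hab hac had hbc hbd hcd ha hb hc hd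
    obtain ⟨x, hx0, hx1, hx2, hx3⟩ := emb a b c d hab hac had hbc hbd hcd
    have hmem : g ∈ stabilizer G x := by
      rw [mem_stabilizer_iff]
      ext i
      have h0 : (g • x) i = g • x i := rfl
      rw [h0]
      fin_cases i
      · exact hx0 ▸ ha
      · exact hx1 ▸ hb
      · exact hx2 ▸ hc
      · exact hx3 ▸ hd
    rw [hsharp x] at hmem
    exact Subgroup.mem_bot.mp hmem

section counting

variable {G α : Type*} [Group G] [MulAction G α] [Fintype α] [DecidableEq α]

/-- fixed points -/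
def fixS (α : Type*) {G : Type*} [Group G] [MulAction G α] [Fintype α] [DecidableEq α] (t : G) :
    Finset α := univ.filter (fun a => t • a = a)
/-- moved points -/
def movS (α : Type*) {G : Type*} [Group G] [MulAction G α] [Fintype α] [DecidableEq α] (t : G) :
    Finset α := univ.filter (fun a => t • a ≠ a)
/-- involutions -/
def invS (G : Type*) [Group G] [Fintype G] [DecidableEq G] : Finset G :=
  univ.filter (fun t => t ≠ 1 ∧ t * t = 1)
/-- 4-tuples of distinct points -/
def tupS (α : Type*) [Fintype α] [DecidableEq α] : Finset (α × α × α × α) :=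
  univ.filter (fun q => q.1 ≠ q.2.1 ∧ q.1 ≠ q.2.2.1 ∧ q.1 ≠ q.2.2.2 ∧ q.2.1 ≠ q.2.2.1 ∧
    q.2.1 ≠ q.2.2.2 ∧ q.2.2.1 ≠ q.2.2.2)
/-- pairs of moved points in different 2-cycles -/
def aS (α : Type*) {G : Type*} [Group G] [MulAction G α] [Fintype α] [DecidableEq α] (t : G) :
    Finset (Σ _ : α, α) :=
  (movS α t).sigma (fun a => ((movS α t).erase a).erase (t • a))
/-- two distinct fixed points and a moved point -/
def bS (α : Type*) {G : Type*} [Group G] [MulAction G α] [Fintype α] [DecidableEq α] (t : G) :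
    Finset ((Σ _ : α, α) × α) :=
  ((fixS α t).sigma (fun a => (fixS α t).erase a)) ×ˢ (movS α t)

theorem mem_fixS {t : G} {a : α} : a ∈ fixS α t ↔ t • a = a := by simp [fixS]

theorem mem_movS {t : G} {a : α} : a ∈ movS α t ↔ t • a ≠ a := by simp [movS]

theorem mem_invS {G : Type*} [Group G] [Fintype G] [DecidableEq G] {t : G} :
    t ∈ invS G ↔ t ≠ 1 ∧ t * t = 1 := by simp [invS]

theorem fix_add_mov (t : G) : (fixS α t).card + (movS α t).card = Fintype.card α := by
  rw [fixS, movS, Finset.card_filter_add_card_filter_not, Finset.card_univ]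

omit [Fintype α] [DecidableEq α] in
theorem inv_smul_smul' {t : G} (ht : t * t = 1) (a : α) : t • t • a = a := by
  rw [smul_smul, ht, one_smul]

theorem card_aS {t : G} (ht : t * t = 1) :
    (aS α t).card = (movS α t).card * ((movS α t).card - 2) := by
  rw [aS, Finset.card_sigma]
  apply Finset.sum_const_nat
  intro a ha
  have ha' := mem_movS.mp ha
  have h1 : t • a ∈ (movS α t).erase a := by
    refine Finset.mem_erase.mpr ⟨ha', mem_movS.mpr ?_⟩
    rw [inv_smul_smul' ht]
    exact fun h => ha' h.symm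
  rw [Finset.card_erase_of_mem h1, Finset.card_erase_of_mem ha]
  omega

theorem card_bS (t : G) :
    (bS α t).card = (fixS α t).card * ((fixS α t).card - 1) * (movS α t).card := by
  rw [bS, Finset.card_product, Finset.card_sigma]
  congr 1
  apply Finset.sum_const_nat
  intro a ha
  rw [Finset.card_erase_of_mem ha]

theorem even_movS {t : G} (ht : t * t = 1) : Even (movS α t).card := by
  have h : ∑ _a ∈ movS α t, (1 : ZMod 2) = 0 := by
    refine Finset.sum_involution (fun a _ => t • a) ?_ ?_ ?_ ?_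
    · intro a _
      decide
    · intro a ha _
      exact mem_movS.mp ha
    · intro a ha
      refine mem_movS.mpr ?_
      rw [inv_smul_smul' ht]
      exact fun h => (mem_movS.mp ha) h.symm
    · intro a _
      exact inv_smul_smul' ht a
  rw [Finset.sum_const, nsmul_eq_mul, mul_one] at h
  exact (ZMod.natCast_eq_zero_iff_even).mp h

theorem fix_le_three (h : Sharp4 G α) {t : G} (ht : t ≠ 1) : (fixS α t).card ≤ 3 := by
  by_contra hcon
  have h4 : 4 ≤ (fixS α t).card := by omega
  have hc : Fintype.card (Fin 4) ≤ Fintype.card (fixS α t) := by simpa using h4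
  obtain ⟨e⟩ := Function.Embedding.nonempty_of_card_le hc
  have hne : ∀ i j : Fin 4, i ≠ j → (e i : α) ≠ e j :=
    fun i j hij h => hij (e.injective (Subtype.ext h))
  have hfix : ∀ i, t • (e i : α) = e i := fun i => mem_fixS.mp (e i).2
  exact ht (h.uniq t (e 0) (e 1) (e 2) (e 3) (hne _ _ (by decide)) (hne _ _ (by decide))
    (hne _ _ (by decide)) (hne _ _ (by decide)) (hne _ _ (by decide)) (hne _ _ (by decide))
    (hfix 0) (hfix 1) (hfix 2) (hfix 3))


theorem arith_even (n f s : ℕ) (h7 : 7 ≤ n) (hfs : f + s = n) (hf : f ≤ 3) (hs : Even s)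
    (hn : Even n) : (n - 4) * (f * (f - 1) * s) ≤ 2 * (s * (s - 2)) := by
  obtain ⟨r, hr⟩ := hs
  obtain ⟨k, hk⟩ := hn
  have hf' : f = 0 ∨ f = 2 := by omega
  rcases hf' with rfl | rfl
  · simp
  · have hs' : s = n - 2 := by omega
    subst hs'
    have e : n - 2 - 2 = n - 4 := by omega
    rw [e]
    apply le_of_eq
    norm_num
    ring

theorem arith_odd (n f s : ℕ) (h7 : 7 ≤ n) (hfs : f + s = n) (hf : f ≤ 3) (hs : Even s)
    (hn : Odd n) : 6 * (s * (s - 2)) =
      (n - 5) * (f * (f - 1) * s) + 6 * ((n - 1) * (n - 3)) * (if f = 1 then 1 else 0) := by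
  obtain ⟨r, hr⟩ := hs
  obtain ⟨k, hk⟩ := hn
  have hf' : f = 1 ∨ f = 3 := by omega
  rcases hf' with rfl | rfl
  · have hs' : s = n - 1 := by omega
    subst hs'
    have e : n - 1 - 2 = n - 3 := by omega
    rw [e]
    simp
  · have hs' : s = n - 3 := by omega
    subst hs'
    have e : n - 3 - 2 = n - 5 := by omega
    rw [e]
    norm_num
    ring

theorem tupS_pos (h4 : 4 ≤ Fintype.card α) : 0 < (tupS α).card := by
  have hc : Fintype.card (Fin 4) ≤ Fintype.card α := by simpa using h4
  obtain ⟨e⟩ := Function.Embedding.nonempty_of_card_le hc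
  apply Finset.card_pos.mpr
  refine ⟨(e 0, e 1, e 2, e 3), ?_⟩
  simp only [tupS, Finset.mem_filter, Finset.mem_univ, true_and]
  have hne : ∀ i j : Fin 4, i ≠ j → e i ≠ e j := fun i j hij h => hij (e.injective h)
  exact ⟨hne _ _ (by decide), hne _ _ (by decide), hne _ _ (by decide), hne _ _ (by decide),
    hne _ _ (by decide), hne _ _ (by decide)⟩

end counting

section counting2

variable {G α : Type*} [Group G] [MulAction G α] [Fintype α] [DecidableEq α] [Fintype G]
  [DecidableEq G]

omit [DecidableEq G] in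
theorem tupS_le (h : Sharp4 G α) (h4 : 4 ≤ Fintype.card α) :
    (tupS α).card ≤ Fintype.card G := by
  obtain ⟨⟨a, b, c, d⟩, hq⟩ := Finset.card_pos.mp (tupS_pos h4)
  simp only [tupS, Finset.mem_filter, Finset.mem_univ, true_and] at hq
  obtain ⟨hab, hac, had, hbc, hbd, hcd⟩ := hq
  rw [← Finset.card_univ]
  apply Finset.card_le_card_of_surjOn (fun g : G => (g • a, g • b, g • c, g • d))
  rintro ⟨a', b', c', d'⟩ hq'
  simp only [tupS, Finset.coe_filter, Finset.mem_univ, true_and, Set.mem_ofPred_eq] at hq'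
  obtain ⟨hab', hac', had', hbc', hbd', hcd'⟩ := hq'
  obtain ⟨g, h1, h2, h3, h4⟩ :=
    h.ex a b c d a' b' c' d' hab hac had hbc hbd hcd hab' hac' had' hbc' hbd' hcd'
  exact ⟨g, Finset.mem_coe.mpr (Finset.mem_univ g), by simp [h1, h2, h3, h4]⟩

theorem sum_card_aS (h : Sharp4 G α) : ∑ t ∈ invS G, (aS α t).card = (tupS α).card := by
  have key := Finset.sum_card_bipartiteAbove_eq_sum_card_bipartiteBelow (s := tupS α)
    (t := invS G)
    (r := fun (q : α × α × α × α) (t : G) => t • q.1 = q.2.1 ∧ t • q.2.2.1 = q.2.2.2)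
  have hL : ∀ q ∈ tupS α, ((invS G).bipartiteAbove
      (fun (q : α × α × α × α) (t : G) => t • q.1 = q.2.1 ∧ t • q.2.2.1 = q.2.2.2) q).card
      = 1 := by
    rintro ⟨a, b, c, d⟩ hq
    simp only [tupS, Finset.mem_filter, Finset.mem_univ, true_and] at hq
    obtain ⟨hab, hac, had, hbc, hbd, hcd⟩ := hq
    obtain ⟨g, hga, hgb, hgc, hgd⟩ := h.ex a b c d b a d c hab hac had hbc hbd hcd
      hab.symm hbd hbc had hac hcd.symm
    have hgg : g * g = 1 := h.uniq (g * g) a b c d hab hac had hbc hbd hcd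
      (by rw [mul_smul, hga, hgb]) (by rw [mul_smul, hgb, hga])
      (by rw [mul_smul, hgc, hgd]) (by rw [mul_smul, hgd, hgc])
    have hg1 : g ≠ 1 := by
      rintro rfl
      rw [one_smul] at hga
      exact hab hga
    rw [Finset.card_eq_one]
    refine ⟨g, ?_⟩
    ext t
    simp only [Finset.bipartiteAbove, Finset.mem_filter, Finset.mem_singleton, mem_invS]
    constructor
    · rintro ⟨⟨ht1, htt⟩, hta, htc⟩
      have htb : t • b = a := by rw [← hta, inv_smul_smul' htt]
      have htd : t • d = c := by rw [← htc, inv_smul_smul' htt]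
      have htg : t * g = 1 := h.uniq (t * g) a b c d hab hac had hbc hbd hcd
        (by rw [mul_smul, hga, htb]) (by rw [mul_smul, hgb, hta])
        (by rw [mul_smul, hgc, htd]) (by rw [mul_smul, hgd, htc])
      calc t = t * (g * g) := by rw [hgg, mul_one]
        _ = (t * g) * g := by rw [mul_assoc]
        _ = g := by rw [htg, one_mul]
    · rintro rfl
      exact ⟨⟨hg1, hgg⟩, hga, hgc⟩
  have hR : ∀ t ∈ invS G, ((tupS α).bipartiteBelow
      (fun (q : α × α × α × α) (t : G) => t • q.1 = q.2.1 ∧ t • q.2.2.1 = q.2.2.2) t).card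
      = (aS α t).card := by
    intro t ht
    obtain ⟨ht1, htt⟩ := mem_invS.mp ht
    apply Finset.card_bij (fun q _ => (⟨q.1, q.2.2.1⟩ : Σ _ : α, α))
    · rintro ⟨a, b, c, d⟩ hq
      simp only [Finset.bipartiteBelow, tupS, Finset.mem_filter, Finset.mem_univ,
        true_and] at hq
      obtain ⟨⟨hab, hac, had, hbc, hbd, hcd⟩, hta, htc⟩ := hq
      simp only [aS, Finset.mem_sigma, Finset.mem_erase, mem_movS]
      refine ⟨?_, ?_, ?_, ?_⟩
      · rw [hta]; exact hab.symm
      · rw [hta]; exact hbc.symm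
      · exact hac.symm
      · rw [htc]; exact hcd.symm
    · rintro ⟨a, b, c, d⟩ hq ⟨a', b', c', d'⟩ hq' heq
      simp only [Finset.bipartiteBelow, Finset.mem_filter] at hq hq'
      obtain ⟨-, hta, htc⟩ := hq
      obtain ⟨-, hta', htc'⟩ := hq'
      simp only [Sigma.mk.injEq, heq_eq_eq] at heq
      obtain ⟨rfl, rfl⟩ := heq
      rw [← hta, ← htc, ← hta', ← htc']
    · rintro ⟨a, c⟩ hac
      simp only [aS, Finset.mem_sigma, Finset.mem_erase, mem_movS] at hac
      obtain ⟨ha, hc1, hc2, hc⟩ := hac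
      refine ⟨(a, t • a, c, t • c), ?_, rfl⟩
      simp only [Finset.bipartiteBelow, tupS, Finset.mem_filter, Finset.mem_univ, true_and,
        and_true]
      refine ⟨fun h => ha h.symm, fun h => hc2 h.symm, ?_, fun h => hc1 h.symm, ?_,
        fun h => hc h.symm⟩
      · intro h
        apply hc1
        rw [h, inv_smul_smul' htt]
      · intro h
        exact hc2 (smul_left_cancel t h).symm
  rw [Finset.sum_congr rfl hL, Finset.sum_congr rfl hR] at key
  rw [← key]
  simp

theorem sum_card_bS (h : Sharp4 G α) : ∑ t ∈ invS G, (bS α t).card = (tupS α).card := by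
  have key := Finset.sum_card_bipartiteAbove_eq_sum_card_bipartiteBelow (s := tupS α)
    (t := invS G)
    (r := fun (q : α × α × α × α) (t : G) =>
      t • q.1 = q.1 ∧ t • q.2.1 = q.2.1 ∧ t • q.2.2.1 = q.2.2.2)
  have hL : ∀ q ∈ tupS α, ((invS G).bipartiteAbove
      (fun (q : α × α × α × α) (t : G) =>
        t • q.1 = q.1 ∧ t • q.2.1 = q.2.1 ∧ t • q.2.2.1 = q.2.2.2) q).card = 1 := by
    rintro ⟨a, b, c, d⟩ hq
    simp only [tupS, Finset.mem_filter, Finset.mem_univ, true_and] at hq
    obtain ⟨hab, hac, had, hbc, hbd, hcd⟩ := hq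
    obtain ⟨g, hga, hgb, hgc, hgd⟩ := h.ex a b c d a b d c hab hac had hbc hbd hcd
      hab had hac hbd hbc hcd.symm
    have hgg : g * g = 1 := h.uniq (g * g) a b c d hab hac had hbc hbd hcd
      (by rw [mul_smul, hga, hga]) (by rw [mul_smul, hgb, hgb])
      (by rw [mul_smul, hgc, hgd]) (by rw [mul_smul, hgd, hgc])
    have hg1 : g ≠ 1 := by
      rintro rfl
      rw [one_smul] at hgc
      exact hcd hgc
    rw [Finset.card_eq_one]
    refine ⟨g, ?_⟩
    ext t
    simp only [Finset.bipartiteAbove, Finset.mem_filter, Finset.mem_singleton, mem_invS]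
    constructor
    · rintro ⟨⟨ht1, htt⟩, hta, htb, htc⟩
      have htd : t • d = c := by rw [← htc, inv_smul_smul' htt]
      have htg : t * g = 1 := h.uniq (t * g) a b c d hab hac had hbc hbd hcd
        (by rw [mul_smul, hga, hta]) (by rw [mul_smul, hgb, htb])
        (by rw [mul_smul, hgc, htd]) (by rw [mul_smul, hgd, htc])
      calc t = t * (g * g) := by rw [hgg, mul_one]
        _ = (t * g) * g := by rw [mul_assoc]
        _ = g := by rw [htg, one_mul]
    · rintro rfl
      exact ⟨⟨hg1, hgg⟩, hga, hgb, hgc⟩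
  have hR : ∀ t ∈ invS G, ((tupS α).bipartiteBelow
      (fun (q : α × α × α × α) (t : G) =>
        t • q.1 = q.1 ∧ t • q.2.1 = q.2.1 ∧ t • q.2.2.1 = q.2.2.2) t).card
      = (bS α t).card := by
    intro t ht
    obtain ⟨ht1, htt⟩ := mem_invS.mp ht
    apply Finset.card_bij (fun q _ => (((⟨q.1, q.2.1⟩ : Σ _ : α, α), q.2.2.1)))
    · rintro ⟨a, b, c, d⟩ hq
      simp only [Finset.bipartiteBelow, tupS, Finset.mem_filter, Finset.mem_univ,
        true_and] at hq
      obtain ⟨⟨hab, hac, had, hbc, hbd, hcd⟩, hta, htb, htc⟩ := hq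
      simp only [bS, Finset.mem_product, Finset.mem_sigma, Finset.mem_erase, mem_movS, mem_fixS]
      exact ⟨⟨hta, hab.symm, htb⟩, by rw [htc]; exact hcd.symm⟩
    · rintro ⟨a, b, c, d⟩ hq ⟨a', b', c', d'⟩ hq' heq
      simp only [Finset.bipartiteBelow, Finset.mem_filter] at hq hq'
      obtain ⟨-, -, -, htc⟩ := hq
      obtain ⟨-, -, -, htc'⟩ := hq'
      simp only [Prod.mk.injEq, Sigma.mk.injEq, heq_eq_eq] at heq
      obtain ⟨⟨rfl, rfl⟩, rfl⟩ := heq
      rw [← htc, ← htc']
    · rintro ⟨⟨a, b⟩, c⟩ hq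
      simp only [bS, Finset.mem_product, Finset.mem_sigma, Finset.mem_erase, mem_movS,
        mem_fixS] at hq
      obtain ⟨⟨hta, hba, htb⟩, hc⟩ := hq
      refine ⟨(a, b, c, t • c), ?_, rfl⟩
      simp only [Finset.bipartiteBelow, tupS, Finset.mem_filter, Finset.mem_univ, true_and,
        and_true]
      refine ⟨⟨fun h => hba h.symm, ?_, ?_, ?_, ?_, fun h => hc h.symm⟩, hta, htb⟩
      · rintro rfl
        exact hc hta
      · intro h
        apply hc
        have h2 : t • a = c := by rw [h, inv_smul_smul' htt]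
        rw [hta] at h2
        rw [← h2]
        exact hta
      · rintro rfl
        exact hc htb
      · intro h
        apply hc
        have h2 : t • b = c := by rw [h, inv_smul_smul' htt]
        rw [htb] at h2
        rw [← h2]
        exact htb
  rw [Finset.sum_congr rfl hL, Finset.sum_congr rfl hR] at key
  rw [← key]
  simp


omit [Fintype α] [DecidableEq α] [Fintype G] [DecidableEq G] in
theorem conj_smul_smul (g s : G) (x : α) : (g * s * g⁻¹) • g • x = g • s • x := by
  simp [mul_smul]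

omit [Fintype G] [DecidableEq G] in
theorem card_fixS_conj (g s : G) : (fixS α (g * s * g⁻¹)).card = (fixS α s).card := by
  have : fixS α (g * s * g⁻¹) = (fixS α s).image (fun a => g • a) := by
    ext b
    simp only [mem_fixS, Finset.mem_image]
    constructor
    · intro hb
      refine ⟨g⁻¹ • b, ?_, by simp⟩
      have h2 : g • s • g⁻¹ • b = b := by simpa [mul_smul] using hb
      rw [eq_inv_smul_iff]
      exact h2
    · rintro ⟨a, ha, rfl⟩
      rw [conj_smul_smul, ha]
  rw [this, Finset.card_image_of_injective _ (MulAction.injective g)]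

theorem card_le_of_one_fixed (h : Sharp4 G α) {s : G} (hs : s ∈ invS G)
    (hs1 : (fixS α s).card = 1) (hn : 5 ≤ Fintype.card α) :
    Fintype.card G ≤ ((invS G).filter (fun t => (fixS α t).card = 1)).card *
      ((Fintype.card α - 1) * (Fintype.card α - 3)) := by
  obtain ⟨hs1', hss⟩ := mem_invS.mp hs
  have hmov : (movS α s).card = Fintype.card α - 1 := by
    have := fix_add_mov (α := α) s
    omega
  have hne : (aS α s).Nonempty := by
    rw [← Finset.card_pos, card_aS hss, hmov]
    apply Nat.mul_pos <;> omega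
  obtain ⟨⟨a₀, c₀⟩, hac⟩ := hne
  simp only [aS, Finset.mem_sigma, Finset.mem_erase, mem_movS] at hac
  obtain ⟨ha, hc1, hc2, hc⟩ := hac
  have hcard : (((invS G).filter (fun t => (fixS α t).card = 1)).sigma
      (fun t => aS α t)).card = ((invS G).filter (fun t => (fixS α t).card = 1)).card *
      ((Fintype.card α - 1) * (Fintype.card α - 3)) := by
    rw [Finset.card_sigma]
    apply Finset.sum_const_nat
    intro t ht
    obtain ⟨ht, ht1⟩ := Finset.mem_filter.mp ht
    obtain ⟨-, htt⟩ := mem_invS.mp ht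
    have := fix_add_mov (α := α) t
    rw [card_aS htt]
    have e : (movS α t).card = Fintype.card α - 1 := by omega
    rw [e]
    have e2 : Fintype.card α - 1 - 2 = Fintype.card α - 3 := by omega
    rw [e2]
  rw [← hcard, ← Finset.card_univ]
  apply Finset.card_le_card_of_injOn
    (fun g : G => (⟨g * s * g⁻¹, ⟨g • a₀, g • c₀⟩⟩ : Σ _ : G, Σ _ : α, α))
  · intro g _
    rw [Finset.mem_coe, Finset.mem_sigma]
    refine ⟨Finset.mem_filter.mpr ⟨mem_invS.mpr ⟨?_, ?_⟩, ?_⟩, ?_⟩
    · intro h1
      exact hs1' (conj_eq_one_iff.mp h1)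
    · calc g * s * g⁻¹ * (g * s * g⁻¹) = g * (s * s) * g⁻¹ := by group
        _ = 1 := by rw [hss]; group
    · rw [card_fixS_conj, hs1]
    · simp only [aS, Finset.mem_sigma, Finset.mem_erase, mem_movS, conj_smul_smul]
      refine ⟨?_, ?_, ?_, ?_⟩
      · exact fun h1 => ha (smul_left_cancel g h1)
      · exact fun h1 => hc1 (smul_left_cancel g h1)
      · exact fun h1 => hc2 (smul_left_cancel g h1)
      · exact fun h1 => hc (smul_left_cancel g h1)
  · intro g _ g' _ heq
    simp only [Sigma.mk.injEq, heq_eq_eq] at heq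
    obtain ⟨heq1, heq2, heq3⟩ := heq
    have hk : g'⁻¹ * g * s = s * (g'⁻¹ * g) := by
      calc g'⁻¹ * g * s = g'⁻¹ * (g * s * g⁻¹) * g := by group
        _ = g'⁻¹ * (g' * s * g'⁻¹) * g := by rw [heq1]
        _ = s * (g'⁻¹ * g) := by group
    have hka : (g'⁻¹ * g) • a₀ = a₀ := by rw [mul_smul, heq2, inv_smul_smul]
    have hkc : (g'⁻¹ * g) • c₀ = c₀ := by rw [mul_smul, heq3, inv_smul_smul]
    have hksa : (g'⁻¹ * g) • s • a₀ = s • a₀ := by
      rw [← mul_smul, hk, mul_smul, hka]
    have hksc : (g'⁻¹ * g) • s • c₀ = s • c₀ := by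
      rw [← mul_smul, hk, mul_smul, hkc]
    have hk1 : g'⁻¹ * g = 1 := by
      refine h.uniq (g'⁻¹ * g) a₀ (s • a₀) c₀ (s • c₀) (fun h1 => ha h1.symm)
        (fun h1 => hc2 h1.symm) ?_ (fun h1 => hc1 h1.symm) ?_ (fun h1 => hc h1.symm)
        hka hksa hkc hksc
      · intro h1
        apply hc1
        rw [h1, inv_smul_smul' hss]
      · intro h1
        exact hc2 (smul_left_cancel s h1).symm
    exact (inv_mul_eq_one.mp hk1).symm

end counting2

theorem sharp4_card_eq {G α : Type*} [Group G] [MulAction G α] [Finite G] [Finite α]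
    (h : Sharp4 G α) (h7 : 7 ≤ Nat.card α) : Nat.card α = 11 := by
  classical
  haveI := Fintype.ofFinite α
  haveI := Fintype.ofFinite G
  rw [Nat.card_eq_fintype_card] at h7 ⊢
  have hI := sum_card_aS h
  have hII := sum_card_bS h
  have hpos := tupS_pos (α := α) (by omega)
  have hle := tupS_le h (by omega)
  have hfacts : ∀ t ∈ invS G, (fixS α t).card + (movS α t).card = Fintype.card α ∧
      (fixS α t).card ≤ 3 ∧ Even (movS α t).card ∧
      (aS α t).card = (movS α t).card * ((movS α t).card - 2) ∧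
      (bS α t).card = (fixS α t).card * ((fixS α t).card - 1) * (movS α t).card := by
    intro t ht
    obtain ⟨ht1, htt⟩ := mem_invS.mp ht
    exact ⟨fix_add_mov t, fix_le_three h ht1, even_movS htt, card_aS htt, card_bS t⟩
  rcases Nat.even_or_odd (Fintype.card α) with he | ho
  · exfalso
    have hterm : ∀ t ∈ invS G,
        (Fintype.card α - 4) * (bS α t).card ≤ 2 * (aS α t).card := by
      intro t ht
      obtain ⟨h1, h2, h3, h4, h5⟩ := hfacts t ht
      rw [h4, h5]
      exact arith_even _ _ _ h7 h1 h2 h3 he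
    have h6 : (Fintype.card α - 4) * (tupS α).card ≤ 2 * (tupS α).card := by
      calc (Fintype.card α - 4) * (tupS α).card
          = ∑ t ∈ invS G, (Fintype.card α - 4) * (bS α t).card := by
            rw [← Finset.mul_sum, hII]
        _ ≤ ∑ t ∈ invS G, 2 * (aS α t).card := Finset.sum_le_sum hterm
        _ = 2 * (tupS α).card := by rw [← Finset.mul_sum, hI]
    have h8 : Fintype.card α - 4 ≤ 2 := Nat.le_of_mul_le_mul_right h6 hpos
    omega
  · have hterm : ∀ t ∈ invS G, 6 * (aS α t).card =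
        (Fintype.card α - 5) * (bS α t).card +
          6 * ((Fintype.card α - 1) * (Fintype.card α - 3)) *
            (if (fixS α t).card = 1 then 1 else 0) := by
      intro t ht
      obtain ⟨h1, h2, h3, h4, h5⟩ := hfacts t ht
      rw [h4, h5]
      exact arith_odd _ _ _ h7 h1 h2 h3 ho
    have hsum : 6 * (tupS α).card = (Fintype.card α - 5) * (tupS α).card +
        6 * ((Fintype.card α - 1) * (Fintype.card α - 3)) *
          ((invS G).filter (fun t => (fixS α t).card = 1)).card := by
      have e1 : 6 * (tupS α).card = ∑ t ∈ invS G, 6 * (aS α t).card := by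
        rw [← Finset.mul_sum, hI]
      have e2 : (Fintype.card α - 5) * (tupS α).card =
          ∑ t ∈ invS G, (Fintype.card α - 5) * (bS α t).card := by
        rw [← Finset.mul_sum, hII]
      rw [e1, e2, Finset.card_filter, Finset.mul_sum, ← Finset.sum_add_distrib]
      exact Finset.sum_congr rfl hterm
    by_cases hN : ((invS G).filter (fun t => (fixS α t).card = 1)).card = 0
    · rw [hN, mul_zero, add_zero] at hsum
      have h8 : 6 = Fintype.card α - 5 := Nat.eq_of_mul_eq_mul_right hpos hsum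
      omega
    · exfalso
      obtain ⟨s, hs⟩ := Finset.card_pos.mp (Nat.pos_of_ne_zero hN)
      obtain ⟨hs, hs1⟩ := Finset.mem_filter.mp hs
      have hb := card_le_of_one_fixed h hs hs1 (by omega)
      have h6 : 6 * (tupS α).card ≤ 6 * ((Fintype.card α - 1) * (Fintype.card α - 3)) *
          ((invS G).filter (fun t => (fixS α t).card = 1)).card := by
        calc 6 * (tupS α).card ≤ 6 * (((invS G).filter (fun t => (fixS α t).card = 1)).card *
              ((Fintype.card α - 1) * (Fintype.card α - 3))) :=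
              Nat.mul_le_mul_left 6 (hle.trans hb)
          _ = _ := by ring
      have h9 : (Fintype.card α - 5) * (tupS α).card = 0 := by omega
      rcases Nat.mul_eq_zero.mp h9 with h10 | h10 <;> omega

/-- Degrees of sharply 4-transitive groups. -/
theorem sharp4_card {G α : Type*} [Group G] [MulAction G α] [Finite G] [Finite α]
    (h : Sharp4 G α) (h4 : 4 ≤ Nat.card α) :
    Nat.card α = 4 ∨ Nat.card α = 5 ∨ Nat.card α = 6 ∨ Nat.card α = 11 := by
  by_cases h7 : 7 ≤ Nat.card α
  · exact Or.inr (Or.inr (Or.inr (sharp4_card_eq h h7)))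
  · omega

end Cfsg.Agent.Helper4
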