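import Mathlib

set_option autoImplicit false

namespace Cfsg.Agent.Helper4

open Subgroup

/-- A Sylow `p`-subgroup lies in every normal subgroup whose index is prime to `p`. -/
theorem sylow_le_normal_of_not_dvd_index {G : Type*} [Group G] [Finite G] {p : ℕ} [Fact p.Prime]
    (P : Sylow p G) (M : Subgroup G) [M.Normal] (h : ¬ p ∣ M.index) : (P : Subgroup G) ≤ M := by
  obtain ⟨n, hn⟩ := IsPGroup.index P.isPGroup' (M.subgroupOf (P : Subgroup G))
  have h1 : M.relIndex (P : Subgroup G) ∣ M.index := Subgroup.relIndex_dvd_index_of_normal M P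
  have h2 : M.relIndex (P : Subgroup G) = p ^ n := hn
  rw [h2] at h1
  have hn0 : n = 0 := by
    by_contra hne
    exact h ((dvd_pow_self p hne).trans h1)
  rw [hn0, pow_zero] at h2
  exact Subgroup.relIndex_eq_one.mp h2

/-- If a Sylow `p`-subgroup `P` of `G` lies in a normal subgroup `M` and is normal in `M`,
then `P` is normal in `G`. -/
theorem sylow_normal_of_normal_subgroupOf {G : Type*} [Group G] [Finite G] {p : ℕ} [Fact p.Prime]
    (P : Sylow p G) (M : Subgroup G) [M.Normal] (hPM : (P : Subgroup G) ≤ M)
    (hn : ((P : Subgroup G).subgroupOf M).Normal) : (P : Subgroup G).Normal := by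
  have h1 : ((P.subtype hPM : Sylow p M) : Subgroup M).Normal := by
    rw [Sylow.coe_subtype]; exact hn
  have : ((P.subtype hPM : Sylow p M) : Subgroup M).Characteristic :=
    Sylow.characteristic_of_normal _ h1
  have h2 : (((P.subtype hPM : Sylow p M) : Subgroup M).map M.subtype).Normal := inferInstance
  rw [Sylow.coe_subtype, Subgroup.map_subgroupOf_eq_of_le hPM] at h2
  exact h2

end Cfsg.Agent.Helper4
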