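import Mathlib
import Cfsg.Agent.Helper4.Sharp
import Cfsg.Agent.Helper4.SylowExtra

set_option autoImplicit false

namespace Cfsg.Agent.Helper4

open MulAction

/-- The point stabilizer of a sharply `(k+1)`-transitive action is sharply `k`-transitive
on the remaining points. -/
theorem sharp_ofStabilizer {G α : Type*} [Group G] [MulAction G α] {k : ℕ}
    [IsPretransitive G α] [IsMultiplyPretransitive G α (k + 1)]
    (hsharp : ∀ x : Fin (k + 1) ↪ α, stabilizer G x = ⊥) (a : α) :
    IsMultiplyPretransitive (stabilizer G a) (SubMulAction.ofStabilizer G a) k ∧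
    ∀ x : Fin k ↪ SubMulAction.ofStabilizer G a, stabilizer (stabilizer G a) x = ⊥ := by
  refine ⟨SubMulAction.ofStabilizer.isMultiplyPretransitive.mp inferInstance, ?_⟩
  intro x
  rw [eq_bot_iff]
  intro g hg
  rw [mem_stabilizer_iff] at hg
  have h1 : (g : G) ∈ stabilizer G (SubMulAction.ofStabilizer.snoc x) := by
    rw [mem_stabilizer_iff]
    ext i
    refine Fin.lastCases ?_ (fun j => ?_) i
    · show (g : G) • (SubMulAction.ofStabilizer.snoc x) (Fin.last k) = _
      rw [SubMulAction.ofStabilizer.snoc_last]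
      exact g.2
    · show (g : G) • (SubMulAction.ofStabilizer.snoc x) (Fin.castSucc j) = _
      rw [SubMulAction.ofStabilizer.snoc_castSucc]
      have := congrArg (fun y => ((y j : SubMulAction.ofStabilizer G a) : α)) hg
      exact this
  rw [hsharp] at h1
  rw [Subgroup.mem_bot] at h1 ⊢
  exact Subtype.ext h1

theorem sharp_pretransitive {G α : Type*} [Group G] [MulAction G α] [Finite α] {k : ℕ}
    (hk : 1 ≤ k) (hn : k ≤ Nat.card α) [IsMultiplyPretransitive G α k] : IsPretransitive G α :=
  is_one_pretransitive_iff.mp (isMultiplyPretransitive_of_le (n := k) hk hn)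

theorem sharp_card_group {G α : Type*} [Group G] [MulAction G α] [Finite α] {k : ℕ}
    [IsMultiplyPretransitive G α k] (hsharp : ∀ x : Fin k ↪ α, stabilizer G x = ⊥)
    (hk : k ≤ Nat.card α) : Nat.card G = (Nat.card α).descFactorial k := by
  classical
  haveI := Fintype.ofFinite α
  have hc : Fintype.card (Fin k) ≤ Fintype.card α := by
    rw [Fintype.card_fin, ← Nat.card_eq_fintype_card]; exact hk
  obtain ⟨x₀⟩ := Function.Embedding.nonempty_of_card_le hc
  have hbij : Function.Bijective (fun g : G => g • x₀) := by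
    constructor
    · intro g g' hgg
      have hgg' : g • x₀ = g' • x₀ := hgg
      have : g'⁻¹ * g ∈ stabilizer G x₀ := by
        rw [mem_stabilizer_iff, mul_smul, hgg', inv_smul_smul]
      rw [hsharp, Subgroup.mem_bot] at this
      exact (inv_mul_eq_one.mp this).symm
    · intro y
      exact exists_smul_eq G x₀ y
  rw [Nat.card_congr (Equiv.ofBijective _ hbij), Nat.card_eq_fintype_card,
    Fintype.card_embedding_eq, Fintype.card_fin, Nat.card_eq_fintype_card]

theorem faithful_of_sharp {G α : Type*} [Group G] [MulAction G α] [Finite α] {k : ℕ}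
    (hsharp : ∀ x : Fin k ↪ α, stabilizer G x = ⊥) (hk : k ≤ Nat.card α) (g : G)
    (hg : ∀ a : α, g • a = a) : g = 1 := by
  classical
  haveI := Fintype.ofFinite α
  have hc : Fintype.card (Fin k) ≤ Fintype.card α := by
    rw [Fintype.card_fin, ← Nat.card_eq_fintype_card]; exact hk
  obtain ⟨x₀⟩ := Function.Embedding.nonempty_of_card_le hc
  have : g ∈ stabilizer G x₀ := by
    rw [mem_stabilizer_iff]
    ext i
    exact hg (x₀ i)
  rw [hsharp, Subgroup.mem_bot] at this
  exact this

/-- Degrees of sharply 5-transitive actions. -/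
theorem sharp5_card {G α : Type*} [Group G] [MulAction G α] [Finite G] [Finite α]
    [IsMultiplyPretransitive G α 5] (hsharp : ∀ x : Fin 5 ↪ α, stabilizer G x = ⊥)
    (h5 : 5 ≤ Nat.card α) :
    Nat.card α = 5 ∨ Nat.card α = 6 ∨ Nat.card α = 7 ∨ Nat.card α = 12 := by
  haveI : IsPretransitive G α := sharp_pretransitive (k := 5) (by norm_num) h5
  obtain ⟨a⟩ : Nonempty α := (Nat.card_pos_iff.mp (by omega)).1
  obtain ⟨h1, h2⟩ := sharp_ofStabilizer hsharp a
  haveI := h1
  have h := sharp4_of_emb h2
  have hc := SubMulAction.nat_card_ofStabilizer_add_one_eq G a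
  have := sharp4_card h (by omega)
  omega

theorem sylow_card_prime {G : Type*} [Group G] [Finite G] {p : ℕ} [hp : Fact p.Prime]
    (P : Sylow p G) {m : ℕ} (h : Nat.card G = p * m) (hm : ¬ p ∣ m) :
    Nat.card (P : Subgroup G) = p := by
  have hm0 : m ≠ 0 := by
    rintro rfl
    exact hm (dvd_zero p)
  rw [P.card_eq_multiplicity, h, Nat.factorization_mul hp.out.ne_zero hm0, Finsupp.add_apply,
    Nat.Prime.factorization_self hp.out, Nat.factorization_eq_zero_of_not_dvd hm]
  simp

/-- If `G` acts faithfully on a set of prime size `p` and `P` is a subgroup of order `p`, then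
`|N_G(P)| = p m` with `m ∣ p - 1`. -/
theorem card_normalizer_of_prime_degree {G α : Type*} [Group G] [MulAction G α] [Finite G]
    [Finite α] (hfaith : ∀ g : G, (∀ a : α, g • a = a) → g = 1) {p : ℕ} [hp : Fact p.Prime]
    (hα : Nat.card α = p) (P : Subgroup G) (hP : Nat.card P = p) :
    ∃ m, m ∣ p - 1 ∧ Nat.card (Subgroup.normalizer (P : Set G)) = p * m := by
  haveI : IsCyclic P := isCyclic_of_prime_card hP
  have hPne : P ≠ ⊥ := by
    rintro rfl
    rw [Subgroup.card_bot] at hP
    exact hp.out.ne_one hP.symm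
  obtain ⟨σ, hσP, hσ1⟩ := (Subgroup.bot_or_exists_ne_one P).resolve_left hPne
  obtain ⟨a₀, ha₀⟩ : ∃ a₀ : α, σ • a₀ ≠ a₀ := by
    by_contra hcon
    push Not at hcon
    exact hσ1 (hfaith σ hcon)
  have hS : stabilizer P a₀ = ⊥ := by
    have hd : Nat.card (stabilizer P a₀) ∣ p := hP ▸ Subgroup.card_subgroup_dvd_card _
    rcases (Nat.dvd_prime hp.out).mp hd with h1 | h1
    · exact Subgroup.eq_bot_of_card_eq _ h1
    · exfalso
      have h3 : stabilizer P a₀ = ⊤ := Subgroup.eq_top_of_card_eq _ (h1.trans hP.symm)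
      have h2 : (⟨σ, hσP⟩ : P) ∈ stabilizer P a₀ := h3 ▸ Subgroup.mem_top _
      exact ha₀ h2
  have hinj : Function.Injective (fun x : P => x • a₀) := by
    intro x y hxy
    have hxy' : x • a₀ = y • a₀ := hxy
    have : y⁻¹ * x ∈ stabilizer P a₀ := by
      rw [mem_stabilizer_iff, mul_smul, hxy', inv_smul_smul]
    rw [hS, Subgroup.mem_bot] at this
    exact (inv_mul_eq_one.mp this).symm
  have hbij : Function.Bijective (fun x : P => x • a₀) :=
    hinj.bijective_of_nat_card_le (by rw [hα, hP])
  have hPC : P ≤ Subgroup.centralizer (P : Set G) := by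
    intro x hx
    rw [Subgroup.mem_centralizer_iff]
    intro y hy
    obtain ⟨g, hg⟩ := IsCyclic.exists_generator (α := P)
    obtain ⟨i, hi⟩ := Subgroup.mem_zpowers_iff.mp (hg ⟨x, hx⟩)
    obtain ⟨j, hj⟩ := Subgroup.mem_zpowers_iff.mp (hg ⟨y, hy⟩)
    have hx' : x = (g : G) ^ i := by rw [← Subgroup.coe_zpow, hi]
    have hy' : y = (g : G) ^ j := by rw [← Subgroup.coe_zpow, hj]
    rw [hx', hy', ← zpow_add, ← zpow_add, add_comm]
  have hCle : Nat.card (Subgroup.centralizer (P : Set G)) ≤ p := by
    rw [← hα]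
    apply Nat.card_le_card_of_injective
      (fun c : Subgroup.centralizer (P : Set G) => (c : G) • a₀)
    intro c c' hcc
    have hcc' : (c : G) • a₀ = (c' : G) • a₀ := hcc
    have hd : ∀ b : α, ((c' : G)⁻¹ * c) • b = b := by
      intro b
      obtain ⟨x, rfl⟩ := hbij.2 b
      show ((c' : G)⁻¹ * c) • (x : G) • a₀ = (x : G) • a₀
      have hcomm : ((c' : G)⁻¹ * c) * x = x * ((c' : G)⁻¹ * c) := by
        have h1 := Subgroup.mem_centralizer_iff.mp
          (Subgroup.mul_mem _ (Subgroup.inv_mem _ c'.2) c.2) x x.2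
        exact h1.symm
      rw [← mul_smul, hcomm, mul_smul]
      congr 1
      rw [mul_smul, hcc', inv_smul_smul]
    have := hfaith _ hd
    exact Subtype.ext (inv_mul_eq_one.mp this).symm
  have hCP : P = Subgroup.centralizer (P : Set G) :=
    Subgroup.eq_of_le_of_card_ge hPC (by rw [hP]; exact hCle)
  have hker := Subgroup.normalizerMonoidHom_ker P
  have h1 : Nat.card (Subgroup.normalizerMonoidHom P).ker = p := by
    rw [hker, ← hCP,
      Nat.card_congr (Subgroup.subgroupOfEquivOfLe (Subgroup.le_normalizer)).toEquiv, hP]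
  have h2 : Nat.card (Subgroup.normalizerMonoidHom P).range ∣ p - 1 := by
    have := Subgroup.card_subgroup_dvd_card (Subgroup.normalizerMonoidHom P).range
    rwa [IsCyclic.card_mulAut, hP, Nat.totient_prime hp.out] at this
  refine ⟨_, h2, ?_⟩
  rw [← Subgroup.card_mul_index (Subgroup.normalizerMonoidHom P).ker, Subgroup.index_ker, h1]

end Cfsg.Agent.Helper4
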