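import Mathlib
import Cfsg.Agent.Helper4.Simple168f

set_option autoImplicit false

namespace Cfsg.Agent.Helper4.Zass

open Cfsg.Agent.Helper4.Simple168b Cfsg.Agent.Helper4.Simple168e Cfsg.Agent.Helper4.Simple168f

theorem conj_pow_exp {T : Type*} [Group T] (h x : T) (r : ℕ) (hh : h * x * h⁻¹ = x ^ r)
    (e : ℕ) : h ^ e * x * (h ^ e)⁻¹ = x ^ (r ^ e) := by
  induction e with
  | zero => simp
  | succ n ih =>
    have e1 : h ^ (n + 1) * x * (h ^ (n + 1))⁻¹ = h * (h ^ n * x * (h ^ n)⁻¹) * h⁻¹ := by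
      rw [pow_succ']; group
    rw [e1, ih, ← conj_pow, hh, ← pow_mul, pow_succ']

theorem conj_mul_exp {T : Type*} [Group T] (h h' x : T) (a b : ℕ) (h1 : h * x * h⁻¹ = x ^ a)
    (h2 : h' * x * h'⁻¹ = x ^ b) : (h * h') * x * (h * h')⁻¹ = x ^ (a * b) := by
  have e1 : (h * h') * x * (h * h')⁻¹ = h * (h' * x * h'⁻¹) * h⁻¹ := by group
  rw [e1, h2, ← conj_pow, h1, ← pow_mul]

/-- numerical hypotheses: Sylow `p`-subgroups of order `p`, `p + 1` of them, with normalisers
of order `p * m` -/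
structure Hyp (G : Type*) [Group G] (p m : ℕ) [Fact p.Prime] : Prop where
  hm0 : 0 < m
  hmp : m < p
  hP : ∀ P : Sylow p G, Nat.card (P : Subgroup G) = p
  hn : Nat.card (Sylow p G) = p + 1
  hN : ∀ P : Sylow p G, Nat.card (Subgroup.normalizer ((P : Subgroup G) : Set G)) = p * m

/-- two distinct Sylow subgroups and a generator of the first -/
structure Config (G : Type*) [Group G] (p : ℕ) [Fact p.Prime] where
  P : Sylow p G
  Q : Sylow p G
  x : G
  hQP : Q ≠ P
  hx : orderOf x = p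
  hP : (P : Subgroup G) = Subgroup.zpowers x

variable {G : Type*} [Group G] [Finite G] {p m : ℕ} [Fact p.Prime]

theorem sylow_eq_zpowers (hy : Hyp G p m) (Q : Sylow p G) (g : G) (hg : orderOf g = p)
    (hgQ : g ∈ (Q : Subgroup G)) : (Q : Subgroup G) = Subgroup.zpowers g := by
  symm
  apply Subgroup.eq_of_le_of_card_ge
  · rw [Subgroup.zpowers_le]; exact hgQ
  · rw [Nat.card_zpowers, hg]; exact (hy.hP Q).le

theorem mem_of_normalizes (hy : Hyp G p m) (Q : Sylow p G) (g : G) (hg : orderOf g = p)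
    (hgQ : g • Q = Q) : g ∈ (Q : Subgroup G) := by
  have hpp := (Fact.out : p.Prime)
  have hN : g ∈ Subgroup.normalizer ((Q : Subgroup G) : Set G) :=
    Sylow.smul_eq_iff_mem_normalizer.mp hgQ
  by_contra hgn
  have hcQ : Nat.card (Q : Subgroup G) = p := hy.hP Q
  have hcR : Nat.card (Subgroup.zpowers g) = p := by rw [Nat.card_zpowers, hg]
  have hinf : Subgroup.zpowers g ⊓ (Q : Subgroup G) = ⊥ := by
    have hd : Nat.card (Subgroup.zpowers g ⊓ (Q : Subgroup G) : Subgroup G) ∣ p := by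
      have h0 := Subgroup.card_dvd_of_le
        (inf_le_left : Subgroup.zpowers g ⊓ (Q : Subgroup G) ≤ Subgroup.zpowers g)
      rwa [hcR] at h0
    rcases (Nat.dvd_prime hpp).mp hd with h1 | h1
    · exact Subgroup.eq_bot_of_card_eq _ h1
    · exfalso
      apply hgn
      have e1 : Subgroup.zpowers g ⊓ (Q : Subgroup G) = Subgroup.zpowers g :=
        Subgroup.eq_of_le_of_card_ge inf_le_left (by rw [h1, hcR])
      have hle : Subgroup.zpowers g ≤ (Q : Subgroup G) := by rw [← e1]; exact inf_le_right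
      exact hle (Subgroup.mem_zpowers g)
  have h1 := card_mul_le _ _ (Subgroup.normalizer ((Q : Subgroup G) : Set G))
    (by rw [Subgroup.zpowers_le]; exact hN) Subgroup.le_normalizer hinf
  rw [hcR, hcQ, hy.hN Q] at h1
  have h2 := Nat.le_of_mul_le_mul_left h1 hpp.pos
  have h3 := hy.hmp
  omega

namespace Config

variable (c : Config G p)

theorem x_mem : c.x ∈ (c.P : Subgroup G) := by rw [c.hP]; exact Subgroup.mem_zpowers _

theorem x_pow_mod (n : ℕ) : c.x ^ (n % p) = c.x ^ n := by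
  have := pow_mod_orderOf c.x n
  rwa [c.hx] at this

theorem P_fix (g : G) (hg : g ∈ (c.P : Subgroup G)) : g • c.P = c.P :=
  Sylow.smul_eq_iff_mem_normalizer.mpr (Subgroup.le_normalizer hg)

theorem free (hy : Hyp G p m) (g : G) (hg : g ∈ (c.P : Subgroup G)) (hgQ : g • c.Q = c.Q) :
    g = 1 := by
  have hpp := (Fact.out : p.Prime)
  by_contra hg1
  have ho : orderOf g = p := by
    have hd : orderOf g ∣ p := by
      have := orderOf_dvd_natCard (⟨g, hg⟩ : (c.P : Subgroup G))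
      rwa [Subgroup.orderOf_mk, hy.hP c.P] at this
    rcases (Nat.dvd_prime hpp).mp hd with h1 | h1
    · exact absurd (orderOf_eq_one_iff.mp h1) hg1
    · exact h1
  apply c.hQP
  apply Sylow.ext
  rw [sylow_eq_zpowers hy c.Q g ho (mem_of_normalizes hy c.Q g ho hgQ),
    sylow_eq_zpowers hy c.P g ho hg]

theorem x_ne_fix (hy : Hyp G p m) : c.x • c.Q ≠ c.Q := by
  intro h2
  have h3 := c.free hy c.x c.x_mem h2
  have h4 := c.hx
  rw [h3, orderOf_one] at h4
  exact (Fact.out : p.Prime).one_lt.ne h4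

/-- the labelling of the Sylow subgroups by the projective line -/
def lab : Fin (p + 1) → Sylow p G := fun i =>
  if (i : ℕ) < p then c.x ^ (i : ℕ) • c.Q else c.P

theorem lab_lt (k : ℕ) (hk : k < p) : c.lab ⟨k, by omega⟩ = c.x ^ k • c.Q := by
  show (if k < p then c.x ^ k • c.Q else c.P) = _
  rw [if_pos hk]

theorem lab_last (hk : p < p + 1) : c.lab ⟨p, hk⟩ = c.P := by
  show (if p < p then c.x ^ p • c.Q else c.P) = _
  rw [if_neg (lt_irrefl p)]

theorem lab_zero (hk : 0 < p + 1) : c.lab ⟨0, hk⟩ = c.Q := by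
  have := c.lab_lt 0 (Fact.out : p.Prime).pos
  rwa [pow_zero, one_smul] at this

theorem lab_inj (hy : Hyp G p m) : Function.Injective c.lab := by
  rintro ⟨i, hi⟩ ⟨j, hj⟩ hij
  by_cases hi7 : i < p <;> by_cases hj7 : j < p
  · rw [c.lab_lt i hi7, c.lab_lt j hj7] at hij
    have h1 : ((c.x ^ j)⁻¹ * c.x ^ i) • c.Q = c.Q := by rw [mul_smul, hij, inv_smul_smul]
    have h2 := c.free hy _ (mul_mem (inv_mem (pow_mem c.x_mem j)) (pow_mem c.x_mem i)) h1
    have h3 : c.x ^ i = c.x ^ j := by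
      calc c.x ^ i = c.x ^ j * ((c.x ^ j)⁻¹ * c.x ^ i) := by group
        _ = c.x ^ j := by rw [h2, mul_one]
    have h4 := pow_eq_pow_iff_modEq.mp h3
    rw [c.hx] at h4
    unfold Nat.ModEq at h4
    rw [Nat.mod_eq_of_lt hi7, Nat.mod_eq_of_lt hj7] at h4
    exact Fin.ext h4
  · exfalso
    have hj' : j = p := by omega
    subst hj'
    rw [c.lab_lt i hi7, c.lab_last hj] at hij
    apply c.hQP
    have e : c.Q = (c.x ^ i)⁻¹ • c.P := by rw [← hij, inv_smul_smul]
    rw [e]; exact c.P_fix _ (inv_mem (pow_mem c.x_mem i))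
  · exfalso
    have hi' : i = p := by omega
    subst hi'
    rw [c.lab_lt j hj7, c.lab_last hi] at hij
    apply c.hQP
    have e : c.Q = (c.x ^ j)⁻¹ • c.P := by rw [hij, inv_smul_smul]
    rw [e]; exact c.P_fix _ (inv_mem (pow_mem c.x_mem j))
  · have hi' : i = p := by omega
    have hj' : j = p := by omega
    exact Fin.ext (hi'.trans hj'.symm)

theorem lab_bij (hy : Hyp G p m) : Function.Bijective c.lab :=
  (c.lab_inj hy).bijective_of_nat_card_le (by rw [hy.hn, Nat.card_fin])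

/-- the labelling as an equivalence -/
noncomputable def labE (hy : Hyp G p m) : Fin (p + 1) ≃ Sylow p G :=
  Equiv.ofBijective c.lab (c.lab_bij hy)

/-- the permutation representation on the labels -/
noncomputable def psi (hy : Hyp G p m) : G →* Equiv.Perm (Fin (p + 1)) :=
  ((c.labE hy).symm.permCongrHom).toMonoidHom.comp (MulAction.toPermHom G (Sylow p G))

theorem psi_apply (hy : Hyp G p m) (g : G) (i j : Fin (p + 1)) (h : g • c.lab i = c.lab j) :
    c.psi hy g i = j := by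
  show (c.labE hy).symm (g • (c.labE hy) i) = j
  rw [Equiv.symm_apply_eq]
  exact h

theorem lab_psi (hy : Hyp G p m) (g : G) (i : Fin (p + 1)) :
    c.lab (c.psi hy g i) = g • c.lab i := by
  show (c.labE hy) ((c.labE hy).symm (g • (c.labE hy) i)) = _
  rw [Equiv.apply_symm_apply]; rfl

theorem psi_x (hy : Hyp G p m) (k : ℕ) (hk : k < p) :
    c.psi hy c.x ⟨k, by omega⟩ =
      ⟨(k + 1) % p, by have := Nat.mod_lt (k + 1) (Fact.out : p.Prime).pos; omega⟩ := by
  apply c.psi_apply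
  rw [c.lab_lt k hk, c.lab_lt ((k + 1) % p) (Nat.mod_lt _ (Fact.out : p.Prime).pos),
    ← mul_smul, ← pow_succ', c.x_pow_mod]

theorem psi_x_last (hy : Hyp G p m) (hk : p < p + 1) : c.psi hy c.x ⟨p, hk⟩ = ⟨p, hk⟩ := by
  apply c.psi_apply
  rw [c.lab_last hk]; exact c.P_fix _ c.x_mem

theorem psi_inj (hy : Hyp G p m) [IsSimpleGroup G] : Function.Injective (c.psi hy) := by
  rw [← MonoidHom.ker_eq_bot_iff]
  rcases IsSimpleGroup.eq_bot_or_eq_top_of_normal (c.psi hy).ker (MonoidHom.normal_ker _)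
    with hb | ht
  · exact hb
  · exfalso
    have hxk : c.x ∈ (c.psi hy).ker := by rw [ht]; trivial
    rw [MonoidHom.mem_ker] at hxk
    have h1 := c.lab_psi hy c.x ⟨0, by omega⟩
    rw [hxk, Equiv.Perm.one_apply, c.lab_zero] at h1
    exact c.x_ne_fix hy h1.symm

/-- the stabiliser of the two base points -/
def stabH : Subgroup G := MulAction.stabilizer G c.P ⊓ MulAction.stabilizer G c.Q

theorem mem_stabH {g : G} : g ∈ c.stabH ↔ g • c.P = c.P ∧ g • c.Q = c.Q := by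
  show g ∈ MulAction.stabilizer G c.P ⊓ MulAction.stabilizer G c.Q ↔ _
  rw [Subgroup.mem_inf, MulAction.mem_stabilizer_iff, MulAction.mem_stabilizer_iff]

theorem exists_pow_smul (hy : Hyp G p m) (R : Sylow p G) (hR : R ≠ c.P) :
    ∃ k < p, R = c.x ^ k • c.Q := by
  obtain ⟨⟨k, hk⟩, hj⟩ := (c.lab_bij hy).2 R
  have hkp : k < p := by
    by_contra hkp
    have hk' : k = p := by omega
    subst hk'
    apply hR
    rw [← hj]; exact c.lab_last hk
  exact ⟨k, hkp, by rw [← hj, c.lab_lt k hkp]⟩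

theorem smul_Q_ne (g : G) (hg : g • c.P = c.P) : g • c.Q ≠ c.P := by
  intro h1
  apply c.hQP
  have e1 : g • c.Q = g • c.P := by rw [h1, hg]
  exact smul_left_cancel g e1

theorem decompN (hy : Hyp G p m) (g : G) (hg : g • c.P = c.P) :
    ∃ k < p, (c.x ^ k)⁻¹ * g ∈ c.stabH := by
  obtain ⟨k, hk, hgk⟩ := c.exists_pow_smul hy _ (c.smul_Q_ne g hg)
  refine ⟨k, hk, ?_⟩
  rw [c.mem_stabH]
  constructor
  · rw [mul_smul, hg]; exact c.P_fix _ (inv_mem (pow_mem c.x_mem k))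
  · rw [mul_smul, hgk, inv_smul_smul]

theorem card_stabH (hy : Hyp G p m) : Nat.card c.stabH = m := by
  have hpp := (Fact.out : p.Prime)
  have key := card_eq_mul_of_unique
    (fun (n : MulAction.stabilizer G c.P) (i : Fin p) => (n : G) • c.Q = c.x ^ (i : ℕ) • c.Q)
    (Nat.card c.stabH) ?_ ?_
  · have hN : Nat.card (MulAction.stabilizer G c.P) = p * m := by
      rw [Sylow.stabilizer_eq_normalizer]; exact hy.hN c.P
    rw [hN, Nat.card_fin] at key
    exact (Nat.eq_of_mul_eq_mul_left hpp.pos key).symm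
  · intro n
    have hn : (n : G) • c.P = c.P := MulAction.mem_stabilizer_iff.mp n.2
    obtain ⟨k, hk, hnk⟩ := c.exists_pow_smul hy _ (c.smul_Q_ne _ hn)
    refine ⟨⟨k, hk⟩, hnk, ?_⟩
    rintro ⟨j, hj⟩ hnj
    have hnj' : (n : G) • c.Q = c.x ^ j • c.Q := hnj
    have e1 : c.lab ⟨j, by omega⟩ = c.lab ⟨k, by omega⟩ := by
      rw [c.lab_lt j hj, c.lab_lt k hk, ← hnj', ← hnk]
    have e2 := c.lab_inj hy e1
    have e3 : j = k := Fin.mk.inj_iff.mp e2
    subst e3
    rfl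
  · intro i
    apply Nat.card_congr
    exact
      { toFun := fun n => ⟨(c.x ^ (i : ℕ))⁻¹ * (n.1 : G), by
          rw [c.mem_stabH]
          constructor
          · rw [mul_smul, MulAction.mem_stabilizer_iff.mp n.1.2]
            exact c.P_fix _ (inv_mem (pow_mem c.x_mem _))
          · rw [mul_smul, n.2, inv_smul_smul]⟩
        invFun := fun h => ⟨⟨c.x ^ (i : ℕ) * (h : G), by
          rw [MulAction.mem_stabilizer_iff, mul_smul, (c.mem_stabH.mp h.2).1]
          exact c.P_fix _ (pow_mem c.x_mem _)⟩, by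
          show (c.x ^ (i : ℕ) * (h : G)) • c.Q = _
          rw [mul_smul, (c.mem_stabH.mp h.2).2]⟩
        left_inv := fun n => by
          apply Subtype.ext; apply Subtype.ext
          show c.x ^ (i : ℕ) * ((c.x ^ (i : ℕ))⁻¹ * (n.1 : G)) = (n.1 : G)
          group
        right_inv := fun h => by
          apply Subtype.ext
          show (c.x ^ (i : ℕ))⁻¹ * (c.x ^ (i : ℕ) * (h : G)) = (h : G)
          group }

theorem stabH_faithful (hy : Hyp G p m) [IsSimpleGroup G] (h : G) (hh : h ∈ c.stabH)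
    (hc : h * c.x = c.x * h) : h = 1 := by
  apply c.psi_inj hy
  rw [map_one]
  apply Equiv.ext
  rintro ⟨k, hk⟩
  rw [Equiv.Perm.one_apply]
  apply c.psi_apply
  by_cases hkp : k < p
  · rw [c.lab_lt k hkp, ← mul_smul]
    have e1 : h * c.x ^ k = c.x ^ k * h := ((show Commute h c.x from hc).pow_right k).eq
    rw [e1, mul_smul, (c.mem_stabH.mp hh).2]
  · have hk' : k = p := by omega
    subst hk'
    rw [c.lab_last hk]; exact (c.mem_stabH.mp hh).1

theorem exists_conj_exp (h : G) (hh : h • c.P = c.P) :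
    ∃ r < p, h * c.x * h⁻¹ = c.x ^ r := by
  have hN : h ∈ Subgroup.normalizer ((c.P : Subgroup G) : Set G) :=
    Sylow.smul_eq_iff_mem_normalizer.mp hh
  have hmem : h * c.x * h⁻¹ ∈ Subgroup.zpowers c.x := by
    rw [← c.hP]; exact (Subgroup.mem_normalizer_iff.mp hN c.x).mp c.x_mem
  obtain ⟨k, hk, hk2⟩ := exists_pow_lt c.x p c.hx (Fact.out : p.Prime).pos _ hmem
  exact ⟨k, hk, hk2.symm⟩

theorem psi_y (hy : Hyp G p m) (y : G) (hyH : y ∈ c.stabH) (r : ℕ)
    (hyx : y * c.x * y⁻¹ = c.x ^ r) (k : ℕ) (hk : k < p) :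
    c.psi hy y ⟨k, by omega⟩ =
      ⟨(r * k) % p, by have := Nat.mod_lt (r * k) (Fact.out : p.Prime).pos; omega⟩ := by
  apply c.psi_apply
  have hyk : y * c.x ^ k = c.x ^ (r * k) * y := by
    have e1 : y * c.x ^ k * y⁻¹ = c.x ^ (r * k) := by rw [← conj_pow, hyx, ← pow_mul]
    calc y * c.x ^ k = (y * c.x ^ k * y⁻¹) * y := by group
      _ = c.x ^ (r * k) * y := by rw [e1]
  rw [c.lab_lt k hk, c.lab_lt ((r * k) % p) (Nat.mod_lt _ (Fact.out : p.Prime).pos),
    ← mul_smul, hyk, mul_smul, (c.mem_stabH.mp hyH).2, c.x_pow_mod]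

theorem psi_y_last (hy : Hyp G p m) (y : G) (hyH : y ∈ c.stabH) (hk : p < p + 1) :
    c.psi hy y ⟨p, hk⟩ = ⟨p, hk⟩ := by
  apply c.psi_apply
  rw [c.lab_last hk]; exact (c.mem_stabH.mp hyH).1

theorem exists_t (hy : Hyp G p m) : ∃ t : G, t • c.P = c.Q ∧ t • c.Q = c.P := by
  obtain ⟨g, hg⟩ := MulAction.exists_smul_eq G c.Q c.P
  have hgP : g • c.P ≠ c.P := by
    intro hgP
    apply c.hQP
    have e1 : g • c.Q = g • c.P := by rw [hg, hgP]
    exact smul_left_cancel g e1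
  obtain ⟨k, hk, hj⟩ := c.exists_pow_smul hy _ hgP
  refine ⟨(c.x ^ k)⁻¹ * g, ?_, ?_⟩
  · rw [mul_smul, hj, inv_smul_smul]
  · rw [mul_smul, hg]; exact c.P_fix _ (inv_mem (pow_mem c.x_mem k))

theorem psi_t_last (hy : Hyp G p m) (t : G) (htP : t • c.P = c.Q) (hk : p < p + 1) :
    c.psi hy t ⟨p, hk⟩ = ⟨0, by omega⟩ := by
  apply c.psi_apply
  rw [c.lab_last hk, htP, c.lab_zero]

theorem psi_t_zero (hy : Hyp G p m) (t : G) (htQ : t • c.Q = c.P) (hk : p < p + 1) :
    c.psi hy t ⟨0, by omega⟩ = ⟨p, hk⟩ := by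
  apply c.psi_apply
  rw [c.lab_last hk, c.lab_zero, htQ]

theorem decomp (hy : Hyp G p m) (y : G) (hyH : c.stabH = Subgroup.zpowers y)
    (hym : orderOf y = m) (g : G) (hg : g • c.P = c.P) :
    ∃ k < p, ∃ l < m, g = c.x ^ k * y ^ l := by
  obtain ⟨k, hk, hmem⟩ := c.decompN hy g hg
  rw [hyH] at hmem
  obtain ⟨l, hl, hl2⟩ := exists_pow_lt y m hym hy.hm0 _ hmem
  refine ⟨k, hk, l, hl, ?_⟩
  rw [hl2]; group

theorem closure_top (hy : Hyp G p m) (y : G) (hyH : c.stabH = Subgroup.zpowers y)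
    (hym : orderOf y = m) (t : G) (htP : t • c.P = c.Q) :
    Subgroup.closure ({c.x, y, t} : Set G) = ⊤ := by
  rw [Subgroup.eq_top_iff']
  intro g
  have hxc : c.x ∈ Subgroup.closure ({c.x, y, t} : Set G) := Subgroup.subset_closure (by simp)
  have hyc : y ∈ Subgroup.closure ({c.x, y, t} : Set G) := Subgroup.subset_closure (by simp)
  have htc : t ∈ Subgroup.closure ({c.x, y, t} : Set G) := Subgroup.subset_closure (by simp)
  have hB : ∀ g : G, g • c.P = c.P → g ∈ Subgroup.closure ({c.x, y, t} : Set G) := by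
    intro g hg
    obtain ⟨k, -, l, -, rfl⟩ := c.decomp hy y hyH hym g hg
    exact mul_mem (pow_mem hxc k) (pow_mem hyc l)
  by_cases hg : g • c.P = c.P
  · exact hB g hg
  · obtain ⟨k, hk, hgk⟩ := c.exists_pow_smul hy _ hg
    have h1 : ((c.x ^ k * t)⁻¹ * g) • c.P = c.P := by
      rw [mul_smul, hgk, ← htP, ← mul_smul (c.x ^ k) t, inv_smul_smul]
    have h2 := hB _ h1
    have e1 : g = (c.x ^ k * t) * ((c.x ^ k * t)⁻¹ * g) := by group
    rw [e1]
    exact mul_mem (mul_mem (pow_mem hxc k) htc) h2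

theorem rel1 (hy : Hyp G p m) (y : G) (hyH : c.stabH = Subgroup.zpowers y)
    (hym : orderOf y = m) (t : G) (htP : t • c.P = c.Q) (htQ : t • c.Q = c.P) :
    ∃ jj < p, ∃ k < p, ∃ l < m, t * c.x * t = c.x ^ jj * t * (c.x ^ k * y ^ l) := by
  have h1 : (t * c.x * t) • c.P ≠ c.P := by
    rw [mul_smul, mul_smul, htP]
    intro h2
    apply c.x_ne_fix hy
    have e1 : t • (c.x • c.Q) = t • c.Q := by rw [h2, htQ]
    exact smul_left_cancel t e1
  obtain ⟨jj, hjj, hg⟩ := c.exists_pow_smul hy _ h1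
  have h5 : ((c.x ^ jj * t)⁻¹ * (t * c.x * t)) • c.P = c.P := by
    rw [mul_smul, hg, ← htP, ← mul_smul (c.x ^ jj) t, inv_smul_smul]
  obtain ⟨k, hk, l, hl, hkl⟩ := c.decomp hy y hyH hym _ h5
  refine ⟨jj, hjj, k, hk, l, hl, ?_⟩
  rw [← hkl]; group

theorem rel2 (hy : Hyp G p m) (y : G) (hyH : c.stabH = Subgroup.zpowers y)
    (hym : orderOf y = m) (t : G) (htP : t • c.P = c.Q) (htQ : t • c.Q = c.P) :
    ∃ j < m, t * y = y ^ j * t := by
  have hyS : y ∈ c.stabH := by rw [hyH]; exact Subgroup.mem_zpowers y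
  have hP' : t⁻¹ • c.P = c.Q := by rw [inv_smul_eq_iff, htQ]
  have hQ' : t⁻¹ • c.Q = c.P := by rw [inv_smul_eq_iff, htP]
  have hmem : t * y * t⁻¹ ∈ c.stabH := by
    rw [c.mem_stabH]
    constructor
    · rw [mul_smul, mul_smul, hP', (c.mem_stabH.mp hyS).2, htQ]
    · rw [mul_smul, mul_smul, hQ', (c.mem_stabH.mp hyS).1, htP]
  rw [hyH] at hmem
  obtain ⟨j, hj, hj2⟩ := exists_pow_lt y m hym hy.hm0 _ hmem
  refine ⟨j, hj, ?_⟩
  rw [hj2]; group

end Config

/-- a configuration exists -/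
theorem exists_config (hy : Hyp G p m) : Nonempty (Config G p) := by
  have hpp := (Fact.out : p.Prime)
  obtain ⟨P⟩ : Nonempty (Sylow p G) := inferInstance
  obtain ⟨x', hx'⟩ := exists_prime_orderOf_dvd_card' (G := (P : Subgroup G)) p
    (by rw [hy.hP P])
  have hxp : orderOf (x' : G) = p := by rw [Subgroup.orderOf_coe]; exact hx'
  have hex : ∃ Q : Sylow p G, Q ≠ P := by
    by_contra hcon
    push Not at hcon
    have hsub : Subsingleton (Sylow p G) := ⟨fun a b => by rw [hcon a, hcon b]⟩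
    have h1 : Nat.card (Sylow p G) ≤ 1 := Finite.card_le_one_iff_subsingleton.mpr hsub
    rw [hy.hn] at h1
    have := hpp.pos
    omega
  obtain ⟨Q, hQ⟩ := hex
  exact ⟨⟨P, Q, (x' : G), hQ, hxp, sylow_eq_zpowers hy P _ hxp x'.2⟩⟩

namespace Config

variable (c : Config G p)

theorem psi_rel2 (hy : Hyp G p m) (y : G) (hyH : c.stabH = Subgroup.zpowers y)
    (hym : orderOf y = m) (t : G) (htP : t • c.P = c.Q) (htQ : t • c.Q = c.P) :
    ∃ j < m, ∀ z, c.psi hy t (c.psi hy y z) = (c.psi hy y ^ j) (c.psi hy t z) := by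
  obtain ⟨j, hj, hr⟩ := c.rel2 hy y hyH hym t htP htQ
  refine ⟨j, hj, fun z => ?_⟩
  have h1 := congrArg (fun g => c.psi hy g z) hr
  simp only [map_mul, map_pow, Equiv.Perm.mul_apply] at h1
  exact h1

theorem psi_rel1 (hy : Hyp G p m) (y : G) (hyH : c.stabH = Subgroup.zpowers y)
    (hym : orderOf y = m) (t : G) (htP : t • c.P = c.Q) (htQ : t • c.Q = c.P) :
    ∃ jj, ∃ hjj : jj < p, ∃ k < p, ∃ l < m,
      c.psi hy t (c.psi hy c.x ⟨0, by omega⟩) = ⟨jj, by omega⟩ ∧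
      ∀ z, c.psi hy t (c.psi hy c.x (c.psi hy t z)) =
        (c.psi hy c.x ^ jj) (c.psi hy t ((c.psi hy c.x ^ k) ((c.psi hy y ^ l) z))) := by
  obtain ⟨jj, hjj, k, hk, l, hl, hr⟩ := c.rel1 hy y hyH hym t htP htQ
  have hall : ∀ z, c.psi hy t (c.psi hy c.x (c.psi hy t z)) =
        (c.psi hy c.x ^ jj) (c.psi hy t ((c.psi hy c.x ^ k) ((c.psi hy y ^ l) z))) := by
    intro z
    have h1 := congrArg (fun g => c.psi hy g z) hr
    simp only [map_mul, map_pow, Equiv.Perm.mul_apply] at h1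
    exact h1
  refine ⟨jj, hjj, k, hk, l, hl, ?_, hall⟩
  have hp1 : p < p + 1 := by omega
  have h2 := hall ⟨p, hp1⟩
  rw [c.psi_t_last hy t htP hp1] at h2
  rw [h2]
  have hyS : y ∈ c.stabH := by rw [hyH]; exact Subgroup.mem_zpowers y
  have h3 : (c.psi hy c.x ^ k) ((c.psi hy y ^ l) ⟨p, hp1⟩) = ⟨p, hp1⟩ := by
    rw [← map_pow, ← map_pow, ← Equiv.Perm.mul_apply, ← map_mul]
    apply c.psi_apply
    rw [c.lab_last hp1, mul_smul]
    have h4 : y ^ l • c.P = c.P := (c.mem_stabH.mp (pow_mem hyS l)).1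
    rw [h4]; exact c.P_fix _ (pow_mem c.x_mem k)
  rw [h3, c.psi_t_last hy t htP hp1, ← map_pow]
  apply c.psi_apply
  rw [c.lab_zero, c.lab_lt jj hjj]

theorem range_psi (hy : Hyp G p m) (y : G) (hyH : c.stabH = Subgroup.zpowers y)
    (hym : orderOf y = m) (t : G) (htP : t • c.P = c.Q) :
    (c.psi hy).range = Subgroup.closure {c.psi hy c.x, c.psi hy y, c.psi hy t} := by
  rw [MonoidHom.range_eq_map, ← c.closure_top hy y hyH hym t htP, MonoidHom.map_closure]
  congr 1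
  simp [Set.image_insert_eq]

theorem exp_modEq (y : G) (b : ℕ) (hyx : y * c.x * y⁻¹ = c.x ^ b) (d : ℕ) (hd : y ^ d = 1) :
    b ^ d ≡ 1 [MOD p] := by
  have h1 := conj_pow_exp y c.x b hyx d
  rw [hd, one_mul, inv_one, mul_one] at h1
  have h2 : c.x ^ (b ^ d) = c.x ^ 1 := by rw [pow_one]; exact h1.symm
  rw [pow_eq_pow_iff_modEq, c.hx] at h2
  exact h2

theorem order_of_exp (hy : Hyp G p m) (y : G) (hyS : y ∈ c.stabH) (r : ℕ)
    (hyx : y * c.x * y⁻¹ = c.x ^ r) (hr : ∀ d < m, d ∣ m → ¬ (r ^ d ≡ 1 [MOD p])) :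
    orderOf y = m ∧ c.stabH = Subgroup.zpowers y := by
  have hdvd : orderOf y ∣ m := by
    rw [← c.card_stabH hy]; exact Subgroup.orderOf_dvd_natCard _ hyS
  have hord : orderOf y = m := by
    by_contra hne
    have hlt : orderOf y < m := lt_of_le_of_ne (Nat.le_of_dvd hy.hm0 hdvd) hne
    exact hr _ hlt hdvd (c.exp_modEq y r hyx _ (pow_orderOf_eq_one y))
  refine ⟨hord, ?_⟩
  symm
  apply Subgroup.eq_of_le_of_card_ge
  · rw [Subgroup.zpowers_le]; exact hyS
  · rw [Nat.card_zpowers, hord, c.card_stabH hy]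

theorem exists_exp (hy : Hyp G p m) [IsSimpleGroup G] (q : ℕ) [Fact q.Prime] (hq : q ∣ m) :
    ∃ y ∈ c.stabH, ∃ b < p, orderOf y = q ∧ y * c.x * y⁻¹ = c.x ^ b ∧ b ^ q ≡ 1 [MOD p] ∧
      b ≠ 1 := by
  obtain ⟨y', hy'⟩ := exists_prime_orderOf_dvd_card' (G := c.stabH) q
    (by rw [c.card_stabH hy]; exact hq)
  have hyo : orderOf (y' : G) = q := by rw [Subgroup.orderOf_coe]; exact hy'
  obtain ⟨b, hb, hconj⟩ := c.exists_conj_exp (y' : G) (c.mem_stabH.mp y'.2).1
  refine ⟨y', y'.2, b, hb, hyo, hconj, ?_, ?_⟩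
  · exact c.exp_modEq _ b hconj q (by rw [← hyo]; exact pow_orderOf_eq_one _)
  · rintro rfl
    rw [pow_one] at hconj
    have hcomm : (y' : G) * c.x = c.x * y' := by
      calc (y' : G) * c.x = ((y' : G) * c.x * (y' : G)⁻¹) * y' := by group
        _ = c.x * y' := by rw [hconj]
    have h1 := c.stabH_faithful hy _ y'.2 hcomm
    rw [h1, orderOf_one] at hyo
    exact (Fact.out : q.Prime).one_lt.ne hyo

end Config

end Cfsg.Agent.Helper4.Zass
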