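import Mathlib
import Cfsg.Agent.Helper4.Zass

set_option autoImplicit false

namespace Cfsg.Agent.Helper4.Zass

namespace Config

variable {G : Type*} [Group G] [Finite G] {p m : ℕ} [Fact p.Prime] (c : Config G p)

/-- every admissible exponent is realised by an element of the two-point stabiliser -/
theorem exists_of_exp (hy : Hyp G p m) [IsSimpleGroup G]
    (hcard : Nat.card {b : Fin p // (b : ℕ) ^ m ≡ 1 [MOD p]} ≤ m) (r : ℕ) (hr : r < p)
    (hrm : r ^ m ≡ 1 [MOD p]) : ∃ y ∈ c.stabH, y * c.x * y⁻¹ = c.x ^ r := by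
  classical
  have hex : ∀ h : c.stabH, ∃ b, b < p ∧ (h : G) * c.x * (h : G)⁻¹ = c.x ^ b :=
    fun h => c.exists_conj_exp (h : G) (c.mem_stabH.mp h.2).1
  choose e he1 he2 using hex
  have hem : ∀ h : c.stabH, (e h) ^ m ≡ 1 [MOD p] := by
    intro h
    apply c.exp_modEq (h : G) (e h) (he2 h) m
    have h1 : h ^ Nat.card c.stabH = 1 := pow_card_eq_one'
    rw [c.card_stabH hy] at h1
    have h2 := congrArg (Subtype.val) h1
    simpa using h2
  let f : c.stabH → {b : Fin p // (b : ℕ) ^ m ≡ 1 [MOD p]} := fun h => ⟨⟨e h, he1 h⟩, hem h⟩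
  have hinj : Function.Injective f := by
    intro h h' hh
    have h1 : e h = e h' := by
      have h0 := congrArg (fun b : {b : Fin p // (b : ℕ) ^ m ≡ 1 [MOD p]} => ((b : Fin p) : ℕ)) hh
      exact h0
    have h2 : (h : G) * c.x * (h : G)⁻¹ = (h' : G) * c.x * (h' : G)⁻¹ := by
      rw [he2 h, he2 h', h1]
    have h3 : ((h' : G)⁻¹ * h) * c.x = c.x * ((h' : G)⁻¹ * h) := by
      calc ((h' : G)⁻¹ * h) * c.x = (h' : G)⁻¹ * ((h : G) * c.x * (h : G)⁻¹) * h := by group
        _ = (h' : G)⁻¹ * ((h' : G) * c.x * (h' : G)⁻¹) * h := by rw [h2]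
        _ = c.x * ((h' : G)⁻¹ * h) := by group
    have h4 := c.stabH_faithful hy _ (mul_mem (inv_mem h'.2) h.2) h3
    apply Subtype.ext
    exact (inv_mul_eq_one.mp h4).symm
  have hbij := hinj.bijective_of_nat_card_le (by rw [c.card_stabH hy]; exact hcard)
  obtain ⟨y, hyf⟩ := hbij.2 ⟨⟨r, hr⟩, hrm⟩
  refine ⟨y, y.2, ?_⟩
  have h1 : e y = r := by
    have h0 := congrArg (fun b : {b : Fin p // (b : ℕ) ^ m ≡ 1 [MOD p]} => ((b : Fin p) : ℕ)) hyf
    exact h0
  rw [he2 y, h1]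

end Config

end Cfsg.Agent.Helper4.Zass
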