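import Mathlib
import Cfsg.Agent.Helper4.Zass2
import Cfsg.Agent.Helper4.Sharp2

set_option autoImplicit false

namespace Cfsg.Agent.Helper4.Zass17

open Cfsg.Agent.Helper4.Zass

/-- translation by `k` on the projective line over the field with 17 elements (`17` is `∞`) -/
def cpow (k : ℕ) (z : Fin 18) : Fin 18 :=
  if h : z.val < 17 then ⟨(z.val + k) % 17, by omega⟩ else z

/-- multiplication by `2 ^ l` -/
def mpow (l : ℕ) (z : Fin 18) : Fin 18 :=
  if h : z.val < 17 then ⟨(2 ^ l * z.val) % 17, by omega⟩ else z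

theorem cpow_zero (z : Fin 18) : cpow 0 z = z := by
  unfold cpow
  split_ifs with h
  · apply Fin.ext
    show (z.val + 0) % 17 = z.val
    omega
  · rfl

theorem cpow_p (z : Fin 18) : cpow 17 z = z := by
  unfold cpow
  split_ifs with h
  · apply Fin.ext
    show (z.val + 17) % 17 = z.val
    omega
  · rfl

theorem cpow_add (a b : ℕ) (z : Fin 18) : cpow a (cpow b z) = cpow (a + b) z := by
  unfold cpow
  by_cases h : z.val < 17
  · simp only [h, ↓reduceDIte]
    rw [dif_pos (Nat.mod_lt _ (by norm_num))]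
    apply Fin.ext
    show ((z.val + b) % 17 + a) % 17 = (z.val + (a + b)) % 17
    omega
  · simp only [h, ↓reduceDIte]

theorem mpow_zero (z : Fin 18) : mpow 0 z = z := by
  unfold mpow
  split_ifs with h
  · apply Fin.ext
    show (2 ^ 0 * z.val) % 17 = z.val
    rw [pow_zero, one_mul]
    exact Nat.mod_eq_of_lt h
  · rfl

theorem mpow_pt (l : ℕ) : mpow l 0 = 0 := by
  unfold mpow
  rw [dif_pos (by decide)]
  apply Fin.ext
  show (2 ^ l * 0) % 17 = 0
  simp

theorem mpow_add (a b : ℕ) (z : Fin 18) : mpow a (mpow b z) = mpow (a + b) z := by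
  unfold mpow
  by_cases h : z.val < 17
  · simp only [h, ↓reduceDIte]
    rw [dif_pos (Nat.mod_lt _ (by norm_num))]
    apply Fin.ext
    show (2 ^ a * ((2 ^ b * z.val) % 17)) % 17 = (2 ^ (a + b) * z.val) % 17
    rw [Nat.mul_mod_mod, ← mul_assoc, ← pow_add]
  · simp only [h, ↓reduceDIte]

theorem base_pow_mod (e : ℕ) : 2 ^ (e % 8) % 17 = 2 ^ e % 17 := by
  conv_rhs => rw [← Nat.div_add_mod e 8, pow_add, pow_mul, Nat.mul_mod, Nat.pow_mod]
  norm_num

theorem mpow_mod (e : ℕ) (z : Fin 18) : mpow (e % 8) z = mpow e z := by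
  unfold mpow
  by_cases h : z.val < 17
  · simp only [h, ↓reduceDIte]
    apply Fin.ext
    show (2 ^ (e % 8) * z.val) % 17 = (2 ^ e * z.val) % 17
    rw [Nat.mul_mod, base_pow_mod, ← Nat.mul_mod]
  · simp only [h, ↓reduceDIte]

/-- the translation `z ↦ z + 1` -/
def cPerm : Equiv.Perm (Fin 18) := ⟨cpow 1, cpow 16, by decide, by decide⟩

/-- the multiplication `z ↦ 2 z` -/
def mPerm : Equiv.Perm (Fin 18) := ⟨mpow 1, mpow 7, by decide, by decide⟩

theorem cPerm_pow (k : ℕ) (z : Fin 18) : (cPerm ^ k) z = cpow k z := by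
  induction k generalizing z with
  | zero => rw [pow_zero, cpow_zero]; rfl
  | succ n ih =>
    rw [pow_succ, Equiv.Perm.mul_apply, ih]
    exact cpow_add n 1 z

theorem mPerm_pow (l : ℕ) (z : Fin 18) : (mPerm ^ l) z = mpow l z := by
  induction l generalizing z with
  | zero => rw [pow_zero, mpow_zero]; rfl
  | succ n ih =>
    rw [pow_succ, Equiv.Perm.mul_apply, ih]
    exact mpow_add n 1 z

/-- a map commuting suitably with `mPerm`, given by two of its values -/
def candF (j : ℕ) (a b : Fin 18) (z : Fin 18) : Fin 18 :=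
  match z.val with
  | 0 => 17
  | 1 => a
  | 2 => mpow (j * 1 % 8) a
  | 3 => b
  | 4 => mpow (j * 2 % 8) a
  | 5 => mpow (j * 6 % 8) b
  | 6 => mpow (j * 1 % 8) b
  | 7 => mpow (j * 3 % 8) b
  | 8 => mpow (j * 3 % 8) a
  | 9 => mpow (j * 7 % 8) a
  | 10 => mpow (j * 7 % 8) b
  | 11 => mpow (j * 5 % 8) b
  | 12 => mpow (j * 2 % 8) b
  | 13 => mpow (j * 6 % 8) a
  | 14 => mpow (j * 4 % 8) b
  | 15 => mpow (j * 5 % 8) a
  | 16 => mpow (j * 4 % 8) a
  | _ => 0

/-- the relation check -/
def relOK (j : ℕ) (a b : Fin 18) : Prop :=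
  ∃ k : Fin 17, candF j a b (cpow k 0) = cpow (17 - a.val) 0 ∧ ∃ l : Fin 8, ∀ z : Fin 18,
      candF j a b (cpow 1 (candF j a b z)) = cpow a.val (candF j a b (cpow k (mpow l z)))

instance (j : ℕ) (a b : Fin 18) : Decidable (relOK j a b) := by
  unfold relOK; infer_instance

/-- the map `z ↦ -1 / z` -/
def sFun (z : Fin 18) : Fin 18 := candF 7 16 11 z

/-- the permutation `z ↦ -1 / z` -/
def sPerm : Equiv.Perm (Fin 18) := ⟨sFun, sFun, by decide, by decide⟩

/-- the model group -/
def model : Subgroup (Equiv.Perm (Fin 18)) := Subgroup.closure {cPerm, mPerm, sPerm}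

/-- the conclusion of the case check -/
def concl (j : ℕ) (a b : Fin 18) : Prop :=
  ∃ e : Fin 8, ∀ z : Fin 18, candF j a b z = sFun (mpow e z)

instance (j : ℕ) (a b : Fin 18) : Decidable (concl j a b) := by
  unfold concl; infer_instance

set_option maxRecDepth 100000 in
theorem cand_cases_fin : ∀ (j : Fin 8) (a b : Fin 18), a ≠ 17 → relOK j a b → concl j a b := by
  decide +kernel

theorem cand_cases (j : ℕ) (hj : j < 8) (a b : Fin 18) (ha : a ≠ 17) (h : relOK j a b) :
    concl j a b := cand_cases_fin ⟨j, hj⟩ a b ha h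

theorem cand_eq (σ : Fin 18 → Fin 18) (j : ℕ) (h0 : σ 0 = 17) (hinf : σ 17 = 0)
    (hstep : ∀ e z, σ (mpow e z) = mpow (j * e) (σ z)) :
    ∀ z, σ z = candF j (σ 1) (σ 3) z := by
  intro z
  fin_cases z
  · exact h0
  · rfl
  · exact (hstep 1 1).trans (mpow_mod _ _).symm
  · rfl
  · exact (hstep 2 1).trans (mpow_mod _ _).symm
  · exact (hstep 6 3).trans (mpow_mod _ _).symm
  · exact (hstep 1 3).trans (mpow_mod _ _).symm
  · exact (hstep 3 3).trans (mpow_mod _ _).symm
  · exact (hstep 3 1).trans (mpow_mod _ _).symm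
  · exact (hstep 7 1).trans (mpow_mod _ _).symm
  · exact (hstep 7 3).trans (mpow_mod _ _).symm
  · exact (hstep 5 3).trans (mpow_mod _ _).symm
  · exact (hstep 2 3).trans (mpow_mod _ _).symm
  · exact (hstep 6 1).trans (mpow_mod _ _).symm
  · exact (hstep 4 3).trans (mpow_mod _ _).symm
  · exact (hstep 5 1).trans (mpow_mod _ _).symm
  · exact (hstep 4 1).trans (mpow_mod _ _).symm
  · exact hinf

/-- `17` is prime -/
local instance fact_prime : Fact (Nat.Prime 17) := ⟨by norm_num⟩

variable {G : Type*} [Group G] [Finite G] [IsSimpleGroup G]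

theorem hyp (h : Nat.card G = 2448) : Hyp G 17 8 := by
  have hP : ∀ P : Sylow 17 G, Nat.card (P : Subgroup G) = 17 := fun P =>
    Cfsg.Agent.Helper4.sylow_card_prime P (m := 144) (by rw [h]) (by norm_num)
  have hn : Nat.card (Sylow 17 G) = 18 := by
    obtain ⟨P⟩ : Nonempty (Sylow 17 G) := inferInstance
    have hidx : (P : Subgroup G).index = 144 := by
      have h1 := (P : Subgroup G).card_mul_index
      rw [h, hP P] at h1
      omega
    have hn1 : Nat.card (Sylow 17 G) ∣ 144 := hidx ▸ P.card_dvd_index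
    have hn2 : Nat.card (Sylow 17 G) ≡ 1 [MOD 17] := card_sylow_modEq_one 17 G
    have hn3 : Nat.card (Sylow 17 G) ≠ 1 :=
      Lead.simple_card_sylow_ne_one P (by rw [hP]; norm_num) (by rw [hP, h]; norm_num)
    have hle : Nat.card (Sylow 17 G) ≤ 144 := Nat.le_of_dvd (by norm_num) hn1
    generalize Nat.card (Sylow 17 G) = n at *
    unfold Nat.ModEq at hn2
    interval_cases n <;> omega
  refine ⟨by norm_num, by norm_num, hP, hn, fun P => ?_⟩
  have h1 := Lead.card_normalizer_mul_card_sylow P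
  rw [hn, h] at h1
  omega

theorem exists_y (c : Config G 17) (hy : Hyp G 17 8) :
    ∃ y ∈ c.stabH, y * c.x * y⁻¹ = c.x ^ 2 ∧ orderOf y = 8 ∧
      c.stabH = Subgroup.zpowers y := by
  obtain ⟨y, hyS, hyx⟩ := c.exists_of_exp hy (by rw [Nat.card_eq_fintype_card]; decide) 2
    (by norm_num) (by decide)
  obtain ⟨h1, h2⟩ := c.order_of_exp hy y hyS 2 hyx (by decide)
  exact ⟨y, hyS, hyx, h1, h2⟩

theorem equiv_model (h : Nat.card G = 2448) : Nonempty (G ≃* model) := by
  have hy := hyp h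
  obtain ⟨c⟩ := exists_config hy
  obtain ⟨y, hyS, hyx, hym, hyH⟩ := exists_y c hy
  obtain ⟨t, htP, htQ⟩ := c.exists_t hy
  have hX : c.psi hy c.x = cPerm := by
    apply Equiv.ext
    rintro ⟨k, hk⟩
    by_cases hk' : k < 17
    · rw [c.psi_x hy k hk']
      interval_cases k <;> rfl
    · have hk2 : k = 17 := by omega
      subst hk2
      rw [c.psi_x_last hy]; rfl
  have hY : c.psi hy y = mPerm := by
    apply Equiv.ext
    rintro ⟨k, hk⟩
    by_cases hk' : k < 17
    · rw [c.psi_y hy y hyS 2 hyx k hk']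
      interval_cases k <;> rfl
    · have hk2 : k = 17 := by omega
      subst hk2
      rw [c.psi_y_last hy y hyS]; rfl
  obtain ⟨j, hj, hr2⟩ := c.psi_rel2 hy y hyH hym t htP htQ
  obtain ⟨jj, hjj, k, hk, l, hl, hjj2, hr1⟩ := c.psi_rel1 hy y hyH hym t htP htQ
  have hrange := c.range_psi hy y hyH hym t htP
  have hinf : c.psi hy t 17 = 0 := c.psi_t_last hy t htP (by norm_num)
  have h0 : c.psi hy t 0 = 17 := c.psi_t_zero hy t htQ (by norm_num)
  rw [hY] at hr2
  rw [hX, hY] at hr1 hrange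
  rw [hX] at hjj2
  generalize c.psi hy t = σ at hr2 hr1 hrange hinf h0 hjj2
  have hstep1 : ∀ z, σ (mpow 1 z) = mpow j (σ z) := fun z =>
    (hr2 z).trans (mPerm_pow j (σ z))
  have hstep : ∀ e z, σ (mpow e z) = mpow (j * e) (σ z) := by
    intro e
    induction e with
    | zero => intro z; rw [mpow_zero, Nat.mul_zero, mpow_zero]
    | succ n ih =>
      intro z
      calc σ (mpow (n + 1) z) = σ (mpow 1 (mpow n z)) := by rw [mpow_add, Nat.add_comm 1 n]
        _ = mpow j (σ (mpow n z)) := hstep1 _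
        _ = mpow j (mpow (j * n) (σ z)) := by rw [ih]
        _ = mpow (j * (n + 1)) (σ z) := by
          rw [mpow_add]; congr 1; ring
  have hcand : ∀ z, σ z = candF j (σ 1) (σ 3) z := cand_eq σ j h0 hinf hstep
  have hfun : (σ : Fin 18 → Fin 18) = candF j (σ 1) (σ 3) := funext hcand
  have hjj3 : σ 1 = ⟨jj, by omega⟩ := hjj2
  have hjjv : (σ 1).val = jj := by rw [hjj3]
  have ha : σ 1 ≠ 17 := by
    intro hc
    have h1 := congrArg Fin.val hc
    rw [hjjv] at h1
    have h2 : jj = 17 := h1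
    omega
  have hall : ∀ z, σ (cpow 1 (σ z)) = cpow jj (σ (cpow k (mpow l z))) := fun z => by
    calc σ (cpow 1 (σ z)) = (cPerm ^ jj) (σ ((cPerm ^ k) ((mPerm ^ l) z))) := hr1 z
      _ = cpow jj (σ (cpow k (mpow l z))) := by rw [cPerm_pow, cPerm_pow, mPerm_pow]
  have hk0 : σ (cpow k 0) = cpow (17 - jj) 0 := by
    have h1 := hall 0
    rw [h0, mpow_pt] at h1
    have h2 : σ (cpow 1 17) = 0 := hinf
    rw [h2] at h1
    have h3 := congrArg (cpow (17 - jj)) h1
    rw [cpow_add, Nat.sub_add_cancel hjj.le, cpow_p] at h3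
    exact h3.symm
  have hrel : relOK j (σ 1) (σ 3) := by
    unfold relOK
    rw [← hfun, hjjv]
    exact ⟨⟨k, hk⟩, hk0, ⟨l, hl⟩, hall⟩
  obtain ⟨e, he⟩ := cand_cases j hj (σ 1) (σ 3) ha hrel
  have hσ : σ = sPerm * mPerm ^ (e : ℕ) := Equiv.ext fun z => by
    rw [hcand z, Equiv.Perm.mul_apply, mPerm_pow]
    exact he z
  have hcl : Subgroup.closure ({cPerm, mPerm, σ} : Set (Equiv.Perm (Fin 18))) = model := by
    rw [hσ]
    apply le_antisymm
    · rw [Subgroup.closure_le]
      rintro g (rfl | rfl | rfl)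
      · exact Subgroup.subset_closure (by simp)
      · exact Subgroup.subset_closure (by simp)
      · exact mul_mem (Subgroup.subset_closure (by simp))
          (pow_mem (Subgroup.subset_closure (by simp)) _)
    · unfold model
      rw [Subgroup.closure_le]
      rintro g (rfl | rfl | rfl)
      · exact Subgroup.subset_closure (by simp)
      · exact Subgroup.subset_closure (by simp)
      · have key : (sPerm * mPerm ^ (e : ℕ)) * (mPerm ^ (e : ℕ))⁻¹ ∈
            Subgroup.closure ({cPerm, mPerm, sPerm * mPerm ^ (e : ℕ)} :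
              Set (Equiv.Perm (Fin 18))) :=
          mul_mem (Subgroup.subset_closure (by simp))
            (inv_mem (pow_mem (Subgroup.subset_closure (by simp)) _))
        rwa [mul_inv_cancel_right] at key
  exact ⟨(MonoidHom.ofInjective (c.psi_inj hy)).trans
    (MulEquiv.subgroupCongr (hrange.trans hcl))⟩

/-- any two simple groups of order 2448 are isomorphic -/
theorem equiv_of_card {G' : Type*} [Group G'] [Finite G'] [IsSimpleGroup G']
    (h : Nat.card G = 2448) (h' : Nat.card G' = 2448) : Nonempty (G ≃* G') := by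
  obtain ⟨e⟩ := equiv_model h
  obtain ⟨e'⟩ := equiv_model h'
  exact ⟨e.trans e'.symm⟩

end Cfsg.Agent.Helper4.Zass17
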