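import Mathlib
import Cfsg.Agent.Helper4.Zass2
import Cfsg.Agent.Helper4.Sharp2

set_option autoImplicit false

namespace Cfsg.Agent.Helper4.Zass19

open Cfsg.Agent.Helper4.Zass

/-- translation by `k` on the projective line over the field with 19 elements (`19` is `∞`) -/
def cpow (k : ℕ) (z : Fin 20) : Fin 20 :=
  if h : z.val < 19 then ⟨(z.val + k) % 19, by omega⟩ else z

/-- multiplication by `4 ^ l` -/
def mpow (l : ℕ) (z : Fin 20) : Fin 20 :=
  if h : z.val < 19 then ⟨(4 ^ l * z.val) % 19, by omega⟩ else z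

theorem cpow_zero (z : Fin 20) : cpow 0 z = z := by
  unfold cpow
  split_ifs with h
  · apply Fin.ext
    show (z.val + 0) % 19 = z.val
    omega
  · rfl

theorem cpow_p (z : Fin 20) : cpow 19 z = z := by
  unfold cpow
  split_ifs with h
  · apply Fin.ext
    show (z.val + 19) % 19 = z.val
    omega
  · rfl

theorem cpow_add (a b : ℕ) (z : Fin 20) : cpow a (cpow b z) = cpow (a + b) z := by
  unfold cpow
  by_cases h : z.val < 19
  · simp only [h, ↓reduceDIte]
    rw [dif_pos (Nat.mod_lt _ (by norm_num))]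
    apply Fin.ext
    show ((z.val + b) % 19 + a) % 19 = (z.val + (a + b)) % 19
    omega
  · simp only [h, ↓reduceDIte]

theorem mpow_zero (z : Fin 20) : mpow 0 z = z := by
  unfold mpow
  split_ifs with h
  · apply Fin.ext
    show (4 ^ 0 * z.val) % 19 = z.val
    rw [pow_zero, one_mul]
    exact Nat.mod_eq_of_lt h
  · rfl

theorem mpow_pt (l : ℕ) : mpow l 0 = 0 := by
  unfold mpow
  rw [dif_pos (by decide)]
  apply Fin.ext
  show (4 ^ l * 0) % 19 = 0
  simp

theorem mpow_add (a b : ℕ) (z : Fin 20) : mpow a (mpow b z) = mpow (a + b) z := by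
  unfold mpow
  by_cases h : z.val < 19
  · simp only [h, ↓reduceDIte]
    rw [dif_pos (Nat.mod_lt _ (by norm_num))]
    apply Fin.ext
    show (4 ^ a * ((4 ^ b * z.val) % 19)) % 19 = (4 ^ (a + b) * z.val) % 19
    rw [Nat.mul_mod_mod, ← mul_assoc, ← pow_add]
  · simp only [h, ↓reduceDIte]

theorem base_pow_mod (e : ℕ) : 4 ^ (e % 9) % 19 = 4 ^ e % 19 := by
  conv_rhs => rw [← Nat.div_add_mod e 9, pow_add, pow_mul, Nat.mul_mod, Nat.pow_mod]
  norm_num

theorem mpow_mod (e : ℕ) (z : Fin 20) : mpow (e % 9) z = mpow e z := by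
  unfold mpow
  by_cases h : z.val < 19
  · simp only [h, ↓reduceDIte]
    apply Fin.ext
    show (4 ^ (e % 9) * z.val) % 19 = (4 ^ e * z.val) % 19
    rw [Nat.mul_mod, base_pow_mod, ← Nat.mul_mod]
  · simp only [h, ↓reduceDIte]

/-- the translation `z ↦ z + 1` -/
def cPerm : Equiv.Perm (Fin 20) := ⟨cpow 1, cpow 18, by decide, by decide⟩

/-- the multiplication `z ↦ 4 z` -/
def mPerm : Equiv.Perm (Fin 20) := ⟨mpow 1, mpow 8, by decide, by decide⟩

theorem cPerm_pow (k : ℕ) (z : Fin 20) : (cPerm ^ k) z = cpow k z := by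
  induction k generalizing z with
  | zero => rw [pow_zero, cpow_zero]; rfl
  | succ n ih =>
    rw [pow_succ, Equiv.Perm.mul_apply, ih]
    exact cpow_add n 1 z

theorem mPerm_pow (l : ℕ) (z : Fin 20) : (mPerm ^ l) z = mpow l z := by
  induction l generalizing z with
  | zero => rw [pow_zero, mpow_zero]; rfl
  | succ n ih =>
    rw [pow_succ, Equiv.Perm.mul_apply, ih]
    exact mpow_add n 1 z

/-- a map commuting suitably with `mPerm`, given by two of its values -/
def candF (j : ℕ) (a b : Fin 20) (z : Fin 20) : Fin 20 :=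
  match z.val with
  | 0 => 19
  | 1 => a
  | 2 => b
  | 3 => mpow (j * 6 % 9) b
  | 4 => mpow (j * 1 % 9) a
  | 5 => mpow (j * 8 % 9) a
  | 6 => mpow (j * 7 % 9) a
  | 7 => mpow (j * 3 % 9) a
  | 8 => mpow (j * 1 % 9) b
  | 9 => mpow (j * 4 % 9) a
  | 10 => mpow (j * 8 % 9) b
  | 11 => mpow (j * 6 % 9) a
  | 12 => mpow (j * 7 % 9) b
  | 13 => mpow (j * 2 % 9) b
  | 14 => mpow (j * 3 % 9) b
  | 15 => mpow (j * 5 % 9) b
  | 16 => mpow (j * 2 % 9) a
  | 17 => mpow (j * 5 % 9) a
  | 18 => mpow (j * 4 % 9) b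
  | _ => 0

/-- the relation check -/
def relOK (j : ℕ) (a b : Fin 20) : Prop :=
  ∃ k : Fin 19, candF j a b (cpow k 0) = cpow (19 - a.val) 0 ∧ ∃ l : Fin 9, ∀ z : Fin 20,
      candF j a b (cpow 1 (candF j a b z)) = cpow a.val (candF j a b (cpow k (mpow l z)))

instance (j : ℕ) (a b : Fin 20) : Decidable (relOK j a b) := by
  unfold relOK; infer_instance

/-- the map `z ↦ -1 / z` -/
def sFun (z : Fin 20) : Fin 20 := candF 8 18 9 z

/-- the permutation `z ↦ -1 / z` -/
def sPerm : Equiv.Perm (Fin 20) := ⟨sFun, sFun, by decide, by decide⟩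

/-- the model group -/
def model : Subgroup (Equiv.Perm (Fin 20)) := Subgroup.closure {cPerm, mPerm, sPerm}

/-- the conclusion of the case check -/
def concl (j : ℕ) (a b : Fin 20) : Prop :=
  ∃ e : Fin 9, ∀ z : Fin 20, candF j a b z = sFun (mpow e z)

instance (j : ℕ) (a b : Fin 20) : Decidable (concl j a b) := by
  unfold concl; infer_instance

end Cfsg.Agent.Helper4.Zass19
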