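import Mathlib
import Cfsg.Agent.Helper4.Zass19a

set_option autoImplicit false

namespace Cfsg.Agent.Helper4.Zass19

set_option maxRecDepth 100000 in
theorem cand_cases_6 : ∀ (a b : Fin 20), a ≠ 19 → relOK 6 a b → concl 6 a b := by
  decide +kernel

end Cfsg.Agent.Helper4.Zass19
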