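import Mathlib
import Cfsg.Agent.Helper4.Zass2
import Cfsg.Agent.Helper4.Sharp2
import Cfsg.Agent.Helper4.Zass23a
import Cfsg.Agent.Helper4.Zass23c0
import Cfsg.Agent.Helper4.Zass23c1
import Cfsg.Agent.Helper4.Zass23c2
import Cfsg.Agent.Helper4.Zass23c3
import Cfsg.Agent.Helper4.Zass23c4
import Cfsg.Agent.Helper4.Zass23c5
import Cfsg.Agent.Helper4.Zass23c6
import Cfsg.Agent.Helper4.Zass23c7
import Cfsg.Agent.Helper4.Zass23c8
import Cfsg.Agent.Helper4.Zass23c9
import Cfsg.Agent.Helper4.Zass23c10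

set_option autoImplicit false

namespace Cfsg.Agent.Helper4.Zass23

open Cfsg.Agent.Helper4.Zass

theorem cand_cases (j : ℕ) (hj : j < 11) (a b : Fin 24) (ha : a ≠ 23) (h : relOK j a b) :
    concl j a b := by
  interval_cases j
  · exact cand_cases_0 a b ha h
  · exact cand_cases_1 a b ha h
  · exact cand_cases_2 a b ha h
  · exact cand_cases_3 a b ha h
  · exact cand_cases_4 a b ha h
  · exact cand_cases_5 a b ha h
  · exact cand_cases_6 a b ha h
  · exact cand_cases_7 a b ha h
  · exact cand_cases_8 a b ha h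
  · exact cand_cases_9 a b ha h
  · exact cand_cases_10 a b ha h

theorem cand_eq (σ : Fin 24 → Fin 24) (j : ℕ) (h0 : σ 0 = 23) (hinf : σ 23 = 0)
    (hstep : ∀ e z, σ (mpow e z) = mpow (j * e) (σ z)) :
    ∀ z, σ z = candF j (σ 1) (σ 5) z := by
  intro z
  fin_cases z
  · exact h0
  · rfl
  · exact (hstep 1 1).trans (mpow_mod _ _).symm
  · exact (hstep 8 1).trans (mpow_mod _ _).symm
  · exact (hstep 2 1).trans (mpow_mod _ _).symm
  · rfl
  · exact (hstep 9 1).trans (mpow_mod _ _).symm
  · exact (hstep 9 5).trans (mpow_mod _ _).symm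
  · exact (hstep 3 1).trans (mpow_mod _ _).symm
  · exact (hstep 5 1).trans (mpow_mod _ _).symm
  · exact (hstep 1 5).trans (mpow_mod _ _).symm
  · exact (hstep 4 5).trans (mpow_mod _ _).symm
  · exact (hstep 10 1).trans (mpow_mod _ _).symm
  · exact (hstep 7 1).trans (mpow_mod _ _).symm
  · exact (hstep 10 5).trans (mpow_mod _ _).symm
  · exact (hstep 8 5).trans (mpow_mod _ _).symm
  · exact (hstep 4 1).trans (mpow_mod _ _).symm
  · exact (hstep 3 5).trans (mpow_mod _ _).symm
  · exact (hstep 6 1).trans (mpow_mod _ _).symm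
  · exact (hstep 7 5).trans (mpow_mod _ _).symm
  · exact (hstep 2 5).trans (mpow_mod _ _).symm
  · exact (hstep 6 5).trans (mpow_mod _ _).symm
  · exact (hstep 5 5).trans (mpow_mod _ _).symm
  · exact hinf

/-- `23` is prime -/
local instance fact_prime : Fact (Nat.Prime 23) := ⟨by norm_num⟩

variable {G : Type*} [Group G] [Finite G] [IsSimpleGroup G]

theorem hyp (h : Nat.card G = 6072) : Hyp G 23 11 := by
  have hP : ∀ P : Sylow 23 G, Nat.card (P : Subgroup G) = 23 := fun P =>
    Cfsg.Agent.Helper4.sylow_card_prime P (m := 264) (by rw [h]) (by norm_num)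
  have hn : Nat.card (Sylow 23 G) = 24 := by
    obtain ⟨P⟩ : Nonempty (Sylow 23 G) := inferInstance
    have hidx : (P : Subgroup G).index = 264 := by
      have h1 := (P : Subgroup G).card_mul_index
      rw [h, hP P] at h1
      omega
    have hn1 : Nat.card (Sylow 23 G) ∣ 264 := hidx ▸ P.card_dvd_index
    have hn2 : Nat.card (Sylow 23 G) ≡ 1 [MOD 23] := card_sylow_modEq_one 23 G
    have hn3 : Nat.card (Sylow 23 G) ≠ 1 :=
      Lead.simple_card_sylow_ne_one P (by rw [hP]; norm_num) (by rw [hP, h]; norm_num)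
    have hle : Nat.card (Sylow 23 G) ≤ 264 := Nat.le_of_dvd (by norm_num) hn1
    generalize Nat.card (Sylow 23 G) = n at *
    unfold Nat.ModEq at hn2
    interval_cases n <;> omega
  refine ⟨by norm_num, by norm_num, hP, hn, fun P => ?_⟩
  have h1 := Lead.card_normalizer_mul_card_sylow P
  rw [hn, h] at h1
  omega

theorem exists_y (c : Config G 23) (hy : Hyp G 23 11) :
    ∃ y ∈ c.stabH, y * c.x * y⁻¹ = c.x ^ 2 ∧ orderOf y = 11 ∧
      c.stabH = Subgroup.zpowers y := by
  obtain ⟨y, hyS, hyx⟩ := c.exists_of_exp hy (by rw [Nat.card_eq_fintype_card]; decide) 2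
    (by norm_num) (by decide)
  obtain ⟨h1, h2⟩ := c.order_of_exp hy y hyS 2 hyx (by decide)
  exact ⟨y, hyS, hyx, h1, h2⟩

theorem equiv_model (h : Nat.card G = 6072) : Nonempty (G ≃* model) := by
  have hy := hyp h
  obtain ⟨c⟩ := exists_config hy
  obtain ⟨y, hyS, hyx, hym, hyH⟩ := exists_y c hy
  obtain ⟨t, htP, htQ⟩ := c.exists_t hy
  have hX : c.psi hy c.x = cPerm := by
    apply Equiv.ext
    rintro ⟨k, hk⟩
    by_cases hk' : k < 23
    · rw [c.psi_x hy k hk']
      interval_cases k <;> rfl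
    · have hk2 : k = 23 := by omega
      subst hk2
      rw [c.psi_x_last hy]; rfl
  have hY : c.psi hy y = mPerm := by
    apply Equiv.ext
    rintro ⟨k, hk⟩
    by_cases hk' : k < 23
    · rw [c.psi_y hy y hyS 2 hyx k hk']
      interval_cases k <;> rfl
    · have hk2 : k = 23 := by omega
      subst hk2
      rw [c.psi_y_last hy y hyS]; rfl
  obtain ⟨j, hj, hr2⟩ := c.psi_rel2 hy y hyH hym t htP htQ
  obtain ⟨jj, hjj, k, hk, l, hl, hjj2, hr1⟩ := c.psi_rel1 hy y hyH hym t htP htQ
  have hrange := c.range_psi hy y hyH hym t htP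
  have hinf : c.psi hy t 23 = 0 := c.psi_t_last hy t htP (by norm_num)
  have h0 : c.psi hy t 0 = 23 := c.psi_t_zero hy t htQ (by norm_num)
  rw [hY] at hr2
  rw [hX, hY] at hr1 hrange
  rw [hX] at hjj2
  generalize c.psi hy t = σ at hr2 hr1 hrange hinf h0 hjj2
  have hstep1 : ∀ z, σ (mpow 1 z) = mpow j (σ z) := fun z =>
    (hr2 z).trans (mPerm_pow j (σ z))
  have hstep : ∀ e z, σ (mpow e z) = mpow (j * e) (σ z) := by
    intro e
    induction e with
    | zero => intro z; rw [mpow_zero, Nat.mul_zero, mpow_zero]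
    | succ n ih =>
      intro z
      calc σ (mpow (n + 1) z) = σ (mpow 1 (mpow n z)) := by rw [mpow_add, Nat.add_comm 1 n]
        _ = mpow j (σ (mpow n z)) := hstep1 _
        _ = mpow j (mpow (j * n) (σ z)) := by rw [ih]
        _ = mpow (j * (n + 1)) (σ z) := by
          rw [mpow_add]; congr 1; ring
  have hcand : ∀ z, σ z = candF j (σ 1) (σ 5) z := cand_eq σ j h0 hinf hstep
  have hfun : (σ : Fin 24 → Fin 24) = candF j (σ 1) (σ 5) := funext hcand
  have hjj3 : σ 1 = ⟨jj, by omega⟩ := hjj2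
  have hjjv : (σ 1).val = jj := by rw [hjj3]
  have ha : σ 1 ≠ 23 := by
    intro hc
    have h1 := congrArg Fin.val hc
    rw [hjjv] at h1
    have h2 : jj = 23 := h1
    omega
  have hall : ∀ z, σ (cpow 1 (σ z)) = cpow jj (σ (cpow k (mpow l z))) := fun z => by
    calc σ (cpow 1 (σ z)) = (cPerm ^ jj) (σ ((cPerm ^ k) ((mPerm ^ l) z))) := hr1 z
      _ = cpow jj (σ (cpow k (mpow l z))) := by rw [cPerm_pow, cPerm_pow, mPerm_pow]
  have hk0 : σ (cpow k 0) = cpow (23 - jj) 0 := by
    have h1 := hall 0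
    rw [h0, mpow_pt] at h1
    have h2 : σ (cpow 1 23) = 0 := hinf
    rw [h2] at h1
    have h3 := congrArg (cpow (23 - jj)) h1
    rw [cpow_add, Nat.sub_add_cancel hjj.le, cpow_p] at h3
    exact h3.symm
  have hrel : relOK j (σ 1) (σ 5) := by
    unfold relOK
    rw [← hfun, hjjv]
    exact ⟨⟨k, hk⟩, hk0, ⟨l, hl⟩, hall⟩
  obtain ⟨e, he⟩ := cand_cases j hj (σ 1) (σ 5) ha hrel
  have hσ : σ = sPerm * mPerm ^ (e : ℕ) := Equiv.ext fun z => by
    rw [hcand z, Equiv.Perm.mul_apply, mPerm_pow]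
    exact he z
  have hcl : Subgroup.closure ({cPerm, mPerm, σ} : Set (Equiv.Perm (Fin 24))) = model := by
    rw [hσ]
    apply le_antisymm
    · rw [Subgroup.closure_le]
      rintro g (rfl | rfl | rfl)
      · exact Subgroup.subset_closure (by simp)
      · exact Subgroup.subset_closure (by simp)
      · exact mul_mem (Subgroup.subset_closure (by simp))
          (pow_mem (Subgroup.subset_closure (by simp)) _)
    · unfold model
      rw [Subgroup.closure_le]
      rintro g (rfl | rfl | rfl)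
      · exact Subgroup.subset_closure (by simp)
      · exact Subgroup.subset_closure (by simp)
      · have key : (sPerm * mPerm ^ (e : ℕ)) * (mPerm ^ (e : ℕ))⁻¹ ∈
            Subgroup.closure ({cPerm, mPerm, sPerm * mPerm ^ (e : ℕ)} :
              Set (Equiv.Perm (Fin 24))) :=
          mul_mem (Subgroup.subset_closure (by simp))
            (inv_mem (pow_mem (Subgroup.subset_closure (by simp)) _))
        rwa [mul_inv_cancel_right] at key
  exact ⟨(MonoidHom.ofInjective (c.psi_inj hy)).trans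
    (MulEquiv.subgroupCongr (hrange.trans hcl))⟩

/-- any two simple groups of order 6072 are isomorphic -/
theorem equiv_of_card {G' : Type*} [Group G'] [Finite G'] [IsSimpleGroup G']
    (h : Nat.card G = 6072) (h' : Nat.card G' = 6072) : Nonempty (G ≃* G') := by
  obtain ⟨e⟩ := equiv_model h
  obtain ⟨e'⟩ := equiv_model h'
  exact ⟨e.trans e'.symm⟩

end Cfsg.Agent.Helper4.Zass23
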