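import Mathlib
import Cfsg.Agent.Helper4.Zass23a

set_option autoImplicit false

namespace Cfsg.Agent.Helper4.Zass23

set_option maxRecDepth 100000 in
theorem cand_cases_10 : ∀ (a b : Fin 24), a ≠ 23 → relOK 10 a b → concl 10 a b := by
  decide +kernel

end Cfsg.Agent.Helper4.Zass23
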